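import Cfsg.Agent.Lib.H65.PBasic
import Cfsg.Agent.Lib.H38.SmallExp
import Cfsg.Agent.Lib.H13.Cores
import Mathlib.GroupTheory.PGroup

/-!
# Automorphisms of `p`-groups of rank at most 2
-/

set_option autoImplicit false

namespace H14.AutRank2

open Cfsg

/-- a `p`-group of exponent `p` all of whose abelian subgroups have order at most `p ^ 2` has order at most `p ^ 3` -/
theorem card_le {E : Type*} [Group E] [Finite E] {p : ℕ} [Fact p.Prime] (hE : IsPGroup p E)
    (hexp : ∀ x : E, x ^ p = 1)
    (hrk : ∀ A : Subgroup E, IsMulCommutative A → Nat.card A ≤ p ^ 2) : Nat.card E ≤ p ^ 3 := by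
  have hp : p.Prime := Fact.out
  obtain ⟨A, hAn, hAc, hCA⟩ := H65.PBasic.exists_selfcentralizing hE
  have hA2 := hrk A hAc
  obtain ⟨k, hk⟩ := (hE.to_subgroup A).exists_card_eq
  -- A nontrivial
  by_cases hE1 : Nontrivial E
  swap
  · rw [not_nontrivial_iff_subsingleton] at hE1
    rw [Nat.card_unique]
    exact Nat.one_le_pow _ _ hp.pos
  have hAbot : A ≠ ⊥ := by
    intro h
    rw [h] at hCA
    have h1 : Subgroup.centralizer ((⊥ : Subgroup E) : Set E) = ⊤ := by
      rw [eq_top_iff]
      intro x _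
      rw [Subgroup.mem_centralizer_iff]
      intro y hy
      have : y = 1 := hy
      rw [this, one_mul, mul_one]
    rw [h1] at hCA
    exact (top_ne_bot : (⊤ : Subgroup E) ≠ ⊥) hCA
  -- a central element of A
  have h1 : A ⊓ Subgroup.center E ≠ ⊥ := H65.PBasic.inf_center_ne_bot hE A hAbot
  obtain ⟨z, hz⟩ := Subgroup.ne_bot_iff_exists_ne_one.mp h1
  obtain ⟨hzA, hzZ⟩ := Subgroup.mem_inf.mp z.2
  have hz1 : (z : E) ≠ 1 := fun h => hz (Subtype.ext h)
  have hzo : orderOf (z : E) = p := orderOf_eq_prime (hexp _) hz1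
  have hzle : Subgroup.zpowers (z : E) ≤ A := (Subgroup.zpowers_le).mpr hzA
  by_cases hzA' : Subgroup.zpowers (z : E) = A
  · have h2 : Subgroup.centralizer (A : Set E) = ⊤ := by
      rw [eq_top_iff]
      intro x _
      rw [Subgroup.mem_centralizer_iff]
      intro y hy
      rw [← hzA'] at hy
      obtain ⟨n, rfl⟩ := Subgroup.mem_zpowers_iff.mp hy
      have hxz : Commute (z : E) x := (Subgroup.mem_center_iff.mp hzZ x).symm
      exact (hxz.zpow_left n).eq
    rw [h2] at hCA
    have h3 : Nat.card E = p := by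
      rw [← Subgroup.card_top, hCA, ← hzA', Nat.card_zpowers, hzo]
    rw [h3]
    calc p = p ^ 1 := (pow_one p).symm
      _ ≤ p ^ 3 := Nat.pow_le_pow_right hp.pos (by norm_num)
  · obtain ⟨a, haA, haz⟩ := SetLike.exists_of_lt (lt_of_le_of_ne hzle hzA')
    have hAgen : Subgroup.zpowers (z : E) ⊔ Subgroup.zpowers a = A := by
      apply Subgroup.eq_of_le_of_card_ge
      · rw [sup_le_iff]
        exact ⟨hzle, (Subgroup.zpowers_le).mpr haA⟩
      · obtain ⟨j, hj⟩ := (hE.to_subgroup (Subgroup.zpowers (z : E) ⊔ Subgroup.zpowers a)).exists_card_eq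
        have h2 : p < p ^ j := by
          rw [← hj, ← hzo, ← Nat.card_zpowers]
          by_contra hle
          push Not at hle
          have h3 := Subgroup.eq_of_le_of_card_ge
            (show Subgroup.zpowers (z : E) ≤ Subgroup.zpowers (z : E) ⊔ Subgroup.zpowers a from le_sup_left) hle
          apply haz
          rw [h3]
          exact (le_sup_right : Subgroup.zpowers a ≤ _) (Subgroup.mem_zpowers a)
        have h3 : 1 < j := by
          by_contra h
          have : p ^ j ≤ p ^ 1 := Nat.pow_le_pow_right hp.pos (by omega)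
          rw [pow_one] at this
          omega
        rw [hj]
        exact hA2.trans (Nat.pow_le_pow_right hp.pos h3)
    have hCa : Subgroup.centralizer {a} ≤ A := by
      intro x hx
      rw [← hCA, Subgroup.mem_centralizer_iff]
      have hx' := Subgroup.mem_centralizer_singleton_iff.mp hx
      have h4 : Subgroup.zpowers (z : E) ⊔ Subgroup.zpowers a ≤ Subgroup.centralizer {x} := by
        rw [sup_le_iff, Subgroup.zpowers_le, Subgroup.zpowers_le, Subgroup.mem_centralizer_singleton_iff,
          Subgroup.mem_centralizer_singleton_iff]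
        exact ⟨(Subgroup.mem_center_iff.mp hzZ x).symm, hx'.symm⟩
      rw [hAgen] at h4
      intro y hy
      exact Subgroup.mem_centralizer_singleton_iff.mp (h4 hy)
    have ha1 : a ≠ 1 := by
      rintro rfl
      exact haz (Subgroup.one_mem _)
    have hidx : (Subgroup.centralizer {a}).index ≤ p := by
      obtain ⟨s, hs⟩ := hE.index (Subgroup.centralizer {a})
      have h5 : (Subgroup.centralizer {a}).index < p ^ 2 := by
        have hconj : ∀ x : E, x * a * x⁻¹ ∈ A := fun x => hAn.conj_mem a haA x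
        have hinj : Function.Injective (fun q : E ⧸ Subgroup.centralizer {a} =>
            (⟨q.out * a * q.out⁻¹, hconj _⟩ : A)) := by
          intro q r h
          have h6 : q.out * a * q.out⁻¹ = r.out * a * r.out⁻¹ := congrArg Subtype.val h
          have h7 : (r.out)⁻¹ * q.out ∈ Subgroup.centralizer {a} := by
            rw [Subgroup.mem_centralizer_singleton_iff]
            calc (r.out)⁻¹ * q.out * a = (r.out)⁻¹ * (q.out * a * q.out⁻¹) * q.out := by group
              _ = (r.out)⁻¹ * (r.out * a * r.out⁻¹) * q.out := by rw [h6]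
              _ = a * ((r.out)⁻¹ * q.out) := by group
          have h8 := QuotientGroup.eq.mpr h7
          rw [QuotientGroup.out_eq', QuotientGroup.out_eq'] at h8
          exact h8.symm
        rw [Subgroup.index_eq_card]
        refine lt_of_lt_of_le ?_ hA2
        apply lt_of_le_of_ne (Nat.card_le_card_of_injective _ hinj)
        intro heq
        have hsurj := ((Nat.bijective_iff_injective_and_card _).mpr ⟨hinj, heq⟩).surjective
        obtain ⟨q, hq⟩ := hsurj 1
        have h6 : q.out * a * q.out⁻¹ = 1 := congrArg Subtype.val hq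
        apply ha1
        rw [mul_inv_eq_one, mul_eq_left] at h6
        exact h6
      rw [hs] at h5 ⊢
      have h6 : s < 2 := (Nat.pow_lt_pow_iff_right hp.one_lt).mp h5
      calc p ^ s ≤ p ^ 1 := Nat.pow_le_pow_right hp.pos (by omega)
        _ = p := pow_one p
    rw [← Subgroup.index_mul_card (Subgroup.centralizer {a})]
    calc (Subgroup.centralizer {a}).index * Nat.card (Subgroup.centralizer {a}) ≤ p * p ^ 2 :=
          Nat.mul_le_mul hidx ((Subgroup.card_le_of_le hCa).trans hA2)
      _ = p ^ 3 := by ring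

variable {G : Type*} [Group G] [Finite G]

/-- fixed points of an element of prime order -/
theorem modEq {K : Subgroup G} {g : G} {q : ℕ} [Fact q.Prime] (hg : g ∈ Subgroup.normalizer (K : Set G))
    (hgo : orderOf g = q) :
    Nat.card K ≡ Nat.card (K ⊓ Subgroup.centralizer {g} : Subgroup G) [MOD q] := by
  let φ : Subgroup.zpowers g →* MulAut K :=
    K.normalizerMonoidHom.comp (Subgroup.inclusion ((Subgroup.zpowers_le).mpr hg))
  letI : MulAction (Subgroup.zpowers g) K := MulAction.compHom K φ
  have hpg : IsPGroup q (Subgroup.zpowers g) := IsPGroup.of_card (n := 1) (by rw [Nat.card_zpowers, hgo, pow_one])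
  have h1 := hpg.card_modEq_card_fixedPoints (α := K)
  refine h1.trans ?_
  have h2 : Nat.card (MulAction.fixedPoints (Subgroup.zpowers g) K) =
      Nat.card (K ⊓ Subgroup.centralizer {g} : Subgroup G) := by
    apply Nat.card_congr
    refine ⟨fun x => ⟨x.1.1, x.1.2, ?_⟩, fun x => ⟨⟨x.1, (Subgroup.mem_inf.mp x.2).1⟩, ?_⟩, ?_, ?_⟩
    · have h3 := x.2 ⟨g, Subgroup.mem_zpowers g⟩
      have h4 : g * (x.1.1 : G) * g⁻¹ = x.1.1 := congrArg Subtype.val h3
      rw [mul_inv_eq_iff_eq_mul] at h4
      exact Subgroup.mem_centralizer_singleton_iff.mpr h4.symm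
    · rintro ⟨y, hy⟩
      obtain ⟨n, rfl⟩ := Subgroup.mem_zpowers_iff.mp hy
      apply Subtype.ext
      have h4 : Commute (x.1 : G) g := Subgroup.mem_centralizer_singleton_iff.mp (Subgroup.mem_inf.mp x.2).2
      change g ^ n * (x.1 : G) * (g ^ n)⁻¹ = x.1
      rw [mul_inv_eq_iff_eq_mul]
      exact (h4.zpow_right n).eq.symm
    · intro x; rfl
    · intro x; rfl
  rw [h2]

/-- the divisibility obtained from fixed points -/
theorem dvd_of_ne {K : Subgroup G} {g : G} {p q : ℕ} [Fact p.Prime] [Fact q.Prime] (hqp : q ≠ p)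
    (hK : IsPGroup p K) (hg : g ∈ Subgroup.normalizer (K : Set G))
    (hgo : orderOf g = q) (hne : ¬ K ≤ Subgroup.centralizer {g}) :
    ∃ m j, Nat.card K = p ^ m ∧ Nat.card (K ⊓ Subgroup.centralizer {g} : Subgroup G) = p ^ j ∧ j < m ∧
      q ∣ p ^ (m - j) - 1 := by
  have hp : p.Prime := Fact.out
  have hq : q.Prime := Fact.out
  obtain ⟨m, hm⟩ := hK.exists_card_eq
  obtain ⟨j, hj⟩ := (hK.to_le (inf_le_left : K ⊓ Subgroup.centralizer {g} ≤ K)).exists_card_eq
  have hlt : j < m := by
    have h1 : Nat.card (K ⊓ Subgroup.centralizer {g} : Subgroup G) < Nat.card K := by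
      apply lt_of_le_of_ne (Subgroup.card_le_of_le inf_le_left)
      intro h
      apply hne
      have := Subgroup.eq_of_le_of_card_ge (inf_le_left : K ⊓ Subgroup.centralizer {g} ≤ K) h.ge
      rw [← this]
      exact inf_le_right
    rw [hm, hj] at h1
    exact (Nat.pow_lt_pow_iff_right hp.one_lt).mp h1
  refine ⟨m, j, hm, hj, hlt, ?_⟩
  have h1 := modEq hg hgo
  rw [hm, hj] at h1
  have h2 : q ∣ p ^ m - p ^ j := (Nat.modEq_iff_dvd' (Nat.pow_le_pow_right hp.pos hlt.le)).mp h1.symm
  have h3 : p ^ m - p ^ j = p ^ j * (p ^ (m - j) - 1) := by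
    rw [Nat.mul_sub, mul_one, ← pow_add]
    congr 2
    omega
  rw [h3] at h2
  rcases (hq.dvd_mul).mp h2 with h4 | h4
  · exact absurd ((Nat.prime_dvd_prime_iff_eq hq hp).mp (hq.dvd_of_dvd_pow h4)) hqp
  · exact h4

theorem dvd_sq_of_dvd {p q i : ℕ} (hi : i = 1 ∨ i = 2) (h : q ∣ p ^ i - 1) : q ∣ p ^ 2 - 1 := by
  rcases hi with rfl | rfl
  · refine h.trans ?_
    have := Nat.sub_dvd_pow_sub_pow (p ^ 1) 1 2
    rw [one_pow, ← pow_mul, one_mul] at this
    exact this
  · exact h

/-- main statement in group form -/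
theorem main {p q : ℕ} [Fact p.Prime] [Fact q.Prime] (hp2 : p ≠ 2) (hqp : q ≠ p) {D : Subgroup G}
    (hD : IsPGroup p D) (hrk : ∀ A ≤ D, IsMulCommutative A → (∀ a ∈ A, a ^ p = 1) → Nat.card A ≤ p ^ 2)
    {g : G} (hgN : g ∈ Subgroup.normalizer (D : Set G)) (hgo : orderOf g = q)
    (hgC : g ∉ Subgroup.centralizer (D : Set G)) : q ∣ p ^ 2 - 1 := by
  have hp : p.Prime := Fact.out
  have hq : q.Prime := Fact.out
  obtain ⟨E, hED, hEN, hE1, hEgen, hEexp⟩ := H38.SmallExp.exists_smallExp hD hgN
    (by rw [hgo]; exact (Nat.coprime_primes hq hp).mpr hqp) hgC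
  have hex : H38.SmallExp.ex p = p := by unfold H38.SmallExp.ex; rw [if_neg hp2]
  rw [hex] at hEexp
  have hEp : IsPGroup p E := hD.to_le hED
  have hEcard : Nat.card E ≤ p ^ 3 := by
    apply card_le hEp (fun x => Subtype.ext (hEexp x x.2))
    intro A hA
    have h1 := hrk (A.map E.subtype) ((Subgroup.map_subtype_le A).trans hED) (by
      haveI := hA
      infer_instance) (by
      rintro _ ⟨a, _, rfl⟩
      exact hEexp a a.2)
    rwa [Subgroup.card_map_of_injective E.subtype_injective] at h1
  have hEC : ¬ E ≤ Subgroup.centralizer {g} := by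
    intro h
    apply hE1
    rw [← hEgen, Subgroup.closure_eq_bot_iff]
    rintro _ ⟨e, he, rfl⟩
    have h1 := Subgroup.mem_centralizer_singleton_iff.mp (h he)
    rw [Set.mem_singleton_iff, ← h1]
    group
  obtain ⟨m, j, hm, hj, hjm, hdvd⟩ := dvd_of_ne hqp hEp hEN hgo hEC
  have hm3 : m ≤ 3 := by
    rw [hm] at hEcard
    exact (Nat.pow_le_pow_iff_right hp.one_lt).mp hEcard
  by_cases h3 : m - j = 3
  · -- `|E| = p ^ 3` and `C_E(g) = 1`
    have hm' : m = 3 := by omega
    have hj' : j = 0 := by omega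
    subst hm' hj'
    rw [pow_zero, Subgroup.card_eq_one] at hj
    let Z : Subgroup G := (Subgroup.center E).map E.subtype
    have hZE : Z ≤ E := Subgroup.map_subtype_le _
    have hZc : IsMulCommutative Z := by
      change IsMulCommutative ((Subgroup.center E).map E.subtype)
      infer_instance
    have hZne : Z ≠ ⊥ := by
      intro h
      haveI : Nontrivial E := by
        rw [← Finite.one_lt_card_iff_nontrivial, hm]
        exact Nat.one_lt_pow (by norm_num) hp.one_lt
      have h2 := hEp.bot_lt_center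
      have h4 : Subgroup.center E = ⊥ := by
        rwa [Subgroup.map_eq_bot_iff_of_injective _ E.subtype_injective] at h
      rw [h4] at h2
      exact lt_irrefl _ h2
    have hZN : g ∈ Subgroup.normalizer (Z : Set G) := by
      have h2 : Subgroup.normalizer (E : Set G) ≤ Subgroup.normalizer (Z : Set G) :=
        H13.Cores.normalizer_le_normalizer_map E (Subgroup.center E)
      exact h2 hEN
    have hZC : ¬ Z ≤ Subgroup.centralizer {g} := by
      intro h
      apply hZne
      rw [eq_bot_iff, ← hj]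
      exact le_inf hZE h
    obtain ⟨m', j', hm2, hj2, hjm2, hdvd2⟩ := dvd_of_ne hqp (hEp.to_le hZE) hZN hgo hZC
    have hZcard := hrk Z (hZE.trans hED) hZc (fun a ha => hEexp a (hZE ha))
    rw [hm2] at hZcard
    have hm2' : m' ≤ 2 := (Nat.pow_le_pow_iff_right hp.one_lt).mp hZcard
    exact dvd_sq_of_dvd (by omega) hdvd2
  · exact dvd_sq_of_dvd (by omega) hdvd

end H14.AutRank2
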