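import Cfsg.Agent.Lib.H88.Eng

/-!
# A variant of the engine `H88.Eng.engine`

The class of systems need only be closed under factor systems `F/Q` with `F = S C_F(Q)`; the conclusion is the
normality of the functor.
-/

set_option autoImplicit false
open Cfsg Cfsg.FusionSystem
open H87.Base H87.Basic H87.Sat H87.Grow H87.Factor H87.Factor2 H88.NM H88.CS H88.Fac H88.Eng

namespace H14.EngSC

universe u

/-- the goal at a normal functor value -/
theorem normal_of_goal {p : ℕ} {W : ∀ (Q : Type u) [Group Q], Subgroup Q} (hW : IsFun p W) {Ω : Type u} [Group Ω]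
    {S : Subgroup Ω} [Finite S] (hS : IsPGroup p S) {F : FusionSystem S} (h : Goal W (fun _ => True) F) :
    F.IsNormal (sub W S) := by
  have hWS : S ≤ Subgroup.normalizer (sub W S : Set Ω) := fun s hs =>
    sub_norm hW hS (Subgroup.le_normalizer hs)
  obtain ⟨N', hN'⟩ := H88.Induct.exists_nsys (sub_le W S) hWS F
  rw [H88.Induct.isNormal_iff_nmap (sub_le W S)]
  intro P f hf
  rw [← hN']
  exact h N' trivial (fun P f h => (hN' P f).2 h) P f hf

/-- The engine. -/
theorem engine {p : ℕ} [Fact p.Prime] {W : ∀ (Q : Type u) [Group Q], Subgroup Q} (hW : IsFun p W)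
    (PP : ∀ {Ω : Type u} [Group Ω] {S : Subgroup Ω}, FusionSystem S → Prop)
    (hPsat : ∀ {Ω : Type u} [Group Ω] {S : Subgroup Ω} (F : FusionSystem S), PP F → F.IsSaturated p)
    (hPn : ∀ {Ω : Type u} [Group Ω] {S : Subgroup Ω} [Finite S], IsPGroup p S → ∀ F : FusionSystem S,
      PP F → ∀ Q : Subgroup Ω, F.IsFullyNormalized Q → ∀ N : FusionSystem (normalizerIn S Q),
        F.IsNormalizerSystem Q N → PP N)
    (hPc : ∀ {Ω : Type u} [Group Ω] {S : Subgroup Ω} [Finite S], IsPGroup p S → ∀ F : FusionSystem S,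
      PP F → ∀ Q : Subgroup Ω, F.IsNormal Q → ∀ C : FusionSystem S, C.IsSaturated p →
        (∀ P f, IsMap C P f ↔ SCMap F Q P f) → PP C)
    (hPf : ∀ {Ω : Type u} [Group Ω] {S : Subgroup Ω} [Finite S], IsPGroup p S → ∀ F : FusionSystem S,
      PP F → ∀ Q : Subgroup Ω, F.IsNormal Q → (∀ P f, IsMap F P f → SCMap F Q P f) →
        ∀ {Ω' : Type u} [Group Ω'] {S' : Subgroup Ω'}
        (α : S →* Ω') (F' : FusionSystem S'), F.IsFactorSystem Q α F' → PP F')
    (hcons : ∀ {Ω : Type u} [Group Ω] {S : Subgroup Ω} [Finite S], IsPGroup p S → ∀ F : FusionSystem S,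
      PP F → centralizerIn S F.core ≤ F.core → F.IsNormal (sub W S))
    {Ω : Type u} [Group Ω] {S : Subgroup Ω} [Finite S] (hS : IsPGroup p S) (F : FusionSystem S)
    (hF : PP F) : F.IsNormal (sub W S) := by
  refine normal_of_goal hW hS ?_
  refine H88.Induct.induct (motive := fun {Ω} _ {S} F => IsPGroup p S → PP F → Goal W (fun _ => True) F) ?_ F hS hF
  clear hF hS F
  intro Ω _ S _ F ih1 ih2 hS hPF
  have hF := hPsat F hPF
  by_cases hWn : F.IsNormal (sub W S)
  · exact goal_of_normal hWn
  intro D hDDD hDN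
  by_contra hcon
  have hS1 : S ≠ ⊥ := by
    rintro rfl
    apply hWn
    rw [le_bot_iff.1 (sub_le W (⊥ : Subgroup Ω))]
    exact isNormal_bot F
  -- proper subsystems over `S`
  have key1 : ∀ E : FusionSystem S, E ≤ F → E ≠ F → PP E → ∀ P f, IsMap E P f → IsMap D P f :=
    fun E hle hne hPE => ih2 E hle hne hS hPE D hDDD fun P f h => hDN P f (nmap_mono_sys hle h)
  -- normalizers of subgroups normal in `S` but not in `F`
  have key2 : ∀ X : Subgroup Ω, X ≤ S → S ≤ Subgroup.normalizer (X : Set Ω) → ¬ F.IsNormal X →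
      ∀ P f, NMap F X P f → IsMap D P f := by
    intro X hX hXN hXn
    have hNS : normalizerIn S X = S := inf_eq_left.2 hXN
    have hfn : F.IsFullyNormalized X := by
      refine ⟨hX, fun Y hY => ?_⟩
      rw [hNS]
      exact Nat.card_le_card_of_injective _
        (Subgroup.inclusion_injective (inf_le_left : normalizerIn S Y ≤ S))
    obtain ⟨E, hE⟩ := H88.Induct.exists_nsys hX hXN F
    have hN := H89.KSat3.isNormalizerSystem_nSys F X hX
    have hsame : H88.Residual.SameHom (H89.KSat3.nSys F X hX) E :=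
      hom_eq_of_isMap_iff fun P f => by rw [nmap_iff hN, hE]
    have hPE : PP E := hsame.elim (motive := fun {S} (F : FusionSystem S) => PP F) (hPn hS F hPF X hfn _ hN)
    have hEF : E ≤ F := isSubsystemOf_iff.2 fun P f h => ((hE P f).1 h).isMap
    intro P f hf
    refine key1 E hEF (fun he => hXn ?_) hPE P f ((hE P f).2 hf)
    rw [H88.Induct.isNormal_iff_nmap hX]
    intro P f hf
    rw [← hE, he]
    exact hf
  -- the core is not trivial
  have hcore : F.core ≠ ⊥ := by
    intro hcb
    have hnn : ∀ X, X ≠ ⊥ → ¬ F.IsNormal X := fun X hX hn => hX (by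
      rw [eq_bot_iff, ← hcb]
      exact IsNormal.le_core hn)
    apply hcon
    have h1 : F ≤ D := by
      refine control hS hF (fun T => sub W T) (fun T _ => sub_le W T) (fun T hT hne => ?_) ?_ D hDN ?_
      · have hfin : Finite T := finite_of_le hT
        exact sub_ne hW (hS.to_le hT) hne
      · intro T hT g hg hgn
        have hfin : Finite T := finite_of_le hT
        exact sub_norm hW (hS.to_le hT) hgn
      · intro X hX hXfn E hE hEN
        have hPE := hPn hS F hPF X hXfn E hE
        by_cases hT : S ≤ Subgroup.normalizer (X : Set Ω)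
        · intro P f hf
          exact key2 X hXfn.1 hT (hnn X hX) P f ((nmap_iff hE).1 hf)
        · have hTS : normalizerIn S X ≤ S := inf_le_left
          have hfin : Finite (normalizerIn S X) := finite_of_le hTS
          have hlt : Nat.card (normalizerIn S X) < Nat.card S := by
            refine lt_of_le_of_ne (Nat.card_le_card_of_injective _ (Subgroup.inclusion_injective hTS)) ?_
            intro he
            apply hT
            have := Subgroup.eq_of_le_of_card_ge hTS he.ge
            rw [← this]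
            exact inf_le_right
          have h2 := ih1 E hlt (hS.to_le hTS) hPE (restr D _ hTS) trivial (fun P f hf => ?_)
          · intro P f hf
            exact (isMap_restr.1 (h2 P f hf)).2.2
          · have h3 := hf.isMap
            exact isMap_restr.2 ⟨h3.le, fun x hx => h3.mem hx, hEN P f hf⟩
    exact isSubsystemOf_iff.1 h1
  have hQ := isNormal_core F
  have hQsc := IsNormal.stronglyClosed hQ
  have hQS : F.core ≠ S := by
    intro he
    apply hWn
    rw [he] at hQ
    exact H89.Normal3.isNormal_of_characteristic hQ (sub_le W S) (sub_char hW hS)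
  by_cases hC : centralizerIn S F.core ≤ F.core
  · exact hWn (hcons hS F hPF hC)
  apply hcon
  obtain ⟨C, hCs, hCm⟩ := exists_sc hS hF hQ
  have hCF : C ≤ F := isSubsystemOf_iff.2 fun P f hf => ((hCm P f).1 hf).isMap
  by_cases hCe : C = F
  · -- the factor system
    exfalso
    have hSC : ∀ P f, IsMap F P f → SCMap F F.core P f := by
      intro P f hf
      rw [← hCm, hCe]
      exact hf
    have hnor : (F.core.subgroupOf S).Normal := ⟨fun n hn g => StronglyClosed.conj_mem hQsc g.2 hn⟩
    let α := QuotientGroup.mk' (F.core.subgroupOf S)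
    have hk : ∀ s ∈ S, extFun α s = 1 ↔ s ∈ F.core := by
      intro s hs
      rw [extFun_apply α hs]
      show ((⟨s, hs⟩ : S) : S ⧸ F.core.subgroupOf S) = 1 ↔ _
      rw [QuotientGroup.eq_one_iff]
      exact Iff.rfl
    have hr : α.range = ⊤ := MonoidHom.range_eq_top.2 (QuotientGroup.mk'_surjective _)
    obtain ⟨F', hF'⟩ := exists_factorSystem (F := F) (S' := ⊤) hQsc hk hr
    have hPF' := hPf hS F hPF _ hQ hSC α F' hF'
    have hfin' : Finite (⊤ : Subgroup (S ⧸ F.core.subgroupOf S)) :=
      Finite.of_equiv _ Subgroup.topEquiv.symm.toEquiv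
    have hp' : IsPGroup p (⊤ : Subgroup (S ⧸ F.core.subgroupOf S)) :=
      (hS.to_quotient _).of_equiv Subgroup.topEquiv.symm
    have hgoal' := ih1 F' (ind_card hQ.1 hcore) hp' hPF'
    have hS' : (⊤ : Subgroup (S ⧸ F.core.subgroupOf S)) ≠ ⊥ := by
      intro h
      apply hQS
      refine le_antisymm hQ.1 fun x hx => ?_
      rw [← hk x hx, ← Subgroup.mem_bot, ← h]
      exact Subgroup.mem_top _
    have hYne := sub_ne hW hp' hS'
    apply hYne
    have hn := normal_preimage hS hF hQ hF' hSC (normal_of_goal hW hp' hgoal')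
    rw [eq_bot_iff]
    intro y hy
    obtain ⟨x, hx, rfl⟩ := mem_range_iff.1 (hr ▸ Subgroup.mem_top y)
    have h1 := IsNormal.le_core hn (mem_preimageAlong.2 ⟨hx, hy⟩)
    rw [Subgroup.mem_bot]
    exact (hk x hx).2 h1
  have hRS : F.core ⊔ centralizerIn S F.core ≤ S := sup_le hQ.1 inf_le_left
  refine le_of_sc hS hF hQ (fun P f hf => ?_) (key2 _ hRS ?_ ?_)
  · exact key1 C hCF hCe (hPc hS F hPF _ hQ C hCs hCm) P f ((hCm P f).2 hf)
  · intro s hs
    have hfin : Finite ↥(F.core ⊔ centralizerIn S F.core) := finite_of_le hRS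
    refine mem_normalizer_iff_of_finite.2 fun x hx => ?_
    have hm := isMap_conj F hRS hs
    refine mem_of_sup hm (fun x hx => Subgroup.mem_sup_left (normal_conj_mem hQ hs hx)) (fun x hx => ?_) x hx
    apply Subgroup.mem_sup_right
    rw [mem_centralizerIn] at hx ⊢
    refine ⟨S.mul_mem (S.mul_mem hs hx.1) (S.inv_mem hs), fun y hy => ?_⟩
    have h3 := normal_conj_mem hQ (S.inv_mem hs) hy
    rw [inv_inv] at h3
    have h4 := hx.2 _ h3
    calc y * (s * x * s⁻¹) = s * (s⁻¹ * y * s * x) * s⁻¹ := by group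
      _ = s * (x * (s⁻¹ * y * s)) * s⁻¹ := by rw [h4]
      _ = s * x * s⁻¹ * y := by group
  · intro hn
    exact hC (le_sup_right.trans (IsNormal.le_core hn))

end H14.EngSC
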