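import Cfsg.Agent.Lib.H88.Fac
import Cfsg.Agent.Lib.H88.CS

/-!
# Normal subgroups of the centralizer system of a normal subgroup

If `Q` is normal in the saturated system `F`, and `Y ≤ C_S(Q)` is normal in `C_F(Q)` and invariant under the
automorphisms in `Aut_F(Q C_S(Q))`, then `Y` is normal in `F`.
-/

set_option autoImplicit false
open Cfsg Cfsg.FusionSystem
open H87.Base H87.Basic H87.Sat H87.Grow H88.CS H88.Fac

namespace H14.NormC

variable {Ω : Type*} [Group Ω] {S : Subgroup Ω} {F : FusionSystem S} {P Q R Y : Subgroup Ω} {f g : Ω → Ω}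
  {p : ℕ}

open H87.CMap (CMap)

theorem mem_centralizerIn' {x : Ω} : x ∈ centralizerIn S Q ↔ x ∈ S ∧ ∀ y ∈ Q, y * x = x * y := mem_centralizerIn

/-- maps on `P₁ ≤ C_S(Q)` which extend to `Q` extend to `Y` -/
theorem extend [Finite S] [Fact p.Prime] (hS : IsPGroup p S) (hF : F.IsSaturated p) (hQ : F.IsNormal Q)
    {C : FusionSystem (centralizerIn S Q)} (hC : F.IsCentralizerSystem Q C) (hY : C.IsNormal Y)
    (hinv : ∀ b, IsIso F (Q ⊔ centralizerIn S Q) (Q ⊔ centralizerIn S Q) b → ∀ y ∈ Y, b y ∈ Y)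
    (hP : P ≤ centralizerIn S Q) (hf : IsMap F (P ⊔ Q) f) :
    ∃ g, IsMap F (P ⊔ Y) g ∧ (∀ x ∈ P, g x = f x) ∧ ∀ y ∈ Y, g y ∈ Y := by
  have hYT : Y ≤ centralizerIn S Q := hY.1
  have hfin : Finite (centralizerIn S Q) := finite_of_le (inf_le_left : centralizerIn S Q ≤ S)
  obtain ⟨b, hb, hbR, c, hc, hcQ, hfc⟩ := dec hS hF hQ le_sup_right hf
  have hbPQ : IsMap F (P ⊔ Q) b := hb.mono le_sup_left
  have hbPY : IsMap F (P ⊔ Y) b := hb.mono (sup_le (le_sup_left.trans le_sup_left)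
    ((hYT.trans le_sup_right).trans le_sup_right))
  have hbP : IsMap F P b := hbPQ.mono le_sup_left
  have hbQ : IsIso F Q Q b := StronglyClosed.isMap_iso (IsNormal.stronglyClosed hQ) hbPQ le_sup_right
  have hbT : ∀ x ∈ centralizerIn S Q, b x ∈ centralizerIn S Q := by
    intro x hx
    rw [mem_centralizerIn] at hx ⊢
    have hbR' := hbR.isMap
    have hxR : x ∈ Q ⊔ centralizerIn S Q := Subgroup.mem_sup_right (mem_centralizerIn.2 hx)
    refine ⟨hbR'.mem hxR, fun y hy => ?_⟩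
    obtain ⟨z, hz, rfl⟩ := hbQ.surj hy
    rw [← hbR'.map_mul (Subgroup.mem_sup_left hz) hxR, hx.2 z hz, hbR'.map_mul hxR (Subgroup.mem_sup_left hz)]
  -- the map `c` on the image of `P`
  have hle : img P b ⊔ Q ≤ img (P ⊔ Q) b := by
    refine sup_le ?_ ?_
    · intro y hy
      obtain ⟨x, hx, rfl⟩ := (mem_img hbP).1 hy
      exact apply_mem_img (Subgroup.mem_sup_left hx)
    · intro y hy
      obtain ⟨x, hx, rfl⟩ := hbQ.surj hy
      exact apply_mem_img (Subgroup.mem_sup_right hx)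
  have hcm := hc.mono hle
  have hPT : img P b ≤ centralizerIn S Q := by
    intro y hy
    obtain ⟨x, hx, rfl⟩ := (mem_img hbP).1 hy
    exact hbT x (hP hx)
  have hcC : IsMap C (img P b) c := by
    rw [H87.CMap.isMap_centralizer_iff hC]
    refine ⟨hPT, fun x hx => ?_, c, hcm, fun _ _ => rfl, hcQ⟩
    rw [mem_centralizerIn]
    refine ⟨hcm.mem (Subgroup.mem_sup_left hx), fun y hy => ?_⟩
    have h1 := (mem_centralizerIn.1 (hPT hx)).2 y hy
    have h2 : c (y * x) = c (x * y) := by rw [h1]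
    rw [hcm.map_mul (Subgroup.mem_sup_right hy) (Subgroup.mem_sup_left hx),
      hcm.map_mul (Subgroup.mem_sup_left hx) (Subgroup.mem_sup_right hy), hcQ y hy] at h2
    exact h2
  obtain ⟨c', hc', hc'c, hc'Y⟩ := (isNormal_iff.1 hY).2 _ _ hcC
  have hc'F : IsMap F (img P b ⊔ Y) c' := ((H87.CMap.isMap_centralizer_iff hC).1 hc').isMap
  refine ⟨fun x => c' (b x), hbPY.comp' hc'F fun x hx => ?_, fun x hx => ?_, fun y hy => ?_⟩
  · refine mem_of_sup hbPY (fun x hx => Subgroup.mem_sup_left (apply_mem_img hx)) (fun x hx => ?_) x hx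
    exact Subgroup.mem_sup_right (hinv b hbR x hx)
  · show c' (b x) = f x
    rw [hc'c _ (apply_mem_img hx), ← hfc x (Subgroup.mem_sup_left hx)]
  · exact hc'Y _ (hinv b hbR y hy)

theorem stronglyClosed [Finite S] [Fact p.Prime] (hS : IsPGroup p S) (hF : F.IsSaturated p) (hQ : F.IsNormal Q)
    {C : FusionSystem (centralizerIn S Q)} (hC : F.IsCentralizerSystem Q C) (hY : C.IsNormal Y)
    (hinv : ∀ b, IsIso F (Q ⊔ centralizerIn S Q) (Q ⊔ centralizerIn S Q) b → ∀ y ∈ Y, b y ∈ Y) :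
    F.StronglyClosed Y := by
  have hYS : Y ≤ S := hY.1.trans inf_le_left
  rw [stronglyClosed_iff]
  refine ⟨hYS, fun P f hP hf x hx => ?_⟩
  obtain ⟨f', hf', h1, -⟩ := (isNormal_iff.1 hQ).2 P f hf
  obtain ⟨g, hg, h2, h3⟩ := extend hS hF hQ hC hY hinv (hP.trans hY.1) hf'
  rw [← h1 x hx, ← h2 x hx]
  exact h3 x (hP hx)

/-- Lemma N -/
theorem isNormal [Finite S] [Fact p.Prime] (hS : IsPGroup p S) (hF : F.IsSaturated p) (hQ : F.IsNormal Q)
    {C : FusionSystem (centralizerIn S Q)} (hC : F.IsCentralizerSystem Q C) (hY : C.IsNormal Y)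
    (hinv : ∀ b, IsIso F (Q ⊔ centralizerIn S Q) (Q ⊔ centralizerIn S Q) b → ∀ y ∈ Y, b y ∈ Y) :
    F.IsNormal Y := by
  have hYsc := stronglyClosed hS hF hQ hC hY hinv
  have hQsc := IsNormal.stronglyClosed hQ
  have hYT : Y ≤ centralizerIn S Q := hY.1
  rw [H89.Normal.isNormal_iff_stronglyClosed_le_radical hS hF]
  refine ⟨hYsc, fun P hPc hPr => ?_⟩
  have hPS : P ≤ S := hPc.1
  have hQP : Q ≤ P := H89.Normal.isNormal_le_of_radical hS hQ hPc hPr
  have hfinP : Finite P := finite_of_le hPS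
  have hfinY : Finite Y := finite_of_le hYsc.1
  have hPN : P ≤ Subgroup.normalizer (Y : Set Ω) := fun x hx =>
    mem_normalizer_iff_of_finite.2 fun y hy => StronglyClosed.conj_mem hYsc (hPS hx) hy
  -- automorphisms preserve `Q` and `C_P(Q)`
  have hQmem : ∀ a ∈ F.autGroup P, ∀ x : P, (x : Ω) ∈ Q → ((a x : P) : Ω) ∈ Q := by
    intro a ha x hx
    have h1 := mem_of_stronglyClosed hQsc (isIso_of_mem_autGroup hPS ha).isMap x.2 hx
    rw [extFun_coe] at h1
    exact h1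
  have hTmem : ∀ a ∈ F.autGroup P, ∀ x : P, (x : Ω) ∈ centralizerIn S Q → ((a x : P) : Ω) ∈ centralizerIn S Q := by
    intro a ha x hx
    rw [mem_centralizerIn] at hx ⊢
    refine ⟨hPS (a x).2, fun y hy => ?_⟩
    have h1 := hQmem a⁻¹ (Subgroup.inv_mem _ ha) ⟨y, hQP hy⟩ hy
    have h2 := hx.2 _ h1
    have h3 : (a⁻¹ ⟨y, hQP hy⟩ : P) * x = x * a⁻¹ ⟨y, hQP hy⟩ := Subtype.ext h2
    have h4 := congrArg a h3
    rw [map_mul, map_mul, MulAut.apply_inv_self] at h4
    exact congrArg Subtype.val h4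
  let B : Subgroup (MulAut P) :=
    { carrier := {β | β ∈ F.autGroup P ∧ (∀ x : P, (x : Ω) ∈ Q → β x = x) ∧ ∃ y ∈ Y, ∀ x : P,
        (x : Ω) ∈ centralizerIn S Q → ((β x : P) : Ω) = y * x * y⁻¹}
      mul_mem' := by
        rintro β₁ β₂ ⟨h1, k1, y₁, hy₁, e1⟩ ⟨h2, k2, y₂, hy₂, e2⟩
        refine ⟨Subgroup.mul_mem _ h1 h2, fun x hx => by rw [MulAut.mul_apply, k2 x hx, k1 x hx], y₁ * y₂,
          Subgroup.mul_mem _ hy₁ hy₂, fun x hx => ?_⟩
        rw [MulAut.mul_apply, e1 _ (hTmem _ h2 x hx), e2 x hx]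
        group
      one_mem' := ⟨Subgroup.one_mem _, fun x _ => rfl, 1, Subgroup.one_mem _, fun x _ => by simp⟩
      inv_mem' := by
        rintro β ⟨h1, k1, y, hy, e⟩
        refine ⟨Subgroup.inv_mem _ h1, fun x hx => ?_, y⁻¹, Subgroup.inv_mem _ hy, fun x hx => ?_⟩
        · have := congrArg (β⁻¹ : MulAut P) (k1 x hx)
          rw [MulAut.inv_apply_self] at this
          exact this.symm
        · have h2 := e (β⁻¹ x) (hTmem _ (Subgroup.inv_mem _ h1) x hx)
          rw [MulAut.apply_inv_self] at h2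
          rw [h2]; group }
  refine H89.Normal.le_of_radical hS hPc hPr hYsc.1 hPN B (fun β hβ => hβ.1) ?_ ?_ ?_
  · -- normality
    rintro a ha β ⟨hβ, k, y, hy, e⟩
    have ham := (isIso_of_mem_autGroup hPS ha).isMap
    have hPT : P ⊓ centralizerIn S Q ≤ centralizerIn S Q := inf_le_right
    obtain ⟨g, hg, hga, hgY⟩ := extend hS hF hQ hC hY hinv hPT (ham.mono (sup_le inf_le_left hQP))
    refine ⟨Subgroup.mul_mem _ (Subgroup.mul_mem _ ha hβ) (Subgroup.inv_mem _ ha), fun x hx => ?_, g y, hgY y hy,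
      fun x hx => ?_⟩
    · rw [MulAut.mul_apply, MulAut.mul_apply, k _ (hQmem _ (Subgroup.inv_mem _ ha) x hx), MulAut.apply_inv_self]
    · set z := a⁻¹ x with hz
      have hzT : (z : Ω) ∈ centralizerIn S Q := hTmem _ (Subgroup.inv_mem _ ha) x hx
      have hxz : x = a z := by rw [hz, MulAut.apply_inv_self]
      have hga' : ∀ w : P, (w : Ω) ∈ centralizerIn S Q → g w = ((a w : P) : Ω) := by
        intro w hw
        rw [hga _ (Subgroup.mem_inf.2 ⟨w.2, hw⟩), extFun_coe]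
        rfl
      rw [MulAut.mul_apply, MulAut.mul_apply, ← hz, ← hga' _ (hTmem _ hβ z hzT), e z hzT, hxz, ← hga' z hzT]
      exact hg.map_conj (Subgroup.mem_sup_right hy) (Subgroup.mem_sup_left (Subgroup.mem_inf.2 ⟨z.2, hzT⟩))
  · -- `B` is a `p`-group
    rintro ⟨β, hβ, k, y, hy, e⟩
    obtain ⟨n, hn⟩ := IsPGroup.iff_card.1 hS
    have hpow : ∀ s ∈ S, s ^ p ^ n = 1 := by
      intro s hs
      rw [← hn]
      exact congrArg Subtype.val (pow_card_eq_one' (x := (⟨s, hs⟩ : S)))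
    refine ⟨n + n, Subtype.ext ?_⟩
    show β ^ p ^ (n + n) = 1
    -- first power
    have h1 : ∀ m : ℕ, ∀ x : P, (x : Ω) ∈ centralizerIn S Q → (((β ^ m) x : P) : Ω) = y ^ m * x * (y ^ m)⁻¹ := by
      intro m
      induction m with
      | zero => intro x _; simp
      | succ m ih =>
        intro x hx
        rw [pow_succ', MulAut.mul_apply, e _ (hTmem _ (Subgroup.pow_mem _ hβ m) x hx), ih x hx, pow_succ']
        group
    have hkm : ∀ m : ℕ, ∀ x : P, (x : Ω) ∈ Q → (β ^ m) x = x := by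
      intro m
      induction m with
      | zero => intro x _; rfl
      | succ m ih =>
        intro x hx
        rw [pow_succ', MulAut.mul_apply, ih x hx, k x hx]
    set γ := β ^ p ^ n with hγ
    have hγF : γ ∈ F.autGroup P := Subgroup.pow_mem _ hβ _
    have hγT : ∀ x : P, (x : Ω) ∈ centralizerIn S Q → γ x = x := by
      intro x hx
      apply Subtype.ext
      rw [h1 _ x hx, hpow y (hYsc.1 hy), one_mul, inv_one, mul_one]
    -- `x⁻¹ γ(x)` centralizes `Q`
    have hγx : ∀ x : P, ((x⁻¹ * γ x : P) : Ω) ∈ centralizerIn S Q := by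
      intro x
      rw [mem_centralizerIn]
      refine ⟨hPS (x⁻¹ * γ x).2, fun q hq => ?_⟩
      set q' : P := ⟨q, hQP hq⟩ with hq'
      have h2 : ((x * q' * x⁻¹ : P) : Ω) ∈ Q := normal_conj_mem hQ (hPS x.2) hq
      have h3 : γ (x * q' * x⁻¹) = x * q' * x⁻¹ := hkm _ _ h2
      rw [map_mul, map_mul, map_inv, (hkm _ q' hq : γ q' = q')] at h3
      have h4 : q' * (x⁻¹ * γ x) = (x⁻¹ * γ x) * q' := by
        calc q' * (x⁻¹ * γ x) = x⁻¹ * (x * q' * x⁻¹) * γ x := by group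
          _ = x⁻¹ * (γ x * q' * (γ x)⁻¹) * γ x := by rw [h3]
          _ = _ := by group
      exact congrArg Subtype.val h4
    have h5 : ∀ m : ℕ, ∀ x : P, (γ ^ m) x = x * (x⁻¹ * γ x) ^ m := by
      intro m
      induction m with
      | zero => intro x; simp
      | succ m ih =>
        intro x
        rw [pow_succ', MulAut.mul_apply, ih, map_mul, map_pow, hγT _ (hγx x)]
        nth_rewrite 1 [show γ x = x * (x⁻¹ * γ x) by group]
        rw [mul_assoc, ← pow_succ']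
    rw [pow_add, pow_mul, ← hγ]
    ext x
    rw [h5, MulAut.one_apply]
    have h6 : (x⁻¹ * γ x) ^ p ^ n = 1 := by
      apply Subtype.ext
      rw [Subgroup.coe_pow]
      exact hpow _ (hPS (x⁻¹ * γ x).2)
    rw [h6, mul_one]
  · intro y hy hyN
    refine ⟨?_, fun x hx => ?_, y, hy, fun x _ => rfl⟩
    · exact H87.Base.autInducedBy_le_autGroup F hPS (mem_autInducedBy.2 ⟨y, hYsc.1 hy, fun x => rfl⟩)
    · apply Subtype.ext
      show y * (x : Ω) * y⁻¹ = x
      have h1 := (mem_centralizerIn.1 (hYT hy)).2 x hx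
      rw [← h1, mul_inv_cancel_right]

end H14.NormC
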