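import Cfsg.Agent.Lib.H26.PxQ
import Cfsg.Agent.Lib.H63.FrobeniusFix
import Cfsg.Agent.Lib.H4.Burnside
import Cfsg.Agent.S0071
import Cfsg.Agent.Lib.H51.QdStab

/-!
# Groups in which every element outside a normal subgroup has prime power order
-/

set_option autoImplicit false

namespace H14.PPowOut

open Cfsg Subgroup

universe u

variable {G : Type u} [Group G] [Finite G]

/-- a group whose order has prime divisors in `{p, q}` is solvable -/
theorem isSolvable_of_primes {p q : ℕ} (hp : p.Prime) (hq : q.Prime)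
    (h : ∀ r : ℕ, r.Prime → r ∣ Nat.card G → r = p ∨ r = q) : Group.IsSolvable G := by
  apply H4.Burnside.isSolvable_of_card_eq p q hp hq _ G rfl
  have hsub : (Nat.card G).primeFactors ⊆ {p, q} := by
    intro r hr
    have hr1 := Nat.prime_of_mem_primeFactors hr
    have hr2 := Nat.dvd_of_mem_primeFactors hr
    rcases h r hr1 hr2 with h | h <;> simp [h]
  have hpos : Nat.card G ≠ 0 := Nat.card_pos.ne'
  by_cases hpq : p = q
  · subst hpq
    have h2 : (Nat.card G).primeFactors ⊆ {p} := by simpa using hsub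
    refine ⟨(Nat.card G).factorization p, 0, ?_⟩
    have h3 := Nat.prod_factorization_pow_eq_self hpos
    rw [Finsupp.prod_of_support_subset _ (s := {p}) (by rw [Nat.support_factorization]; exact h2) _ (by simp)] at h3
    simpa using h3.symm
  · refine ⟨(Nat.card G).factorization p, (Nat.card G).factorization q, ?_⟩
    have h3 := Nat.prod_factorization_pow_eq_self hpos
    rw [Finsupp.prod_of_support_subset _ (s := {p, q}) (by rw [Nat.support_factorization]; exact hsub) _ (by simp)] at h3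
    rw [Finset.prod_pair hpq] at h3
    exact h3.symm

/-- elements of prime power order outside `N` commute with no element of coprime order -/
theorem eq_one_of_commute {N : Subgroup G} (h : ∀ x : G, x ∉ N → IsPrimePow (orderOf x)) {x z : G} {p k : ℕ}
    (hp : p.Prime) (hx : x ∉ N) (hxp : x ^ p ^ k = 1) (hz : ¬ p ∣ orderOf z) (hc : x * z = z * x) : z = 1 := by
  have hord : orderOf x ∣ p ^ k := orderOf_dvd_of_pow_eq_one hxp
  have hcop : (orderOf x).Coprime (orderOf z) :=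
    Nat.Coprime.coprime_dvd_left hord (Nat.Coprime.pow_left k ((Nat.Prime.coprime_iff_not_dvd hp).2 hz))
  have hcomm : Commute x z := hc
  have hxz : x * z ∉ N := by
    intro hmem
    apply hx
    have h1 : (x * z) ^ orderOf z = x ^ orderOf z := by
      rw [hcomm.mul_pow, pow_orderOf_eq_one, mul_one]
    have h2 : x ^ orderOf z ∈ N := by rw [← h1]; exact N.pow_mem hmem _
    obtain ⟨m, hm⟩ := exists_pow_eq_self_of_coprime hcop.symm
    rw [← hm]
    exact N.pow_mem h2 m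
  obtain ⟨q, n, hq, hn, hqn⟩ := h _ hxz
  rw [hcomm.orderOf_mul_eq_mul_orderOf_of_coprime hcop] at hqn
  have hx1 : orderOf x ≠ 1 := by
    intro h1
    rw [orderOf_eq_one_iff] at h1
    exact hx (h1 ▸ N.one_mem)
  have hpx : p ∣ orderOf x := by
    rw [Nat.dvd_prime_pow hp] at hord
    obtain ⟨m, -, hm⟩ := hord
    rw [hm] at hx1 ⊢
    have : m ≠ 0 := by rintro rfl; exact hx1 (pow_zero p)
    exact dvd_pow_self p this
  have hqp : q = p := by
    have h1 : p ∣ q ^ n := by rw [hqn]; exact hpx.mul_right _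
    exact ((Nat.prime_dvd_prime_iff_eq hp (Nat.prime_iff.2 hq)).1 (hp.dvd_of_dvd_pow h1)).symm
  subst hqp
  have h2 : orderOf z ∣ q ^ n := by rw [hqn]; exact dvd_mul_left _ _
  rw [Nat.dvd_prime_pow hp] at h2
  obtain ⟨m, -, hm⟩ := h2
  have : m = 0 := by
    by_contra h0
    exact hz (hm ▸ dvd_pow_self q h0)
  rw [this, pow_zero, orderOf_eq_one_iff] at hm
  exact hm

/-- the local contradiction -/
theorem local_step {N : Subgroup G} [N.Normal] (h : ∀ x : G, x ∉ N → IsPrimePow (orderOf x)) {p r : ℕ} (hp : p.Prime)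
    (hr : r.Prime) (hp2 : p ≠ 2) (hr2 : r ≠ 2) (hrp : r ≠ p) {T V : Subgroup G} (hT : IsPGroup 2 T)
    (hTN : ¬ T ≤ N) (hVr : IsPGroup r V) (hVc : ∀ a ∈ V, ∀ b ∈ V, a * b = b * a) (hTV : T ≤ normalizer (V : Set G))
    {y : G} (hyN : y ∉ N) (hypN : y ^ p ∈ N) {k : ℕ} (hyk : y ^ p ^ k = 1) (hyT : y ∈ normalizer (T : Set G))
    (hyV : y ∈ normalizer (V : Set G)) : V = ⊥ := by
  have h2p : ¬ 2 ∣ p := fun hd => hp2 ((Nat.prime_dvd_prime_iff_eq Nat.prime_two hp).1 hd).symm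
  have hT2 : ∀ w ∈ T, ∃ m : ℕ, w ^ 2 ^ m = 1 := by
    intro w hw
    obtain ⟨m, hm⟩ := hT ⟨w, hw⟩
    exact ⟨m, congrArg Subtype.val hm⟩
  have hTord : ∀ w ∈ T, ¬ p ∣ orderOf w := by
    intro w hw hd
    obtain ⟨m, hm⟩ := hT2 w hw
    have h1 := hd.trans (orderOf_dvd_of_pow_eq_one hm)
    exact hp2 ((Nat.prime_dvd_prime_iff_eq hp Nat.prime_two).1 (hp.dvd_of_dvd_pow h1))
  obtain ⟨t, htT, htN⟩ := SetLike.not_le_iff_exists.1 hTN
  by_cases hyp : y ^ p = 1
  · -- Frobenius action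
    have hfpf : ∀ i, 0 < i → i < p → ∀ w ∈ T, y ^ i * w = w * y ^ i → w = 1 := by
      intro i hi hip w hw hc
      have hyi : y ^ i ∉ N := by
        intro hmem
        apply hyN
        have hord : orderOf y = p := orderOf_eq_prime hyp (fun h1 => hyN (h1 ▸ N.one_mem)) (hp := ⟨hp⟩)
        have hcop : i.Coprime (orderOf y) := by
          rw [hord]
          exact (Nat.coprime_of_lt_prime (by omega) hip hp).symm
        obtain ⟨m, hm⟩ := exists_pow_eq_self_of_coprime hcop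
        rw [← hm]
        exact N.pow_mem hmem m
      exact eq_one_of_commute h hp hyi (k := 1) (by rw [pow_one, ← pow_mul, mul_comm, pow_mul, hyp, one_pow])
        (hTord w hw) hc
    have h2T : ∀ v ∈ V, (∀ w ∈ T, w * v = v * w) → v = 1 := by
      intro v hv hc
      obtain ⟨m, hm⟩ := hT2 t htT
      refine eq_one_of_commute h Nat.prime_two htN hm ?_ (hc t htT)
      intro hd
      obtain ⟨j, hj⟩ := hVr ⟨v, hv⟩
      have h1 := hd.trans (orderOf_dvd_of_pow_eq_one (congrArg Subtype.val hj : v ^ r ^ j = 1))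
      exact hr2 ((Nat.prime_dvd_prime_iff_eq Nat.prime_two hr).1 (Nat.prime_two.dvd_of_dvd_pow h1)).symm
    have h2y : ∀ v ∈ V, y * v = v * y → v = 1 := by
      intro v hv hc
      refine eq_one_of_commute h hp hyN hyk ?_ hc
      intro hd
      obtain ⟨j, hj⟩ := hVr ⟨v, hv⟩
      have h1 := hd.trans (orderOf_dvd_of_pow_eq_one (congrArg Subtype.val hj : v ^ r ^ j = 1))
      exact hrp ((Nat.prime_dvd_prime_iff_eq hp hr).1 (hp.dvd_of_dvd_pow h1)).symm
    have key := H63.FrobeniusFix.pow_card_eq_one V T y p hp.pos hyp hVc hTV hyV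
      (fun w hw => (mem_normalizer_iff.1 hyT w).1 hw) h2T h2y hfpf
    rw [eq_bot_iff]
    intro v hv
    rw [mem_bot]
    obtain ⟨m, hm⟩ := IsPGroup.iff_card.1 hT
    obtain ⟨j, hj⟩ := hVr ⟨v, hv⟩
    have hj' : v ^ r ^ j = 1 := congrArg Subtype.val hj
    have h1 := key v hv
    rw [hm] at h1
    have h3 : orderOf v ∣ Nat.gcd (2 ^ m) (r ^ j) := Nat.dvd_gcd (orderOf_dvd_of_pow_eq_one h1) (orderOf_dvd_of_pow_eq_one hj')
    have h4 : Nat.gcd (2 ^ m) (r ^ j) = 1 :=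
      Nat.Coprime.pow m j ((Nat.coprime_primes Nat.prime_two hr).2 (Ne.symm hr2))
    rw [h4, Nat.dvd_one, orderOf_eq_one_iff] at h3
    exact h3
  · -- an element of order `p` in `⟨y ^ p⟩ ≤ N`
    exfalso
    have : Fact p.Prime := ⟨hp⟩
    obtain ⟨j, hj⟩ : ∃ j, y ^ p ^ j ≠ 1 ∧ y ^ p ^ (j + 1) = 1 := by
      classical
      have hex : ∃ k, y ^ p ^ k = 1 := ⟨k, hyk⟩
      have h1 := Nat.find_spec hex
      have h0 : Nat.find hex ≠ 0 := by
        intro h0
        rw [h0, pow_zero, pow_one] at h1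
        exact hyN (h1 ▸ N.one_mem)
      obtain ⟨m, hm⟩ := Nat.exists_eq_succ_of_ne_zero h0
      refine ⟨m, Nat.find_min hex (by omega), ?_⟩
      rw [hm] at h1
      exact h1
    obtain ⟨hj1, hj2⟩ := hj
    have hj0 : j ≠ 0 := by
      rintro rfl
      rw [zero_add, pow_one] at hj2
      exact hyp hj2
    set z := y ^ p ^ j with hz
    have hzN : z ∈ N := by
      obtain ⟨i, rfl⟩ := Nat.exists_eq_succ_of_ne_zero hj0
      rw [hz, pow_succ', pow_mul]
      exact N.pow_mem hypN _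
    have hzT : z ∈ normalizer (T : Set G) := Subgroup.pow_mem _ hyT _
    have hcard : ¬ p ∣ Nat.card ↥(T ⊓ N : Subgroup G) := by
      intro hd
      obtain ⟨m, hm⟩ := IsPGroup.iff_card.1 (hT.to_le (inf_le_left : T ⊓ N ≤ T))
      rw [hm] at hd
      exact hp2 ((Nat.prime_dvd_prime_iff_eq hp Nat.prime_two).1 (hp.dvd_of_dvd_pow hd))
    have hzTN : z ∈ normalizer ((T ⊓ N : Subgroup G) : Set G) :=
      inf_normalizer_le_normalizer_inf (Subgroup.mem_inf.2 ⟨hzT, by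
        rw [normalizer_eq_top_iff.2 (inferInstance : N.Normal)]; trivial⟩)
    have htz : t⁻¹ * z * t * z⁻¹ ∈ T ⊓ N := by
      refine Subgroup.mem_inf.2 ⟨?_, ?_⟩
      · have h1 := (mem_normalizer_iff.1 hzT t).1 htT
        have h2 : t⁻¹ * z * t * z⁻¹ = t⁻¹ * (z * t * z⁻¹) := by group
        rw [h2]
        exact T.mul_mem (T.inv_mem htT) h1
      · have h1 : t⁻¹ * z * t⁻¹⁻¹ ∈ N := (inferInstance : N.Normal).conj_mem z hzN t⁻¹
        rw [inv_inv] at h1
        exact N.mul_mem h1 (N.inv_mem hzN)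
    obtain ⟨n, hn, hnc⟩ := H26.PxQ.exists_fixed_mul_zpowers (p := p) (a := z) (x := t)
      ⟨1, by rw [pow_one, hz, ← pow_mul, ← pow_succ]; exact hj2⟩ hcard hzTN htz
    have hnTN := Subgroup.mem_inf.1 hn
    have htn : t * n ∉ N := fun hmem => htN (by
      have := N.mul_mem hmem (N.inv_mem hnTN.2)
      rwa [mul_inv_cancel_right] at this)
    obtain ⟨m, hm⟩ := hT2 (t * n) (T.mul_mem htT hnTN.1)
    apply hj1
    refine eq_one_of_commute h Nat.prime_two htn hm ?_ hnc.symm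
    intro hd
    have h1 : orderOf z ∣ p := by
      apply orderOf_dvd_of_pow_eq_one
      rw [hz, ← pow_mul, ← pow_succ]; exact hj2
    exact h2p (hd.trans h1)

theorem isSolvable_of_complement (hFT : ∀ (X : Type u) [Group X] [Finite X], Odd (Nat.card X) → Group.IsSolvable X)
    (P : Sylow 2 G) (h : ∃ K : Subgroup G, K.Normal ∧ K.IsComplement' (P : Subgroup G)) : Group.IsSolvable G := by
  obtain ⟨K, hK, hc⟩ := h
  have hKodd : Odd (Nat.card K) := by
    have h1 := hc.index_eq_card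
    rw [← h1]
    have := P.not_dvd_index
    rw [Nat.odd_iff]
    omega
  have hKs := hFT K hKodd
  have hq : IsPGroup 2 (G ⧸ K) := by
    obtain ⟨m, hm⟩ := IsPGroup.iff_card.1 P.isPGroup'
    apply IsPGroup.of_card (n := m)
    rw [← hm, ← hc.symm.index_eq_card]
    rfl
  have hqn := hq.isNilpotent
  have hqs : Group.IsSolvable (G ⧸ K) := inferInstance
  exact Group.isSolvable_of_ker_le_range K.subtype (QuotientGroup.mk' K) (by simp)

theorem main (hFT : ∀ (X : Type u) [Group X] [Finite X], Odd (Nat.card X) → Group.IsSolvable X)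
    (N : Subgroup G) [hN : N.Normal] (hns : ¬ Group.IsSolvable N)
    (h : ∀ x : G, x ∉ N → IsPrimePow (orderOf x)) : Group.IsSolvable (G ⧸ N) := by
  by_contra hQ
  have hfact : Fact (Nat.Prime 2) := ⟨Nat.prime_two⟩
  set π : G →* G ⧸ N := QuotientGroup.mk' N with hπ
  have hπs : Function.Surjective π := QuotientGroup.mk'_surjective N
  have hπk : ∀ x : G, π x = 1 ↔ x ∈ N := fun x => QuotientGroup.eq_one_iff x
  obtain ⟨P⟩ : Nonempty (Sylow 2 (G ⧸ N)) := inferInstance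
  have h1 : ¬ ∀ Q : Subgroup (G ⧸ N), Q ≤ (P : Subgroup (G ⧸ N)) → ∀ g ∈ normalizer (Q : Set (G ⧸ N)),
      Nat.Coprime (orderOf g) 2 → g ∈ centralizer (Q : Set (G ⧸ N)) := by
    intro hall
    exact hQ (isSolvable_of_complement hFT P ((Cfsg.Agent.S0071.result P).2 hall))
  push Not at h1
  obtain ⟨E₀, hE₀P, g, hgE, hg2, hgC⟩ := h1
  have hE₀ : IsPGroup 2 E₀ := P.isPGroup'.to_le hE₀P
  -- the element of order `p`
  have hg1 : orderOf g ≠ 1 := by
    intro h1
    rw [orderOf_eq_one_iff] at h1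
    exact hgC (h1 ▸ Subgroup.one_mem _)
  obtain ⟨p, hp, hpg⟩ := Nat.exists_prime_and_dvd hg1
  have hp2 : p ≠ 2 := by
    rintro rfl
    have := Nat.eq_one_of_dvd_coprimes hg2 hpg (dvd_refl 2)
    omega
  set y₀ := g ^ (orderOf g / p) with hy₀
  have hy₀ord : orderOf y₀ = p := orderOf_pow_orderOf_div (orderOf_pos g).ne' hpg
  have hy₀E : y₀ ∈ normalizer (E₀ : Set (G ⧸ N)) := Subgroup.pow_mem _ hgE _
  have hE₀ne : ∃ e ∈ E₀, e ≠ 1 := by
    by_contra hcon
    push Not at hcon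
    apply hgC
    rw [mem_centralizer_iff]
    intro e he
    rw [hcon e he, one_mul, mul_one]
  obtain ⟨e, heE, he1⟩ := hE₀ne
  -- the prime `r`
  obtain ⟨r, hr, hrN, hr2, hrp⟩ : ∃ r : ℕ, r.Prime ∧ r ∣ Nat.card N ∧ r ≠ 2 ∧ r ≠ p := by
    by_contra hcon
    push Not at hcon
    apply hns
    apply isSolvable_of_primes Nat.prime_two hp
    intro r hr hrN
    by_cases h2 : r = 2
    · exact Or.inl h2
    · exact Or.inr (hcon r hr hrN h2)
  have hfr : Fact r.Prime := ⟨hr⟩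
  obtain ⟨R⟩ : Nonempty (Sylow r N) := inferInstance
  set R' : Subgroup G := (R : Subgroup N).map N.subtype with hR'
  have hfrat : normalizer (R' : Set G) ⊔ N = ⊤ := Sylow.normalizer_sup_eq_top R
  set M : Subgroup G := normalizer (R' : Set G) with hM
  have hlift : ∀ x : G ⧸ N, ∃ m ∈ M, π m = x := by
    intro x
    obtain ⟨x, rfl⟩ := hπs x
    have h2 : x ∈ M ⊔ N := by rw [hfrat]; trivial
    rw [← SetLike.mem_coe, Subgroup.mul_normal] at h2
    obtain ⟨m, hm, n, hn, rfl⟩ := h2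
    refine ⟨m, hm, ?_⟩
    rw [map_mul, (hπk n).2 hn, mul_one]
  have hR'p : IsPGroup r R' := R.isPGroup'.map _
  have hR'ne : R' ≠ ⊥ := by
    intro hbot
    rw [hR', map_eq_bot_iff_of_injective _ N.subtype_injective] at hbot
    have h2 := R.dvd_card_of_dvd_card hrN
    rw [hbot, Subgroup.card_bot, Nat.dvd_one] at h2
    exact hr.one_lt.ne' h2
  -- `Z(R)`
  set V : Subgroup G := R' ⊓ centralizer (R' : Set G) with hV
  have hMV : M ≤ normalizer (V : Set G) := by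
    intro m hm
    apply H51.QdStab.mem_normalizer_of_conj_mem
    intro v hv
    obtain ⟨hv1, hv2⟩ := Subgroup.mem_inf.1 hv
    refine Subgroup.mem_inf.2 ⟨(mem_normalizer_iff.1 hm v).1 hv1, ?_⟩
    rw [mem_centralizer_iff] at hv2 ⊢
    intro u hu
    have h2 := hv2 (m⁻¹ * u * m) (by
      have := (mem_normalizer_iff.1 (inv_mem hm) u).1 hu
      rwa [inv_inv] at this)
    calc u * (m * v * m⁻¹) = m * ((m⁻¹ * u * m) * v) * m⁻¹ := by group
      _ = m * v * m⁻¹ * u := by rw [h2]; group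
  have hVne : V ≠ ⊥ := by
    have hnt : Nontrivial R' := (Subgroup.nontrivial_iff_ne_bot R').2 hR'ne
    have h2 := hR'p.center_nontrivial
    obtain ⟨z, hz1⟩ := exists_ne (1 : Subgroup.center R')
    intro hbot
    have h3 : ((z : R') : G) ∈ V := by
      refine Subgroup.mem_inf.2 ⟨(z : R').2, mem_centralizer_iff.2 fun u hu => ?_⟩
      exact congrArg Subtype.val (Subgroup.mem_center_iff.1 z.2 ⟨u, hu⟩)
    rw [hbot, mem_bot] at h3
    exact hz1 (Subtype.ext (Subtype.ext h3))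
  have hVr : IsPGroup r V := hR'p.to_le inf_le_left
  have hVc : ∀ a ∈ V, ∀ b ∈ V, a * b = b * a := fun a ha b hb => (mem_centralizer_iff.1 hb.2 a ha.1)
  -- elements outside `N` with a given image
  have hpow : ∀ x : G, x ∉ N → ∀ q : ℕ, q.Prime → q ∣ orderOf (π x) → ∃ k, x ^ q ^ k = 1 := by
    intro x hx q hq hqx
    obtain ⟨s, n, hs, hn, hsn⟩ := h x hx
    have h2 : q ∣ s ^ n := by rw [hsn]; exact hqx.trans (orderOf_map_dvd π x)
    have h3 : q = s := (Nat.prime_dvd_prime_iff_eq hq (Nat.prime_iff.2 hs)).1 (hq.dvd_of_dvd_pow h2)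
    refine ⟨n, ?_⟩
    rw [h3, hsn, pow_orderOf_eq_one]
  -- the `2`-group `T`
  set E : Subgroup G := E₀.comap π with hE
  obtain ⟨m, hmM, hme⟩ := hlift e
  have hmN : m ∉ N := fun hm => he1 (by rw [← hme]; exact (hπk m).2 hm)
  have hm2 : ∃ k, m ^ 2 ^ k = 1 := by
    apply hpow m hmN 2 Nat.prime_two
    rw [hme]
    obtain ⟨k, hk⟩ := hE₀ ⟨e, heE⟩
    have hk' : e ^ 2 ^ k = 1 := congrArg Subtype.val hk
    have h2 := orderOf_dvd_of_pow_eq_one hk'
    rw [Nat.dvd_prime_pow Nat.prime_two] at h2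
    obtain ⟨j, -, hj⟩ := h2
    rw [hj]
    apply dvd_pow_self
    rintro rfl
    rw [pow_zero, orderOf_eq_one_iff] at hj
    exact he1 hj
  have hmE : m ∈ E ⊓ M := Subgroup.mem_inf.2 ⟨by rw [hE, mem_comap, hme]; exact heE, hmM⟩
  have hz2 : IsPGroup 2 (zpowers (⟨m, hmE⟩ : ↥(E ⊓ M))) := by
    obtain ⟨k, hk⟩ := hm2
    rintro ⟨_, i, rfl⟩
    refine ⟨k, Subtype.ext ?_⟩
    show ((⟨m, hmE⟩ : ↥(E ⊓ M)) ^ i) ^ 2 ^ k = 1
    have h2 : (⟨m, hmE⟩ : ↥(E ⊓ M)) ^ 2 ^ k = 1 := Subtype.ext hk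
    rw [← zpow_natCast, ← zpow_mul, mul_comm, zpow_mul, zpow_natCast, h2, one_zpow]
  obtain ⟨T, hT⟩ := hz2.exists_le_sylow
  set T' : Subgroup G := (T : Subgroup ↥(E ⊓ M)).map (E ⊓ M).subtype with hT'
  have hT'2 : IsPGroup 2 T' := T.isPGroup'.map _
  have hT'N : ¬ T' ≤ N := by
    intro hle
    exact hmN (hle ⟨⟨m, hmE⟩, hT (mem_zpowers _), rfl⟩)
  have hT'M : T' ≤ M := by
    rintro _ ⟨t, -, rfl⟩
    exact (Subgroup.mem_inf.1 t.2).2
  -- the element `y`
  obtain ⟨y₁, hy₁M, hy₁⟩ := hlift y₀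
  have hy₁E : ∀ x ∈ E ⊓ M, y₁ * x * y₁⁻¹ ∈ E ⊓ M := by
    intro x hx
    obtain ⟨hx1, hx2⟩ := Subgroup.mem_inf.1 hx
    refine Subgroup.mem_inf.2 ⟨?_, M.mul_mem (M.mul_mem hy₁M hx2) (M.inv_mem hy₁M)⟩
    rw [hE, mem_comap, map_mul, map_mul, map_inv, hy₁]
    exact (mem_normalizer_iff.1 hy₀E _).1 hx1
  have hy₁n : y₁ ∈ normalizer ((E ⊓ M : Subgroup G) : Set G) := H51.QdStab.mem_normalizer_of_conj_mem hy₁E
  obtain ⟨y, hyM, hyT, x, hx, hyx⟩ : ∃ y : G, y ∈ M ∧ y ∈ normalizer (T' : Set G) ∧ ∃ x ∈ E ⊓ M, y = x * y₁ := by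
    obtain ⟨x, hx⟩ := MulAction.exists_smul_eq ↥(E ⊓ M)
      ((Subgroup.normalizerMonoidHom (E ⊓ M) ⟨y₁, hy₁n⟩ : MulAut ↥(E ⊓ M)) • T) T
    refine ⟨(x : G) * y₁, M.mul_mem (Subgroup.mem_inf.1 x.2).2 hy₁M, ?_, x, x.2, rfl⟩
    apply H51.QdStab.mem_normalizer_of_conj_mem
    rintro _ ⟨t, ht, rfl⟩
    have ht' : t ∈ (T : Subgroup ↥(E ⊓ M)) := ht
    have h2 : x * ((Subgroup.normalizerMonoidHom (E ⊓ M) ⟨y₁, hy₁n⟩ : MulAut ↥(E ⊓ M)) t) * x⁻¹ ∈
        (T : Subgroup ↥(E ⊓ M)) := by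
      have h3 := congrArg (fun S : Sylow 2 ↥(E ⊓ M) => (S : Subgroup ↥(E ⊓ M))) hx
      simp only [Sylow.pointwise_smul_def, Sylow.coe_subgroup_smul] at h3
      have h4 := Subgroup.smul_mem_pointwise_smul _ (MulAut.conj x)
        _ (Subgroup.smul_mem_pointwise_smul t
          (Subgroup.normalizerMonoidHom (E ⊓ M) ⟨y₁, hy₁n⟩ : MulAut ↥(E ⊓ M)) _ ht')
      rw [h3] at h4
      exact h4
    refine ⟨_, h2, ?_⟩
    show (x : G) * (y₁ * (t : G) * y₁⁻¹) * (x : G)⁻¹ = _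
    simp only [Subgroup.subtype_apply]
    group
  have hπx : π x ∈ E₀ := (Subgroup.mem_inf.1 hx).1
  have hπy : π y = π x * y₀ := by rw [hyx, map_mul, hy₁]
  have hy₀notE : y₀ ∉ E₀ := by
    intro hmem
    obtain ⟨k, hk⟩ := hE₀ ⟨y₀, hmem⟩
    have h2 := orderOf_dvd_of_pow_eq_one (congrArg Subtype.val hk : y₀ ^ 2 ^ k = 1)
    rw [hy₀ord] at h2
    exact hp2 ((Nat.prime_dvd_prime_iff_eq hp Nat.prime_two).1 (hp.dvd_of_dvd_pow h2))
  have hyE : π y ∉ E₀ := by
    intro hmem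
    apply hy₀notE
    rw [hπy] at hmem
    have := E₀.mul_mem (E₀.inv_mem hπx) hmem
    rwa [inv_mul_cancel_left] at this
  have hyN : y ∉ N := fun hmem => hyE (by rw [(hπk y).2 hmem]; exact E₀.one_mem)
  have hypE : (π y) ^ p ∈ E₀ := by
    have h2 : ∀ j : ℕ, ∃ a ∈ E₀, (π y) ^ j = a * y₀ ^ j := by
      intro j
      induction j with
      | zero => exact ⟨1, E₀.one_mem, by simp⟩
      | succ j ih =>
        obtain ⟨a, ha, hj⟩ := ih
        refine ⟨a * (y₀ ^ j * π x * (y₀ ^ j)⁻¹), E₀.mul_mem ha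
          ((mem_normalizer_iff.1 (Subgroup.pow_mem _ hy₀E j) _).1 hπx), ?_⟩
        rw [pow_succ, hj, hπy, pow_succ y₀]
        group
    obtain ⟨a, ha, hj⟩ := h2 p
    rw [hj, ← hy₀ord, pow_orderOf_eq_one, mul_one]
    exact ha
  obtain ⟨q, n, hq, hn, hqn⟩ := h y hyN
  have hq' : q.Prime := Nat.prime_iff.2 hq
  have hyq : y ^ q ^ n = 1 := by rw [hqn, pow_orderOf_eq_one]
  have hqp : q = p := by
    by_contra hne
    apply hyE
    have hcop : p.Coprime (orderOf (π y)) := by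
      apply Nat.Coprime.coprime_dvd_right (orderOf_dvd_of_pow_eq_one (n := q ^ n) (by rw [← map_pow, hyq, map_one]))
      exact Nat.Coprime.pow_right n ((Nat.coprime_primes hp hq').2 (Ne.symm hne))
    obtain ⟨m, hm⟩ := exists_pow_eq_self_of_coprime hcop
    rw [← hm]
    exact E₀.pow_mem hypE m
  subst hqp
  have hypN : y ^ q ∈ N := by
    rw [← hπk, map_pow]
    obtain ⟨k, hk⟩ := hE₀ ⟨_, hypE⟩
    have h2 := orderOf_dvd_of_pow_eq_one (congrArg Subtype.val hk : ((π y) ^ q) ^ 2 ^ k = 1)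
    have h3 : orderOf ((π y) ^ q) ∣ q ^ n := by
      apply orderOf_dvd_of_pow_eq_one
      rw [← pow_mul, mul_comm, pow_mul, ← map_pow π, hyq, map_one, one_pow]
    have h4 : Nat.Coprime (2 ^ k) (q ^ n) := Nat.Coprime.pow k n ((Nat.coprime_primes Nat.prime_two hp).2 (Ne.symm hp2))
    have h5 := Nat.eq_one_of_dvd_coprimes h4 h2 h3
    rwa [orderOf_eq_one_iff] at h5
  exact hVne (local_step h hp hr hp2 hr2 hrp hT'2 hT'N hVr hVc (hT'M.trans hMV) hyN hypN hyq hyT (hMV hyM))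

end H14.PPowOut
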