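import Cfsg.Agent.Lib.H88.Eng
import Cfsg.Agent.Lib.H1.Cores
import Cfsg.Agent.Lib.H13.SylowN

/-!
# A functor with a quadratic element condition: `p`-th powers of central elements (group part)
-/

set_option autoImplicit false

namespace H14.QuadP

open Cfsg Subgroup H88.Eng
open scoped commutatorElement

universe u

section

variable {L : Type*} [Group L]

/-- conjugates by powers of a quadratic element -/
theorem conj_pow_mul {g v w : L} (h : g * v * g⁻¹ = w * v) (hgw : g * w = w * g) (n : ℕ) :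
    g ^ n * v * (g ^ n)⁻¹ = w ^ n * v := by
  induction n with
  | zero => simp
  | succ n ih =>
    have hgw' : g * w ^ n = w ^ n * g := (Commute.pow_right (show Commute g w from hgw) n)
    calc g ^ (n + 1) * v * (g ^ (n + 1))⁻¹ = g * (g ^ n * v * (g ^ n)⁻¹) * g⁻¹ := by
          rw [pow_succ']; group
      _ = g * (w ^ n * v) * g⁻¹ := by rw [ih]
      _ = (g * w ^ n) * v * g⁻¹ := by group
      _ = w ^ n * (g * v * g⁻¹) := by rw [hgw']; group
      _ = w ^ n * (w * v) := by rw [h]
      _ = w ^ (n + 1) * v := by rw [pow_succ]; group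

/-- a quadratic element whose `p`-th power acts trivially centralizes `p`-th powers -/
theorem centralizes_pow {p : ℕ} {V : Subgroup L} (hVab : ∀ x ∈ V, ∀ y ∈ V, x * y = y * x) {g : L}
    (hgV : ∀ v ∈ V, g * v * g⁻¹ ∈ V) (hq : ⁅⁅V, zpowers g⁆, zpowers g⁆ = ⊥)
    (hgp : ∀ v ∈ V, g ^ p * v * (g ^ p)⁻¹ = v) {v : L} (hv : v ∈ V) : g * v ^ p * g⁻¹ = v ^ p := by
  have hg : g ∈ zpowers g := mem_zpowers g
  have h1 : ⁅v, g⁆ ∈ ⁅V, zpowers g⁆ := commutator_mem_commutator hv hg
  have h2 : ⁅⁅v, g⁆, g⁆ = 1 := by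
    have := commutator_mem_commutator h1 hg
    rw [hq, mem_bot] at this
    exact this
  rw [commutatorElement_eq_one_iff_mul_comm] at h2
  set w := (⁅v, g⁆)⁻¹ with hw
  have hgw : g * w = w * g := by
    rw [hw]
    have h3 : Commute g ⁅v, g⁆ := h2.symm
    exact h3.inv_right
  have hgv : g * v * g⁻¹ = w * v := by
    rw [hw, commutatorElement_def]
    group
  have hwV : w ∈ V := by
    have h4 : w = g * v * g⁻¹ * v⁻¹ := by rw [hgv, mul_inv_cancel_right]
    rw [h4]
    exact V.mul_mem (hgV v hv) (V.inv_mem hv)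
  have h5 := conj_pow_mul hgv hgw p
  rw [hgp v hv] at h5
  have h6 : w ^ p = 1 := by
    have : w ^ p * v = 1 * v := by rw [← h5, one_mul]
    exact mul_right_cancel this
  rw [← _root_.conj_pow, hgv, (show Commute w v from hVab w hwV v hv).mul_pow, h6, one_mul]

/-- a power of a nontrivial `p`-element modulo `Q` of order `p` modulo `Q` -/
theorem exists_pow {p : ℕ} {Q : Subgroup L} {g : L} {P : Subgroup L} (hP : IsPGroup p P) (hgP : g ∈ P) (hg : g ∉ Q) :
    ∃ h ∈ zpowers g, h ∉ Q ∧ h ^ p ∈ Q := by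
  classical
  obtain ⟨k, hk⟩ := hP ⟨g, hgP⟩
  have hk' : g ^ p ^ k ∈ Q := by
    have : g ^ p ^ k = 1 := congrArg Subtype.val hk
    rw [this]
    exact Q.one_mem
  have hex : ∃ k, g ^ p ^ k ∈ Q := ⟨k, hk'⟩
  set m := Nat.find hex with hm
  have h1 : g ^ p ^ m ∈ Q := Nat.find_spec hex
  have hm0 : m ≠ 0 := by
    intro h0
    rw [h0, pow_zero, pow_one] at h1
    exact hg h1
  obtain ⟨j, hj⟩ := Nat.exists_eq_succ_of_ne_zero hm0
  refine ⟨g ^ p ^ j, Subgroup.npow_mem_zpowers g _, Nat.find_min hex (by rw [← hm, hj]; exact Nat.lt_succ_self j), ?_⟩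
  rw [← pow_mul, ← pow_succ]
  rwa [hj] at h1

end

variable {p : ℕ} [hp : Fact p.Prime] {W : ∀ (Q : Type u) [Group Q], Subgroup Q}

theorem claim (hW : IsFun p W)
    (hq : ∀ (G : Type u) [Group G] [Finite G] (P : Sylow p G), ¬ (((W ↥(P : Subgroup G)).map (P : Subgroup G).subtype : Subgroup G)).Normal → ∃ g : G, g ∈ (P : Subgroup G) ∧ g ∉ Cfsg.pCore p G ∧ ⁅⁅Subgroup.center ↥(Cfsg.pCore p G) |>.map (Cfsg.pCore p G).subtype, Subgroup.zpowers g⁆, Subgroup.zpowers g⁆ = ⊥) :
    ∀ (n : ℕ) (L : Type u) [Group L] [Finite L] (P : Sylow p L), Nat.card L ≤ n →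
      centralizer (pCore p L : Set L) ≤ pCore p L → ∀ y ∈ (P : Subgroup L) ⊓ centralizer ((P : Subgroup L) : Set L),
      (∀ n ∈ normalizer (sub W (P : Subgroup L) : Set L), n * y ^ p * n⁻¹ = y ^ p) →
      ∀ g : L, g * y ^ p * g⁻¹ = y ^ p := by
  intro n
  induction n with
  | zero =>
    intro L _ _ P hn
    have := Nat.card_pos (α := L)
    omega
  | succ n ih =>
    intro L _ _ P hn hc y hy hyn g
    by_cases hWn : (sub W (P : Subgroup L)).Normal
    · apply hyn
      rw [normalizer_eq_top_iff.2 hWn]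
      trivial
    set Q := pCore p L with hQ
    have hQn : Q.Normal := H1.Cores.pCore_normal p
    have hQP : Q ≤ (P : Subgroup L) := H1.Cores.pCore_le_sylow P
    have hQp : IsPGroup p Q := H1.Cores.isPGroup_pCore p
    obtain ⟨a₀, ha₀P, ha₀Q, ha₀q⟩ := hq L P hWn
    obtain ⟨a, ha, haQ, hapQ⟩ := exists_pow P.2 ha₀P ha₀Q
    have haP : a ∈ (P : Subgroup L) := (zpowers_le.2 ha₀P) ha
    set V := (center ↥Q).map Q.subtype with hV
    have hVn : V.Normal := by
      rw [hV]
      infer_instance
    have haq : ⁅⁅V, zpowers a⁆, zpowers a⁆ = ⊥ := by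
      rw [eq_bot_iff, ← ha₀q]
      have : zpowers a ≤ zpowers a₀ := zpowers_le.2 ha
      exact commutator_mono (commutator_mono le_rfl this) this
    have hVc : ∀ x ∈ V, ∀ y ∈ Q, x * y = y * x := by
      rintro _ ⟨x, hx, rfl⟩ z hz
      exact congrArg Subtype.val ((mem_center_iff.1 hx ⟨z, hz⟩).symm)
    have hVQ : V ≤ Q := map_subtype_le _
    have hVab : ∀ x ∈ V, ∀ y ∈ V, x * y = y * x := fun x hx z hz => hVc x hx z (hVQ hz)
    have hyV : y ∈ V := by
      have hyQ : y ∈ Q := by
        apply hc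
        rw [mem_centralizer_iff]
        intro z hz
        exact (mem_centralizer_iff.1 hy.2) z (hQP hz)
      refine ⟨⟨y, hyQ⟩, ?_, rfl⟩
      rw [SetLike.mem_coe, mem_center_iff]
      intro z
      exact Subtype.ext ((mem_centralizer_iff.1 hy.2) z (hQP z.2))
    -- the kernel on the `p`-th powers
    set K : Subgroup L := centralizer {x : L | ∃ v ∈ V, x = v ^ p} with hK
    have hKn : K.Normal := by
      refine ⟨fun k hk l => ?_⟩
      rw [hK, mem_centralizer_iff] at hk ⊢
      rintro _ ⟨v, hv, rfl⟩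
      have h1 := hk ((l⁻¹ * v * l) ^ p) ⟨_, by simpa using hVn.conj_mem v hv l⁻¹, rfl⟩
      have h2 : (l⁻¹ * v * l) ^ p = l⁻¹ * v ^ p * l := by
        have := _root_.conj_pow (i := p) (a := l⁻¹) (b := v)
        rw [inv_inv] at this
        exact this
      rw [h2] at h1
      calc v ^ p * (l * k * l⁻¹) = l * ((l⁻¹ * v ^ p * l) * k) * l⁻¹ := by group
        _ = l * (k * (l⁻¹ * v ^ p * l)) * l⁻¹ := by rw [h1]
        _ = l * k * l⁻¹ * v ^ p := by group
    have hQK : Q ≤ K := by
      intro x hx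
      rw [hK, mem_centralizer_iff]
      rintro _ ⟨v, hv, rfl⟩
      have h1 := hVc v hv x hx
      exact (show Commute v x from h1).pow_left p
    have haK : a ∈ K := by
      rw [hK, mem_centralizer_iff]
      rintro _ ⟨v, hv, rfl⟩
      have h1 := centralizes_pow (p := p) hVab (fun v hv => hVn.conj_mem v hv a) haq (fun v hv => by
        have := hVc v hv _ hapQ
        rw [← this, mul_inv_cancel_right]) hv
      exact (mul_inv_eq_iff_eq_mul.1 h1).symm
    set T := (P : Subgroup L) ⊓ K with hT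
    have hTp : IsPGroup p T := P.2.to_le inf_le_left
    set M := normalizer (T : Set L) with hM
    have hMtop : M ≠ ⊤ := by
      intro h
      have hTn : T.Normal := normalizer_eq_top_iff.1 h
      have := H1.Cores.le_pCore hTn hTp
      exact haQ (this ⟨haP, haK⟩)
    have hPM : (P : Subgroup L) ≤ M := by
      intro x hx
      rw [hM, mem_normalizer_iff]
      intro t
      constructor
      · intro ht
        exact ⟨(P : Subgroup L).mul_mem ((P : Subgroup L).mul_mem hx ht.1) ((P : Subgroup L).inv_mem hx), hKn.conj_mem t ht.2 x⟩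
      · intro ht
        have h1 : t = x⁻¹ * (x * t * x⁻¹) * x⁻¹⁻¹ := by group
        rw [h1]
        exact ⟨(P : Subgroup L).mul_mem ((P : Subgroup L).mul_mem ((P : Subgroup L).inv_mem hx) ht.1)
          ((P : Subgroup L).inv_mem ((P : Subgroup L).inv_mem hx)), hKn.conj_mem _ ht.2 x⁻¹⟩
    have hcard : Nat.card M < Nat.card L := by
      refine lt_of_le_of_ne (Nat.card_le_card_of_injective _ M.subtype_injective) fun he => hMtop ?_
      exact Subgroup.eq_top_of_card_eq M he
    let P' : Sylow p M := P.subtype hPM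
    have hP'map : (P' : Subgroup M).map M.subtype = (P : Subgroup L) := by
      show ((P : Subgroup L).subgroupOf M).map M.subtype = _
      rw [subgroupOf_map_subtype, inf_eq_left.2 hPM]
    have hQM : Q ≤ M := hQP.trans hPM
    have hQcore : Q.subgroupOf M ≤ pCore p M := by
      apply H1.Cores.le_pCore
      · infer_instance
      · exact hQp.comap_of_injective _ M.subtype_injective
    have hcM : centralizer (pCore p M : Set M) ≤ pCore p M := by
      intro x hx
      apply hQcore
      rw [mem_subgroupOf]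
      apply hc
      rw [mem_centralizer_iff]
      intro z hz
      exact congrArg Subtype.val ((mem_centralizer_iff.1 hx) ⟨z, hQM hz⟩ (hQcore (mem_subgroupOf.2 hz)))
    have hyM : y ∈ M := hPM hy.1
    have hsub : (sub W (P' : Subgroup M)).map M.subtype = sub W (P : Subgroup L) := by
      rw [sub, map_map]
      rw [sub_map hW P'.2 (ι := M.subtype.comp (P' : Subgroup M).subtype)
        (M.subtype_injective.comp (P' : Subgroup M).subtype_injective)]
      congr 1
      rw [MonoidHom.range_comp, range_subtype, hP'map]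
    have hM' : ∀ m ∈ M, m * y ^ p * m⁻¹ = y ^ p := by
      intro m hm
      have h1 := ih M P' (by omega) hcM ⟨y, hyM⟩ ⟨hy.1, by
        refine mem_centralizer_iff.2 ?_
        intro z hz
        exact Subtype.ext ((mem_centralizer_iff.1 hy.2) z hz)⟩ (fun n hn => by
          apply Subtype.ext
          apply hyn
          rw [← hsub]
          exact le_normalizer_map M.subtype ⟨n, hn, rfl⟩) ⟨m, hm⟩
      exact congrArg Subtype.val h1
    obtain ⟨c, hcK, m, hm, rfl⟩ := H13.SylowN.frattini_mem P K g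
    have h1 := hM' m hm
    have h2 : c * y ^ p * c⁻¹ = y ^ p := by
      rw [hK, mem_centralizer_iff] at hcK
      have := hcK (y ^ p) ⟨y, hyV, rfl⟩
      rw [← this, mul_inv_cancel_right]
    calc c * m * y ^ p * (c * m)⁻¹ = c * (m * y ^ p * m⁻¹) * c⁻¹ := by group
      _ = y ^ p := by rw [h1, h2]

end H14.QuadP
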