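import Mathlib.RingTheory.SimpleModule.Basic
import Mathlib.LinearAlgebra.Dual.Lemmas
import Mathlib.LinearAlgebra.FiniteDimensional.Basic
import Mathlib.Algebra.Module.ZMod
import Mathlib.Tactic

/-!
Idempotents of a finite ring selecting one simple module, and a counting inequality for subgroups of
homomorphisms stable under right multiplication.
-/

set_option autoImplicit false

universe u

namespace H14.SFAlg

section Idem

variable {A : Type u} [Ring A] [Finite A]

theorem finite_of_simple (F : Type u) [AddCommGroup F] [Module A F] [IsSimpleModule A F] :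
    Finite F := by
  obtain ⟨I, -, ⟨e⟩⟩ := (isSimpleModule_iff_quot_maximal (R := A) (M := F)).1 ‹_›
  haveI : Finite (A ⧸ I) := Finite.of_surjective _ (Submodule.mkQ_surjective I)
  exact Finite.of_equiv _ e.symm.toEquiv

/-- separating two non-isomorphic simple modules -/
theorem exists_sep (E F : Type u) [AddCommGroup E] [Module A E] [IsSimpleModule A E]
    [AddCommGroup F] [Module A F] [IsSimpleModule A F] (hEF : ¬ Nonempty (E ≃ₗ[A] F)) :
    ∃ x : A, (∀ y : E, x • y = y) ∧ ∀ y : F, x • y = 0 := by
  classical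
  haveI : Finite E := finite_of_simple (A := A) E
  haveI : Finite F := finite_of_simple (A := A) F
  haveI : Fintype (E × F) := Fintype.ofFinite _
  haveI : IsSemisimpleModule A (E × F) := by
    have h1 : IsSemisimpleModule A (LinearMap.range (LinearMap.inl A E F)) := .range _
    have h2 : IsSemisimpleModule A (LinearMap.range (LinearMap.inr A E F)) := .range _
    have h3 := IsSemisimpleModule.sup h1 h2
    rw [LinearMap.sup_range_inl_inr] at h3
    exact .congr Submodule.topEquiv.symm
  have hz1 : ∀ f : E →ₗ[A] F, f = 0 := by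
    intro f
    rcases LinearMap.bijective_or_eq_zero f with h | h
    · exact absurd ⟨LinearEquiv.ofBijective f h⟩ hEF
    · exact h
  have hz2 : ∀ f : F →ₗ[A] E, f = 0 := by
    intro f
    rcases LinearMap.bijective_or_eq_zero f with h | h
    · exact absurd ⟨(LinearEquiv.ofBijective f h).symm⟩ hEF
    · exact h
  let p : Module.End (Module.End A (E × F)) (E × F) :=
    { toFun := fun m => (m.1, 0)
      map_add' := by intro a b; simp
      map_smul' := by
        intro φ m
        have e1 : φ m = φ (m.1, 0) + φ (0, m.2) := by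
          rw [← map_add]; simp
        have e2 : (φ (m.1, 0)).2 = 0 := by
          have := congrArg (fun f => f m.1)
            (hz1 ((LinearMap.snd A E F).comp (φ.comp (LinearMap.inl A E F))))
          simpa using this
        have e3 : (φ (0, m.2)).1 = 0 := by
          have := congrArg (fun f => f m.2)
            (hz2 ((LinearMap.fst A E F).comp (φ.comp (LinearMap.inr A E F))))
          simpa using this
        change ((φ m).1, (0 : F)) = φ (m.1, 0)
        rw [e1]
        ext
        · simp [e3]
        · simp [e2] }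
  obtain ⟨x, hx⟩ := jacobson_density p (Finset.univ : Finset (E × F))
  refine ⟨x, fun y => ?_, fun y => ?_⟩
  · have := congrArg Prod.fst (hx (y, 0) (Finset.mem_univ _))
    change y = x • y at this
    exact this.symm
  · have := congrArg Prod.snd (hx (0, y) (Finset.mem_univ _))
    change 0 = x • y at this
    exact this.symm

theorem exists_idem_pow {M : Type*} [Monoid M] [Finite M] (x : M) :
    ∃ n, 0 < n ∧ x ^ n * x ^ n = x ^ n := by
  obtain ⟨a, b, hne, hab⟩ := Finite.exists_ne_map_eq_of_infinite (fun n : ℕ => x ^ n)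
  wlog hlt : a < b generalizing a b with H
  · exact H b a hne.symm hab.symm (lt_of_le_of_ne (not_lt.1 hlt) hne.symm)
  obtain ⟨d, rfl⟩ := Nat.exists_eq_add_of_lt hlt
  set c := d + 1 with hc
  have hab' : x ^ a = x ^ (a + c) := hab
  have h1 : ∀ m, a ≤ m → x ^ (m + c) = x ^ m := by
    intro m hm
    obtain ⟨t, rfl⟩ := Nat.exists_eq_add_of_le hm
    calc x ^ (a + t + c) = x ^ (a + c) * x ^ t := by rw [← pow_add]; congr 1; ring
      _ = x ^ a * x ^ t := by rw [← hab']
      _ = x ^ (a + t) := by rw [← pow_add]
  have h2 : ∀ m, a ≤ m → ∀ k, x ^ (m + k * c) = x ^ m := by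
    intro m hm k
    induction k with
    | zero => simp
    | succ k ih =>
      rw [show m + (k + 1) * c = (m + k * c) + c by ring, h1 _ (by nlinarith), ih]
  refine ⟨(a + 1) * c, by positivity, ?_⟩
  rw [← pow_add]
  exact h2 _ (by nlinarith [Nat.succ_pos d]) _

/-- `e` is an idempotent acting as the identity on `E`, and as zero on the other simple modules. -/
structure Sel (E : Type u) [AddCommGroup E] [Module A E] (e : A) : Prop where
  idem : e * e = e
  one : ∀ y : E, e • y = y
  zero : ∀ (F : Type u) [AddCommGroup F] [Module A F] [IsSimpleModule A F],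
    ¬ Nonempty (E ≃ₗ[A] F) → ∀ y : F, e • y = 0

theorem exists_sel (E : Type u) [AddCommGroup E] [Module A E] [IsSimpleModule A E] :
    ∃ e : A, Sel E e := by
  classical
  -- a list of left ideals
  have key : ∀ s : Finset (Ideal A), ∃ x : A, (∀ y : E, x • y = y) ∧
      ∀ I ∈ s, I.IsMaximal → ¬ Nonempty (E ≃ₗ[A] (A ⧸ I)) → ∀ y : A ⧸ I, x • y = 0 := by
    intro s
    induction s using Finset.induction_on with
    | empty => exact ⟨1, fun y => one_smul _ _, by simp⟩
    | insert I s hI ih =>
      obtain ⟨x, hx1, hx2⟩ := ih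
      by_cases hm : I.IsMaximal ∧ ¬ Nonempty (E ≃ₗ[A] (A ⧸ I))
      · haveI : IsSimpleModule A (A ⧸ I) :=
          isSimpleModule_iff_quot_maximal.2 ⟨I, hm.1, ⟨LinearEquiv.refl _ _⟩⟩
        obtain ⟨z, hz1, hz2⟩ := exists_sep (A := A) E (A ⧸ I) hm.2
        refine ⟨z * x, fun y => by rw [mul_smul, hx1, hz1], ?_⟩
        intro J hJ hJm hJn y
        rcases Finset.mem_insert.1 hJ with h | h
        · subst h; rw [mul_smul, hz2]
        · rw [mul_smul, hx2 J h hJm hJn, smul_zero]
      · refine ⟨x, hx1, ?_⟩
        intro J hJ hJm hJn y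
        rcases Finset.mem_insert.1 hJ with h | h
        · subst h; exact absurd ⟨hJm, hJn⟩ hm
        · exact hx2 J h hJm hJn y
  haveI : Finite (Ideal A) := Finite.of_injective (fun I : Ideal A => (I : Set A)) SetLike.coe_injective
  haveI : Fintype (Ideal A) := Fintype.ofFinite _
  obtain ⟨x, hx1, hx2⟩ := key Finset.univ
  obtain ⟨n, hn, hidem⟩ := exists_idem_pow x
  refine ⟨x ^ n, hidem, ?_, ?_⟩
  · intro y
    clear hn hidem
    induction n with
    | zero => simp
    | succ n ih => rw [pow_succ, mul_smul, hx1, ih]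
  · intro F _ _ _ hEF y
    obtain ⟨I, hI, ⟨f⟩⟩ := (isSimpleModule_iff_quot_maximal (R := A) (M := F)).1 ‹_›
    have h0 : ∀ y : F, x • y = 0 := by
      intro y
      apply f.injective
      rw [map_smul, map_zero]
      exact hx2 I (Finset.mem_univ _) hI (fun ⟨g⟩ => hEF ⟨g.trans f.symm⟩) _
    obtain ⟨m, rfl⟩ := Nat.exists_eq_succ_of_ne_zero hn.ne'
    rw [pow_succ, mul_smul, h0, smul_zero]

/-- The fixed points of `e`. -/
def fx {A : Type*} [Ring A] (X : Type*) [AddCommGroup X] [Module A X] (e : A) : AddSubgroup X where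
  carrier := {x | e • x = x}
  zero_mem' := smul_zero e
  add_mem' := by
    intro a b ha hb
    change e • (a + b) = a + b
    rw [smul_add, show e • a = a from ha, show e • b = b from hb]
  neg_mem' := by
    intro a ha
    change e • (-a) = -a
    rw [smul_neg, show e • a = a from ha]

theorem mem_fx {A : Type*} [Ring A] {X : Type*} [AddCommGroup X] [Module A X] {e : A} {x : X} :
    x ∈ fx X e ↔ e • x = x := Iff.rfl

/-- `fx X e` and `fx X (1 - e)` multiply up. -/
theorem card_fx_mul {A : Type*} [Ring A] {X : Type*} [AddCommGroup X] [Module A X] {e : A}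
    (he : e * e = e) : Nat.card (fx X e) * Nat.card (fx X (1 - e)) = Nat.card X := by
  rw [← Nat.card_prod]
  refine Nat.card_congr
    { toFun := fun p => (p.1 : X) + p.2
      invFun := fun x => (⟨e • x, by rw [mem_fx, smul_smul, he]⟩,
        ⟨(1 - e) • x, by
          rw [mem_fx, smul_smul]
          congr 1
          have : (1 - e) * (1 - e) = 1 - e - e + e * e := by noncomm_ring
          rw [this, he]; abel⟩)
      left_inv := ?_
      right_inv := ?_ }
  · rintro ⟨⟨a, ha⟩, ⟨b, hb⟩⟩
    rw [mem_fx] at ha hb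
    have hb' : e • b = 0 := by
      rw [← hb, smul_smul, mul_sub, he]; simp
    have ha' : (1 - e) • a = 0 := by rw [sub_smul, ha]; simp
    ext
    · change e • (a + b) = a
      rw [smul_add, ha, hb', add_zero]
    · change (1 - e) • (a + b) = b
      rw [smul_add, ha', hb, zero_add]
  · intro x
    change e • x + (1 - e) • x = x
    rw [← add_smul]; simp

theorem card_fx_quot {A : Type*} [Ring A] {X : Type*} [AddCommGroup X] [Module A X] {e : A}
    (he : e * e = e) (F : Submodule A X) :
    Nat.card (fx X e) = Nat.card (fx (X ⧸ F) e) * Nat.card (fx F e) := by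
  let f : fx X e →+ fx (X ⧸ F) e :=
    { toFun := fun x => ⟨F.mkQ x.1, by
        rw [mem_fx, ← map_smul, mem_fx.1 x.2]⟩
      map_zero' := by ext; simp
      map_add' := by intro a b; ext; simp }
  have hs : Function.Surjective f := by
    rintro ⟨y, hy⟩
    obtain ⟨x, rfl⟩ := Submodule.mkQ_surjective F y
    refine ⟨⟨e • x, by rw [mem_fx, smul_smul, he]⟩, ?_⟩
    ext
    change F.mkQ (e • x) = F.mkQ x
    rw [map_smul]; exact hy
  have h1 := AddSubgroup.card_eq_card_quotient_mul_card_addSubgroup f.ker
  rw [h1]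
  congr 1
  · exact Nat.card_congr (QuotientAddGroup.quotientKerEquivOfSurjective f hs).toEquiv
  · refine Nat.card_congr
      { toFun := fun x => ⟨⟨x.1.1, ?_⟩, ?_⟩
        invFun := fun x => ⟨⟨x.1.1, ?_⟩, ?_⟩
        left_inv := ?_
        right_inv := ?_ }
    · have := congrArg Subtype.val (AddMonoidHom.mem_ker.1 x.2)
      change F.mkQ _ = 0 at this
      rwa [Submodule.mkQ_apply, Submodule.Quotient.mk_eq_zero] at this
    · rw [mem_fx]; ext
      exact mem_fx.1 x.1.2
    · rw [mem_fx]
      exact congrArg Subtype.val (mem_fx.1 x.2)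
    · rw [AddMonoidHom.mem_ker]; ext
      change F.mkQ _ = 0
      rw [Submodule.mkQ_apply, Submodule.Quotient.mk_eq_zero]
      exact x.1.2
    · intro x; rfl
    · intro x; rfl

theorem card_fx_pow {E : Type u} [AddCommGroup E] [Module A E] [IsSimpleModule A E] {e : A}
    (h : Sel E e) (X : Type u) [AddCommGroup X] [Module A X] [Finite X] :
    ∃ m, Nat.card (fx X e) = Nat.card E ^ m := by
  classical
  obtain ⟨n, hn⟩ : ∃ n, Nat.card X = n := ⟨_, rfl⟩
  induction n using Nat.strong_induction_on generalizing X with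
  | _ n ih =>
    by_cases hX : Subsingleton X
    · refine ⟨0, ?_⟩
      rw [pow_zero]
      exact Nat.card_of_subsingleton (0 : fx X e)
    · haveI : Nontrivial X := not_subsingleton_iff_nontrivial.1 hX
      haveI : Finite (Submodule A X) :=
        Finite.of_injective (fun I : Submodule A X => (I : Set X)) SetLike.coe_injective
      obtain ⟨F, hF⟩ := IsAtomic.exists_atom (Submodule A X)
      haveI : Finite (X ⧸ F) := Finite.of_surjective _ (Submodule.mkQ_surjective F)
      haveI : IsSimpleModule A F := isSimpleModule_iff_isAtom.2 hF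
      have hlt : Nat.card (X ⧸ F) < n := by
        have h1 := Submodule.card_eq_card_quotient_mul_card F
        have h2 : 1 < Nat.card F := by
          haveI := IsSimpleModule.nontrivial A F
          exact Finite.one_lt_card
        have h3 : 0 < Nat.card (X ⧸ F) := Nat.card_pos
        rw [← hn, h1]
        nlinarith
      obtain ⟨m, hm⟩ := ih _ hlt (X ⧸ F) rfl
      rw [card_fx_quot h.idem F, hm]
      by_cases hEF : Nonempty (E ≃ₗ[A] F)
      · obtain ⟨f⟩ := hEF
        refine ⟨m + 1, ?_⟩
        rw [pow_succ]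
        congr 1
        have : fx F e = ⊤ := by
          rw [eq_top_iff]
          intro x _
          rw [mem_fx]
          obtain ⟨y, rfl⟩ := f.surjective x
          rw [← map_smul, h.one]
        rw [this, Nat.card_congr f.toEquiv]
        exact Nat.card_congr (AddSubgroup.topEquiv).toEquiv
      · refine ⟨m, ?_⟩
        have : fx F e = ⊥ := by
          rw [eq_bot_iff]
          intro x hx
          rw [mem_fx, h.zero F hEF] at hx
          exact hx.symm
        rw [this]
        simp

end Idem

section Dual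

theorem card_dual (N : Type u) [AddCommGroup N] [Finite N] (h2 : ∀ x : N, x + x = 0) :
    Nat.card (N →+ ZMod 2) = Nat.card N := by
  letI : Module (ZMod 2) N := AddCommGroup.zmodModule (n := 2) (fun x => by rw [two_nsmul, h2])
  have e1 : (N →+ ZMod 2) ≃ (N →ₗ[ZMod 2] ZMod 2) :=
    { toFun := fun f => f.toZModLinearMap 2
      invFun := fun f => f.toAddMonoidHom
      left_inv := fun f => by ext; rfl
      right_inv := fun f => by ext; rfl }
  rw [Nat.card_congr e1]
  haveI : Module.Finite (ZMod 2) N := Module.Finite.of_finite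
  change Nat.card (Module.Dual (ZMod 2) N) = _
  haveI : Finite (Module.Dual (ZMod 2) N) := Finite.of_injective (fun f => (f : N → ZMod 2)) DFunLike.coe_injective
  rw [Module.natCard_eq_pow_finrank (K := ZMod 2), Module.natCard_eq_pow_finrank (K := ZMod 2) (V := N),
    Subspace.dual_finrank_eq]

/-- The fixed points of an endomorphism. -/
def fxe {N : Type*} [AddCommGroup N] (p : N →+ N) : AddSubgroup N where
  carrier := {x | p x = x}
  zero_mem' := map_zero p
  add_mem' := by
    intro a b ha hb
    change p (a + b) = a + b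
    rw [map_add, show p a = a from ha, show p b = b from hb]
  neg_mem' := by
    intro a ha
    change p (-a) = -a
    rw [map_neg, show p a = a from ha]

theorem mem_fxe {N : Type*} [AddCommGroup N] {p : N →+ N} {x : N} : x ∈ fxe p ↔ p x = x := Iff.rfl

theorem card_fx_dual (N : Type u) [AddCommGroup N] [Finite N] (h2 : ∀ x : N, x + x = 0)
    (p : N →+ N) (hp : ∀ x, p (p x) = p x) :
    Nat.card {φ : N →+ ZMod 2 // φ.comp p = φ} = Nat.card (fxe p) := by
  rw [← card_dual (fxe p) (fun x => by ext; exact h2 x.1)]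
  refine Nat.card_congr
    { toFun := fun φ => φ.1.comp (fxe p).subtype
      invFun := fun ψ => ⟨ψ.comp (p.codRestrict (fxe p) hp), ?_⟩
      left_inv := ?_
      right_inv := ?_ }
  · ext x
    simp only [AddMonoidHom.comp_apply]
    congr 1
    ext
    exact hp x
  · rintro ⟨φ, hφ⟩
    ext x
    change φ (p x) = φ x
    exact DFunLike.congr_fun hφ x
  · intro ψ
    ext x
    change ψ _ = ψ x
    congr 1
    ext
    exact x.2

variable {A : Type u} [Ring A] [Finite A]

/-- a right action makes the dual a left module -/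
@[reducible] def dualModule {N : Type u} [AddCommGroup N] (rm : A → N →+ N)
    (h1 : ∀ x, rm 1 x = x) (hm : ∀ a b x, rm (a * b) x = rm b (rm a x))
    (ha : ∀ a b x, rm (a + b) x = rm a x + rm b x) : Module A (N →+ ZMod 2) where
  smul a φ := φ.comp (rm a)
  one_smul φ := by
    ext x; change φ (rm 1 x) = φ x; rw [h1]
  mul_smul a b φ := by
    ext x; change φ (rm (a * b) x) = φ (rm b (rm a x)); rw [hm]
  smul_zero a := by ext x; rfl
  smul_add a φ ψ := by ext x; rfl
  add_smul a b φ := by
    ext x; change φ (rm (a + b) x) = φ (rm a x) + φ (rm b x); rw [ha, map_add]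
  zero_smul φ := by
    ext x; change φ (rm 0 x) = 0
    have : rm 0 x = 0 := by
      have := ha 0 0 x
      rw [add_zero] at this
      exact left_eq_add.1 this
    rw [this, map_zero]

theorem card_right_pow {E : Type u} [AddCommGroup E] [Module A E] [IsSimpleModule A E] {e : A}
    (h : Sel E e) {N : Type u} [AddCommGroup N] [Finite N] (h2 : ∀ x : N, x + x = 0)
    (rm : A → N →+ N)
    (h1 : ∀ x, rm 1 x = x) (hm : ∀ a b x, rm (a * b) x = rm b (rm a x))
    (ha : ∀ a b x, rm (a + b) x = rm a x + rm b x) :
    ∃ m, Nat.card (fxe (rm e)) = Nat.card E ^ m := by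
  letI := dualModule rm h1 hm ha
  haveI : Finite (N →+ ZMod 2) := Finite.of_injective (fun f => (f : N → ZMod 2)) DFunLike.coe_injective
  obtain ⟨m, hm'⟩ := card_fx_pow h (N →+ ZMod 2)
  refine ⟨m, ?_⟩
  rw [← hm', ← card_fx_dual N h2 (rm e) (fun x => by rw [← hm, h.idem])]
  exact Nat.card_congr (Equiv.refl _)

end Dual

section Main

variable {A : Type u} [Ring A] [Finite A] {M P : Type u} [AddCommGroup M] [Module A M] [Finite M]
  [AddCommGroup P] [Finite P]

/-- common kernel -/
def ann (Z : AddSubgroup (M →+ P)) : AddSubgroup M where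
  carrier := {m | ∀ z ∈ Z, z m = 0}
  zero_mem' := fun z _ => map_zero z
  add_mem' := fun ha hb z hz => by rw [map_add, ha z hz, hb z hz, add_zero]
  neg_mem' := fun ha z hz => by rw [map_neg, ha z hz, neg_zero]

theorem mem_ann {Z : AddSubgroup (M →+ P)} {m : M} : m ∈ ann Z ↔ ∀ z ∈ Z, z m = 0 := Iff.rfl

/-- the right multiplication -/
def rmul (BB : AddSubgroup (M →+ P))
    (hst : ∀ z ∈ BB, ∀ a : A, z.comp (DistribSMul.toAddMonoidHom M a) ∈ BB) (a : A) : BB →+ BB where
  toFun z := ⟨z.1.comp (DistribSMul.toAddMonoidHom M a), hst _ z.2 a⟩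
  map_zero' := by ext; rfl
  map_add' x y := by ext; rfl

/-- **Lemma P.** -/
theorem lemmaP (BB : AddSubgroup (M →+ P)) (hP : ∀ x : P, x + x = 0)
    (hst : ∀ z ∈ BB, ∀ a : A, z.comp (DistribSMul.toAddMonoidHom M a) ∈ BB)
    (N : Submodule A M) (hN : ∀ z ∈ BB, ∀ m ∈ N, z m = 0)
    (hoff : ∀ Z : AddSubgroup (M →+ P), Z ≤ BB → Z ≠ ⊥ → Nat.card Z * Nat.card (ann Z) < Nat.card M)
    (E : Type u) [AddCommGroup E] [Module A E] [IsSimpleModule A E]
    (hE : ∀ e : A, Sel E e → ∃ m : M, e • m ∉ N) :
    Nat.card E * Nat.card BB * Nat.card N ≤ Nat.card M := by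
  classical
  haveI : Finite (M →+ P) := Finite.of_injective (fun f => (f : M → P)) DFunLike.coe_injective
  haveI : Finite E := finite_of_simple (A := A) E
  haveI : Nontrivial E := IsSimpleModule.nontrivial A E
  haveI : Finite (M ⧸ N) := Finite.of_surjective _ (Submodule.mkQ_surjective N)
  obtain ⟨e, he⟩ := exists_sel (A := A) E
  set rm := rmul BB hst with hrm
  have rm1 : ∀ x, rm 1 x = x := by
    intro x; ext m; change x.1 ((1 : A) • m) = x.1 m; rw [one_smul]
  have rmm : ∀ a b x, rm (a * b) x = rm b (rm a x) := by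
    intro a b x; ext m; change x.1 ((a * b) • m) = x.1 (a • b • m); rw [mul_smul]
  have rma : ∀ a b x, rm (a + b) x = rm a x + rm b x := by
    intro a b x; ext m; change x.1 ((a + b) • m) = x.1 (a • m) + x.1 (b • m); rw [add_smul, map_add]
  -- product formula on the right
  have hB : Nat.card (fxe (rm e)) * Nat.card (fxe (rm (1 - e))) = Nat.card BB := by
    have r0 : ∀ x, rm 0 x = 0 := by
      intro x; ext m; change x.1 ((0 : A) • m) = 0; rw [zero_smul, map_zero]
    have e1 : e * (1 - e) = 0 := by rw [mul_sub, he.idem]; simp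
    have e2 : (1 - e) * e = 0 := by rw [sub_mul, he.idem]; simp
    have e3 : (1 - e) * (1 - e) = 1 - e := by rw [sub_mul, one_mul, e1, sub_zero]
    rw [← Nat.card_prod]
    refine Nat.card_congr
      { toFun := fun p => (p.1 : BB) + p.2
        invFun := fun x => (⟨rm e x, by rw [mem_fxe, ← rmm, he.idem]⟩,
          ⟨rm (1 - e) x, by rw [mem_fxe, ← rmm, e3]⟩)
        left_inv := ?_
        right_inv := ?_ }
    · rintro ⟨⟨a, ha⟩, ⟨b, hb⟩⟩
      rw [mem_fxe] at ha hb
      have hb' : rm e b = 0 := by
        rw [← hb, ← rmm, e2, r0]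
      have ha' : rm (1 - e) a = 0 := by
        rw [← ha, ← rmm, e1, r0]
      apply Prod.ext
      · apply Subtype.ext
        change rm e (a + b) = a
        rw [map_add, ha, hb', add_zero]
      · apply Subtype.ext
        change rm (1 - e) (a + b) = b
        rw [map_add, ha', hb, zero_add]
    · intro x
      change rm e x + rm (1 - e) x = x
      rw [← rma, add_sub_cancel, rm1]
  have hX := card_fx_mul (X := M ⧸ N) he.idem
  -- comparison
  have key : ∀ f : A, f * f = f →
      (fxe (rm f) ≠ ⊥ → Nat.card (fxe (rm f)) < Nat.card (fx (M ⧸ N) f)) := by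
    intro f hf hne
    set Z : AddSubgroup (M →+ P) := (fxe (rm f)).map BB.subtype with hZ
    have hcZ : Nat.card Z = Nat.card (fxe (rm f)) :=
      Nat.card_congr ((AddSubgroup.equivMapOfInjective _ _ BB.subtype_injective).symm.toEquiv)
    have hZB : Z ≤ BB := by
      rw [hZ]; rintro z ⟨y, -, rfl⟩; exact y.2
    have hZne : Z ≠ ⊥ := by
      intro h0
      apply hne
      rw [hZ] at h0
      exact (AddSubgroup.map_eq_bot_iff_of_injective _ BB.subtype_injective).1 h0
    have h1 := hoff Z hZB hZne
    rw [hcZ] at h1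
    let g : M →+ fx (M ⧸ N) f :=
      { toFun := fun m => ⟨f • N.mkQ m, by rw [mem_fx, smul_smul, hf]⟩
        map_zero' := by ext; simp
        map_add' := by intro a b; ext; simp }
    have hg : Function.Surjective g := by
      rintro ⟨y, hy⟩
      obtain ⟨x, rfl⟩ := Submodule.mkQ_surjective N y
      exact ⟨x, Subtype.ext hy⟩
    have h2 := AddSubgroup.card_eq_card_quotient_mul_card_addSubgroup g.ker
    rw [Nat.card_congr (QuotientAddGroup.quotientKerEquivOfSurjective g hg).toEquiv] at h2
    have h3 : g.ker ≤ ann Z := by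
      intro m hm z hz
      have h4 : f • N.mkQ m = 0 := congrArg Subtype.val (AddMonoidHom.mem_ker.1 hm)
      rw [← map_smul, Submodule.mkQ_apply, Submodule.Quotient.mk_eq_zero] at h4
      rw [hZ] at hz
      obtain ⟨y, hy, rfl⟩ := hz
      have h5 : rm f y = y := hy
      have h6 := congrArg (fun w : BB => w.1 m) h5
      change y.1 (f • m) = y.1 m at h6
      change y.1 m = 0
      rw [← h6]
      exact hN _ y.2 _ h4
    have h4 : Nat.card g.ker ≤ Nat.card (ann Z) := Nat.card_le_card_of_injective _ (AddSubgroup.inclusion_injective h3)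
    have h5 : 0 < Nat.card (ann Z) := Nat.card_pos
    rw [h2] at h1
    nlinarith [Nat.mul_le_mul_left (Nat.card (fx (M ⧸ N) f)) h4]
  have key' : ∀ f : A, f * f = f → Nat.card (fxe (rm f)) ≤ Nat.card (fx (M ⧸ N) f) := by
    intro f hf
    by_cases h0 : fxe (rm f) = ⊥
    · rw [h0]
      simp only [AddSubgroup.mem_bot, Nat.card_unique]
      exact Nat.card_pos
    · exact (key f hf h0).le
  have h1E : 1 < Nat.card E := Finite.one_lt_card
  have hmain : Nat.card E * Nat.card (fxe (rm e)) ≤ Nat.card (fx (M ⧸ N) e) := by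
    obtain ⟨m, hm⟩ := card_fx_pow he (M ⧸ N)
    have hBB2 : ∀ x : BB, x + x = 0 := by
      intro x; ext m; exact hP _
    obtain ⟨n, hn⟩ := card_right_pow he hBB2 rm rm1 rmm rma
    rw [hm, hn, ← pow_succ']
    apply Nat.pow_le_pow_right h1E.le
    by_cases h0 : fxe (rm e) = ⊥
    · have hn0 : n = 0 := by
        rw [h0] at hn
        simp only [AddSubgroup.mem_bot, Nat.card_unique] at hn
        by_contra hne
        exact absurd hn (Nat.one_lt_pow hne h1E).ne
      have hm0 : m ≠ 0 := by
        intro hm0
        rw [hm0, pow_zero] at hm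
        obtain ⟨x, hx⟩ := hE e he
        apply hx
        have : Subsingleton (fx (M ⧸ N) e) := (Nat.card_eq_one_iff_unique.1 hm).1
        have h7 : (⟨e • N.mkQ x, by rw [mem_fx, smul_smul, he.idem]⟩ : fx (M ⧸ N) e) = 0 :=
          Subsingleton.elim _ _
        have h8 : e • N.mkQ x = 0 := congrArg Subtype.val h7
        rwa [← map_smul, Submodule.mkQ_apply, Submodule.Quotient.mk_eq_zero] at h8
      omega
    · have := key e he.idem h0
      rw [hm, hn] at this
      have := (Nat.pow_lt_pow_iff_right h1E).1 this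
      omega
  have e3 : (1 - e) * (1 - e) = 1 - e := by
    have : (1 - e) * (1 - e) = 1 - e - e + e * e := by noncomm_ring
    rw [this, he.idem]; abel
  have h9 := key' (1 - e) e3
  rw [Submodule.card_eq_card_quotient_mul_card N, ← hX, ← hB, mul_comm (Nat.card N)]
  calc Nat.card E * (Nat.card (fxe (rm e)) * Nat.card (fxe (rm (1 - e)))) * Nat.card N
      = (Nat.card E * Nat.card (fxe (rm e))) * Nat.card (fxe (rm (1 - e))) * Nat.card N := by ring
    _ ≤ Nat.card (fx (M ⧸ N) e) * Nat.card (fx (M ⧸ N) (1 - e)) * Nat.card N :=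
        Nat.mul_le_mul_right _ (Nat.mul_le_mul hmain h9)

end Main

end H14.SFAlg
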