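import Cfsg.Prelude.Def_LocalEven
import Cfsg.Prelude.Def_Solvable
import Mathlib.GroupTheory.Sylow
import Mathlib.GroupTheory.Commutator.Basic
import Mathlib.Tactic

/-!
The configuration reached at the end of the analysis of a minimal counterexample to the theorem that the
largest submodule without offenders is invariant (finite groups not involving the symmetric group of degree 4).
-/

set_option autoImplicit false

namespace H14.SF

open Subgroup
open scoped commutatorElement

/-- The final configuration (all subgroups live in `G`). -/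
structure Cfg (G : Type*) [Group G] (S : Sylow 2 G) (W Y R : Subgroup G) : Prop where
  Yn : Y.Normal
  Yc : ∀ a ∈ Y, ∀ b ∈ Y, a * b = b * a
  Ye : ∀ a ∈ Y, a * a = 1
  WY : W ≤ Y
  SW : (S : Subgroup G) ≤ normalizer (W : Set G)
  gen : ∀ N : Subgroup G, N.Normal → W ≤ N → Y ≤ N
  RS : R ≤ (S : Subgroup G)
  uniq : ∀ X : Subgroup G, Cfsg.pCore 2 G ≤ X → R ≤ X → X ≠ ⊤ → X ≤ normalizer (W : Set G)
  ne : normalizer (W : Set G) ≠ ⊤
  quad : ∀ y ∈ Y, ∀ r ∈ R, ∀ s ∈ R, ⁅⁅y, r⁆, s⁆ = 1
  off : Cfsg.IsFFOffenderOn 2 Y R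
  RW : R ≤ centralizer (W : Set G)
  noOff : ∀ B : Subgroup G, B ≤ Cfsg.pCore 2 G → ¬ Cfsg.IsFFOffenderOn 2 Y B
  core : ∀ N : Subgroup G, N.Normal → N ≤ normalizer (W : Set G) →
    (S : Subgroup G) ⊓ N ≤ Cfsg.pCore 2 G

end H14.SF
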