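import Cfsg.Agent.Lib.H51.S4Section3

/-!
A criterion for the symmetric group of degree 4 to be involved: two elements acting as transpositions on a section
of order four of an elementary abelian `2`-subgroup.
-/

set_option autoImplicit false

namespace H14.SFS4

open Subgroup Cfsg

theorem three_cases (σ : Equiv.Perm (Fin 3)) : σ = 1 ∨ σ = Equiv.swap 0 2 ∨ σ = Equiv.swap 1 2 ∨
    σ = Equiv.swap 0 2 * Equiv.swap 1 2 ∨ σ = Equiv.swap 1 2 * Equiv.swap 0 2 ∨
    σ = Equiv.swap 0 2 * Equiv.swap 1 2 * Equiv.swap 0 2 := by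
  revert σ; decide

theorem top_of_swaps {H : Subgroup (Equiv.Perm (Fin 3))} (h1 : Equiv.swap 0 2 ∈ H)
    (h2 : Equiv.swap 1 2 ∈ H) : H = ⊤ := by
  rw [eq_top_iff]
  intro σ _
  rcases three_cases σ with h | h | h | h | h | h <;> rw [h]
  · exact one_mem _
  · exact h1
  · exact h2
  · exact mul_mem h1 h2
  · exact mul_mem h2 h1
  · exact mul_mem (mul_mem h1 h2) h1

variable {G : Type*} [Group G] [Finite G] {Y Z : Subgroup G}

theorem involves_S4_of_pair (hc : ∀ a ∈ Y, ∀ b ∈ Y, a * b = b * a) (h2 : ∀ a ∈ Y, a * a = 1)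
    (hZY : Z ≤ Y) {u w r s : G} (hu : u ∈ Y) (hw : w ∈ Y) (hu' : u ∉ Z) (hw' : w ∉ Z)
    (huw : u * w ∉ Z) (hrZ : r ∈ normalizer (Z : Set G)) (hsZ : s ∈ normalizer (Z : Set G))
    (h1 : u * w * (r * u * r⁻¹) ∈ Z) (h3 : w * (r * w * r⁻¹) ∈ Z)
    (h4 : u * (s * u * s⁻¹) ∈ Z) (h5 : u * w * (s * w * s⁻¹) ∈ Z) :
    Involves (Equiv.Perm (Fin 4)) G := by
  classical
  have hinv : ∀ a ∈ Y, a⁻¹ = a := fun a ha => inv_eq_of_mul_eq_one_left (h2 a ha)
  have huwY : u * w ∈ Y := Y.mul_mem hu hw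
  let c : Fin 3 → G := ![u, w, u * w]
  have hcY : ∀ i, c i ∈ Y := by
    intro i; fin_cases i
    · exact hu
    · exact hw
    · exact huwY
  have hcZ : ∀ i, c i ∉ Z := by
    intro i; fin_cases i
    · exact hu'
    · exact hw'
    · exact huw
  have hcinj : ∀ i j, c i * c j ∈ Z → i = j := by
    intro i j hij
    fin_cases i <;> fin_cases j
    · rfl
    · exact absurd hij huw
    · exfalso
      change u * (u * w) ∈ Z at hij
      rw [← mul_assoc, h2 u hu, one_mul] at hij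
      exact hw' hij
    · exfalso
      change w * u ∈ Z at hij
      rw [hc w hw u hu] at hij
      exact huw hij
    · rfl
    · exfalso
      change w * (u * w) ∈ Z at hij
      rw [hc u hu w hw, ← mul_assoc, h2 w hw, one_mul] at hij
      exact hu' hij
    · exfalso
      change u * w * u ∈ Z at hij
      rw [hc u hu w hw, mul_assoc, h2 u hu, mul_one] at hij
      exact hw' hij
    · exfalso
      change u * w * w ∈ Z at hij
      rw [mul_assoc, h2 w hw, mul_one] at hij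
      exact hu' hij
    · rfl
  -- the relation
  let P : G → Fin 3 → Fin 3 → Prop := fun d i j => c j * (d * c i * d⁻¹) ∈ Z
  have Pmul : ∀ d e, d ∈ normalizer (Z : Set G) → ∀ i j k, P e i j → P d j k → P (d * e) i k := by
    intro d e hd i j k h6 h7
    have h8 : d * (c j * (e * c i * e⁻¹)) * d⁻¹ ∈ Z := (mem_normalizer_iff.1 hd _).1 h6
    have h9 := Z.mul_mem h7 h8
    have : c k * (d * c j * d⁻¹) * (d * (c j * (e * c i * e⁻¹)) * d⁻¹) =
        c k * (d * (c j * c j) * (e * c i * e⁻¹) * d⁻¹) := by group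
    rw [this, h2 _ (hcY j), mul_one] at h9
    change c k * (d * e * c i * (d * e)⁻¹) ∈ Z
    have e1 : c k * (d * e * c i * (d * e)⁻¹) = c k * (d * (e * c i * e⁻¹) * d⁻¹) := by group
    rw [e1]; exact h9
  have Puniq : ∀ d i j k, P d i j → P d i k → j = k := by
    intro d i j k h6 h7
    apply hcinj
    have h8 := Z.mul_mem h6 (Z.inv_mem h7)
    have : c j * (d * c i * d⁻¹) * (c k * (d * c i * d⁻¹))⁻¹ = c j * (c k)⁻¹ := by group
    rw [this, hinv _ (hcY k)] at h8
    exact h8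
  have Pinj : ∀ d, d ∈ normalizer (Z : Set G) → ∀ i j k, P d i k → P d j k → i = j := by
    intro d hd i j k h6 h7
    apply hcinj
    have h8 := Z.mul_mem (Z.inv_mem h6) h7
    have e1 : (c k * (d * c i * d⁻¹))⁻¹ * (c k * (d * c j * d⁻¹)) = d * ((c i)⁻¹ * c j) * d⁻¹ := by group
    rw [e1, hinv _ (hcY i)] at h8
    exact (mem_normalizer_iff.1 hd _).2 h8
  have P1 : ∀ i, P 1 i i := by
    intro i
    change c i * (1 * c i * 1⁻¹) ∈ Z
    simp only [one_mul, inv_one, mul_one, h2 _ (hcY i)]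
    exact Z.one_mem
  let D : Subgroup G :=
    { carrier := {d | d ∈ normalizer (Z : Set G) ∧ ∀ i, ∃ j, P d i j}
      one_mem' := ⟨one_mem _, fun i => ⟨i, P1 i⟩⟩
      mul_mem' := by
        rintro d e ⟨hd, hd'⟩ ⟨he, he'⟩
        refine ⟨mul_mem hd he, fun i => ?_⟩
        obtain ⟨j, hj⟩ := he' i
        obtain ⟨k, hk⟩ := hd' j
        exact ⟨k, Pmul d e hd i j k hj hk⟩
      inv_mem' := by
        rintro d ⟨hd, hd'⟩
        refine ⟨inv_mem hd, fun k => ?_⟩
        choose p hp using hd'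
        have hpinj : Function.Injective p := by
          intro i j hij
          exact Pinj d hd i j (p i) (hp i) (hij ▸ hp j)
        obtain ⟨i, rfl⟩ := (Finite.injective_iff_surjective.1 hpinj) k
        refine ⟨i, ?_⟩
        change c i * (d⁻¹ * c (p i) * d⁻¹⁻¹) ∈ Z
        have h6 : d⁻¹ * (c (p i) * (d * c i * d⁻¹)) * d⁻¹⁻¹ ∈ Z :=
          (mem_normalizer_iff.1 (inv_mem hd) _).1 (hp i)
        have h7 : d⁻¹ * (c (p i) * (d * c i * d⁻¹)) * d⁻¹⁻¹ = (d⁻¹ * c (p i) * d⁻¹⁻¹) * c i := by group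
        rw [h7] at h6
        have h8 := Z.inv_mem h6
        have h9 : ((d⁻¹ * c (p i) * d⁻¹⁻¹) * c i)⁻¹ = (c i)⁻¹ * (d⁻¹ * (c (p i))⁻¹ * d⁻¹⁻¹) := by group
        rw [h9, hinv _ (hcY i), hinv _ (hcY _)] at h8
        exact h8 }
  have hDex : ∀ d : D, ∀ i, ∃ j, P d i j := fun d => d.2.2
  choose p hp using hDex
  letI act : MulAction D (Fin 3) :=
    { smul := fun d i => p d i
      one_smul := fun i => Puniq 1 i _ _ (hp 1 i) (P1 i)
      mul_smul := fun d e i => Puniq (d * e : G) i _ _ (hp (d * e) i)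
        (Pmul d e d.2.1 i _ _ (hp e i) (hp d (p e i))) }
  let g : D →* Equiv.Perm (Fin 3) := MulAction.toPermHom D (Fin 3)
  have hgP : ∀ d : D, ∀ i, P d i (g d i) := fun d i => hp d i
  -- the elements `r` and `s`
  have hr2 : r * (u * w) * r⁻¹ * u ∈ Z := by
    have h6 := Z.mul_mem h1 h3
    have e1 : u * w * (r * u * r⁻¹) * (w * (r * w * r⁻¹)) =
        u * w * ((r * u * r⁻¹) * w) * (r * w * r⁻¹) := by group
    have hru : r * u * r⁻¹ ∈ Y := by
      have := Y.mul_mem (Y.inv_mem huwY) (hZY h1)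
      rwa [inv_mul_cancel_left] at this
    have hrw : r * w * r⁻¹ ∈ Y := by
      have := Y.mul_mem (Y.inv_mem hw) (hZY h3)
      rwa [inv_mul_cancel_left] at this
    rw [e1, hc _ hru w hw] at h6
    have e2 : u * w * (w * (r * u * r⁻¹)) * (r * w * r⁻¹) =
        u * (w * w) * (r * (u * w) * r⁻¹) := by group
    rw [e2, h2 w hw, mul_one] at h6
    have hruw : r * (u * w) * r⁻¹ ∈ Y := by
      have := Y.mul_mem hru hrw
      have e3 : r * u * r⁻¹ * (r * w * r⁻¹) = r * (u * w) * r⁻¹ := by group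
      rwa [e3] at this
    rw [hc _ hruw u hu]
    exact h6
  have hs2 : s * (u * w) * s⁻¹ * w ∈ Z := by
    have h6 := Z.mul_mem h4 h5
    have hsu : s * u * s⁻¹ ∈ Y := by
      have := Y.mul_mem (Y.inv_mem hu) (hZY h4)
      rwa [inv_mul_cancel_left] at this
    have hsw : s * w * s⁻¹ ∈ Y := by
      have := Y.mul_mem (Y.inv_mem huwY) (hZY h5)
      rwa [inv_mul_cancel_left] at this
    have e1 : u * (s * u * s⁻¹) * (u * w * (s * w * s⁻¹)) =
        u * ((s * u * s⁻¹) * (u * w)) * (s * w * s⁻¹) := by group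
    rw [e1, hc _ hsu _ huwY] at h6
    have e2 : u * (u * w * (s * u * s⁻¹)) * (s * w * s⁻¹) =
        (u * u) * w * (s * (u * w) * s⁻¹) := by group
    rw [e2, h2 u hu, one_mul] at h6
    have hsuw : s * (u * w) * s⁻¹ ∈ Y := by
      have := Y.mul_mem hsu hsw
      have e3 : s * u * s⁻¹ * (s * w * s⁻¹) = s * (u * w) * s⁻¹ := by group
      rwa [e3] at this
    rw [hc _ hsuw w hw]
    exact h6
  have hr0 : P r 0 2 := h1
  have hr1 : P r 1 1 := h3
  have hr2' : P r 2 0 := by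
    change u * (r * (u * w) * r⁻¹) ∈ Z
    have hruw : r * (u * w) * r⁻¹ ∈ Y := by
      have := Y.mul_mem (hZY hr2) (Y.inv_mem hu)
      rwa [mul_inv_cancel_right] at this
    rw [hc u hu _ hruw]
    exact hr2
  have hs0 : P s 0 0 := h4
  have hs1 : P s 1 2 := h5
  have hs2' : P s 2 1 := by
    change w * (s * (u * w) * s⁻¹) ∈ Z
    have hsuw : s * (u * w) * s⁻¹ ∈ Y := by
      have := Y.mul_mem (hZY hs2) (Y.inv_mem hw)
      rwa [mul_inv_cancel_right] at this
    rw [hc w hw _ hsuw]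
    exact hs2
  have hrD : r ∈ D := ⟨hrZ, by
    intro i; fin_cases i
    · exact ⟨_, hr0⟩
    · exact ⟨_, hr1⟩
    · exact ⟨_, hr2'⟩⟩
  have hsD : s ∈ D := ⟨hsZ, by
    intro i; fin_cases i
    · exact ⟨_, hs0⟩
    · exact ⟨_, hs1⟩
    · exact ⟨_, hs2'⟩⟩
  have hgr : g ⟨r, hrD⟩ = Equiv.swap 0 2 := by
    ext i
    congr 1
    fin_cases i
    · exact Puniq _ _ _ _ (hgP ⟨r, hrD⟩ 0) hr0
    · exact Puniq _ _ _ _ (hgP ⟨r, hrD⟩ 1) hr1
    · exact Puniq _ _ _ _ (hgP ⟨r, hrD⟩ 2) hr2'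
  have hgs : g ⟨s, hsD⟩ = Equiv.swap 1 2 := by
    ext i
    congr 1
    fin_cases i
    · exact Puniq _ _ _ _ (hgP ⟨s, hsD⟩ 0) hs0
    · exact Puniq _ _ _ _ (hgP ⟨s, hsD⟩ 1) hs1
    · exact Puniq _ _ _ _ (hgP ⟨s, hsD⟩ 2) hs2'
  have hgsurj : Function.Surjective g := by
    rw [← MonoidHom.range_eq_top]
    exact top_of_swaps ⟨_, hgr⟩ ⟨_, hgs⟩
  -- the subgroup `T`
  set T : Subgroup G := Z ⊔ closure {u, w} with hT
  have hTY : T ≤ Y := by
    refine sup_le hZY ?_
    rw [closure_le]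
    rintro x (rfl | rfl)
    · exact hu
    · exact hw
  have hT2 : IsPGroup 2 T := by
    rintro ⟨a, ha⟩
    refine ⟨1, ?_⟩
    rw [pow_one, pow_two]
    exact Subtype.ext (h2 a (hTY ha))
  have huT : u ∈ T := (le_sup_right (α := Subgroup G)) (subset_closure (Or.inl rfl))
  have hwT : w ∈ T := (le_sup_right (α := Subgroup G)) (subset_closure (Or.inr rfl))
  have hcT : ∀ i, c i ∈ T := by
    intro i; fin_cases i
    · exact huT
    · exact hwT
    · exact T.mul_mem huT hwT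
  have hDT' : ∀ d ∈ D, ∀ x ∈ T, d * x * d⁻¹ ∈ T := by
    intro d hd
    have hgen : ∀ i, d * c i * d⁻¹ ∈ T := by
      intro i
      obtain ⟨j, hj⟩ := hd.2 i
      have := T.mul_mem (T.inv_mem (hcT j)) ((le_sup_left (α := Subgroup G)) hj : _ ∈ T)
      rwa [inv_mul_cancel_left] at this
    have : T ≤ T.comap (MulAut.conj d).toMonoidHom := by
      refine sup_le ?_ ?_
      · intro z hz
        exact (le_sup_left (α := Subgroup G)) ((mem_normalizer_iff.1 hd.1 z).1 hz)
      · rw [closure_le]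
        rintro x (rfl | rfl)
        · exact hgen 0
        · exact hgen 1
    intro x hx
    exact this hx
  have hDT : D ≤ normalizer (T : Set G) := by
    intro d hd
    rw [mem_normalizer_iff]
    intro x
    refine ⟨hDT' d hd x, fun hx => ?_⟩
    have := hDT' d⁻¹ (D.inv_mem hd) _ hx
    simpa [mul_assoc] using this
  refine H51.S4Section3.backward hT2 ?_
  refine H51.S4Section3.involves_of_ker_le
    ((QuotientGroup.mk' _).comp (Subgroup.inclusion hDT)) g hgsurj ?_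
  intro d hd
  rw [MonoidHom.mem_ker, MonoidHom.comp_apply, QuotientGroup.mk'_apply, QuotientGroup.eq_one_iff] at hd
  have hd' : (d : G) ∈ centralizer (T : Set G) := hd
  rw [MonoidHom.mem_ker]
  ext i
  congr 1
  refine Puniq _ _ _ _ (hgP d i) ?_
  change c i * ((d : G) * c i * (d : G)⁻¹) ∈ Z
  have h6 := (mem_centralizer_iff.1 hd') (c i) (hcT i)
  rw [← h6, mul_inv_cancel_right, h2 _ (hcY i)]
  exact Z.one_mem

end H14.SFS4
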