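import Cfsg.Agent.Lib.H14.SFMod
import Cfsg.Agent.Lib.H14.SFS4

/-!
The final configuration is impossible in a finite group not involving the symmetric group of degree 4.
-/

set_option autoImplicit false

universe u

namespace H14.SF

open Subgroup Cfsg H14.SFAlg H14.SFMod
open scoped commutatorElement

section Conj

variable {G : Type u} [Group G]

theorem map_cj {L : Type*} [Group L] (f : L →* G) (l : L) (H : Subgroup L) :
    (cj l H).map f = cj (f l) (H.map f) := by
  ext x
  constructor
  · rintro ⟨y, hy, rfl⟩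
    rw [SetLike.mem_coe, mem_cj] at hy
    rw [mem_cj]
    exact ⟨_, hy, by simp⟩
  · intro hx
    rw [mem_cj] at hx
    obtain ⟨y, hy, hyx⟩ := hx
    refine ⟨l * y * l⁻¹, conj_mem_cj hy, ?_⟩
    rw [map_mul, map_mul, map_inv, hyx]; group

/-- the commutative group structure on `Y` -/
@[reducible] def commGroup (Y : Subgroup G) (hc : ∀ a ∈ Y, ∀ b ∈ Y, a * b = b * a) : CommGroup Y :=
  { (inferInstance : Group Y) with mul_comm := fun a b => Subtype.ext (hc a a.2 b b.2) }

end Conj

namespace Cfg

variable {G : Type u} [Group G] [Finite G] {S : Sylow 2 G} {W Y R : Subgroup G}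
  (h : Cfg G S W Y R)

include h

/-- conjugates of the quadratic condition -/
theorem quad_cj {k y r s : G} (hy : y ∈ Y) (hr : r ∈ cj k R) (hs : s ∈ cj k R) :
    ⁅⁅y, r⁆, s⁆ = 1 := by
  rw [mem_cj] at hr hs
  have h1 : k⁻¹ * y * k ∈ Y := by
    have := h.Yn.conj_mem _ hy k⁻¹
    simpa using this
  have h2 := h.quad _ h1 _ hr _ hs
  have h3 : ⁅⁅y, r⁆, s⁆ = k * ⁅⁅k⁻¹ * y * k, k⁻¹ * r * k⁆, k⁻¹ * s * k⁆ * k⁻¹ := by
    simp only [commutatorElement_def]; group
  rw [h3, h2]; group

theorem comm_mem_Y {y g : G} (hy : y ∈ Y) : ⁅y, g⁆ ∈ Y := by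
  have h1 := h.Yn.conj_mem _ (inv_mem hy) g
  have := mul_mem hy h1
  have e : ⁅y, g⁆ = y * (g * y⁻¹ * g⁻¹) := by simp only [commutatorElement_def]; group
  rw [e]; exact this

theorem F1 {k : G} (hk : k ∉ normalizer (W : Set G)) (hkL : k ∈ R ⊔ cj k R) {y : G} (hy : y ∈ Y) :
    ∃ a ∈ Y, ∃ b ∈ Y, (∀ r ∈ R, r * a * r⁻¹ = a) ∧ (∀ r ∈ cj k R, r * b * r⁻¹ = b) ∧ y = a * b := by
  set T : Subgroup G := (Y ⊓ centralizer (R : Set G)) ⊔ (Y ⊓ centralizer (cj k R : Set G)) with hT
  have hcomm : ∀ a ∈ Y ⊓ centralizer (R : Set G), ∀ b ∈ Y ⊓ centralizer (cj k R : Set G),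
      a * b = b * a := fun a ha b hb => h.Yc a ha.1 b hb.1
  -- invariance
  have hTinv : ∀ A B : Subgroup G, (∀ y ∈ Y, ∀ r ∈ A, ∀ s ∈ A, ⁅⁅y, r⁆, s⁆ = 1) → ∀ r ∈ A,
      ∀ y ∈ Y ⊓ centralizer (B : Set G), r * y * r⁻¹ ∈
        (Y ⊓ centralizer (A : Set G)) ⊔ (Y ⊓ centralizer (B : Set G)) := by
    intro A B hq r hr y hy
    have e1 : r * y * r⁻¹ = y * ⁅y⁻¹, r⁆ := by
      simp only [commutatorElement_def]; group
    rw [e1]
    refine mul_mem (mem_sup_right hy) ?_
    refine mem_sup_left ⟨h.comm_mem_Y (inv_mem hy.1), mem_centralizer_iff.2 ?_⟩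
    intro s hs
    have := hq _ (inv_mem hy.1) r hr s hs
    rw [commutatorElement_eq_one_iff_mul_comm] at this
    exact this.symm
  have hsame : ∀ A : Subgroup G, ∀ r ∈ A, ∀ y ∈ Y ⊓ centralizer (A : Set G), r * y * r⁻¹ = y := by
    intro A r hr y hy
    have := mem_centralizer_iff.1 hy.2 r hr
    rw [this, mul_inv_cancel_right]
  have hRT : R ≤ normalizer (T : Set G) := by
    have : ∀ r ∈ R, ∀ x ∈ T, r * x * r⁻¹ ∈ T := by
      intro r hr
      have : T ≤ T.comap (MulAut.conj r).toMonoidHom := by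
        refine sup_le ?_ ?_
        · intro x hx
          change r * x * r⁻¹ ∈ T
          rw [hsame R r hr x hx]; exact mem_sup_left hx
        · intro x hx
          exact hTinv R (cj k R) h.quad r hr x hx
      exact fun x hx => this hx
    intro r hr
    rw [mem_normalizer_iff]
    intro x
    refine ⟨this r hr x, fun hx => ?_⟩
    have := this r⁻¹ (inv_mem hr) _ hx
    simpa [mul_assoc] using this
  have hR2T : cj k R ≤ normalizer (T : Set G) := by
    have : ∀ r ∈ cj k R, ∀ x ∈ T, r * x * r⁻¹ ∈ T := by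
      intro r hr
      have : T ≤ T.comap (MulAut.conj r).toMonoidHom := by
        refine sup_le ?_ ?_
        · intro x hx
          have := hTinv (cj k R) R (fun y hy r hr s hs => h.quad_cj hy hr hs) r hr x hx
          rw [sup_comm] at this
          exact this
        · intro x hx
          change r * x * r⁻¹ ∈ T
          rw [hsame (cj k R) r hr x hx]; exact mem_sup_right hx
      exact fun x hx => this hx
    intro r hr
    rw [mem_normalizer_iff]
    intro x
    refine ⟨this r hr x, fun hx => ?_⟩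
    have := this r⁻¹ (inv_mem hr) _ hx
    simpa [mul_assoc] using this
  have hWT : W ≤ T := by
    intro w hw
    refine mem_sup_left ⟨h.WY hw, mem_centralizer_iff.2 ?_⟩
    intro r hr
    exact ((mem_centralizer_iff.1 (h.RW hr)) w hw).symm
  have hcl : Subgroup.normalClosure (W : Set G) ≤ T := by
    rw [Subgroup.normalClosure, Subgroup.closure_le]
    intro x hx
    rw [Group.mem_conjugatesOfSet_iff] at hx
    obtain ⟨w, hw, hwx⟩ := hx
    obtain ⟨g, rfl⟩ := isConj_iff.1 hwx
    have hg : g ∈ (R ⊔ cj k R) ⊔ Cfsg.pCore 2 G := by rw [h.gen_top hk]; trivial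
    obtain ⟨l, hl, q, hq, rfl⟩ := Subgroup.mem_sup_of_normal_right.1 hg
    have h1 : q * w * q⁻¹ ∈ W := (mem_normalizer_iff.1 (h.Q_le_M hq) w).1 hw
    have h2 : l ∈ normalizer (T : Set G) := (sup_le hRT hR2T) hl
    have h3 := (mem_normalizer_iff.1 h2 _).1 (hWT h1)
    change l * q * w * (l * q)⁻¹ ∈ T
    have e : l * q * w * (l * q)⁻¹ = l * (q * w * q⁻¹) * l⁻¹ := by group
    rw [e]; exact h3
  have hyT : y ∈ T := hcl (h.gen _ inferInstance Subgroup.subset_normalClosure hy)
  have hperm : ∀ a ∈ (Y ⊓ centralizer (R : Set G)), ∀ b ∈ (Y ⊓ centralizer (cj k R : Set G)), a * b = b * a := hcomm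
  -- elements of the join
  have hex : ∀ x ∈ T, ∃ a ∈ Y ⊓ centralizer (R : Set G), ∃ b ∈ Y ⊓ centralizer (cj k R : Set G),
      x = a * b := by
    intro x hx
    rw [hT, Subgroup.sup_eq_closure] at hx
    induction hx using Subgroup.closure_induction with
    | mem x hx =>
      rcases hx with hx | hx
      · exact ⟨x, hx, 1, one_mem _, by simp⟩
      · exact ⟨1, one_mem _, x, hx, by simp⟩
    | one => exact ⟨1, one_mem _, 1, one_mem _, by simp⟩
    | mul x z _ _ ihx ihz =>
      obtain ⟨a, ha, b, hb, rfl⟩ := ihx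
      obtain ⟨a', ha', b', hb', rfl⟩ := ihz
      refine ⟨a * a', mul_mem ha ha', b * b', mul_mem hb hb', ?_⟩
      calc a * b * (a' * b') = a * (b * a') * b' := by group
        _ = a * (a' * b) * b' := by rw [hperm a' ha' b hb]
        _ = a * a' * (b * b') := by group
    | inv x _ ihx =>
      obtain ⟨a, ha, b, hb, rfl⟩ := ihx
      refine ⟨a⁻¹, inv_mem ha, b⁻¹, inv_mem hb, ?_⟩
      rw [mul_inv_rev, hperm _ (inv_mem ha) _ (inv_mem hb)]
  obtain ⟨a, ha, b, hb, hab⟩ := hex y hyT
  exact ⟨a, ha.1, b, hb.1, fun r hr => hsame R r hr a ha, fun r hr => hsame _ r hr b hb, hab⟩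

theorem false (h4 : ¬ Cfsg.Involves (Equiv.Perm (Fin 4)) G) : False := by
  classical
  haveI hYn := h.Yn
  obtain ⟨k, hk, hkL⟩ := h.exists_k
  set LL : Subgroup G := R ⊔ cj k R with hLL
  letI : CommGroup Y := commGroup Y h.Yc
  let M := Additive Y
  have hRL : R ≤ LL := le_sup_left
  have hNL : LL ≤ Subgroup.normalClosure (R : Set G) := by
    refine sup_le Subgroup.subset_normalClosure ?_
    refine le_trans (cj_mono Subgroup.subset_normalClosure) ?_
    rw [cj_normal]
  -- the representation
  let σ₀ : G →* AddMonoid.End M :=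
    { toFun := fun g =>
        { toFun := fun y => Additive.ofMul ⟨g * (Additive.toMul y : Y) * g⁻¹,
            h.Yn.conj_mem _ (Additive.toMul y).2 g⟩
          map_zero' := by
            apply Additive.toMul.injective
            apply Subtype.ext
            change g * 1 * g⁻¹ = 1
            group
          map_add' := by
            intro x y
            apply Additive.toMul.injective
            apply Subtype.ext
            change g * ((Additive.toMul x : Y) * (Additive.toMul y : Y)) * g⁻¹ =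
              (g * (Additive.toMul x : Y) * g⁻¹) * (g * (Additive.toMul y : Y) * g⁻¹)
            group }
      map_one' := by
        ext y
        change 1 * ((Additive.toMul y : Y) : G) * 1⁻¹ = (Additive.toMul y : Y)
        group
      map_mul' := by
        intro a b
        ext y
        change a * b * ((Additive.toMul y : Y) : G) * (a * b)⁻¹ = a * (b * (Additive.toMul y : Y) * b⁻¹) * a⁻¹
        group }
  let v : M → G := fun m => ((Additive.toMul m : Y) : G)
  have hv : ∀ g : G, ∀ m : M, v (σ₀ g m) = g * v m * g⁻¹ := fun g m => rfl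
  have hvY : ∀ m, v m ∈ Y := fun m => (Additive.toMul m).2
  have hvinj : ∀ m m' : M, v m = v m' → m = m' := fun m m' hm =>
    Additive.toMul.injective (Subtype.ext hm)
  have hvadd : ∀ m m' : M, v (m + m') = v m * v m' := fun m m' => rfl
  have hvneg : ∀ m : M, v (-m) = (v m)⁻¹ := fun m => rfl
  have hvsub : ∀ m m' : M, v (m - m') = v m * (v m')⁻¹ := by
    intro m m'; rw [sub_eq_add_neg, hvadd, hvneg]
  have hvsurj : ∀ y ∈ Y, ∃ m : M, v m = y := fun y hy => ⟨Additive.ofMul ⟨y, hy⟩, rfl⟩
  have hv0 : v 0 = 1 := rfl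
  have hvinv : ∀ m : M, (v m)⁻¹ = v m := fun m => inv_eq_of_mul_eq_one_left (h.Ye _ (hvY m))
  have h2 : ∀ m : M, m + m = 0 := fun m => hvinj _ _ (h.Ye _ (hvY m))
  -- the displacement
  have hvd : ∀ g : G, ∀ m : M, v (σ₀ g m - m) = ⁅v m, g⁆⁻¹ := by
    intro g m
    rw [hvsub, hv]
    simp only [commutatorElement_def]
    group
  let σ : LL →* AddMonoid.End M := σ₀.comp LL.subtype
  set R' : Subgroup LL := R.subgroupOf LL with hR'
  set K : Subgroup LL := (Cfsg.pCore 2 G).subgroupOf LL with hK
  let k' : LL := ⟨k, hkL⟩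
  have hQn : (Cfsg.pCore 2 G).Normal := inferInstance
  haveI hKn : K.Normal := hQn.comap LL.subtype
  have hmapR : R'.map LL.subtype = R := Subgroup.map_subgroupOf_eq_of_le hRL
  have hmapcj : ∀ l : LL, (cj l R').map LL.subtype = cj (l : G) R := by
    intro l; rw [map_cj, hmapR]; rfl
  have hKp : IsPGroup 2 K := by
    have := H13.Cores.isPGroup_pCore (p := 2) (G := G)
    exact this.comap_of_injective LL.subtype LL.subtype_injective
  have htop : R' ⊔ cj k' R' = ⊤ := by
    apply Subgroup.map_injective LL.subtype_injective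
    rw [Subgroup.map_sup, hmapR, hmapcj, ← MonoidHom.range_eq_map, Subgroup.range_subtype]
  -- the additive group `DD`
  have hfixN : ∀ d ∈ h.DD, ∀ n ∈ Subgroup.normalClosure (R : Set G), ∀ m : M,
      σ₀ n (σ₀ d m - m) = σ₀ d m - m := by
    intro d hd n hn m
    apply hvinj
    rw [hv, hvd]
    exact h.CN_fixed (inv_mem (h.comm_D (hvY m) hd)) hn
  let D₀ : AddSubgroup (M →+ M) :=
    { carrier := {z | ∃ d ∈ h.DD, ∀ m, z m = σ₀ d m - m}
      zero_mem' := ⟨1, one_mem _, fun m => by
        rw [map_one]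
        change 0 = m - m
        rw [sub_self]⟩
      add_mem' := by
        rintro z z' ⟨d, hd, hz⟩ ⟨d', hd', hz'⟩
        refine ⟨d * d', mul_mem hd hd', fun m => ?_⟩
        rw [AddMonoidHom.add_apply, hz, hz', map_mul]
        change _ = σ₀ d (σ₀ d' m) - m
        have h5 := hfixN d' hd' d (h.DD_le_N hd) m
        rw [map_sub] at h5
        have h6 : σ₀ d (σ₀ d' m) = σ₀ d' m - m + σ₀ d m := by rw [← h5]; abel
        rw [h6]; abel
      neg_mem' := by
        rintro z ⟨d, hd, hz⟩
        refine ⟨d, hd, fun m => ?_⟩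
        rw [AddMonoidHom.neg_apply, hz]
        exact neg_eq_of_add_eq_zero_left (h2 _) }
  have hB : ∀ Z : AddSubgroup (M →+ M), Z ≤ D₀ → Z ≠ ⊥ →
      Nat.card Z * Nat.card (ann Z) < Nat.card M := by
    intro Z hZ hne
    let B : Subgroup G :=
      { carrier := {d | d ∈ h.DD ∧ ∃ z ∈ Z, ∀ m, z m = σ₀ d m - m}
        one_mem' := ⟨one_mem _, 0, zero_mem _, fun m => by
          rw [map_one]
          change 0 = m - m
          rw [sub_self]⟩
        mul_mem' := by
          rintro d d' ⟨hd, z, hz, hzd⟩ ⟨hd', z', hz', hzd'⟩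
          refine ⟨mul_mem hd hd', z + z', add_mem hz hz', fun m => ?_⟩
          rw [AddMonoidHom.add_apply, hzd, hzd', map_mul]
          change _ = σ₀ d (σ₀ d' m) - m
          have h5 := hfixN d' hd' d (h.DD_le_N hd) m
          rw [map_sub] at h5
          have h6 : σ₀ d (σ₀ d' m) = σ₀ d' m - m + σ₀ d m := by rw [← h5]; abel
          rw [h6]; abel
        inv_mem' := by
          rintro d ⟨hd, z, hz, hzd⟩
          refine ⟨inv_mem hd, z, hz, fun m => ?_⟩
          have h5 := hfixN d hd d⁻¹ (inv_mem (h.DD_le_N hd)) m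
          rw [hzd, ← h5, map_sub]
          have h6 : σ₀ d⁻¹ (σ₀ d m) = m := by
            change (σ₀ d⁻¹ * σ₀ d) m = m
            rw [← map_mul, inv_mul_cancel, map_one]; rfl
          rw [h6, ← neg_sub]
          exact neg_eq_of_add_eq_zero_left (h2 _) }
    have hBQ : B ≤ Cfsg.pCore 2 G := fun d hd => h.DD_le_Q hd.1
    by_contra hlt
    push Not at hlt
    refine h.noOff B hBQ ⟨?_, ?_, ?_, ?_, ?_⟩
    · intro d _
      rw [Subgroup.normalizer_eq_top_iff.2 h.Yn]; trivial
    · rw [Subgroup.commutator_le]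
      intro a ha b hb
      rw [mem_centralizer_iff]
      intro y hy
      obtain ⟨m, rfl⟩ := hvsurj y hy
      -- `σ₀ a` and `σ₀ b` commute
      have h5 := hfixN b hb.1 a (h.DD_le_N ha.1) m
      have h6 := hfixN a ha.1 b (h.DD_le_N hb.1) m
      rw [map_sub] at h5 h6
      have h7 : σ₀ a (σ₀ b m) = σ₀ b (σ₀ a m) := by
        have e1 : σ₀ a (σ₀ b m) = σ₀ b m - m + σ₀ a m := by rw [← h5]; abel
        have e2 : σ₀ b (σ₀ a m) = σ₀ a m - m + σ₀ b m := by rw [← h6]; abel
        rw [e1, e2]; abel
      have h8 := congrArg v h7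
      simp only [hv] at h8
      rw [commutatorElement_def]
      have h9 : ∀ m : M, a * (b * v m * b⁻¹) * a⁻¹ = b * (a * v m * a⁻¹) * b⁻¹ := by
        intro m
        have h5 := hfixN b hb.1 a (h.DD_le_N ha.1) m
        have h6 := hfixN a ha.1 b (h.DD_le_N hb.1) m
        rw [map_sub] at h5 h6
        have h7 : σ₀ a (σ₀ b m) = σ₀ b (σ₀ a m) := by
          have e1 : σ₀ a (σ₀ b m) = σ₀ b m - m + σ₀ a m := by rw [← h5]; abel
          have e2 : σ₀ b (σ₀ a m) = σ₀ a m - m + σ₀ b m := by rw [← h6]; abel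
          rw [e1, e2]; abel
        have h8 := congrArg v h7
        simp only [hv] at h8
        exact h8
      have h10 := h9 (σ₀ (b * a)⁻¹ m)
      rw [hv] at h10
      have e3 : b * (a * ((b * a)⁻¹ * v m * ((b * a)⁻¹)⁻¹) * a⁻¹) * b⁻¹ = v m := by group
      rw [e3] at h10
      have e4 : a * (b * ((b * a)⁻¹ * v m * ((b * a)⁻¹)⁻¹) * b⁻¹) * a⁻¹ =
          (a * b * a⁻¹ * b⁻¹) * v m * (a * b * a⁻¹ * b⁻¹)⁻¹ := by group
      rw [e4] at h10
      rw [mul_inv_eq_iff_eq_mul] at h10
      exact h10.symm
    · intro a ha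
      rw [mem_centralizer_iff]
      intro y hy
      obtain ⟨m, rfl⟩ := hvsurj y hy
      have h5 := hfixN a ha.1 a (h.DD_le_N ha.1) m
      have h6 : σ₀ a (σ₀ a m) = m := by
        rw [map_sub] at h5
        have h7 : σ₀ a (σ₀ a m) = σ₀ a m + σ₀ a m - m := by
          rw [sub_eq_iff_eq_add.1 h5]; abel
        rw [h7, h2]
        rw [zero_sub]
        exact neg_eq_of_add_eq_zero_left (h2 _)
      have h7 := congrArg v h6
      rw [hv, hv] at h7
      rw [pow_two]
      have e : a * (a * v m * a⁻¹) * a⁻¹ = (a * a) * v m * (a * a)⁻¹ := by group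
      rw [e, mul_inv_eq_iff_eq_mul] at h7
      exact h7.symm
    · intro hBc
      apply hne
      rw [eq_bot_iff]
      intro z hz
      obtain ⟨d, hd, hzd⟩ := hZ hz
      have hdB : d ∈ B := ⟨hd, z, hz, hzd⟩
      have hdc := mem_centralizer_iff.1 (hBc hdB)
      change z = 0
      refine AddMonoidHom.ext fun m => ?_
      rw [hzd]
      have : σ₀ d m = m := by
        apply hvinj
        rw [hv, ← hdc _ (hvY m), mul_inv_cancel_right]
      rw [this, sub_self]; rfl
    · -- the numerical inequality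
      have hcardB : Nat.card B ≤ Nat.card B := le_rfl
      -- `|B| = |Z| * |C_B(Y)|`
      have hq1 : Nat.card B = Nat.card Z * Nat.card ↥(B ⊓ centralizer (Y : Set G)) := by
        have hfun : ∀ b : B, ∃ z : Z, ∀ m, z.1 m = σ₀ b.1 m - m := fun b => by
          obtain ⟨z, hz, hzd⟩ := b.2.2
          exact ⟨⟨z, hz⟩, hzd⟩
        choose f hf using hfun
        let F : B →* Multiplicative Z :=
          { toFun := fun b => Multiplicative.ofAdd (f b)
            map_one' := by
              apply Multiplicative.toAdd.injective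
              apply Subtype.ext
              refine AddMonoidHom.ext fun m => hvinj _ _ ?_
              change v ((f 1).1 m) = v 0
              rw [hf]
              change v (σ₀ 1 m - m) = v 0
              rw [map_one]
              change v (m - m) = v 0
              rw [sub_self]
            map_mul' := by
              intro a b
              apply Multiplicative.toAdd.injective
              apply Subtype.ext
              refine AddMonoidHom.ext fun m => hvinj _ _ ?_
              change v ((f (a * b)).1 m) = v ((f a).1 m + (f b).1 m)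
              rw [hf, hf, hf]
              congr 1
              have h5 := hfixN b.1 b.2.1 a.1 (h.DD_le_N a.2.1) m
              rw [map_sub] at h5
              have h6 : σ₀ a.1 (σ₀ b.1 m) = σ₀ b.1 m - m + σ₀ a.1 m := by rw [← h5]; abel
              change σ₀ (a.1 * b.1) m - m = _
              rw [map_mul]
              change σ₀ a.1 (σ₀ b.1 m) - m = _
              rw [h6]; abel }
        have hFs : Function.Surjective F := by
          intro z
          obtain ⟨d, hd, hzd⟩ := hZ (Multiplicative.toAdd z).2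
          refine ⟨⟨d, hd, _, (Multiplicative.toAdd z).2, hzd⟩, ?_⟩
          apply Multiplicative.toAdd.injective
          apply Subtype.ext
          refine AddMonoidHom.ext fun m => hvinj _ _ ?_
          change v ((f _).1 m) = v ((Multiplicative.toAdd z).1 m)
          rw [hf, hzd]
        have h5 := F.ker.index_mul_card
        rw [Subgroup.index_ker, MonoidHom.range_eq_top.2 hFs] at h5
        have h6 : Nat.card (⊤ : Subgroup (Multiplicative Z)) = Nat.card Z :=
          Nat.card_congr (Subgroup.topEquiv.toEquiv.trans Multiplicative.toAdd)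
        rw [h6] at h5
        rw [← h5]
        congr 1
        refine Nat.card_congr
          { toFun := fun x => ⟨x.1.1, x.1.2, ?_⟩
            invFun := fun x => ⟨⟨x.1, x.2.1⟩, ?_⟩
            left_inv := fun x => rfl
            right_inv := fun x => rfl }
        · refine mem_centralizer_iff.2 ?_
          intro y hy
          obtain ⟨m, rfl⟩ := hvsurj y hy
          have h7 : f x.1 = 0 := MonoidHom.mem_ker.1 x.2
          have h8 := hf x.1 m
          rw [h7] at h8
          have h9 : σ₀ x.1.1 m = m := (sub_eq_zero.1 h8.symm)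
          have h10 := congrArg v h9
          rw [hv, mul_inv_eq_iff_eq_mul] at h10
          exact h10.symm
        · rw [MonoidHom.mem_ker]
          apply Multiplicative.toAdd.injective
          apply Subtype.ext
          refine AddMonoidHom.ext fun m => hvinj _ _ ?_
          change v ((f _).1 m) = v 0
          rw [hf]
          have h7 := mem_centralizer_iff.1 x.2.2 (v m) (hvY m)
          have : σ₀ x.1 m = m := by
            apply hvinj
            rw [hv, ← h7, mul_inv_cancel_right]
          change v (σ₀ x.1 m - m) = v 0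
          rw [this, sub_self]
      have hq2 : Nat.card (ann Z) = Nat.card ↥(Y ⊓ centralizer (B : Set G)) := by
        refine Nat.card_congr
          { toFun := fun m => ⟨v m.1, hvY _, ?_⟩
            invFun := fun y => ⟨Additive.ofMul ⟨y.1, y.2.1⟩, ?_⟩
            left_inv := fun x => rfl
            right_inv := fun x => rfl }
        · refine mem_centralizer_iff.2 ?_
          rintro b ⟨hb, z, hz, hzd⟩
          have h7 := hzd m.1
          rw [m.2 z hz] at h7
          have h9 : σ₀ b m.1 = m.1 := (sub_eq_zero.1 h7.symm)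
          have h10 := congrArg v h9
          rw [hv, mul_inv_eq_iff_eq_mul] at h10
          exact h10
        · intro z hz
          obtain ⟨d, hd, hzd⟩ := hZ hz
          have hdB : d ∈ B := ⟨hd, z, hz, hzd⟩
          rw [hzd]
          have h7 := mem_centralizer_iff.1 y.2.2 d hdB
          have : σ₀ d (Additive.ofMul ⟨y.1, y.2.1⟩) = Additive.ofMul ⟨y.1, y.2.1⟩ := by
            apply hvinj
            rw [hv]
            change d * y.1 * d⁻¹ = y.1
            rw [h7, mul_inv_cancel_right]
          rw [this, sub_self]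
      rw [hq2] at hlt
      have hMY : Nat.card M = Nat.card Y := Nat.card_congr Additive.toMul
      rw [hMY] at hlt
      calc Nat.card Y * Nat.card ↥(B ⊓ centralizer (Y : Set G))
          ≤ (Nat.card Z * Nat.card ↥(Y ⊓ centralizer (B : Set G))) *
              Nat.card ↥(B ⊓ centralizer (Y : Set G)) := Nat.mul_le_mul_right _ hlt
        _ = Nat.card B * Nat.card ↥(Y ⊓ centralizer (B : Set G)) := by rw [hq1]; ring
  have hLQ : LL ⊔ Cfsg.pCore 2 G = ⊤ := h.gen_top hk
  refine mod_false (L := LL) (M := M) h2 σ R' K hKp k' htop ?_ ?_ D₀ ?_ ?_ hB ?_ ?_ ?_ ?_ ?_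
  · -- quad
    intro r hr s hs m
    apply hvinj
    change v (σ₀ s (σ₀ r m - m)) = v (σ₀ r m - m)
    rw [hv, hvd]
    have h5 := h.quad (v m) (hvY m) r hr s hs
    rw [commutatorElement_eq_one_iff_mul_comm] at h5
    have h6 : (s : G) * ⁅v m, (r : G)⁆⁻¹ = ⁅v m, (r : G)⁆⁻¹ * s := by
      rw [eq_inv_mul_iff_mul_eq, ← mul_assoc, h5]; group
    rw [h6, mul_inv_cancel_right]
  · -- F1
    intro m
    obtain ⟨a, ha, b, hb, h5, h6, h7⟩ := h.F1 hk hkL (hvY m)
    obtain ⟨a, rfl⟩ := hvsurj a ha
    obtain ⟨b, rfl⟩ := hvsurj b hb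
    refine ⟨a, b, ?_, ?_, ?_⟩
    · intro r hr
      exact hvinj _ _ (h5 r hr)
    · intro r hr
      refine hvinj _ _ (h6 r ?_)
      change (r : G) ∈ cj ((k' : LL) : G) R
      rw [← hmapcj]
      exact ⟨r, hr, rfl⟩
    · exact hvinj _ _ h7
  · -- D1
    rintro z ⟨d, hd, hzd⟩ l
    have hd' : (l : G)⁻¹ * d * l ∈ h.DD := by
      have := h.DD_normal.conj_mem _ hd (l : G)⁻¹
      simpa using this
    refine ⟨_, hd', fun m => ?_⟩
    change z (σ₀ l m) = _
    rw [hzd]
    have h5 := hfixN _ hd' l (hNL l.2) m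
    rw [← h5, map_sub]
    congr 1
    change (σ₀ d * σ₀ (l : G)) m = (σ₀ (l : G) * σ₀ _) m
    rw [← map_mul, ← map_mul]
    congr 2
    group
  · -- D2
    intro r hr hrK
    refine ⟨(r : G), Subgroup.subset_normalClosure ⟨hr, hrK⟩, fun m => rfl⟩
  · -- the offender
    obtain ⟨-, -, -, -, h5⟩ := h.off
    have hMY : Nat.card M = Nat.card Y := Nat.card_congr Additive.toMul
    have e1 : Nat.card R' = Nat.card R := Nat.card_congr
      { toFun := fun x => ⟨x.1.1, x.2⟩
        invFun := fun x => ⟨⟨x.1, hRL x.2⟩, x.2⟩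
        left_inv := fun x => rfl
        right_inv := fun x => rfl }
    have e2 : Nat.card {r : R' // σ r = 1} = Nat.card ↥(R ⊓ centralizer (Y : Set G)) := by
      refine Nat.card_congr
        { toFun := fun x => ⟨x.1.1.1, x.1.2, ?_⟩
          invFun := fun x => ⟨⟨⟨x.1, hRL x.2.1⟩, x.2.1⟩, ?_⟩
          left_inv := fun x => rfl
          right_inv := fun x => rfl }
      · refine mem_centralizer_iff.2 ?_
        intro y hy
        obtain ⟨m, rfl⟩ := hvsurj y hy
        have h6 : σ₀ x.1.1.1 m = m := by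
          have := DFunLike.congr_fun x.2 m
          exact this
        have h10 := congrArg v h6
        rw [hv, mul_inv_eq_iff_eq_mul] at h10
        exact h10.symm
      · apply AddMonoidHom.ext
        intro m
        apply hvinj
        change x.1 * v m * (x.1)⁻¹ = v m
        have h7 := mem_centralizer_iff.1 x.2.2 (v m) (hvY m)
        rw [← h7, mul_inv_cancel_right]
    have e3 : Nat.card {m : M // ∀ r ∈ R', σ r m = m} = Nat.card ↥(Y ⊓ centralizer (R : Set G)) := by
      refine Nat.card_congr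
        { toFun := fun m => ⟨v m.1, hvY _, ?_⟩
          invFun := fun y => ⟨Additive.ofMul ⟨y.1, y.2.1⟩, ?_⟩
          left_inv := fun x => rfl
          right_inv := fun x => rfl }
      · refine mem_centralizer_iff.2 ?_
        intro r hr
        have h6 : σ₀ r m.1 = m.1 := m.2 ⟨r, hRL hr⟩ hr
        have h10 := congrArg v h6
        rw [hv, mul_inv_eq_iff_eq_mul] at h10
        exact h10
      · intro r hr
        apply hvinj
        change (r : G) * y.1 * (r : G)⁻¹ = y.1
        have h7 := mem_centralizer_iff.1 y.2.2 r hr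
        rw [h7, mul_inv_cancel_right]
    rw [hMY, e1, e2, e3]
    exact h5
  · -- centralizers lie in `Q`
    intro r hr hσ
    have h5 : (r : G) ∈ centralizer (Y : Set G) := by
      rw [mem_centralizer_iff]
      intro y hy
      obtain ⟨m, rfl⟩ := hvsurj y hy
      have h6 : σ₀ r m = m := DFunLike.congr_fun hσ m
      have h10 := congrArg v h6
      rw [hv, mul_inv_eq_iff_eq_mul] at h10
      exact h10.symm
    have h6 : centralizer (Y : Set G) ≤ normalizer (W : Set G) := by
      intro x hx
      rw [mem_normalizer_iff]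
      intro w
      constructor
      · intro hw
        rw [← (mem_centralizer_iff.1 hx) w (h.WY hw), mul_inv_cancel_right]
        exact hw
      · intro hw
        have h7 := (mem_centralizer_iff.1 hx) _ (h.WY hw)
        have h8 : x * w * x⁻¹ = w := by
          have : x * w * x⁻¹ * x = x * (x * w * x⁻¹) := h7
          have h9 : x * w = x * (x * w * x⁻¹) := by rw [← this]; group
          exact (mul_left_cancel h9).symm
        rwa [h8] at hw
    exact h.core (centralizer (Y : Set G)) inferInstance h6 ⟨h.RS hr, h5⟩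
  · -- not in `Q`
    intro hle
    apply h.not_le_Q
    intro r hr
    exact hle (show (⟨r, hRL hr⟩ : LL) ∈ R' from hr)
  · -- second conjugates
    intro r hr hrK
    obtain ⟨k₁, hk₁⟩ := h.exists_h (r := r) hr hrK
    have hk₁L : k₁ ∈ Cfsg.pCore 2 G ⊔ LL := by rw [sup_comm, hLQ]; trivial
    obtain ⟨q, hq, l, hl, rfl⟩ := Subgroup.mem_sup_of_normal_left.1 hk₁L
    refine ⟨⟨l, hl⟩, ?_⟩
    have h5 : cj (q * l) R ≤ cj l R ⊔ Cfsg.pCore 2 G := by
      rw [cj_le_iff]
      intro x hx
      have e : q * l * x * (q * l)⁻¹ = q * (l * x * l⁻¹) * q⁻¹ := by group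
      rw [e]
      exact mul_mem (mul_mem (mem_sup_right hq) (mem_sup_left (conj_mem_cj hx)))
        (inv_mem (mem_sup_right hq))
    have h6 : (zpowers (r : G) ⊔ cj l R) ⊔ Cfsg.pCore 2 G = ⊤ := by
      rw [eq_top_iff, ← hk₁]
      refine sup_le (sup_le ?_ ?_) le_sup_right
      · exact le_sup_left.trans le_sup_left
      · exact h5.trans (sup_le (le_sup_right.trans le_sup_left) le_sup_right)
    set X : Subgroup LL := zpowers r ⊔ cj (⟨l, hl⟩ : LL) R' with hX
    have hXmap : X.map LL.subtype = zpowers (r : G) ⊔ cj l R := by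
      rw [hX, Subgroup.map_sup, hmapcj, MonoidHom.map_zpowers]; rfl
    rw [eq_top_iff]
    intro x _
    have hx : (x : G) ∈ (zpowers (r : G) ⊔ cj l R) ⊔ Cfsg.pCore 2 G := by rw [h6]; trivial
    obtain ⟨y, hy, q', hq', hyq⟩ := Subgroup.mem_sup_of_normal_right.1 hx
    rw [← hXmap] at hy
    obtain ⟨y', hy', rfl⟩ := hy
    have e : x = y' * (y'⁻¹ * x) := by group
    rw [e]
    refine mul_mem (mem_sup_left hy') (mem_sup_right ?_)
    change ((y'⁻¹ * x : LL) : G) ∈ Cfsg.pCore 2 G
    have : ((y'⁻¹ * x : LL) : G) = q' := by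
      change (y' : G)⁻¹ * (x : G) = q'
      rw [← hyq]
      change (y' : G)⁻¹ * ((y' : G) * q') = q'
      group
    rw [this]; exact hq'
  · -- no `S₃`
    intro Z hZ r s u w hu hw huw h5 h6 h7 h8
    apply h4
    let Z' : Subgroup G :=
      { carrier := {g | ∃ z ∈ Z, v z = g}
        one_mem' := ⟨0, zero_mem _, rfl⟩
        mul_mem' := by
          rintro a b ⟨z, hz, rfl⟩ ⟨z', hz', rfl⟩
          exact ⟨z + z', add_mem hz hz', rfl⟩
        inv_mem' := by
          rintro a ⟨z, hz, rfl⟩
          exact ⟨-z, neg_mem hz, rfl⟩ }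
    have hZ' : ∀ m : M, v m ∈ Z' ↔ m ∈ Z := by
      intro m
      constructor
      · rintro ⟨z, hz, hzm⟩
        rw [← hvinj _ _ hzm]; exact hz
      · intro hm; exact ⟨m, hm, rfl⟩
    have hnorm : ∀ l : LL, (l : G) ∈ normalizer (Z' : Set G) := by
      have h9 : ∀ l : LL, ∀ g ∈ Z', (l : G) * g * (l : G)⁻¹ ∈ Z' := by
        rintro l g ⟨z, hz, rfl⟩
        exact ⟨σ l z, hZ l z hz, rfl⟩
      intro l
      rw [mem_normalizer_iff]
      intro g
      refine ⟨h9 l g, fun hg => ?_⟩
      have := h9 l⁻¹ _ hg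
      simpa [mul_assoc] using this
    have hsw : ∀ m m' : M, m - m' ∈ Z → v m' * v m ∈ Z' := by
      intro m m' hmm
      have h9 := (hZ' _).2 hmm
      rw [hvsub, hvinv] at h9
      rwa [h.Yc _ (hvY m) _ (hvY m')] at h9
    refine H14.SFS4.involves_S4_of_pair (Y := Y) (Z := Z') (u := v u) (w := v w) (r := r) (s := s)
      h.Yc h.Ye ?_ (hvY u) (hvY w) (fun hh => hu ((hZ' _).1 hh)) (fun hh => hw ((hZ' _).1 hh)) ?_
      (hnorm r) (hnorm s) ?_ ?_ ?_ ?_
    · rintro g ⟨z, hz, rfl⟩; exact hvY z
    · intro hh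
      apply huw
      rw [← hZ', hvsub, hvinv]; exact hh
    · exact hsw _ _ h5
    · exact hsw _ _ h6
    · exact hsw _ _ h7
    · have := hsw _ _ h8
      rw [hvadd, h.Yc _ (hvY w) _ (hvY u)] at this
      exact this

end Cfg

end H14.SF
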