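import Cfsg.Agent.Lib.H14.SFRed

/-!
**No offenders.** A finite group not involving the symmetric group of degree 4 has no offenders on an elementary
abelian normal 2-subgroup `V` with `O₂(G / C_G(V)) = 1`.
-/

set_option autoImplicit false

universe u

namespace H14.SF

open Subgroup Cfsg
open scoped commutatorElement

theorem offender_iff {G : Type*} [Group G] [Finite G] {Y A : Subgroup G} :
    Nat.card Y * Nat.card ↥(A ⊓ centralizer (Y : Set G)) ≤
      Nat.card A * Nat.card ↥(Y ⊓ centralizer (A : Set G)) ↔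
    (centralizer (A : Set G)).relIndex Y ≤ (centralizer (Y : Set G)).relIndex A := by
  have key : ∀ H K : Subgroup G, Nat.card ↥(H ⊓ K) * K.relIndex H = Nat.card H := by
    intro H K
    have := Subgroup.relIndex_mul_relIndex (⊥ : Subgroup G) (H ⊓ K) H bot_le inf_le_left
    rw [Subgroup.relIndex_bot_left, Subgroup.relIndex_bot_left] at this
    rw [← this]
    congr 1
    rw [inf_comm]
    exact (Subgroup.inf_relIndex_right K H).symm
  have h1 := key Y (centralizer (A : Set G))
  have h2 := key A (centralizer (Y : Set G))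
  have p1 : 0 < Nat.card ↥(Y ⊓ centralizer (A : Set G)) := Nat.card_pos
  have p2 : 0 < Nat.card ↥(A ⊓ centralizer (Y : Set G)) := Nat.card_pos
  rw [← h1, ← h2]
  constructor
  · intro h
    refine Nat.le_of_mul_le_mul_left ?_ (Nat.mul_pos p1 p2)
    calc _ = Nat.card ↥(Y ⊓ centralizer (A : Set G)) * (centralizer (A : Set G)).relIndex Y *
          Nat.card ↥(A ⊓ centralizer (Y : Set G)) := by ring
      _ ≤ _ := h
      _ = _ := by ring
  · intro h
    calc _ = (Nat.card ↥(Y ⊓ centralizer (A : Set G)) * Nat.card ↥(A ⊓ centralizer (Y : Set G))) *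
          (centralizer (A : Set G)).relIndex Y := by ring
      _ ≤ (Nat.card ↥(Y ⊓ centralizer (A : Set G)) * Nat.card ↥(A ⊓ centralizer (Y : Set G))) *
          (centralizer (Y : Set G)).relIndex A := Nat.mul_le_mul_left _ h
      _ = _ := by ring

/-- A `p`-group normalizing a nontrivial `p`-subgroup centralizes a nontrivial element. -/
theorem exists_fixed_group {G : Type*} [Group G] [Finite G] {p : ℕ} [hp : Fact p.Prime] {T P : Subgroup G}
    (hT : IsPGroup p T) (hT1 : T ≠ ⊥) (hP : IsPGroup p P) (hle : P ≤ normalizer (T : Set G)) :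
    ∃ v ∈ T, v ≠ 1 ∧ ∀ x ∈ P, x * v * x⁻¹ = v := by
  classical
  let act : MulAction P T :=
    { smul := fun g t => ⟨g * t * (g : G)⁻¹, (mem_normalizer_iff.1 (hle g.2) t).1 t.2⟩
      one_smul := fun t => Subtype.ext (by show (1 : G) * t * (1 : G)⁻¹ = t; simp)
      mul_smul := fun a b t => Subtype.ext (by
        show ((a * b : P) : G) * t * ((a * b : P) : G)⁻¹ = a * (b * t * (b : G)⁻¹) * (a : G)⁻¹
        push_cast; group) }
  have hsm : ∀ (g : P) (t : T), ((g • t : T) : G) = g * t * (g : G)⁻¹ := fun g t => rfl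
  have h1 : (1 : T) ∈ MulAction.fixedPoints P T := by
    intro g
    apply Subtype.ext
    rw [hsm]; simp
  have hpT : p ∣ Nat.card T := by
    obtain ⟨n, hn⟩ := IsPGroup.iff_card.1 hT
    rw [hn]
    refine dvd_pow_self p ?_
    rintro rfl
    rw [pow_zero] at hn
    exact hT1 (Subgroup.card_eq_one.1 hn)
  obtain ⟨b, hb, hb1⟩ := hP.exists_fixed_point_of_prime_dvd_card_of_fixed_point T hpT h1
  refine ⟨b, b.2, ?_, ?_⟩
  · intro h
    exact hb1 (Subtype.ext h.symm)
  · intro x hx
    have := hb ⟨x, hx⟩
    exact congrArg Subtype.val this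

theorem no_off (n : ℕ) : ∀ (G : Type u) [Group G] [Finite G] (V : Subgroup G), Nat.card V = n →
    ¬ Involves (Equiv.Perm (Fin 4)) G → V.Normal →
    (∀ a ∈ V, ∀ b ∈ V, a * b = b * a) → (∀ a ∈ V, a * a = 1) →
    (∀ N : Subgroup G, N.Normal → (∀ x ∈ N, ∃ k, x ^ 2 ^ k ∈ centralizer (V : Set G)) →
      N ≤ centralizer (V : Set G)) →
    ∀ A : Subgroup G, IsPGroup 2 A → ¬ IsFFOffenderOn 2 V A := by
  induction n using Nat.strong_induction_on with
  | _ n ih =>
    intro G _ _ V hn h4 hVn hVc hVe hO A₀ hA₀ hoff₀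
    haveI : Fact (Nat.Prime 2) := ⟨Nat.prime_two⟩
    obtain ⟨S, hAS⟩ := hA₀.exists_le_sylow
    have hWn : (WV V (S : Subgroup G)).Normal := WV_normal _ G rfl h4 V hVn hVc hVe S
    set W := WV V (S : Subgroup G) with hW
    have hWV : W ≤ V := WV_le _ _
    have hVp : IsPGroup 2 V := by
      rintro ⟨a, ha⟩
      refine ⟨1, ?_⟩
      rw [pow_one, pow_two]
      exact Subtype.ext (hVe a ha)
    -- `W` is nontrivial
    have hVne : V ≠ ⊥ := by
      rintro rfl
      apply hoff₀.2.2.2.1
      intro a _
      rw [mem_centralizer_iff]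
      intro x hx
      have : x = 1 := hx
      rw [this]; simp
    have hWne : W ≠ ⊥ := by
      intro h0
      obtain ⟨v, hv, hv1, hvf⟩ := exists_fixed_group hVp hVne S.2 (by
        rw [Subgroup.normalizer_eq_top_iff.2 hVn]; exact le_top)
      have h1 : V ⊓ centralizer ((S : Subgroup G) : Set G) ∈ WWset V (S : Subgroup G) := by
        refine ⟨inf_le_left, ?_, ?_⟩
        · intro s hs
          have hsub : ∀ s ∈ (S : Subgroup G), ∀ x ∈ V ⊓ centralizer ((S : Subgroup G) : Set G), s * x * s⁻¹ = x := by
            intro s hs x hx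
            rw [(mem_centralizer_iff.1 hx.2) s hs, mul_inv_cancel_right]
          rw [mem_normalizer_iff]
          intro x
          constructor
          · intro hx; rw [hsub s hs x hx]; exact hx
          · intro hx
            have := hsub s⁻¹ ((S : Subgroup G).inv_mem hs) _ hx
            have e : s⁻¹ * (s * x * s⁻¹) * s⁻¹⁻¹ = x := by group
            rw [e] at this
            rw [this]; exact hx
        · intro R hR hoff
          exact hoff.2.2.2.1 (hR.trans (le_centralizer_comm inf_le_right))
      have h2 : v ∈ W := le_WV h1 ⟨hv, by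
        change v ∈ centralizer ((S : Subgroup G) : Set G)
        rw [mem_centralizer_iff]
        intro s hs
        have := hvf s hs
        rwa [mul_inv_eq_iff_eq_mul] at this⟩
      rw [h0] at h2
      exact hv1 h2
    -- a nontrivial best offender
    obtain ⟨A, hAA₀, hA, hAn⟩ := exists_best hoff₀
    have hAS' : A ≤ (S : Subgroup G) := hAA₀.trans hAS
    have hAW : A ≤ centralizer (W : Set G) := cent_of_mem (WV_mem V _) hWV hA hAS'
    have hAoff := hA.offender hAn
    -- the group `C = C_G(W)`
    set C : Subgroup G := centralizer (W : Set G) with hC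
    have hCn : C.Normal := by rw [hC]; infer_instance
    have hVC : V ≤ C := by
      intro v hv
      rw [hC, mem_centralizer_iff]
      intro w hw
      exact hVc w (hWV hw) v hv
    have hWC : W ≤ C := hWV.trans hVC
    have hCVC : centralizer (V : Set G) ≤ C := centralizer_anti hWV
    -- elements acting trivially on `V / W`
    have hN₁ : ∀ x ∈ C, (∀ v ∈ V, v * (x * v⁻¹ * x⁻¹) ∈ W) → x ∈ centralizer (V : Set G) := by
      let N₁ : Subgroup G :=
        { carrier := {x | x ∈ C ∧ ∀ v ∈ V, v * (x * v⁻¹ * x⁻¹) ∈ W}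
          one_mem' := ⟨one_mem _, fun v hv => by
            have : v * (1 * v⁻¹ * 1⁻¹) = 1 := by group
            rw [this]; exact one_mem _⟩
          mul_mem' := by
            rintro a b ⟨ha, ha'⟩ ⟨hb, hb'⟩
            refine ⟨mul_mem ha hb, fun v hv => ?_⟩
            have h1 := ha' v hv
            have h2 := hWn.conj_mem _ (hb' v hv) a
            have h3 := mul_mem h1 (mul_mem (show a * v * a⁻¹ * v⁻¹ ∈ W by
              have := inv_mem (ha' v hv)
              have e : (v * (a * v⁻¹ * a⁻¹))⁻¹ = a * v * a⁻¹ * v⁻¹ := by group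
              rwa [e] at this) (show v * (a * v⁻¹ * a⁻¹) ∈ W from h1))
            -- `v * (ab v⁻¹ b⁻¹a⁻¹) = [v * a v⁻¹ a⁻¹] * [a (v * b v⁻¹ b⁻¹) a⁻¹]`
            have e : v * (a * b * v⁻¹ * (a * b)⁻¹) =
                (v * (a * v⁻¹ * a⁻¹)) * (a * (v * (b * v⁻¹ * b⁻¹)) * a⁻¹) := by group
            rw [e]
            exact mul_mem h1 h2
          inv_mem' := by
            rintro a ⟨ha, ha'⟩
            refine ⟨inv_mem ha, fun v hv => ?_⟩
            have h1 := hWn.conj_mem _ (inv_mem (ha' v hv)) a⁻¹
            have e : a⁻¹ * (v * (a * v⁻¹ * a⁻¹))⁻¹ * a⁻¹⁻¹ = v * (a⁻¹ * v⁻¹ * a⁻¹⁻¹) := by group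
            rwa [e] at h1 }
      have hN₁n : N₁.Normal := by
        constructor
        rintro x ⟨hx, hx'⟩ g
        refine ⟨hCn.conj_mem _ hx g, fun v hv => ?_⟩
        have h1 : g⁻¹ * v * g ∈ V := by
          have := hVn.conj_mem _ hv g⁻¹
          simpa using this
        have h2 := hWn.conj_mem _ (hx' _ h1) g
        have e : g * (g⁻¹ * v * g * (x * (g⁻¹ * v * g)⁻¹ * x⁻¹)) * g⁻¹ =
            v * (g * x * g⁻¹ * v⁻¹ * (g * x * g⁻¹)⁻¹) := by group
        rwa [e] at h2
      have h3 : N₁ ≤ centralizer (V : Set G) := by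
        refine hO N₁ hN₁n ?_
        rintro x ⟨hx, hx'⟩
        refine ⟨1, ?_⟩
        rw [pow_one, pow_two, mem_centralizer_iff]
        intro v hv
        have h5 := hx' v hv
        set w := v * (x * v⁻¹ * x⁻¹) with hw
        have h6 : w * x = x * w := (mem_centralizer_iff.1 hx) w h5
        have h7 : w * w = 1 := hVe w (hWV h5)
        -- `x v⁻¹ x⁻¹ = v⁻¹ w`
        have h8 : x * v⁻¹ * x⁻¹ = v⁻¹ * w := by rw [hw]; group
        have h9 : x * x * v⁻¹ * (x * x)⁻¹ = v⁻¹ := by
          calc x * x * v⁻¹ * (x * x)⁻¹ = x * (x * v⁻¹ * x⁻¹) * x⁻¹ := by group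
            _ = x * (v⁻¹ * w) * x⁻¹ := by rw [h8]
            _ = (x * v⁻¹ * x⁻¹) * (x * w) * x⁻¹ := by group
            _ = (v⁻¹ * w) * (w * x) * x⁻¹ := by rw [h8, h6]
            _ = v⁻¹ * (w * w) := by group
            _ = v⁻¹ := by rw [h7, mul_one]
        rw [mul_inv_eq_iff_eq_mul] at h9
        calc v * (x * x) = v * (x * x * v⁻¹) * v := by group
          _ = v * (v⁻¹ * (x * x)) * v := by rw [h9]
          _ = x * x * v := by group
      intro x hx hx'
      exact h3 ⟨hx, hx'⟩
    -- the quotient
    haveI hWCn : (W.subgroupOf C).Normal := hWn.comap C.subtype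
    let π : C →* C ⧸ W.subgroupOf C := QuotientGroup.mk' (W.subgroupOf C)
    have hπs : Function.Surjective π := QuotientGroup.mk'_surjective _
    have hπ1 : ∀ c : C, π c = 1 ↔ (c : G) ∈ W := by
      intro c
      rw [QuotientGroup.mk'_apply, QuotientGroup.eq_one_iff]
      exact Subgroup.mem_subgroupOf
    set V' : Subgroup C := V.subgroupOf C with hV'
    set Vb : Subgroup (C ⧸ W.subgroupOf C) := V'.map π with hVb
    have hVbn : Vb.Normal := (hVn.comap C.subtype).map π hπs
    -- centralizer of `Vb`
    have hcent : ∀ c : C, π c ∈ centralizer (Vb : Set (C ⧸ W.subgroupOf C)) ↔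
        (c : G) ∈ centralizer (V : Set G) := by
      intro c
      constructor
      · intro hc
        refine hN₁ c c.2 ?_
        intro v hv
        have h1 := (mem_centralizer_iff.1 hc) (π ⟨v, hVC hv⟩) ⟨⟨v, hVC hv⟩, hv, rfl⟩
        have h2 : π (⟨v, hVC hv⟩ * (c * ⟨v, hVC hv⟩⁻¹ * c⁻¹)) = 1 := by
          rw [map_mul, map_mul, map_mul, map_inv, map_inv, ← mul_assoc, ← mul_assoc, h1]
          group
        rw [hπ1] at h2
        exact h2
      · intro hc
        rw [mem_centralizer_iff]
        rintro _ ⟨v, hv, rfl⟩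
        rw [← map_mul, ← map_mul]
        congr 1
        exact Subtype.ext ((mem_centralizer_iff.1 hc) v hv)
    set A' : Subgroup C := A.subgroupOf C with hA'
    set Ab : Subgroup (C ⧸ W.subgroupOf C) := A'.map π with hAb
    have hmapA : A'.map C.subtype = A := Subgroup.map_subgroupOf_eq_of_le hAW
    have hmapV : V'.map C.subtype = V := Subgroup.map_subgroupOf_eq_of_le hVC
    -- cardinality drops
    have hcardlt : Nat.card Vb < n := by
      have h1 : Nat.card Vb * Nat.card (W.subgroupOf C) = Nat.card V' := by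
        let g : V' →* Vb := π.subgroupMap V'
        have hg : Function.Surjective g := MonoidHom.subgroupMap_surjective π V'
        have h2 := g.ker.index_mul_card
        rw [Subgroup.index_ker, MonoidHom.range_eq_top.2 hg] at h2
        have h3 : Nat.card (⊤ : Subgroup Vb) = Nat.card Vb := Nat.card_congr (Subgroup.topEquiv.toEquiv)
        rw [h3] at h2
        rw [← h2]
        congr 1
        refine Nat.card_congr
          { toFun := fun x => ⟨⟨x.1, hWV x.2⟩, ?_⟩
            invFun := fun x => ⟨x.1.1, ?_⟩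
            left_inv := fun x => rfl
            right_inv := fun x => rfl }
        · rw [MonoidHom.mem_ker]
          apply Subtype.ext
          exact (hπ1 _).2 x.2
        · have := congrArg Subtype.val (MonoidHom.mem_ker.1 x.2)
          exact (hπ1 _).1 this
      have h2 : Nat.card V' = n := by
        rw [← hn]
        have := card_map (f := C.subtype) C.subtype_injective (A := V')
        rw [hmapV] at this
        exact this.symm
      have h3 : 1 < Nat.card (W.subgroupOf C) := by
        have h5 := card_map (f := C.subtype) C.subtype_injective (A := W.subgroupOf C)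
        rw [Subgroup.map_subgroupOf_eq_of_le hWC] at h5
        rw [← h5]
        exact (Subgroup.one_lt_card_iff_ne_bot _).2 hWne
      have h5 : 0 < Nat.card Vb := Nat.card_pos
      rw [h2] at h1
      rw [← h1]
      nlinarith
    have h4' : ¬ Involves (Equiv.Perm (Fin 4)) (C ⧸ W.subgroupOf C) := by
      intro h5
      exact h4 (H51.Involves.involves_of_injective C.subtype C.subtype_injective
        (H51.Involves.involves_of_hom π hπs h5))
    refine ih _ hcardlt (C ⧸ W.subgroupOf C) Vb rfl h4' hVbn ?_ ?_ ?_ Ab ?_ ?_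
    · rintro _ ⟨a, ha, rfl⟩ _ ⟨b, hb, rfl⟩
      rw [← map_mul, ← map_mul]
      congr 1
      exact Subtype.ext (hVc a ha b hb)
    · rintro _ ⟨a, ha, rfl⟩
      rw [← map_mul, ← map_one π]
      congr 1
      exact Subtype.ext (hVe a ha)
    · -- no normal 2-subgroups
      intro N hN hNx
      -- `O₂(G / C(V)) = 1`
      set D : Subgroup G := centralizer (V : Set G) with hD
      haveI hDn : D.Normal := by rw [hD]; infer_instance
      let μ : G →* G ⧸ D := QuotientGroup.mk' D
      have hμs : Function.Surjective μ := QuotientGroup.mk'_surjective _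
      have hμ1 : ∀ g : G, μ g = 1 ↔ g ∈ D := by
        intro g
        rw [QuotientGroup.mk'_apply, QuotientGroup.eq_one_iff]
      have hcore : pCore 2 (G ⧸ D) = ⊥ := by
        have h5 : (pCore 2 (G ⧸ D)).comap μ ≤ D := by
          refine hO _ inferInstance ?_
          intro x hx
          obtain ⟨k, hk⟩ := (H13.Cores.isPGroup_pCore (p := 2) (G := G ⧸ D)) ⟨μ x, hx⟩
          refine ⟨k, ?_⟩
          rw [← hμ1, map_pow]
          exact congrArg Subtype.val hk
        rw [eq_bot_iff]
        intro y hy
        obtain ⟨x, rfl⟩ := hμs y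
        exact (hμ1 x).2 (h5 hy)
      set N' : Subgroup G := (N.comap π).map C.subtype with hN'
      have hCN : ∀ c ∈ C, ∀ x ∈ N', c * x * c⁻¹ ∈ N' := by
        rintro c hc _ ⟨y, hy, rfl⟩
        refine ⟨⟨c, hc⟩ * y * ⟨c, hc⟩⁻¹, ?_, rfl⟩
        exact (hN.comap π).conj_mem y hy ⟨c, hc⟩
      have h6 : N'.map μ ≤ (pCore 2 ↥(C.map μ)).map (C.map μ).subtype := by
        refine H13.Cores.le_map_pCore ?_ ?_ ?_
        · refine Subgroup.map_mono ?_
          exact map_subtype_le _
        · rintro _ ⟨c, hc, rfl⟩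
          rw [mem_normalizer_iff]
          intro y
          constructor
          · rintro ⟨x, hx, rfl⟩
            exact ⟨c * x * c⁻¹, hCN c hc x hx, by simp⟩
          · rintro ⟨x, hx, hxy⟩
            refine ⟨c⁻¹ * x * c⁻¹⁻¹, hCN c⁻¹ (inv_mem hc) x hx, ?_⟩
            rw [inv_inv, map_mul, map_mul, map_inv, hxy]
            group
        · rintro ⟨_, ⟨_, ⟨y, hy, rfl⟩, rfl⟩⟩
          obtain ⟨k, hk⟩ := hNx (π y) hy
          refine ⟨k, Subtype.ext ?_⟩
          change (μ (y : G)) ^ 2 ^ k = 1
          rw [← map_pow, hμ1]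
          rw [← map_pow, hcent] at hk
          exact hk
      haveI : (C.map μ).Normal := hCn.map μ hμs
      have h7 := h6.trans (H13.Cores.map_pCore_le_of_normal (C.map μ))
      rw [hcore] at h7
      intro z hz
      obtain ⟨c, rfl⟩ := hπs z
      rw [hcent, ← hμ1]
      exact h7 ⟨c, ⟨c, hz, rfl⟩, rfl⟩
    · exact (H13.Cores.isPGroup_subgroupOf (hA₀.to_le hAA₀) C).map π
    · -- the offender
      refine ⟨?_, ?_, ?_, ?_, ?_⟩
      · rw [Subgroup.normalizer_eq_top_iff.2 hVbn]; exact le_top
      · rw [Subgroup.commutator_le]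
        rintro _ ⟨a, ha, rfl⟩ _ ⟨b, hb, rfl⟩
        have e : ⁅π a, π b⁆ = π ⁅a, b⁆ := (map_commutatorElement π a b).symm
        rw [e, hcent]
        exact hAoff.2.1 (commutator_mem_commutator ha hb)
      · rintro _ ⟨a, ha, rfl⟩
        rw [← map_pow, hcent]
        exact hAoff.2.2.1 a ha
      · intro hle
        apply hAn
        intro a ha
        have := hle ⟨⟨a, hAW ha⟩, ha, rfl⟩
        rwa [hcent] at this
      · rw [offender_iff]
        have h5 := offender_iff.1 hAoff.2.2.2.2
        have e1 : (centralizer (Vb : Set (C ⧸ W.subgroupOf C))).relIndex Ab =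
            (centralizer (V : Set G)).relIndex A := by
          rw [hAb, ← Subgroup.relIndex_comap]
          have : (centralizer (Vb : Set (C ⧸ W.subgroupOf C))).comap π =
              (centralizer (V : Set G)).comap C.subtype := by
            ext c
            exact hcent c
          rw [this, Subgroup.relIndex_comap, hmapA]
        have e2 : (centralizer (Ab : Set (C ⧸ W.subgroupOf C))).relIndex Vb ≤
            (centralizer (A : Set G)).relIndex V := by
          rw [hVb, ← Subgroup.relIndex_comap, ← hmapV, ← Subgroup.relIndex_comap]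
          refine Subgroup.relIndex_le_of_le_left ?_ Subgroup.index_ne_zero_of_finite
          intro c hc
          rw [mem_comap, mem_centralizer_iff]
          rintro _ ⟨a, ha, rfl⟩
          rw [← map_mul, ← map_mul]
          congr 1
          exact Subtype.ext ((mem_centralizer_iff.1 hc) a ha)
        rw [e1]
        exact e2.trans h5

/-- **No offenders.** -/
theorem no_offender' {G : Type u} [Group G] [Finite G] (h4 : ¬ Involves (Equiv.Perm (Fin 4)) G)
    (V : Subgroup G) (hVn : V.Normal) (Vc : ∀ a ∈ V, ∀ b ∈ V, a * b = b * a) (Ve : ∀ a ∈ V, a * a = 1)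
    (hO : ∀ N : Subgroup G, N.Normal → (∀ x ∈ N, ∃ k, x ^ 2 ^ k ∈ centralizer (V : Set G)) →
      N ≤ centralizer (V : Set G))
    (A : Subgroup G) (hA : IsPGroup 2 A) : ¬ IsFFOffenderOn 2 V A :=
  no_off _ G V rfl h4 hVn Vc Ve hO A hA

theorem no_offender {G : Type u} [Group G] [Finite G] (h4 : ¬ Involves (Equiv.Perm (Fin 4)) G)
    (V : Subgroup G) (hVn : V.Normal) (Vc : ∀ a ∈ V, ∀ b ∈ V, a * b = b * a) (Ve : ∀ a ∈ V, a * a = 1)
    (hO : ∀ N : Subgroup G, N.Normal → centralizer (V : Set G) ≤ N →
      IsPGroup 2 (N.map (QuotientGroup.mk' (centralizer (V : Set G)))) → N ≤ centralizer (V : Set G))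
    (A : Subgroup G) (hA : IsPGroup 2 A) : ¬ IsFFOffenderOn 2 V A := by
  refine no_offender' h4 V hVn Vc Ve ?_ A hA
  intro N hN hNx
  haveI := hN
  have h1 : N ⊔ centralizer (V : Set G) ≤ centralizer (V : Set G) := by
    refine hO _ inferInstance le_sup_right ?_
    have e : (N ⊔ centralizer (V : Set G)).map (QuotientGroup.mk' (centralizer (V : Set G))) =
        N.map (QuotientGroup.mk' (centralizer (V : Set G))) := by
      rw [Subgroup.map_sup, QuotientGroup.map_mk'_self, sup_bot_eq]
    rw [e]
    rintro ⟨_, ⟨x, hx, rfl⟩⟩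
    obtain ⟨k, hk⟩ := hNx x hx
    refine ⟨k, Subtype.ext ?_⟩
    change (QuotientGroup.mk' (centralizer (V : Set G)) x) ^ 2 ^ k = 1
    rw [← map_pow, QuotientGroup.mk'_apply, QuotientGroup.eq_one_iff]
    exact hk
  exact le_sup_left.trans h1

end H14.SF
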