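import Cfsg.Agent.Lib.H14.SFCfg
import Cfsg.Agent.Lib.H13.Cores

/-!
Group theoretic consequences of the configuration `H14.SF.Cfg`.
-/

set_option autoImplicit false

namespace H14.SF

open Subgroup Cfsg
open scoped commutatorElement

/-- conjugate subgroup `k H k⁻¹` -/
def cj {G : Type*} [Group G] (k : G) (H : Subgroup G) : Subgroup G :=
  H.map (MulAut.conj k).toMonoidHom

section cj
variable {G : Type*} [Group G] {H K : Subgroup G} {k x : G}

theorem mem_cj : x ∈ cj k H ↔ k⁻¹ * x * k ∈ H := by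
  unfold cj
  rw [Subgroup.mem_map]
  constructor
  · rintro ⟨y, hy, rfl⟩
    simpa [mul_assoc] using hy
  · intro hx
    exact ⟨_, hx, by simp [mul_assoc]⟩

theorem conj_mem_cj (hx : x ∈ H) : k * x * k⁻¹ ∈ cj k H := by
  rw [mem_cj]; simpa [mul_assoc] using hx

theorem cj_mono (h : H ≤ K) : cj k H ≤ cj k K := Subgroup.map_mono h

theorem cj_le_iff : cj k H ≤ K ↔ ∀ x ∈ H, k * x * k⁻¹ ∈ K := by
  constructor
  · intro h x hx; exact h (conj_mem_cj hx)
  · intro h x hx
    have := h _ (mem_cj.1 hx)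
    simpa [mul_assoc] using this

theorem card_cj : Nat.card (cj k H) = Nat.card H :=
  Nat.card_congr (Subgroup.equivMapOfInjective _ _ (MulAut.conj k).injective).symm.toEquiv

theorem cj_cj_inv : cj k (cj k⁻¹ H) = H := by
  ext x; rw [mem_cj, mem_cj]; simp [mul_assoc]

theorem cj_inv_cj : cj k⁻¹ (cj k H) = H := by
  ext x; rw [mem_cj, mem_cj]; simp [mul_assoc]

theorem cj_normal [hH : H.Normal] : cj k H = H := by
  ext x; rw [mem_cj]
  constructor
  · intro h
    have := hH.conj_mem _ h k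
    simpa [mul_assoc] using this
  · intro h
    have := hH.conj_mem _ h k⁻¹
    simpa [mul_assoc] using this

theorem cj_eq_top_iff : cj k H = ⊤ ↔ H = ⊤ := by
  constructor
  · intro h
    rw [← cj_inv_cj (k := k) (H := H), h]
    exact cj_normal
  · rintro rfl; exact cj_normal

theorem cj_le_self_of_mem (hk : k ∈ K) (h : H ≤ K) : cj k H ≤ K :=
  cj_le_iff.2 fun _ hx => K.mul_mem (K.mul_mem hk (h hx)) (K.inv_mem hk)

theorem mem_normalizer_of_cj_le [Finite G] (h : cj k H ≤ H) : k ∈ normalizer (H : Set G) := by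
  have he : cj k H = H := Subgroup.eq_of_le_of_card_ge h (by rw [card_cj])
  rw [Subgroup.mem_normalizer_iff]
  intro x
  constructor
  · intro hx
    have := conj_mem_cj (k := k) hx
    rwa [he] at this
  · intro hx
    rw [← he, mem_cj] at hx
    simpa [mul_assoc] using hx

end cj

namespace Cfg

variable {G : Type*} [Group G] [Finite G] {S : Sylow 2 G} {W Y R : Subgroup G}
  (h : Cfg G S W Y R)

local notation "QQ" => Cfsg.pCore 2 G

include h

theorem not_le_Q : ¬ R ≤ Cfsg.pCore 2 G := fun hR => h.noOff R hR h.off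

theorem Q_le_S : Cfsg.pCore 2 G ≤ (S : Subgroup G) := H13.Cores.pCore_le_sylow S

theorem Q_le_M : Cfsg.pCore 2 G ≤ normalizer (W : Set G) := h.Q_le_S.trans h.SW

theorem R_le_M : R ≤ normalizer (W : Set G) := h.RS.trans h.SW

theorem normalizer_M : normalizer ((normalizer (W : Set G) : Subgroup G) : Set G) =
    normalizer (W : Set G) := by
  by_cases ht : normalizer ((normalizer (W : Set G) : Subgroup G) : Set G) = ⊤
  · exfalso
    have hn : (normalizer (W : Set G)).Normal := Subgroup.normalizer_eq_top_iff.1 ht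
    have := h.core _ hn le_rfl
    exact h.not_le_Q ((le_inf h.RS h.R_le_M).trans this)
  · exact le_antisymm (h.uniq _ (h.Q_le_M.trans le_normalizer) (h.R_le_M.trans le_normalizer) ht)
      le_normalizer

theorem uniq' {k : G} {X : Subgroup G} (hQ : Cfsg.pCore 2 G ≤ X) (hR : cj k R ≤ X) (ht : X ≠ ⊤) :
    X ≤ cj k (normalizer (W : Set G)) := by
  have h1 : cj k⁻¹ X ≤ normalizer (W : Set G) := by
    refine h.uniq _ ?_ ?_ ?_
    · rw [← cj_normal (k := k⁻¹) (H := Cfsg.pCore 2 G)]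
      exact cj_mono hQ
    · rw [← cj_inv_cj (k := k) (H := R)]
      exact cj_mono hR
    · intro h1; exact ht (cj_eq_top_iff.1 h1)
  rw [← cj_cj_inv (k := k) (H := X)]
  exact cj_mono h1

theorem gen_top {k : G} (hk : k ∉ normalizer (W : Set G)) :
    (R ⊔ cj k R) ⊔ Cfsg.pCore 2 G = ⊤ := by
  by_contra ht
  have h1 := h.uniq' (k := k) (X := (R ⊔ cj k R) ⊔ Cfsg.pCore 2 G) le_sup_right
    (le_sup_right.trans le_sup_left) ht
  have h2 : cj k (normalizer (W : Set G)) ≤ normalizer (W : Set G) := by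
    refine h.uniq _ (le_sup_right.trans h1) ((le_sup_left.trans le_sup_left).trans h1) ?_
    intro h3
    exact h.ne (cj_eq_top_iff.1 h3)
  have h3 := mem_normalizer_of_cj_le h2
  rw [h.normalizer_M] at h3
  exact hk h3

theorem exists_h {r : G} (hr : r ∈ R) (hrQ : r ∉ Cfsg.pCore 2 G) :
    ∃ k : G, (zpowers r ⊔ cj k R) ⊔ Cfsg.pCore 2 G = ⊤ := by
  have h1 : r ∉ (normalizer (W : Set G)).normalCore := by
    intro h2
    refine hrQ (h.core _ (normalCore_normal _) (normalCore_le _) ⟨h.RS hr, h2⟩)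
  have h2 : ∃ k : G, k * r * k⁻¹ ∉ normalizer (W : Set G) := by
    by_contra hc
    push Not at hc
    exact h1 fun b => hc b
  obtain ⟨k, hk⟩ := h2
  refine ⟨k⁻¹, ?_⟩
  by_contra ht
  have h3 := h.uniq' (k := k⁻¹) (X := (zpowers r ⊔ cj k⁻¹ R) ⊔ Cfsg.pCore 2 G) le_sup_right
    (le_sup_right.trans le_sup_left) ht
  have h4 : r ∈ cj k⁻¹ (normalizer (W : Set G)) :=
    h3 (le_sup_left (α := Subgroup G) (le_sup_left (α := Subgroup G) (mem_zpowers r)))
  rw [mem_cj] at h4
  simp only [inv_inv] at h4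
  exact hk h4

/-- A good choice of the second conjugate. -/
theorem exists_k : ∃ k : G, k ∉ normalizer (W : Set G) ∧ k ∈ R ⊔ cj k R := by
  classical
  obtain ⟨k₀, hk₀⟩ : ∃ k : G, k ∉ normalizer (W : Set G) := by
    by_contra hc
    push Not at hc
    exact h.ne (eq_top_iff.2 fun x _ => hc x)
  have hex : ∃ n, ∃ k : G, k ∉ normalizer (W : Set G) ∧ Nat.card (R ⊔ cj k R : Subgroup G) = n :=
    ⟨_, k₀, hk₀, rfl⟩
  obtain ⟨k, hk, hc⟩ := Nat.find_spec hex
  have hmin : ∀ l : G, l ∉ normalizer (W : Set G) →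
      Nat.card (R ⊔ cj k R : Subgroup G) ≤ Nat.card (R ⊔ cj l R : Subgroup G) := by
    intro l hl
    rw [hc]
    exact Nat.find_min' hex ⟨l, hl, rfl⟩
  have ht := h.gen_top hk
  have hkm : k ∈ (R ⊔ cj k R) ⊔ Cfsg.pCore 2 G := by rw [ht]; trivial
  obtain ⟨l, hl, q, hq, hlq⟩ := Subgroup.mem_sup_of_normal_right.1 hkm
  have hlM : l ∉ normalizer (W : Set G) := by
    intro h1
    apply hk
    rw [← hlq]
    exact mul_mem h1 (h.Q_le_M hq)
  have hle : R ⊔ cj l R ≤ R ⊔ cj k R :=
    sup_le le_sup_left (cj_le_self_of_mem hl le_sup_left)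
  have he : R ⊔ cj l R = R ⊔ cj k R := Subgroup.eq_of_le_of_card_ge hle (hmin l hlM)
  exact ⟨l, hlM, he ▸ hl⟩

theorem normalClosure_le {k : G} (hk : k ∉ normalizer (W : Set G)) {C : Subgroup G}
    (h1 : ∀ q ∈ Cfsg.pCore 2 G, cj q R ≤ C) (h2 : cj k R ≤ C) :
    Subgroup.normalClosure (R : Set G) ≤ C := by
  have hR : R ≤ C := by
    have := h1 1 (one_mem _)
    refine le_trans ?_ this
    intro x hx; rw [mem_cj]; simpa using hx
  rw [Subgroup.normalClosure, Subgroup.closure_le]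
  intro x hx
  rw [Group.mem_conjugatesOfSet_iff] at hx
  obtain ⟨r, hr, hrx⟩ := hx
  obtain ⟨g, rfl⟩ := isConj_iff.1 hrx
  have hg : g ∈ (R ⊔ cj k R) ⊔ Cfsg.pCore 2 G := by rw [h.gen_top hk]; trivial
  obtain ⟨l, hl, q, hq, rfl⟩ := Subgroup.mem_sup_of_normal_right.1 hg
  have hlC : l ∈ C := (sup_le hR h2) hl
  have := C.mul_mem (C.mul_mem hlC (h1 q hq (conj_mem_cj hr))) (C.inv_mem hlC)
  change l * q * r * (l * q)⁻¹ ∈ C
  simpa [mul_assoc] using this

/-- `Y ⊓ C(N)` where `N` is the normal closure of `R`. -/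
def CN (_ : Cfg G S W Y R) : Subgroup G :=
  Y ⊓ centralizer (Subgroup.normalClosure (R : Set G) : Set G)

theorem CN_normal : h.CN.Normal := by
  haveI := h.Yn
  unfold CN
  infer_instance

theorem comm_W {w g r : G} (hw : w ∈ W) (hr : r ∈ R) (hrQ : r ∈ Cfsg.pCore 2 G) :
    ⁅g * w * g⁻¹, r⁆ ∈ h.CN := by
  haveI := h.CN_normal
  haveI := h.Yn
  have hQn : (Cfsg.pCore 2 G).Normal := inferInstance
  have key : ⁅w, g⁻¹ * r * g⁆ ∈ h.CN := by
    have hr'Q : g⁻¹ * r * g ∈ Cfsg.pCore 2 G := by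
      have := hQn.conj_mem _ hrQ g⁻¹
      simpa using this
    by_cases hg : g ∈ normalizer (W : Set G)
    · have h1 : g * w * g⁻¹ ∈ W := (Subgroup.mem_normalizer_iff.1 hg w).1 hw
      have h2 := h.RW hr _ h1
      have h3 : ⁅w, g⁻¹ * r * g⁆ = 1 := by
        rw [commutatorElement_eq_one_iff_mul_comm]
        calc w * (g⁻¹ * r * g) = g⁻¹ * (g * w * g⁻¹ * r) * g := by group
          _ = g⁻¹ * (r * (g * w * g⁻¹)) * g := by rw [h2]
          _ = g⁻¹ * r * g * w := by group
      rw [h3]; exact one_mem _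
    · have hg' : g⁻¹ ∉ normalizer (W : Set G) := fun h1 => hg (by simpa using inv_mem h1)
      have hc : ⁅w, g⁻¹ * r * g⁆ ∈ W := by
        have h1 : (g⁻¹ * r * g) * w⁻¹ * (g⁻¹ * r * g)⁻¹ ∈ W :=
          (Subgroup.mem_normalizer_iff.1 (h.Q_le_M hr'Q) _).1 (inv_mem hw)
        have := mul_mem hw h1
        simpa [commutatorElement_def, mul_assoc] using this
      refine ⟨h.WY hc, ?_⟩
      have hle : Subgroup.normalClosure (R : Set G) ≤ centralizer {⁅w, g⁻¹ * r * g⁆} := by
        refine h.normalClosure_le hg' ?_ ?_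
        · intro q hq
          rw [cj_le_iff]
          intro x hx
          rw [Subgroup.mem_centralizer_singleton_iff]
          set c := ⁅w, g⁻¹ * r * g⁆
          have h1 : q⁻¹ * c * q ∈ W := by
            have := (Subgroup.mem_normalizer_iff.1 (inv_mem (h.Q_le_M hq)) c).1 hc
            simpa using this
          have h2 := h.RW hx _ h1
          calc q * x * q⁻¹ * c = q * (x * (q⁻¹ * c * q)) * q⁻¹ := by group
            _ = q * ((q⁻¹ * c * q) * x) * q⁻¹ := by rw [h2]
            _ = c * (q * x * q⁻¹) := by group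
        · rw [cj_le_iff]
          intro s hs
          rw [Subgroup.mem_centralizer_singleton_iff]
          have h1 : g * w * g⁻¹ ∈ Y := h.Yn.conj_mem _ (h.WY hw) g
          have h2 := h.quad _ h1 r hr s hs
          rw [commutatorElement_eq_one_iff_mul_comm] at h2
          have h3 : ⁅w, g⁻¹ * r * g⁆ = g⁻¹ * ⁅g * w * g⁻¹, r⁆ * g := by
            simp only [commutatorElement_def]; group
          rw [h3, inv_inv]
          calc g⁻¹ * s * g * (g⁻¹ * ⁅g * w * g⁻¹, r⁆ * g)
              = g⁻¹ * (s * ⁅g * w * g⁻¹, r⁆) * g := by group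
            _ = g⁻¹ * (⁅g * w * g⁻¹, r⁆ * s) * g := by rw [h2]
            _ = g⁻¹ * ⁅g * w * g⁻¹, r⁆ * g * (g⁻¹ * s * g) := by group
      change ⁅w, g⁻¹ * r * g⁆ ∈ centralizer (Subgroup.normalClosure (R : Set G) : Set G)
      rw [Subgroup.mem_centralizer_iff]
      intro x hx
      have := hle hx
      rw [Subgroup.mem_centralizer_singleton_iff] at this
      exact this
  have h3 : ⁅g * w * g⁻¹, r⁆ = g * ⁅w, g⁻¹ * r * g⁆ * g⁻¹ := by
    simp only [commutatorElement_def]; group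
  rw [h3]
  exact (h.CN_normal).conj_mem _ key g

theorem comm_Y {y r : G} (hy : y ∈ Y) (hr : r ∈ R) (hrQ : r ∈ Cfsg.pCore 2 G) :
    ⁅y, r⁆ ∈ h.CN := by
  haveI := h.CN_normal
  let T : Subgroup G :=
    { carrier := {y | ⁅y, r⁆ ∈ h.CN}
      one_mem' := by
        change ⁅(1 : G), r⁆ ∈ h.CN
        rw [commutatorElement_one_left]; exact one_mem _
      mul_mem' := by
        intro a b ha hb
        change ⁅a * b, r⁆ ∈ h.CN
        have : ⁅a * b, r⁆ = a * ⁅b, r⁆ * a⁻¹ * ⁅a, r⁆ := by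
          simp only [commutatorElement_def]; group
        rw [this]
        exact mul_mem ((h.CN_normal).conj_mem _ hb a) ha
      inv_mem' := by
        intro a ha
        change ⁅a⁻¹, r⁆ ∈ h.CN
        have : ⁅a⁻¹, r⁆ = a⁻¹ * ⁅a, r⁆⁻¹ * a⁻¹⁻¹ := by
          simp only [commutatorElement_def]; group
        rw [this]
        exact (h.CN_normal).conj_mem _ (inv_mem ha) a⁻¹ }
  have h1 : Y ≤ Subgroup.normalClosure (W : Set G) :=
    h.gen _ inferInstance Subgroup.subset_normalClosure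
  have h2 : Subgroup.normalClosure (W : Set G) ≤ T := by
    rw [Subgroup.normalClosure, Subgroup.closure_le]
    intro x hx
    rw [Group.mem_conjugatesOfSet_iff] at hx
    obtain ⟨w, hw, hwx⟩ := hx
    obtain ⟨g, rfl⟩ := isConj_iff.1 hwx
    exact h.comm_W hw hr hrQ
  exact h2 (h1 hy)

/-- normal closure of `R ⊓ O₂(G)` -/
def DD (_ : Cfg G S W Y R) : Subgroup G :=
  Subgroup.normalClosure ((R ⊓ Cfsg.pCore 2 G : Subgroup G) : Set G)

theorem DD_normal : h.DD.Normal := by unfold DD; infer_instance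

theorem DD_le_Q : h.DD ≤ Cfsg.pCore 2 G :=
  Subgroup.normalClosure_le_normal (by intro x hx; exact hx.2)

theorem DD_le_N : h.DD ≤ Subgroup.normalClosure (R : Set G) :=
  Subgroup.normalClosure_le_normal (by
    intro x hx; exact Subgroup.subset_normalClosure (show x ∈ (R : Set G) from hx.1))

theorem comm_D {y d : G} (hy : y ∈ Y) (hd : d ∈ h.DD) : ⁅y, d⁆ ∈ h.CN := by
  haveI := h.CN_normal
  let T : Subgroup G :=
    { carrier := {g | ∀ y ∈ Y, ⁅y, g⁆ ∈ h.CN}
      one_mem' := by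
        intro y _
        rw [commutatorElement_one_right]; exact one_mem _
      mul_mem' := by
        intro a b ha hb y hy
        have : ⁅y, a * b⁆ = ⁅y, a⁆ * (a * ⁅y, b⁆ * a⁻¹) := by
          simp only [commutatorElement_def]; group
        rw [this]
        exact mul_mem (ha y hy) ((h.CN_normal).conj_mem _ (hb y hy) a)
      inv_mem' := by
        intro a ha y hy
        have : ⁅y, a⁻¹⁆ = a⁻¹ * ⁅y, a⁆⁻¹ * a⁻¹⁻¹ := by
          simp only [commutatorElement_def]; group
        rw [this]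
        exact (h.CN_normal).conj_mem _ (inv_mem (ha y hy)) a⁻¹ }
  have hT : T.Normal := ⟨by
    intro a ha g y hy
    have h1 : g⁻¹ * y * g ∈ Y := by
      have := h.Yn.conj_mem _ hy g⁻¹
      simpa using this
    have : ⁅y, g * a * g⁻¹⁆ = g * ⁅g⁻¹ * y * g, a⁆ * g⁻¹ := by
      simp only [commutatorElement_def]; group
    rw [this]
    exact (h.CN_normal).conj_mem _ (ha _ h1) g⟩
  have : h.DD ≤ T := Subgroup.normalClosure_le_normal (by
    intro x hx y hy
    exact h.comm_Y hy hx.1 hx.2)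
  exact this hd y hy

/-- `N` fixes `[Y, D]`. -/
theorem CN_fixed {c n : G} (hc : c ∈ h.CN) (hn : n ∈ Subgroup.normalClosure (R : Set G)) :
    n * c * n⁻¹ = c := by
  have := (Subgroup.mem_centralizer_iff.1 hc.2) n hn
  rw [mul_inv_eq_iff_eq_mul]; exact this

end Cfg

end H14.SF
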