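import Cfsg.Agent.Lib.H14.SFGrp
import Cfsg.Agent.Lib.H14.SFAlg
import Mathlib.GroupTheory.PGroup

/-!
Modules for a group generated by two conjugate quadratic subgroups.
-/

set_option autoImplicit false

universe u

namespace H14.SFMod

open Subgroup H14.SF H14.SFAlg

section Basic

variable {A : Type u} [Ring A] {L : Type u} [Group L] (ρ : L →* A)
  (hgen : Subring.closure (Set.range ρ) = ⊤)

/-- the fixed points of a subgroup -/
def fp (X : Type u) [AddCommGroup X] [Module A X] (H : Subgroup L) : AddSubgroup X where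
  carrier := {x | ∀ h ∈ H, ρ h • x = x}
  zero_mem' := fun h _ => smul_zero _
  add_mem' := fun ha hb h hh => by rw [smul_add, ha h hh, hb h hh]
  neg_mem' := fun ha h hh => by rw [smul_neg, ha h hh]

variable {ρ} in
theorem mem_fp {X : Type u} [AddCommGroup X] [Module A X] {H : Subgroup L} {x : X} :
    x ∈ fp ρ X H ↔ ∀ h ∈ H, ρ h • x = x := Iff.rfl

include hgen in
theorem smul_mem_of {X : Type u} [AddCommGroup X] [Module A X] (H : AddSubgroup X)
    (hst : ∀ l : L, ∀ x ∈ H, ρ l • x ∈ H) (a : A) : ∀ x ∈ H, a • x ∈ H := by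
  have ha : a ∈ Subring.closure (Set.range ρ) := by rw [hgen]; trivial
  induction ha using Subring.closure_induction with
  | mem x hx => obtain ⟨l, rfl⟩ := hx; exact hst l
  | zero => intro x _; rw [zero_smul]; exact zero_mem _
  | one => intro x hx; rw [one_smul]; exact hx
  | add a b _ _ ha hb => intro x hx; rw [add_smul]; exact add_mem (ha x hx) (hb x hx)
  | neg a _ ha => intro x hx; rw [neg_smul]; exact neg_mem (ha x hx)
  | mul a b _ _ ha hb => intro x hx; rw [mul_smul]; exact ha _ (hb x hx)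

/-- an invariant subgroup is a submodule -/
def toSub {X : Type u} [AddCommGroup X] [Module A X] (H : AddSubgroup X)
    (hst : ∀ l : L, ∀ x ∈ H, ρ l • x ∈ H) : Submodule A X :=
  { H with smul_mem' := fun a x hx => smul_mem_of ρ hgen H hst a x hx }

theorem mem_toSub {X : Type u} [AddCommGroup X] [Module A X] {H : AddSubgroup X}
    {hst : ∀ l : L, ∀ x ∈ H, ρ l • x ∈ H} {x : X} : x ∈ toSub ρ hgen H hst ↔ x ∈ H := Iff.rfl

include hgen in
theorem simple_bot_or_top {E : Type u} [AddCommGroup E] [Module A E] [IsSimpleModule A E]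
    (H : AddSubgroup E) (hst : ∀ l : L, ∀ x ∈ H, ρ l • x ∈ H) : H = ⊥ ∨ H = ⊤ := by
  rcases eq_bot_or_eq_top (toSub ρ hgen H hst) with h | h
  · left
    rw [eq_bot_iff]
    intro x hx
    have : x ∈ toSub ρ hgen H hst := hx
    rw [h] at this
    exact this
  · right
    rw [eq_top_iff]
    intro x _
    have : x ∈ toSub ρ hgen H hst := by rw [h]; trivial
    exact this

/-- the set of elements stabilising a subgroup is a subgroup, so generators suffice -/
theorem stable_of_sup {X : Type u} [AddCommGroup X] [Module A X] [Finite X] (T : AddSubgroup X)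
    {H K : Subgroup L} (hHK : H ⊔ K = ⊤) (h1 : ∀ l ∈ H, ∀ x ∈ T, ρ l • x ∈ T)
    (h2 : ∀ l ∈ K, ∀ x ∈ T, ρ l • x ∈ T) : ∀ l : L, ∀ x ∈ T, ρ l • x ∈ T := by
  intro l
  have hl : l ∈ H ⊔ K := by rw [hHK]; trivial
  rw [Subgroup.sup_eq_closure] at hl
  induction hl using Subgroup.closure_induction with
  | mem x hx =>
    rcases hx with h | h
    · exact h1 x h
    · exact h2 x h
  | one => intro x hx; rw [map_one, one_smul]; exact hx
  | mul a b _ _ ha hb => intro x hx; rw [map_mul, mul_smul]; exact ha _ (hb x hx)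
  | inv a _ ha =>
    intro x hx
    -- `ρ a` is injective on the finite set `T`, hence bijective
    have hinj : Function.Injective (fun x : T => (⟨ρ a • x.1, ha _ x.2⟩ : T)) := by
      intro x y hxy
      have h3 : ρ a • x.1 = ρ a • y.1 := congrArg Subtype.val hxy
      have h4 := congrArg (fun z => ρ a⁻¹ • z) h3
      simp only [smul_smul, ← map_mul, inv_mul_cancel, map_one, one_smul] at h4
      exact Subtype.ext h4
    obtain ⟨y, hy⟩ := (Finite.injective_iff_surjective.1 hinj) ⟨x, hx⟩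
    have h5 : ρ a • y.1 = x := congrArg Subtype.val hy
    rw [← h5, smul_smul, ← map_mul, inv_mul_cancel, map_one, one_smul]
    exact y.2

theorem fp_sup {X : Type u} [AddCommGroup X] [Module A X] {H K : Subgroup L} :
    fp ρ X H ⊓ fp ρ X K = fp ρ X (H ⊔ K) := by
  ext x
  constructor
  · rintro ⟨h1, h2⟩ l hl
    rw [Subgroup.sup_eq_closure] at hl
    induction hl using Subgroup.closure_induction with
    | mem y hy =>
      rcases hy with h | h
      · exact h1 y h
      · exact h2 y h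
    | one => rw [map_one, one_smul]
    | mul a b _ _ ha hb => rw [map_mul, mul_smul, hb, ha]
    | inv a _ ha =>
      conv_lhs => rw [← ha]
      rw [smul_smul, ← map_mul, inv_mul_cancel, map_one, one_smul]
  · intro h
    exact ⟨fun l hl => h l (le_sup_left (α := Subgroup L) hl),
      fun l hl => h l (le_sup_right (α := Subgroup L) hl)⟩

theorem mem_fp_zpowers {X : Type u} [AddCommGroup X] [Module A X] {r : L} {x : X}
    (hx : ρ r • x = x) : x ∈ fp ρ X (zpowers r) := by
  intro l hl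
  rw [zpowers_eq_closure] at hl
  induction hl using Subgroup.closure_induction with
  | mem y hy => rw [Set.mem_singleton_iff.1 hy]; exact hx
  | one => rw [map_one, one_smul]
  | mul a b _ _ ha hb => rw [map_mul, mul_smul, hb, ha]
  | inv a _ ha =>
    conv_lhs => rw [← ha]
    rw [smul_smul, ← map_mul, inv_mul_cancel, map_one, one_smul]

theorem smul_mem_fp_cj {X : Type u} [AddCommGroup X] [Module A X] {H : Subgroup L} {k : L} {x : X}
    (hx : x ∈ fp ρ X H) : ρ k • x ∈ fp ρ X (cj k H) := by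
  intro l hl
  rw [mem_cj] at hl
  have h1 := hx _ hl
  rw [smul_smul, ← map_mul]
  conv_rhs => rw [← h1]
  rw [smul_smul, ← map_mul]
  congr 2
  group

theorem card_fp_cj {X : Type u} [AddCommGroup X] [Module A X] {H : Subgroup L} {k : L} :
    Nat.card (fp ρ X (cj k H)) = Nat.card (fp ρ X H) := by
  refine Nat.card_congr
    { toFun := fun x => ⟨ρ k⁻¹ • x.1, ?_⟩
      invFun := fun x => ⟨ρ k • x.1, smul_mem_fp_cj ρ x.2⟩
      left_inv := ?_
      right_inv := ?_ }
  · have := smul_mem_fp_cj ρ (k := k⁻¹) x.2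
    rwa [cj_inv_cj] at this
  · intro x; ext
    change ρ k • ρ k⁻¹ • x.1 = x.1
    rw [smul_smul, ← map_mul, mul_inv_cancel, map_one, one_smul]
  · intro x; ext
    change ρ k⁻¹ • ρ k • x.1 = x.1
    rw [smul_smul, ← map_mul, inv_mul_cancel, map_one, one_smul]

end Basic

theorem card_mul_le_of_disjoint {X : Type*} [AddCommGroup X] [Finite X] {U V : AddSubgroup X}
    (h : U ⊓ V = ⊥) : Nat.card U * Nat.card V ≤ Nat.card X := by
  rw [← Nat.card_prod]
  refine Nat.card_le_card_of_injective (fun p : U × V => (p.1 : X) + p.2) ?_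
  rintro ⟨⟨a, ha⟩, ⟨b, hb⟩⟩ ⟨⟨c, hc⟩, ⟨d, hd⟩⟩ hab
  change a + b = c + d at hab
  have h1 : a - c = d - b := by
    rw [sub_eq_sub_iff_add_eq_add, hab, add_comm]
  have h2 : a - c ∈ U ⊓ V := ⟨U.sub_mem ha hc, by rw [h1]; exact V.sub_mem hd hb⟩
  rw [h] at h2
  have h3 : a - c = 0 := h2
  have h4 : a = c := sub_eq_zero.1 h3
  subst h4
  have h5 : b = d := add_left_cancel hab
  subst h5
  rfl

theorem card_le_mul_of_sup {X : Type*} [AddCommGroup X] [Finite X] {U V : AddSubgroup X}
    (h : ∀ x : X, ∃ a ∈ U, ∃ b ∈ V, x = a + b) : Nat.card X ≤ Nat.card U * Nat.card V := by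
  rw [← Nat.card_prod]
  refine Nat.card_le_card_of_surjective (fun p : U × V => (p.1 : X) + p.2) ?_
  intro x
  obtain ⟨a, ha, b, hb, rfl⟩ := h x
  exact ⟨⟨⟨a, ha⟩, ⟨b, hb⟩⟩, rfl⟩

theorem exists_ne_of_ne_bot {X : Type*} [AddCommGroup X] {U : AddSubgroup X} (h : U ≠ ⊥) :
    ∃ x ∈ U, x ≠ 0 := by
  by_contra hc
  push Not at hc
  exact h (by rw [eq_bot_iff]; intro x hx; exact hc x hx)

section Count

variable {A : Type u} [Ring A] {L : Type u} [Group L] [Finite L] {ρ : L →* A}
  (hgen : Subring.closure (Set.range ρ) = ⊤)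

include hgen in
/-- A normal `2`-subgroup acts trivially on a simple module of characteristic two. -/
theorem normal_trivial {E : Type u} [AddCommGroup E] [Module A E] [IsSimpleModule A E] [Finite E]
    (h2 : ∀ x : E, x + x = 0) (K : Subgroup L) [hKn : K.Normal] (hK : IsPGroup 2 K) :
    fp ρ E K = ⊤ := by
  haveI : Nontrivial E := IsSimpleModule.nontrivial A E
  refine (simple_bot_or_top ρ hgen (fp ρ E K) ?_).resolve_left ?_
  · intro l x hx h hh
    have h1 : l⁻¹ * h * l ∈ K := by
      have := hKn.conj_mem h hh l⁻¹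
      simpa using this
    have h3 := hx _ h1
    conv_rhs => rw [← h3]
    rw [smul_smul, smul_smul, ← map_mul, ← map_mul]
    congr 2
    group
  · intro h0
    letI : MulAction K E := MulAction.compHom E (ρ.comp K.subtype)
    have h1 := hK.card_modEq_card_fixedPoints E
    have h3 : MulAction.fixedPoints K E = {0} := by
      ext x
      rw [MulAction.mem_fixedPoints, Set.mem_singleton_iff]
      constructor
      · intro hx
        have : x ∈ fp ρ E K := fun h hh => hx ⟨h, hh⟩
        rw [h0] at this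
        exact this
      · rintro rfl h
        change ρ h • (0 : E) = 0
        exact smul_zero _
    rw [h3] at h1
    have h4 : Nat.card ({0} : Set E) = 1 := by simp
    rw [h4] at h1
    obtain ⟨x, hx⟩ := exists_ne (0 : E)
    have h5 : addOrderOf x = 2 := by
      apply addOrderOf_eq_prime
      · rw [two_nsmul, h2]
      · exact hx
    have h6 : 2 ∣ Nat.card E := by rw [← h5]; exact addOrderOf_dvd_natCard x
    have h7 : Nat.card E % 2 = 1 % 2 := h1
    omega

include hgen in
/-- The counting argument with `S₃`. -/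
theorem count {E : Type u} [AddCommGroup E] [Module A E] [IsSimpleModule A E] [Finite E]
    (h2 : ∀ x : E, x + x = 0) (R K : Subgroup L) [hKn : K.Normal] (hK : IsPGroup 2 K) (k : L)
    (hk : R ⊔ cj k R = ⊤)
    (hnt : ∃ l : L, ∃ x : E, ρ l • x ≠ x)
    (quad : ∀ r ∈ R, ∀ s ∈ R, ∀ x : E, ρ s • (ρ r • x - x) = ρ r • x - x)
    (hh : ∀ r ∈ R, r ∉ K → ∃ l, (zpowers r ⊔ cj l R) ⊔ K = ⊤)
    (noS3 : ∀ r s : L, ∀ u w : E, u ≠ 0 → w ≠ 0 → u ≠ w → ρ r • u = u + w → ρ r • w = w →
      ρ s • u = u → ρ s • w = w + u → False) :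
    2 * K.relIndex R ≤ Nat.card (fp ρ E R) ∧
      Nat.card (fp ρ E R) * Nat.card (fp ρ E R) = Nat.card E := by
  haveI : Nontrivial E := IsSimpleModule.nontrivial A E
  have hKE := normal_trivial hgen h2 K hK
  -- no fixed points
  have hfix : fp ρ E (⊤ : Subgroup L) = ⊥ := by
    refine (simple_bot_or_top ρ hgen _ ?_).resolve_right ?_
    · intro l x hx h _
      rw [hx l trivial]
      exact hx h trivial
    · intro h0
      obtain ⟨l, x, hlx⟩ := hnt
      have : x ∈ fp ρ E (⊤ : Subgroup L) := by rw [h0]; trivial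
      exact hlx (this l trivial)
  have hdis : fp ρ E R ⊓ fp ρ E (cj k R) = ⊥ := by rw [fp_sup, hk, hfix]
  -- the sum
  have quad2 : ∀ r ∈ cj k R, ∀ s ∈ cj k R, ∀ x : E, ρ s • (ρ r • x - x) = ρ r • x - x := by
    intro r hr s hs x
    rw [mem_cj] at hr hs
    have h1 := quad _ hr _ hs (ρ k⁻¹ • x)
    have h3 := congrArg (fun z => ρ k • z) h1
    simp only [smul_sub, smul_smul, ← map_mul] at h3 ⊢
    have e1 : k * (k⁻¹ * s * k * (k⁻¹ * r * k * k⁻¹)) = s * r := by group
    have e2 : k * (k⁻¹ * s * k * k⁻¹) = s := by group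
    have e3 : k * (k⁻¹ * r * k * k⁻¹) = r := by group
    have e4 : k * k⁻¹ = 1 := by group
    rw [e1, e2, e3, e4, map_one, one_smul] at h3
    exact h3
  have hsum : ∀ x : E, ∃ a ∈ fp ρ E R, ∃ b ∈ fp ρ E (cj k R), x = a + b := by
    have h3 : ∀ l : L, ∀ x ∈ fp ρ E R ⊔ fp ρ E (cj k R), ρ l • x ∈ fp ρ E R ⊔ fp ρ E (cj k R) := by
      refine stable_of_sup ρ _ hk ?_ ?_
      · intro r hr x hx
        have : ρ r • x = x + (ρ r • x - x) := by abel
        rw [this]
        refine add_mem hx (AddSubgroup.mem_sup_left ?_)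
        intro s hs; exact quad r hr s hs x
      · intro r hr x hx
        have : ρ r • x = x + (ρ r • x - x) := by abel
        rw [this]
        refine add_mem hx (AddSubgroup.mem_sup_right ?_)
        intro s hs; exact quad2 r hr s hs x
    have h4 : fp ρ E R ⊔ fp ρ E (cj k R) = ⊤ := by
      refine (simple_bot_or_top ρ hgen _ h3).resolve_left ?_
      intro h0
      obtain ⟨h5, h6⟩ := sup_eq_bot_iff.1 h0
      apply not_subsingleton E
      constructor
      have : ∀ x : E, x = 0 := by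
        intro x
        have h7 : x ∈ fp ρ E R := by
          intro r hr
          have : ρ r • x - x ∈ fp ρ E R := fun s hs => quad r hr s hs x
          rw [h5] at this
          exact sub_eq_zero.1 this
        rw [h5] at h7
        exact h7
      intro a b; rw [this a, this b]
    intro x
    have hx : x ∈ fp ρ E R ⊔ fp ρ E (cj k R) := by rw [h4]; trivial
    obtain ⟨a, ha, b, hb, hab⟩ := AddSubgroup.mem_sup.1 hx
    exact ⟨a, ha, b, hb, hab.symm⟩
  have hcard : Nat.card (fp ρ E R) * Nat.card (fp ρ E R) = Nat.card E := by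
    have h3 := card_mul_le_of_disjoint hdis
    have h4 := card_le_mul_of_sup hsum
    rw [card_fp_cj] at h3 h4
    exact le_antisymm h3 h4
  refine ⟨?_, hcard⟩
  -- single elements
  have hsingle : ∀ r ∈ R, r ∉ K → ∀ x : E, ρ r • x = x → x ∈ fp ρ E R := by
    intro r hr hrK
    obtain ⟨l, hl⟩ := hh r hr hrK
    have h3 : fp ρ E (zpowers r) ⊓ fp ρ E (cj l R) = ⊥ := by
      have h4 := fp_sup ρ (X := E) (H := zpowers r ⊔ cj l R) (K := K)
      rw [hKE, inf_top_eq, hl, hfix, ← fp_sup] at h4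
      exact h4
    have h4 := card_mul_le_of_disjoint h3
    rw [card_fp_cj, ← hcard] at h4
    have h5 : Nat.card (fp ρ E (zpowers r)) ≤ Nat.card (fp ρ E R) :=
      Nat.le_of_mul_le_mul_right h4 Nat.card_pos
    have h6 : fp ρ E R ≤ fp ρ E (zpowers r) := by
      intro x hx s hs
      exact hx s ((zpowers_le.2 hr) hs)
    have h7 : fp ρ E R = fp ρ E (zpowers r) := AddSubgroup.eq_of_le_of_card_ge h6 h5
    intro x hx
    rw [h7]
    exact mem_fp_zpowers ρ hx
  -- the homomorphisms
  have hphi : ∀ u : E, u ∉ fp ρ E R → ∃ φ : R →* Multiplicative (fp ρ E R),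
      (∀ r : R, ((Multiplicative.toAdd (φ r) : fp ρ E R) : E) = ρ r • u - u) ∧
      Nat.card φ.range = K.relIndex R := by
    intro u hu
    let φ : R →* Multiplicative (fp ρ E R) :=
      { toFun := fun r => Multiplicative.ofAdd ⟨ρ r.1 • u - u, fun s hs => quad r.1 r.2 s hs u⟩
        map_one' := by
          apply Multiplicative.toAdd.injective
          apply Subtype.ext
          change ρ (1 : L) • u - u = 0
          rw [map_one, one_smul, sub_self]
        map_mul' := by
          intro r s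
          apply Multiplicative.toAdd.injective
          apply Subtype.ext
          change ρ (r.1 * s.1) • u - u = (ρ r.1 • u - u) + (ρ s.1 • u - u)
          have h3 := quad s.1 s.2 r.1 r.2 u
          rw [smul_sub, smul_smul, ← map_mul] at h3
          have h4 : ρ (r.1 * s.1) • u = ρ s.1 • u - u + ρ r.1 • u := by
            rw [← h3]; abel
          rw [h4]; abel }
    refine ⟨φ, fun r => rfl, ?_⟩
    rw [← Subgroup.index_ker]
    have : φ.ker = K.subgroupOf R := by
      ext r
      rw [MonoidHom.mem_ker, Subgroup.mem_subgroupOf]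
      constructor
      · intro h3
        by_contra h4
        apply hu
        have h5 : ρ r.1 • u - u = 0 := congrArg (fun z => ((Multiplicative.toAdd z : fp ρ E R) : E)) h3
        exact hsingle r.1 r.2 h4 u (sub_eq_zero.1 h5)
      · intro h3
        apply Multiplicative.toAdd.injective
        apply Subtype.ext
        change ρ r.1 • u - u = 0
        have : u ∈ fp ρ E K := by rw [hKE]; trivial
        rw [this r.1 h3, sub_self]
    rw [this]
    rfl
  have hRne : fp ρ E R ≠ ⊥ := by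
    intro h0
    rw [h0] at hcard
    simp only [AddSubgroup.mem_bot, Nat.card_unique] at hcard
    have : 1 < Nat.card E := Finite.one_lt_card
    omega
  have hR2ne : fp ρ E (cj k R) ≠ ⊥ := by
    intro h0
    have h3 := card_fp_cj ρ (X := E) (H := R) (k := k)
    rw [h0] at h3
    apply hRne
    rw [AddSubgroup.eq_bot_iff_card, ← h3]
    simp
  obtain ⟨w, hw, hw0⟩ := exists_ne_of_ne_bot hRne
  obtain ⟨u, hu, hu0⟩ := exists_ne_of_ne_bot hR2ne
  have huR : u ∉ fp ρ E R := by
    intro h3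
    have : u ∈ fp ρ E R ⊓ fp ρ E (cj k R) := ⟨h3, hu⟩
    rw [hdis] at this
    exact hu0 this
  have hwR2 : w ∉ fp ρ E (cj k R) := by
    intro h3
    have : w ∈ fp ρ E R ⊓ fp ρ E (cj k R) := ⟨hw, h3⟩
    rw [hdis] at this
    exact hw0 this
  obtain ⟨φ, hφ, hφc⟩ := hphi u huR
  have hdvd : K.relIndex R ∣ Nat.card (fp ρ E R) := by
    rw [← hφc]
    have := Subgroup.card_subgroup_dvd_card φ.range
    exact this
  obtain ⟨c, hc⟩ := hdvd
  have hc1 : c ≠ 1 := by
    rintro rfl
    rw [mul_one] at hc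
    have hsurj : ∀ v : E, v ∉ fp ρ E R → ∀ y ∈ fp ρ E R, ∃ r ∈ R, ρ r • v = v + y := by
      intro v hv y hy
      obtain ⟨ψ, hψ, hψc⟩ := hphi v hv
      have h3 : ψ.range = ⊤ := by
        apply Subgroup.eq_top_of_card_eq
        rw [hψc, ← hc]
        rfl
      have h4 : Multiplicative.ofAdd (⟨y, hy⟩ : fp ρ E R) ∈ ψ.range := by rw [h3]; trivial
      obtain ⟨r, hr⟩ := h4
      refine ⟨r.1, r.2, ?_⟩
      have h5 := hψ r
      rw [hr] at h5
      change y = ρ r.1 • v - v at h5
      rw [h5]; abel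
    obtain ⟨r, hr, hru⟩ := hsurj u huR w hw
    have hw' : ρ k⁻¹ • w ∉ fp ρ E R := by
      intro h3
      have h4 := smul_mem_fp_cj ρ (k := k) h3
      rw [smul_smul, ← map_mul, mul_inv_cancel, map_one, one_smul] at h4
      exact hwR2 h4
    have hu' : ρ k⁻¹ • u ∈ fp ρ E R := by
      have h4 := smul_mem_fp_cj ρ (k := k⁻¹) hu
      rwa [cj_inv_cj] at h4
    obtain ⟨s, hs, hsw⟩ := hsurj _ hw' _ hu'
    have hsw' : ρ (k * s * k⁻¹) • w = w + u := by
      have h3 := congrArg (fun z => ρ k • z) hsw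
      simp only [smul_add, smul_smul, ← map_mul] at h3
      rw [mul_inv_cancel, map_one, one_smul, one_smul] at h3
      rw [← h3]
      congr 2
      group
    refine noS3 r (k * s * k⁻¹) u w hu0 hw0 ?_ hru (hw r hr) (hu _ (conj_mem_cj hs)) hsw'
    rintro rfl
    exact huR hw
  have hc0 : c ≠ 0 := by
    rintro rfl
    have : 0 < Nat.card (fp ρ E R) := Nat.card_pos
    omega
  have hc2 : 2 ≤ c := by omega
  rw [hc, mul_comm 2]
  exact Nat.mul_le_mul_left _ hc2

include hgen in
/-- A nontrivial simple section. -/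
theorem exists_section {M : Type u} [AddCommGroup M] [Module A M] [Finite M] (R : Subgroup L) (k : L)
    (hk : R ⊔ cj k R = ⊤)
    (F1 : ∀ m : M, ∃ a ∈ fp ρ M R, ∃ b ∈ fp ρ M (cj k R), m = a + b)
    (hnt : ∃ l : L, ∃ x : M, ρ l • x ≠ x) :
    ∃ Z₂ Z₁ : Submodule A M, Z₂ ⋖ Z₁ ∧ ∃ l : L, ∃ z ∈ Z₁, ρ l • z - z ∉ Z₂ := by
  haveI : Finite (Submodule A M) :=
    Finite.of_injective (fun I : Submodule A M => (I : Set M)) SetLike.coe_injective
  obtain ⟨Z₂, hZ₂, hmax⟩ := Set.Finite.exists_maximal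
    (Set.toFinite {Z : Submodule A M | ∃ l : L, ∃ x : M, ρ l • x - x ∉ Z})
    ⟨⊥, by
      obtain ⟨l, x, hx⟩ := hnt
      exact ⟨l, x, fun h => hx (sub_eq_zero.1 h)⟩⟩
  have hne : ¬ IsMax Z₂ := by
    intro h
    rw [isMax_iff_eq_top] at h
    obtain ⟨l, x, hx⟩ := hZ₂
    exact hx (by rw [h]; trivial)
  obtain ⟨Z₁, hcov⟩ := exists_covBy_of_wellFoundedLT hne
  have htriv : ∀ l : L, ∀ x : M, ρ l • x - x ∈ Z₁ := by
    by_contra hc
    push Not at hc
    exact absurd (hmax hc hcov.le) (not_le_of_gt hcov.lt)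
  refine ⟨Z₂, Z₁, hcov, ?_⟩
  by_contra hc
  push Not at hc
  -- conjugation acts trivially modulo `Z₂`
  have hcomm : ∀ l l' : L, ∀ x : M, ρ (l * l') • x - ρ (l' * l) • x ∈ Z₂ := by
    intro l l' x
    have h1 := hc l _ (htriv l' x)
    have h3 := hc l' _ (htriv l x)
    have h4 := sub_mem h1 h3
    have e1 : ρ l • (ρ l' • x - x) - (ρ l' • x - x) - (ρ l' • (ρ l • x - x) - (ρ l • x - x)) =
        ρ (l * l') • x - ρ (l' * l) • x := by
      simp only [smul_sub, smul_smul, ← map_mul]
      abel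
    rwa [e1] at h4
  have hconj : ∀ r : L, ∀ x : M, ρ (k * r * k⁻¹) • x - ρ r • x ∈ Z₂ := by
    intro r x
    have h1 := hcomm (k * r) k⁻¹ x
    have e1 : k⁻¹ * (k * r) = r := by group
    rwa [e1] at h1
  have hR : ∀ r ∈ R, ∀ x : M, ρ r • x - x ∈ Z₂ := by
    intro r hr x
    obtain ⟨a, ha, b, hb, rfl⟩ := F1 x
    have h1 := hconj r b
    rw [hb _ (conj_mem_cj hr)] at h1
    have h3 : ρ r • (a + b) - (a + b) = -(b - ρ r • b) := by
      rw [smul_add, ha r hr]; abel
    rw [h3]
    exact neg_mem h1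
  have hall : ∀ l : L, ∀ x : M, ρ l • x - x ∈ Z₂ := by
    intro l
    have hl : l ∈ R ⊔ cj k R := by rw [hk]; trivial
    rw [Subgroup.sup_eq_closure] at hl
    induction hl using Subgroup.closure_induction with
    | mem x hx =>
      rcases hx with h | h
      · exact hR x h
      · intro m
        rw [SetLike.mem_coe, mem_cj] at h
        have h1 := hconj (k⁻¹ * x * k) m
        have h3 := hR _ h m
        have e1 : k * (k⁻¹ * x * k) * k⁻¹ = x := by group
        rw [e1] at h1
        have := add_mem h1 h3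
        simpa using this
    | one => intro x; rw [map_one, one_smul, sub_self]; exact zero_mem _
    | mul a b _ _ ha hb =>
      intro x
      rw [map_mul, mul_smul]
      have := add_mem (ha (ρ b • x)) (hb x)
      simpa using this
    | inv a _ ha =>
      intro x
      have := ha (ρ a⁻¹ • x)
      rw [smul_smul, ← map_mul, mul_inv_cancel, map_one, one_smul] at this
      have h5 := neg_mem this
      rwa [neg_sub] at h5
  obtain ⟨l, x, hx⟩ := hZ₂
  exact hx (hall l x)

end Count

section Final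

/-- **The module-theoretic contradiction.** -/
theorem mod_false {L : Type u} [Group L] [Finite L] {M : Type u} [AddCommGroup M] [Finite M]
    (h2 : ∀ m : M, m + m = 0) (σ : L →* AddMonoid.End M) (R K : Subgroup L) [hKn : K.Normal]
    (hK : IsPGroup 2 K) (k : L) (hk : R ⊔ cj k R = ⊤)
    (quad : ∀ r ∈ R, ∀ s ∈ R, ∀ m, σ s (σ r m - m) = σ r m - m)
    (F1 : ∀ m : M, ∃ a b : M, (∀ r ∈ R, σ r a = a) ∧ (∀ r ∈ cj k R, σ r b = b) ∧ m = a + b)
    (DD : AddSubgroup (M →+ M))
    (hD1 : ∀ z ∈ DD, ∀ l : L, z.comp (σ l : M →+ M) ∈ DD)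
    (hD2 : ∀ r ∈ R, r ∈ K → (show M →+ M from (σ r - 1 : AddMonoid.End M)) ∈ DD)
    (hoff : ∀ Z : AddSubgroup (M →+ M), Z ≤ DD → Z ≠ ⊥ →
      Nat.card Z * Nat.card (ann Z) < Nat.card M)
    (off : Nat.card M * Nat.card {r : R // σ r = 1} ≤
      Nat.card R * Nat.card {m : M // ∀ r ∈ R, σ r m = m})
    (hCR : ∀ r ∈ R, σ r = 1 → r ∈ K)
    (hRK : ¬ R ≤ K)
    (hh : ∀ r ∈ R, r ∉ K → ∃ l, (zpowers r ⊔ cj l R) ⊔ K = ⊤)
    (noS3 : ∀ Z : AddSubgroup M, (∀ l, ∀ z ∈ Z, σ l z ∈ Z) → ∀ r s : L, ∀ u w : M, u ∉ Z → w ∉ Z →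
      u - w ∉ Z → σ r u - (u + w) ∈ Z → σ r w - w ∈ Z → σ s u - u ∈ Z → σ s w - (w + u) ∈ Z →
      False) : False := by
  classical
  set A := ↥(Subring.closure (Set.range σ)) with hA
  haveI : Finite (AddMonoid.End M) :=
    Finite.of_injective (fun f : M →+ M => (f : M → M)) DFunLike.coe_injective
  haveI : Finite (M →+ M) :=
    Finite.of_injective (fun f : M →+ M => (f : M → M)) DFunLike.coe_injective
  haveI : Finite A := Subtype.finite
  let ρ : L →* A :=
    { toFun := fun l => ⟨σ l, Subring.subset_closure ⟨l, rfl⟩⟩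
      map_one' := Subtype.ext (map_one σ)
      map_mul' := fun a b => Subtype.ext (map_mul σ a b) }
  have hgen : Subring.closure (Set.range ρ) = ⊤ := by
    rw [eq_top_iff]
    rintro ⟨a, ha⟩ -
    induction ha using Subring.closure_induction with
    | mem x hx => obtain ⟨l, rfl⟩ := hx; exact Subring.subset_closure ⟨l, rfl⟩
    | zero => exact zero_mem _
    | one => exact one_mem _
    | add a b ha' hb' ha hb => exact add_mem ha hb
    | neg a ha' ha => exact neg_mem ha
    | mul a b ha' hb' ha hb => exact mul_mem ha hb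
  have hρ : ∀ l : L, ∀ m : M, ρ l • m = σ l m := fun l m => rfl
  -- basic subgroups
  set Y₁ := fp ρ M R with hY₁
  set Y₂ := fp ρ M (cj k R) with hY₂
  have F1' : ∀ m : M, ∃ a ∈ Y₁, ∃ b ∈ Y₂, m = a + b := by
    intro m
    obtain ⟨a, b, ha, hb, hab⟩ := F1 m
    exact ⟨a, ha, b, hb, hab⟩
  have hnt : ∃ l : L, ∃ x : M, ρ l • x ≠ x := by
    by_contra hc
    push Not at hc
    apply hRK
    intro r hr
    apply hCR r hr
    ext m
    exact hc r m
  obtain ⟨Z₂, Z₁, hcov, l₀, z₀, hz₀, hlz₀⟩ := exists_section hgen R k hk F1' hnt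
  have hsimple := (covBy_iff_quot_is_simple hcov.le).1 hcov
  set E := ↥Z₁ ⧸ Submodule.comap Z₁.subtype Z₂ with hE
  haveI : Finite E := Finite.of_surjective _ (Submodule.mkQ_surjective _)
  have hmk : ∀ z : Z₁, (Submodule.mkQ (Submodule.comap Z₁.subtype Z₂) z = 0) ↔ (z : M) ∈ Z₂ := by
    intro z
    rw [Submodule.mkQ_apply, Submodule.Quotient.mk_eq_zero]
    rfl
  have hE2 : ∀ x : E, x + x = 0 := by
    intro x
    obtain ⟨z, rfl⟩ := Submodule.mkQ_surjective _ x
    rw [← map_add, hmk]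
    have : ((z + z : Z₁) : M) = 0 := h2 _
    rw [this]; exact zero_mem _
  have hcount := count hgen (E := E) hE2 R K hK k hk
    ⟨l₀, Submodule.mkQ _ ⟨z₀, hz₀⟩, by
      intro h
      rw [← map_smul, ← sub_eq_zero, ← map_sub, hmk] at h
      exact hlz₀ h⟩
    (by
      intro r hr s hs x
      obtain ⟨z, rfl⟩ := Submodule.mkQ_surjective _ x
      rw [← map_smul, ← map_sub, ← map_smul]
      congr 1
      ext
      exact quad r hr s hs z)
    hh
    (by
      intro r s u w hu hw huw h1 h3 h4 h5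
      obtain ⟨u, rfl⟩ := Submodule.mkQ_surjective _ u
      obtain ⟨w, rfl⟩ := Submodule.mkQ_surjective _ w
      refine noS3 Z₂.toAddSubgroup (fun l z hz => Z₂.smul_mem (ρ l) hz) r s u w ?_ ?_ ?_ ?_ ?_ ?_ ?_
      · intro h; exact hu ((hmk _).2 h)
      · intro h; exact hw ((hmk _).2 h)
      · intro h; apply huw; rw [← sub_eq_zero, ← map_sub, hmk]; exact h
      · rw [← map_smul, ← map_add, ← sub_eq_zero, ← map_sub, hmk] at h1; exact h1
      · rw [← map_smul, ← sub_eq_zero, ← map_sub, hmk] at h3; exact h3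
      · rw [← map_smul, ← sub_eq_zero, ← map_sub, hmk] at h4; exact h4
      · rw [← map_smul, ← map_add, ← sub_eq_zero, ← map_sub, hmk] at h5; exact h5)
  -- the submodule of fixed points
  set N : Submodule A M := toSub ρ hgen (fp ρ M (⊤ : Subgroup L)) (by
    intro l x hx h _
    rw [hx l trivial]
    exact hx h trivial) with hN
  have hNmem : ∀ x : M, x ∈ N ↔ ∀ l : L, σ l x = x := by
    intro x
    exact ⟨fun h l => h l trivial, fun h l _ => h l⟩
  have hNZ : Z₁ ⊓ N ≤ Z₂ := by
    rcases hcov.eq_or_eq (show Z₂ ≤ Z₂ ⊔ (Z₁ ⊓ N) from le_sup_left)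
      (sup_le hcov.le inf_le_left) with h | h
    · rw [← h]; exact le_sup_right
    · exfalso
      have h1 : z₀ ∈ Z₂ ⊔ (Z₁ ⊓ N) := by rw [h]; exact hz₀
      obtain ⟨a, ha, b, hb, hab⟩ := Submodule.mem_sup.1 h1
      apply hlz₀
      rw [← hab, smul_add]
      have h3 : ρ l₀ • b = b := (hNmem b).1 hb.2 l₀
      rw [h3]
      have : ρ l₀ • a + b - (a + b) = ρ l₀ • a - a := by abel
      rw [this]
      exact sub_mem (Z₂.smul_mem _ ha) ha
  -- the subgroups `D₁`, `D₂`
  let D₁ : AddSubgroup (M →+ M) :=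
    { carrier := {z | z ∈ DD ∧ ∀ m ∈ Y₁, z m = 0}
      zero_mem' := ⟨zero_mem _, fun m _ => rfl⟩
      add_mem' := fun ha hb => ⟨add_mem ha.1 hb.1, fun m hm => by
        rw [AddMonoidHom.add_apply, ha.2 m hm, hb.2 m hm, add_zero]⟩
      neg_mem' := fun ha => ⟨neg_mem ha.1, fun m hm => by
        rw [AddMonoidHom.neg_apply, ha.2 m hm, neg_zero]⟩ }
  let D₂ : AddSubgroup (M →+ M) :=
    { carrier := {z | z ∈ DD ∧ ∀ m ∈ Y₂, z m = 0}
      zero_mem' := ⟨zero_mem _, fun m _ => rfl⟩
      add_mem' := fun ha hb => ⟨add_mem ha.1 hb.1, fun m hm => by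
        rw [AddMonoidHom.add_apply, ha.2 m hm, hb.2 m hm, add_zero]⟩
      neg_mem' := fun ha => ⟨neg_mem ha.1, fun m hm => by
        rw [AddMonoidHom.neg_apply, ha.2 m hm, neg_zero]⟩ }
  have hdis : D₁ ⊓ D₂ = ⊥ := by
    rw [eq_bot_iff]
    rintro z ⟨⟨-, h1⟩, ⟨-, h3⟩⟩
    change z = 0
    ext m
    obtain ⟨a, ha, b, hb, rfl⟩ := F1' m
    rw [map_add, h1 a ha, h3 b hb]; simp
  -- stability
  have quad2 : ∀ r ∈ cj k R, ∀ s ∈ cj k R, ∀ x : M, ρ s • (ρ r • x - x) = ρ r • x - x := by
    intro r hr s hs x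
    rw [mem_cj] at hr hs
    have h1 : ρ _ • (ρ _ • (ρ k⁻¹ • x) - (ρ k⁻¹ • x)) = ρ _ • (ρ k⁻¹ • x) - (ρ k⁻¹ • x) :=
      quad _ hr _ hs (ρ k⁻¹ • x)
    have h3 := congrArg (fun z => ρ k • z) h1
    simp only [smul_sub, smul_smul, ← map_mul] at h3 ⊢
    have e1 : k * (k⁻¹ * s * k * (k⁻¹ * r * k * k⁻¹)) = s * r := by group
    have e2 : k * (k⁻¹ * s * k * k⁻¹) = s := by group
    have e3 : k * (k⁻¹ * r * k * k⁻¹) = r := by group
    have e4 : k * k⁻¹ = 1 := by group
    rw [e1, e2, e3, e4, map_one, one_smul] at h3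
    exact h3
  set BB : AddSubgroup (M →+ M) := D₁ ⊔ D₂ with hBB
  have hBD : BB ≤ DD := sup_le (fun z hz => hz.1) (fun z hz => hz.1)
  have hst1 : ∀ l : L, ∀ z ∈ BB, z.comp (σ l : M →+ M) ∈ BB := by
    have hR1 : ∀ r ∈ R, ∀ z ∈ BB, z.comp (σ r : M →+ M) ∈ BB := by
      intro r hr z hz
      have hzD := hBD hz
      have h1 : z.comp (σ r : M →+ M) - z ∈ D₁ := by
        refine ⟨sub_mem (hD1 z hzD r) hzD, ?_⟩
        intro m hm
        change z (σ r m) - z m = 0
        have : σ r m = m := hm r hr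
        rw [this, sub_self]
      have : z.comp (σ r : M →+ M) = z + (z.comp (σ r : M →+ M) - z) := by abel
      rw [this]
      exact add_mem hz (AddSubgroup.mem_sup_left h1)
    have hR2 : ∀ r ∈ cj k R, ∀ z ∈ BB, z.comp (σ r : M →+ M) ∈ BB := by
      intro r hr z hz
      have hzD := hBD hz
      have h1 : z.comp (σ r : M →+ M) - z ∈ D₂ := by
        refine ⟨sub_mem (hD1 z hzD r) hzD, ?_⟩
        intro m hm
        change z (σ r m) - z m = 0
        have : σ r m = m := hm r hr
        rw [this, sub_self]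
      have : z.comp (σ r : M →+ M) = z + (z.comp (σ r : M →+ M) - z) := by abel
      rw [this]
      exact add_mem hz (AddSubgroup.mem_sup_right h1)
    intro l
    have hl : l ∈ R ⊔ cj k R := by rw [hk]; trivial
    rw [Subgroup.sup_eq_closure] at hl
    induction hl using Subgroup.closure_induction with
    | mem x hx =>
      rcases hx with h | h
      · exact hR1 x h
      · exact hR2 x h
    | one => intro z hz; rw [map_one]; exact hz
    | mul a b _ _ ha hb => intro z hz; rw [map_mul]; exact hb _ (ha z hz)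
    | inv a _ ha =>
      intro z hz
      have hinj : Function.Injective (fun x : BB => (⟨x.1.comp (σ a : M →+ M), ha _ x.2⟩ : BB)) := by
        intro x y hxy
        have h3 : x.1.comp (σ a : M →+ M) = y.1.comp (σ a : M →+ M) := congrArg Subtype.val hxy
        apply Subtype.ext
        ext m
        have h4 := DFunLike.congr_fun h3 (σ a⁻¹ m)
        have h5 : σ a (σ a⁻¹ m) = m := by
          change (σ a * σ a⁻¹) m = m
          rw [← map_mul, mul_inv_cancel, map_one]; rfl
        change x.1 (σ a (σ a⁻¹ m)) = y.1 (σ a (σ a⁻¹ m)) at h4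
        rwa [h5] at h4
      obtain ⟨y, hy⟩ := (Finite.injective_iff_surjective.1 hinj) ⟨z, hz⟩
      have h5 : y.1.comp (σ a : M →+ M) = z := congrArg Subtype.val hy
      have h6 : z.comp (σ a⁻¹ : M →+ M) = y.1 := by
        rw [← h5]
        ext m
        change y.1 (σ a (σ a⁻¹ m)) = y.1 m
        have h7 : σ a (σ a⁻¹ m) = m := by
          change (σ a * σ a⁻¹) m = m
          rw [← map_mul, mul_inv_cancel, map_one]; rfl
        rw [h7]
      rw [h6]
      exact y.2
  have hst : ∀ z ∈ BB, ∀ a : A, z.comp (DistribSMul.toAddMonoidHom M a) ∈ BB := by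
    intro z hz a
    have ha : a ∈ Subring.closure (Set.range ρ) := by rw [hgen]; trivial
    induction ha using Subring.closure_induction generalizing z with
    | mem x hx => obtain ⟨l, rfl⟩ := hx; exact hst1 l z hz
    | zero =>
      have : z.comp (DistribSMul.toAddMonoidHom M (0 : A)) = 0 := by
        ext m
        change z ((0 : A) • m) = 0
        rw [zero_smul, map_zero]
      rw [this]; exact zero_mem _
    | one =>
      have : z.comp (DistribSMul.toAddMonoidHom M (1 : A)) = z := by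
        ext m
        change z ((1 : A) • m) = z m
        rw [one_smul]
      rw [this]; exact hz
    | add a b _ _ ha hb =>
      have : z.comp (DistribSMul.toAddMonoidHom M (a + b)) =
          z.comp (DistribSMul.toAddMonoidHom M a) + z.comp (DistribSMul.toAddMonoidHom M b) := by
        ext m
        change z ((a + b) • m) = z (a • m) + z (b • m)
        rw [add_smul, map_add]
      rw [this]; exact add_mem (ha z hz) (hb z hz)
    | neg a _ ha =>
      have : z.comp (DistribSMul.toAddMonoidHom M (-a)) =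
          -(z.comp (DistribSMul.toAddMonoidHom M a)) := by
        ext m
        change z ((-a) • m) = -(z (a • m))
        rw [neg_smul, map_neg]
      rw [this]; exact neg_mem (ha z hz)
    | mul a b _ _ ha hb =>
      have : z.comp (DistribSMul.toAddMonoidHom M (a * b)) =
          (z.comp (DistribSMul.toAddMonoidHom M a)).comp (DistribSMul.toAddMonoidHom M b) := by
        ext m
        change z ((a * b) • m) = z (a • b • m)
        rw [mul_smul]
      rw [this]; exact hb _ (ha z hz)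
  have hcardD : Nat.card D₂ = Nat.card D₁ := by
    have hk1 : σ k * σ k⁻¹ = 1 := by rw [← map_mul, mul_inv_cancel, map_one]
    have hk2 : σ k⁻¹ * σ k = 1 := by rw [← map_mul, inv_mul_cancel, map_one]
    refine Nat.card_congr
      { toFun := fun z => ⟨z.1.comp (σ k : M →+ M), hD1 _ z.2.1 _, ?_⟩
        invFun := fun z => ⟨z.1.comp (σ k⁻¹ : M →+ M), hD1 _ z.2.1 _, ?_⟩
        left_inv := ?_
        right_inv := ?_ }
    · intro m hm
      exact z.2.2 _ (smul_mem_fp_cj ρ hm)
    · intro m hm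
      refine z.2.2 _ ?_
      have := smul_mem_fp_cj ρ (k := k⁻¹) hm
      rwa [cj_inv_cj] at this
    · intro z
      apply Subtype.ext
      ext m
      change z.1 (σ k (σ k⁻¹ m)) = z.1 m
      have : σ k (σ k⁻¹ m) = (σ k * σ k⁻¹) m := rfl
      rw [this, hk1]; rfl
    · intro z
      apply Subtype.ext
      ext m
      change z.1 (σ k⁻¹ (σ k m)) = z.1 m
      have : σ k⁻¹ (σ k m) = (σ k⁻¹ * σ k) m := rfl
      rw [this, hk2]; rfl
  have hcardB : Nat.card D₁ * Nat.card D₁ ≤ Nat.card BB := by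
    have h1 : Nat.card D₁ * Nat.card D₂ ≤ Nat.card BB := by
      rw [← Nat.card_prod]
      refine Nat.card_le_card_of_injective
        (fun p : D₁ × D₂ => (⟨(p.1 : M →+ M) + p.2,
          add_mem (AddSubgroup.mem_sup_left p.1.2) (AddSubgroup.mem_sup_right p.2.2)⟩ : BB)) ?_
      rintro ⟨⟨a, ha⟩, ⟨b, hb⟩⟩ ⟨⟨c, hc⟩, ⟨d, hd⟩⟩ hab
      have hab' : a + b = c + d := congrArg Subtype.val hab
      have h1 : a - c = d - b := by
        rw [sub_eq_sub_iff_add_eq_add, hab', add_comm]
      have h3 : a - c ∈ D₁ ⊓ D₂ := ⟨D₁.sub_mem ha hc, by rw [h1]; exact D₂.sub_mem hd hb⟩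
      rw [hdis] at h3
      have h4 : a = c := sub_eq_zero.1 h3
      subst h4
      have h5 : b = d := add_left_cancel hab'
      subst h5
      rfl
    rwa [hcardD] at h1
  -- Lemma P
  have hP := lemmaP (A := A) BB h2 hst N
    (by
      intro z hz m hm
      rw [hNmem] at hm
      obtain ⟨z₁, hz₁, z₂, hz₂, rfl⟩ := AddSubgroup.mem_sup.1 hz
      rw [AddMonoidHom.add_apply, hz₁.2 m (fun r _ => hm r), hz₂.2 m (fun r _ => hm r), add_zero])
    (fun Z hZ hne => hoff Z (hZ.trans hBD) hne) E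
    (by
      intro e he
      by_contra hc
      push Not at hc
      apply hcov.lt.not_ge
      intro m hm
      have h1 : e • m ∈ Z₂ := hNZ ⟨Z₁.smul_mem e hm, hc m⟩
      have h3 := he.one (Submodule.mkQ _ ⟨m, hm⟩)
      rw [← map_smul, ← sub_eq_zero, ← map_sub, hmk] at h3
      have h4 : e • m - m ∈ Z₂ := h3
      have := sub_mem h1 h4
      simpa using this)
  -- numerical conclusion
  have n1 : Nat.card Y₁ * Nat.card Y₁ ≤ Nat.card M * Nat.card N := by
    have h1 : Nat.card Y₁ * Nat.card Y₂ ≤ Nat.card M * Nat.card N := by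
      -- fibres of the addition map
      rw [← Nat.card_prod, ← Nat.card_prod]
      have hsec : ∀ m : M, ∃ p : Y₁ × Y₂, m = (p.1 : M) + p.2 := by
        intro m
        obtain ⟨a, ha, b, hb, hab⟩ := F1' m
        exact ⟨⟨⟨a, ha⟩, ⟨b, hb⟩⟩, hab⟩
      choose s hs using hsec
      have hmemN : ∀ p q : Y₁ × Y₂, (p.1 : M) + p.2 = (q.1 : M) + q.2 →
          (p.1 : M) - q.1 ∈ N := by
        intro p q hpq
        rw [hNmem]
        have h1 : (p.1 : M) - q.1 = q.2 - p.2 := by
          rw [sub_eq_sub_iff_add_eq_add, hpq, add_comm]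
        have h3 : (p.1 : M) - q.1 ∈ Y₁ ⊓ Y₂ :=
          ⟨Y₁.sub_mem p.1.2 q.1.2, by rw [h1]; exact Y₂.sub_mem q.2.2 p.2.2⟩
        have h5 : (p.1 : M) - q.1 ∈ fp ρ M (R ⊔ cj k R) := by rw [← fp_sup]; exact h3
        rw [hk] at h5
        exact fun l => h5 l trivial
      refine Nat.card_le_card_of_injective
        (fun p : Y₁ × Y₂ => ((p.1 : M) + p.2,
          (⟨(p.1 : M) - (s ((p.1 : M) + p.2)).1, hmemN _ _ (hs _)⟩ : N))) ?_
      intro p q hpq
      have e1 : (p.1 : M) + p.2 = (q.1 : M) + q.2 := congrArg Prod.fst hpq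
      have e2 : (p.1 : M) - (s ((p.1 : M) + p.2)).1 = (q.1 : M) - (s ((q.1 : M) + q.2)).1 :=
        congrArg (fun z => ((Prod.snd z : N) : M)) hpq
      rw [e1] at e2
      have e3 : (p.1 : M) = q.1 := sub_left_injective e2
      have e4 : (p.2 : M) = q.2 := by rw [e3] at e1; exact add_left_cancel e1
      exact Prod.ext (Subtype.ext e3) (Subtype.ext e4)
    have h3 : Nat.card Y₂ = Nat.card Y₁ := card_fp_cj ρ
    rwa [h3] at h1
  have n2 : Nat.card (R ⊓ K : Subgroup L) ≤ Nat.card {r : R // σ r = 1} * Nat.card D₁ := by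
    let f : (R ⊓ K : Subgroup L) → D₁ := fun r =>
      ⟨(show M →+ M from (σ r.1 - 1 : AddMonoid.End M)), hD2 r.1 r.2.1 r.2.2, by
        intro m hm
        change σ r.1 m - m = 0
        have : σ r.1 m = m := hm r.1 r.2.1
        rw [this, sub_self]⟩
    have hsec : ∀ z : D₁, ∃ r₀ : (R ⊓ K : Subgroup L), ∀ r : (R ⊓ K : Subgroup L), f r = z →
        f r₀ = z := by
      intro z
      by_cases h : ∃ r, f r = z
      · obtain ⟨r, hr⟩ := h
        exact ⟨r, fun _ _ => hr⟩
      · exact ⟨1, fun r hr => absurd ⟨r, hr⟩ h⟩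
    choose s hs using hsec
    have hfσ : ∀ r r' : (R ⊓ K : Subgroup L), f r = f r' → σ (r'.1⁻¹ * r.1) = 1 := by
      intro r r' h
      have h1 : (show M →+ M from (σ r.1 - 1 : AddMonoid.End M)) =
          (show M →+ M from (σ r'.1 - 1 : AddMonoid.End M)) := congrArg Subtype.val h
      have h3 : σ r.1 = σ r'.1 := sub_left_injective h1
      rw [map_mul, h3, ← map_mul, inv_mul_cancel, map_one]
    rw [← Nat.card_prod]
    refine Nat.card_le_card_of_injective
      (fun r : (R ⊓ K : Subgroup L) => ((⟨⟨(s (f r)).1⁻¹ * r.1,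
        R.mul_mem (R.inv_mem (s (f r)).2.1) r.2.1⟩, hfσ _ _ (hs (f r) r rfl).symm⟩ :
          {r : R // σ r = 1}), f r)) ?_
    intro p q hpq
    have e1 : f p = f q := congrArg Prod.snd hpq
    have e2 : (s (f p)).1⁻¹ * p.1 = (s (f q)).1⁻¹ * q.1 :=
      congrArg (fun z => (((Prod.fst z : {r : R // σ r = 1}) : R) : L)) hpq
    rw [e1] at e2
    exact Subtype.ext (mul_left_cancel e2)
  have n3 : Nat.card R = K.relIndex R * Nat.card (R ⊓ K : Subgroup L) := by
    have h1 := (K.subgroupOf R).index_mul_card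
    rw [← h1]
    congr 1
    exact Nat.card_congr
      { toFun := fun x => ⟨x.1.1, x.1.2, x.2⟩
        invFun := fun x => ⟨⟨x.1, x.2.1⟩, x.2.2⟩
        left_inv := fun x => rfl
        right_inv := fun x => rfl }
  obtain ⟨c1, c2⟩ := hcount
  have off' : Nat.card M * Nat.card {r : R // σ r = 1} ≤ Nat.card R * Nat.card Y₁ := off
  have p1 : 0 < Nat.card {r : R // σ r = 1} := by
    haveI : Nonempty {r : R // σ r = 1} := ⟨⟨1, map_one σ⟩⟩
    exact Nat.card_pos
  have p2 : 0 < Nat.card M := Nat.card_pos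
  have p3 : 0 < Nat.card BB := Nat.card_pos
  have p4 : 0 < Nat.card N := Nat.card_pos
  have p5 : 0 < K.relIndex R := Nat.pos_of_ne_zero Subgroup.index_ne_zero_of_finite
  generalize Nat.card {r : R // σ r = 1} = c at *
  generalize Nat.card (R ⊓ K : Subgroup L) = rk at *
  generalize K.relIndex R = a at *
  generalize Nat.card (fp ρ E R) = fe at *
  generalize Nat.card E = ee at *
  generalize Nat.card BB = bb at *
  generalize Nat.card N = nn at *
  generalize Nat.card D₁ = dd at *
  generalize Nat.card Y₁ = yy at *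
  generalize Nat.card M = mm at *
  rw [n3] at off'
  -- mm ≤ a * dd * yy
  have q1 : mm ≤ a * dd * yy := by
    refine Nat.le_of_mul_le_mul_right ?_ p1
    calc mm * c ≤ a * rk * yy := off'
      _ ≤ a * (c * dd) * yy := Nat.mul_le_mul_right _ (Nat.mul_le_mul_left _ n2)
      _ = a * dd * yy * c := by ring
  have q2 : mm ≤ a * a * bb * nn := by
    refine Nat.le_of_mul_le_mul_right ?_ p2
    calc mm * mm ≤ (a * dd * yy) * (a * dd * yy) := Nat.mul_le_mul q1 q1
      _ = a * a * (dd * dd) * (yy * yy) := by ring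
      _ ≤ a * a * bb * (mm * nn) := Nat.mul_le_mul (Nat.mul_le_mul_left _ hcardB) n1
      _ = a * a * bb * nn * mm := by ring
  have q3 : ee ≤ a * a := by
    refine Nat.le_of_mul_le_mul_right (c := bb * nn) ?_ (Nat.mul_pos p3 p4)
    calc ee * (bb * nn) = ee * bb * nn := by ring
      _ ≤ mm := hP
      _ ≤ a * a * bb * nn := q2
      _ = a * a * (bb * nn) := by ring
  have q4 : 4 * (a * a) ≤ ee := by
    rw [← c2]
    calc 4 * (a * a) = (2 * a) * (2 * a) := by ring
      _ ≤ fe * fe := Nat.mul_le_mul c1 c1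
  have q5 : 0 < a * a := Nat.mul_pos p5 p5
  omega

end Final

end H14.SFMod
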