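import Cfsg.Prelude.Def_LocalEven
import Cfsg.Prelude.Def_PLocal
import Cfsg.Agent.Lib.H14.SFCfg
import Cfsg.Agent.Lib.H1.Coprime2

/-!
Best offenders, and the largest invariant subgroup without offenders.
-/

set_option autoImplicit false

namespace H14.SF

open Subgroup Cfsg
open scoped commutatorElement

variable {G : Type*} [Group G] [Finite G]

theorem card_mul_le {H K L : Subgroup G} (hH : H ≤ L) (hK : K ≤ L) :
    Nat.card H * Nat.card K ≤ Nat.card (H ⊓ K : Subgroup G) * Nat.card L := by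
  have h1 : K.relIndex H ≤ K.relIndex L :=
    Subgroup.relIndex_le_of_le_right hH Subgroup.index_ne_zero_of_finite
  have h2 : Nat.card (H ⊓ K : Subgroup G) * K.relIndex H = Nat.card H := by
    have := Subgroup.relIndex_mul_relIndex (⊥ : Subgroup G) (H ⊓ K) H bot_le inf_le_left
    rw [Subgroup.relIndex_bot_left, Subgroup.relIndex_bot_left] at this
    rw [← this]
    congr 1
    rw [inf_comm]
    exact (Subgroup.inf_relIndex_right K H).symm
  have h3 : Nat.card K * K.relIndex L = Nat.card L := by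
    have := Subgroup.relIndex_mul_relIndex (⊥ : Subgroup G) K L bot_le hK
    rwa [Subgroup.relIndex_bot_left, Subgroup.relIndex_bot_left] at this
  rw [← h2, ← h3]
  calc Nat.card (H ⊓ K : Subgroup G) * K.relIndex H * Nat.card K
      ≤ Nat.card (H ⊓ K : Subgroup G) * K.relIndex L * Nat.card K :=
        Nat.mul_le_mul_right _ (Nat.mul_le_mul_left _ h1)
    _ = _ := by ring

/-- `A` normalizes `Y` and is a best offender on `Y` (possibly acting trivially). -/
def Best (Y A : Subgroup G) : Prop :=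
  A ≤ normalizer (Y : Set G) ∧ IsBestOffenderOn 2 Y A

theorem centralizer_anti {A B : Subgroup G} (h : A ≤ B) :
    centralizer (B : Set G) ≤ centralizer (A : Set G) := Subgroup.centralizer_le h

theorem Best.sub {Y U A : Subgroup G} (h : Best Y A) (hU : U ≤ Y)
    (hA : A ≤ normalizer (U : Set G)) : Best U A := by
  obtain ⟨hn, hb, h1, h2⟩ := h
  refine ⟨hA, ?_, h1.trans (centralizer_anti hU), fun a ha => centralizer_anti hU (h2 a ha)⟩
  intro B hB
  have h3 := hb B hB
  have h4 : Nat.card ↥(U ⊓ centralizer (B : Set G)) * Nat.card ↥(Y ⊓ centralizer (A : Set G)) ≤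
      Nat.card ↥(U ⊓ centralizer (A : Set G)) * Nat.card ↥(Y ⊓ centralizer (B : Set G)) := by
    have h5 := card_mul_le (H := U ⊓ centralizer (B : Set G)) (K := Y ⊓ centralizer (A : Set G))
      (L := Y ⊓ centralizer (B : Set G)) (inf_le_inf_right _ hU) (inf_le_inf_left _ (centralizer_anti hB))
    have h6 : (U ⊓ centralizer (B : Set G)) ⊓ (Y ⊓ centralizer (A : Set G)) =
        U ⊓ centralizer (A : Set G) := by
      apply le_antisymm
      · exact le_inf (inf_le_left.trans inf_le_left) (inf_le_right.trans inf_le_right)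
      · exact le_inf (inf_le_inf_left _ (centralizer_anti hB)) (inf_le_inf_right _ hU)
    rwa [h6] at h5
  have p1 : 0 < Nat.card ↥(Y ⊓ centralizer (A : Set G)) := Nat.card_pos
  refine Nat.le_of_mul_le_mul_right ?_ p1
  calc Nat.card B * Nat.card ↥(U ⊓ centralizer (B : Set G)) * Nat.card ↥(Y ⊓ centralizer (A : Set G))
      = Nat.card B * (Nat.card ↥(U ⊓ centralizer (B : Set G)) *
          Nat.card ↥(Y ⊓ centralizer (A : Set G))) := by ring
    _ ≤ Nat.card B * (Nat.card ↥(U ⊓ centralizer (A : Set G)) *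
          Nat.card ↥(Y ⊓ centralizer (B : Set G))) := Nat.mul_le_mul_left _ h4
    _ = (Nat.card B * Nat.card ↥(Y ⊓ centralizer (B : Set G))) *
          Nat.card ↥(U ⊓ centralizer (A : Set G)) := by ring
    _ ≤ (Nat.card A * Nat.card ↥(Y ⊓ centralizer (A : Set G))) *
          Nat.card ↥(U ⊓ centralizer (A : Set G)) := Nat.mul_le_mul_right _ h3
    _ = _ := by ring

theorem le_centralizer_comm {H K : Subgroup G} (h : H ≤ centralizer (K : Set G)) :
    K ≤ centralizer (H : Set G) := by
  intro k hk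
  rw [mem_centralizer_iff]
  intro x hx
  exact ((mem_centralizer_iff.1 (h hx)) k hk).symm

theorem Best.offender {Y A : Subgroup G} (h : Best Y A) (hn : ¬ A ≤ centralizer (Y : Set G)) :
    IsFFOffenderOn 2 Y A := by
  obtain ⟨h0, hb, h1, h2⟩ := h
  refine ⟨h0, h1, h2, hn, ?_⟩
  have h3 := hb (A ⊓ centralizer (Y : Set G)) inf_le_left
  have h4 : Y ⊓ centralizer ((A ⊓ centralizer (Y : Set G) : Subgroup G) : Set G) = Y :=
    inf_eq_left.2 (le_centralizer_comm inf_le_right)
  rw [h4] at h3
  rw [mul_comm]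
  exact h3

theorem exists_best {Y R : Subgroup G} (h : IsFFOffenderOn 2 Y R) :
    ∃ A ≤ R, Best Y A ∧ ¬ A ≤ centralizer (Y : Set G) := by
  classical
  obtain ⟨h0, h1, h2, hn, h3⟩ := h
  let f : Subgroup G → ℕ := fun A => Nat.card A * Nat.card ↥(Y ⊓ centralizer (A : Set G))
  have hfin : {A : Subgroup G | A ≤ R ∧ ¬ A ≤ centralizer (Y : Set G)}.Finite := Set.toFinite _
  obtain ⟨A, ⟨hAR, hAC⟩, hmax⟩ := Set.exists_max_image _ f hfin ⟨R, le_rfl, hn⟩
  refine ⟨A, hAR, ⟨hAR.trans h0, ?_, (commutator_mono hAR hAR).trans h1, fun a ha => h2 a (hAR ha)⟩, hAC⟩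
  intro B hB
  by_cases hBC : B ≤ centralizer (Y : Set G)
  · have h4 : f B ≤ f R := by
      change Nat.card B * Nat.card ↥(Y ⊓ centralizer (B : Set G)) ≤ _
      rw [inf_eq_left.2 (le_centralizer_comm hBC)]
      have h5 : Nat.card B ≤ Nat.card ↥(R ⊓ centralizer (Y : Set G)) :=
        Nat.card_le_card_of_injective _ (Subgroup.inclusion_injective (le_inf (hB.trans hAR) hBC))
      calc Nat.card B * Nat.card Y ≤ Nat.card ↥(R ⊓ centralizer (Y : Set G)) * Nat.card Y :=
            Nat.mul_le_mul_right _ h5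
        _ = Nat.card Y * Nat.card ↥(R ⊓ centralizer (Y : Set G)) := mul_comm _ _
        _ ≤ _ := h3
    exact h4.trans (hmax R ⟨le_rfl, hn⟩)
  · exact hmax B ⟨hB.trans hAR, hBC⟩

/-- The invariant subgroups of `V` without offenders in `T`. -/
def WWset (V T : Subgroup G) : Set (Subgroup G) :=
  {Y | Y ≤ V ∧ T ≤ normalizer (Y : Set G) ∧ ∀ R ≤ T, ¬ IsFFOffenderOn 2 Y R}

theorem WWset_anti {V T T' : Subgroup G} (h : T' ≤ T) : WWset V T ⊆ WWset V T' :=
  fun _ hY => ⟨hY.1, h.trans hY.2.1, fun R hR => hY.2.2 R (hR.trans h)⟩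

/-- a best offender in `T` centralizes the members of `WWset V T` it lives over -/
theorem cent_of_mem {V T Y U A : Subgroup G} (hY : Y ∈ WWset V T) (hYU : Y ≤ U) (hA : Best U A)
    (hAT : A ≤ T) : A ≤ centralizer (Y : Set G) := by
  by_contra hc
  exact hY.2.2 A hAT ((hA.sub hYU (hAT.trans hY.2.1)).offender hc)

theorem normalizer_sSup {T : Subgroup G} {Y : Set (Subgroup G)}
    (h : ∀ y ∈ Y, T ≤ normalizer (y : Set G)) : T ≤ normalizer ((sSup Y : Subgroup G) : Set G) := by
  have key : ∀ t ∈ T, ∀ x ∈ sSup Y, t * x * t⁻¹ ∈ sSup Y := by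
    intro t ht
    have : sSup Y ≤ (sSup Y).comap (MulAut.conj t).toMonoidHom := by
      refine sSup_le ?_
      intro y hy x hx
      change t * x * t⁻¹ ∈ sSup Y
      exact (le_sSup hy) ((mem_normalizer_iff.1 (h y hy ht) x).1 hx)
    exact fun x hx => this hx
  intro t ht
  rw [mem_normalizer_iff]
  intro x
  refine ⟨key t ht x, fun hx => ?_⟩
  have := key t⁻¹ (inv_mem ht) _ hx
  simpa [mul_assoc] using this

theorem sSup_mem {V T : Subgroup G} {Y : Set (Subgroup G)} (hY : Y ⊆ WWset V T) :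
    sSup Y ∈ WWset V T := by
  have hn : T ≤ normalizer ((sSup Y : Subgroup G) : Set G) := normalizer_sSup fun y hy => (hY hy).2.1
  refine ⟨sSup_le fun y hy => (hY hy).1, hn, ?_⟩
  intro R hR hoff
  obtain ⟨A, hAR, hA, hAn⟩ := exists_best hoff
  apply hAn
  apply le_centralizer_comm
  refine sSup_le ?_
  intro y hy
  exact le_centralizer_comm (cent_of_mem (hY hy) (le_sSup hy) hA (hAR.trans hR))

/-- the largest invariant subgroup of `V` without offenders in `T` -/
def WV (V T : Subgroup G) : Subgroup G := sSup (WWset V T)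

theorem WV_mem (V T : Subgroup G) : WV V T ∈ WWset V T := sSup_mem subset_rfl

theorem le_WV {V T Y : Subgroup G} (h : Y ∈ WWset V T) : Y ≤ WV V T := le_sSup h

theorem WV_le (V T : Subgroup G) : WV V T ≤ V := (WV_mem V T).1

theorem le_normalizer_WV (V T : Subgroup G) : T ≤ normalizer (WV V T : Set G) := (WV_mem V T).2.1

theorem WV_anti {V T T' : Subgroup G} (h : T' ≤ T) : WV V T ≤ WV V T' :=
  le_WV (WWset_anti h (WV_mem V T))

end H14.SF
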