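import Cfsg.Agent.Lib.H14.SFOff
import Cfsg.Agent.Lib.H14.SFGrp

/-!
Offenders under injective homomorphisms, and Timmesfeld replacement.
-/

set_option autoImplicit false

namespace H14.SF

open Subgroup Cfsg
open scoped commutatorElement

section Map

variable {X : Type*} [Group X] {G : Type*} [Group G] {f : X →* G} (hf : Function.Injective f)

include hf

theorem map_le_centralizer_iff {H K : Subgroup X} :
    H.map f ≤ centralizer ((K.map f : Subgroup G) : Set G) ↔ H ≤ centralizer (K : Set X) := by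
  constructor
  · intro h x hx
    rw [mem_centralizer_iff]
    intro k hk
    apply hf
    rw [map_mul, map_mul]
    exact (mem_centralizer_iff.1 (h ⟨x, hx, rfl⟩)) _ ⟨k, hk, rfl⟩
  · rintro h _ ⟨x, hx, rfl⟩
    rw [mem_centralizer_iff]
    rintro _ ⟨k, hk, rfl⟩
    rw [← map_mul, ← map_mul, (mem_centralizer_iff.1 (h hx)) k hk]

theorem map_mem_centralizer_iff {x : X} {K : Subgroup X} :
    f x ∈ centralizer ((K.map f : Subgroup G) : Set G) ↔ x ∈ centralizer (K : Set X) := by
  constructor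
  · intro h
    rw [mem_centralizer_iff]
    intro k hk
    apply hf
    rw [map_mul, map_mul]
    exact (mem_centralizer_iff.1 h) _ ⟨k, hk, rfl⟩
  · intro h
    rw [mem_centralizer_iff]
    rintro _ ⟨k, hk, rfl⟩
    rw [← map_mul, ← map_mul, (mem_centralizer_iff.1 h) k hk]

theorem map_mem_normalizer_iff {x : X} {K : Subgroup X} :
    f x ∈ normalizer ((K.map f : Subgroup G) : Set G) ↔ x ∈ normalizer (K : Set X) := by
  have hmem : ∀ y : X, f y ∈ K.map f ↔ y ∈ K := fun y => by
    constructor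
    · rintro ⟨z, hz, hzy⟩; rwa [← hf hzy]
    · intro h; exact ⟨y, h, rfl⟩
  constructor
  · intro h
    rw [mem_normalizer_iff]
    intro k
    have := (mem_normalizer_iff.1 h) (f k)
    rw [hmem, ← map_inv, ← map_mul, ← map_mul, hmem] at this
    exact this
  · intro h
    rw [mem_normalizer_iff]
    intro g
    constructor
    · rintro ⟨k, hk, rfl⟩
      rw [← map_inv, ← map_mul, ← map_mul, hmem]
      exact (mem_normalizer_iff.1 h k).1 hk
    · rintro ⟨k, hk, hkg⟩
      have : g = f (x⁻¹ * k * x) := by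
        rw [map_mul, map_mul, map_inv, hkg]; group
      rw [this, hmem]
      have := (mem_normalizer_iff.1 (inv_mem h) k).1 hk
      simpa using this

theorem map_le_normalizer_iff {A K : Subgroup X} :
    A.map f ≤ normalizer ((K.map f : Subgroup G) : Set G) ↔ A ≤ normalizer (K : Set X) := by
  constructor
  · intro h x hx
    exact (map_mem_normalizer_iff hf).1 (h ⟨x, hx, rfl⟩)
  · rintro h _ ⟨x, hx, rfl⟩
    exact (map_mem_normalizer_iff hf).2 (h hx)

theorem map_inf_centralizer {A K : Subgroup X} :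
    A.map f ⊓ centralizer ((K.map f : Subgroup G) : Set G) = (A ⊓ centralizer (K : Set X)).map f := by
  apply le_antisymm
  · rintro _ ⟨⟨x, hx, rfl⟩, hc⟩
    exact ⟨x, ⟨hx, (map_mem_centralizer_iff hf).1 hc⟩, rfl⟩
  · rintro _ ⟨x, ⟨hx, hc⟩, rfl⟩
    exact ⟨⟨x, hx, rfl⟩, (map_mem_centralizer_iff hf).2 hc⟩

theorem card_map {A : Subgroup X} : Nat.card (A.map f) = Nat.card A :=
  Nat.card_congr (A.equivMapOfInjective f hf).symm.toEquiv

theorem offender_map {Y A : Subgroup X} :
    IsFFOffenderOn 2 (Y.map f) (A.map f) ↔ IsFFOffenderOn 2 Y A := by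
  unfold IsFFOffenderOn
  rw [map_le_normalizer_iff hf, ← Subgroup.map_commutator, map_le_centralizer_iff hf,
    map_le_centralizer_iff hf, map_inf_centralizer hf, map_inf_centralizer hf, card_map hf,
    card_map hf, card_map hf, card_map hf]
  have : (∀ a ∈ A.map f, a ^ 2 ∈ centralizer ((Y.map f : Subgroup G) : Set G)) ↔
      ∀ a ∈ A, a ^ 2 ∈ centralizer (Y : Set X) := by
    constructor
    · intro h a ha
      rw [← map_mem_centralizer_iff hf, map_pow]
      exact h _ ⟨a, ha, rfl⟩
    · rintro h _ ⟨a, ha, rfl⟩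
      rw [← map_pow, map_mem_centralizer_iff hf]
      exact h a ha
  rw [this]

theorem Best.map {Y A : Subgroup X} (h : Best Y A) : Best (Y.map f) (A.map f) := by
  obtain ⟨h0, hb, h1, h2⟩ := h
  refine ⟨(map_le_normalizer_iff hf).2 h0, ?_, ?_, ?_⟩
  · intro B hB
    obtain ⟨B', hB', rfl⟩ : ∃ B' ≤ A, B'.map f = B := by
      refine ⟨B.comap f, ?_, ?_⟩
      · intro x hx
        obtain ⟨a, ha, hax⟩ := hB hx
        rwa [← hf hax]
      · rw [Subgroup.map_comap_eq, inf_eq_right.2]
        exact hB.trans (Subgroup.map_le_range f A)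
    rw [map_inf_centralizer hf, map_inf_centralizer hf, card_map hf, card_map hf, card_map hf,
      card_map hf]
    exact hb B' hB'
  · rw [← Subgroup.map_commutator, map_le_centralizer_iff hf]; exact h1
  · rintro _ ⟨a, ha, rfl⟩
    rw [← map_pow, map_mem_centralizer_iff hf]
    exact h2 a ha

theorem WWset_map {V T Y : Subgroup X} : Y.map f ∈ WWset (V.map f) (T.map f) ↔ Y ∈ WWset V T := by
  constructor
  · rintro ⟨h1, h2, h3⟩
    refine ⟨(Subgroup.map_le_map_iff_of_injective hf).1 h1, (map_le_normalizer_iff hf).1 h2, ?_⟩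
    intro R hR hoff
    exact h3 (R.map f) (Subgroup.map_mono hR) ((offender_map hf).2 hoff)
  · rintro ⟨h1, h2, h3⟩
    refine ⟨Subgroup.map_mono h1, (map_le_normalizer_iff hf).2 h2, ?_⟩
    intro R hR hoff
    obtain ⟨R', hR', rfl⟩ : ∃ R' ≤ T, R'.map f = R := by
      refine ⟨R.comap f, ?_, ?_⟩
      · intro x hx
        obtain ⟨a, ha, hax⟩ := hR hx
        rwa [← hf hax]
      · rw [Subgroup.map_comap_eq, inf_eq_right.2]
        exact hR.trans (Subgroup.map_le_range f T)
    exact h3 R' hR' ((offender_map hf).1 hoff)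

theorem map_WV [Finite X] [Finite G] {V T : Subgroup X} :
    (WV V T).map f = WV (V.map f) (T.map f) := by
  apply le_antisymm
  · exact le_WV ((WWset_map hf).2 (WV_mem V T))
  · have h1 := WV_mem (V.map f) (T.map f)
    obtain ⟨Y', hY', hY⟩ : ∃ Y' ≤ V, Y'.map f = WV (V.map f) (T.map f) := by
      refine ⟨(WV (V.map f) (T.map f)).comap f, ?_, ?_⟩
      · intro x hx
        obtain ⟨a, ha, hax⟩ := WV_le _ _ hx
        rwa [← hf hax]
      · rw [Subgroup.map_comap_eq, inf_eq_right.2]
        exact (WV_le _ _).trans (Subgroup.map_le_range f V)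
    rw [← hY] at h1 ⊢
    exact Subgroup.map_mono (le_WV ((WWset_map hf).1 h1))

end Map

section Conj

variable {G : Type*} [Group G] [Finite G]

theorem cj_WV {V T : Subgroup G} [V.Normal] (g : G) : cj g (WV V T) = WV V (cj g T) := by
  have := map_WV (f := (MulAut.conj g).toMonoidHom) (MulAut.conj g).injective (V := V) (T := T)
  change cj g (WV V T) = WV (cj g V) (cj g T) at this
  rwa [cj_normal (H := V)] at this

theorem Best.cj {U A : Subgroup G} [U.Normal] (h : Best U A) (g : G) : Best U (cj g A) := by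
  have := h.map (f := (MulAut.conj g).toMonoidHom) (MulAut.conj g).injective
  change Best (H14.SF.cj g U) (H14.SF.cj g A) at this
  rwa [cj_normal (H := U)] at this

theorem normalizer_le_normalizer_WV {V T : Subgroup G} [V.Normal] :
    normalizer (T : Set G) ≤ normalizer (WV V T : Set G) := by
  intro g hg
  apply mem_normalizer_of_cj_le
  rw [cj_WV]
  have : cj g T = T := by
    apply Subgroup.eq_of_le_of_card_ge
    · rw [cj_le_iff]
      intro x hx
      exact (mem_normalizer_iff.1 hg x).1 hx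
    · rw [card_cj]
  rw [this]

end Conj

section Timmesfeld

variable {G : Type*} [Group G] [Finite G]

/-- **Timmesfeld replacement** (minimal best offenders are quadratic). -/
theorem quad_of_min {U A : Subgroup G} (Uc : ∀ a ∈ U, ∀ b ∈ U, a * b = b * a)
    (hUp : IsPGroup 2 U) (hAp : IsPGroup 2 A) (hA : Best U A) (hAn : ¬ A ≤ centralizer (U : Set G))
    (hmin : ∀ B ≤ A, Best U B → ¬ B ≤ centralizer (U : Set G) → B = A) :
    ∀ u ∈ U, ∀ r ∈ A, ∀ s ∈ A, ⁅⁅u, r⁆, s⁆ = 1 := by
  classical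
  haveI : Fact (Nat.Prime 2) := ⟨Nat.prime_two⟩
  intro u hu
  obtain ⟨h0, hb, h1, h2⟩ := hA
  have hcU : ∀ a ∈ A, ∀ x ∈ U, a * x * a⁻¹ ∈ U := fun a ha x hx => (mem_normalizer_iff.1 (h0 ha) x).1 hx
  have hcomU : ∀ a ∈ A, ∀ x ∈ U, ⁅x, a⁆ ∈ U := by
    intro a ha x hx
    have e : ⁅x, a⁆ = x * (a * x⁻¹ * a⁻¹) := by simp only [commutatorElement_def]; group
    rw [e]; exact U.mul_mem hx (hcU a ha _ (U.inv_mem hx))
  -- the action is abelian
  have hab : ∀ a ∈ A, ∀ c ∈ A, ∀ x ∈ U, a * (c * x * c⁻¹) * a⁻¹ = c * (a * x * a⁻¹) * c⁻¹ := by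
    intro a ha c hc x hx
    have h3 : ⁅c⁻¹, a⁻¹⁆ ∈ centralizer (U : Set G) :=
      h1 (commutator_mem_commutator (inv_mem hc) (inv_mem ha))
    have h4 := (mem_centralizer_iff.1 h3) x hx
    rw [commutatorElement_def] at h4
    simp only [inv_inv] at h4
    calc a * (c * x * c⁻¹) * a⁻¹ = (a * c) * (x * (c⁻¹ * a⁻¹ * c * a)) * (a⁻¹ * c⁻¹) := by group
      _ = (a * c) * ((c⁻¹ * a⁻¹ * c * a) * x) * (a⁻¹ * c⁻¹) := by rw [h4]
      _ = c * (a * x * a⁻¹) * c⁻¹ := by group
  set CU : Subgroup G := U ⊓ centralizer (A : Set G) with hCU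
  set E : Subgroup G := closure {x | ∃ a ∈ A, x = ⁅u, a⁆} with hE
  set B : Subgroup G := A ⊓ centralizer (E : Set G) with hB
  set D : Subgroup G := E ⊔ CU with hD
  have hEU : E ≤ U := by
    rw [hE, closure_le]
    rintro _ ⟨a, ha, rfl⟩
    exact hcomU a ha u hu
  have hDU : D ≤ U := sup_le hEU inf_le_left
  have hDB : D ≤ U ⊓ centralizer (B : Set G) := by
    refine le_inf hDU (sup_le (le_centralizer_comm inf_le_right) ?_)
    exact inf_le_right.trans (centralizer_anti inf_le_left)
  -- the key injection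
  have hkey : ∀ a ∈ A, ∀ b ∈ A, ⁅u, a⁆⁻¹ * ⁅u, b⁆ ∈ CU → a⁻¹ * b ∈ B := by
    intro a ha b hb' hx
    refine ⟨A.mul_mem (A.inv_mem ha) hb', ?_⟩
    change a⁻¹ * b ∈ centralizer (E : Set G)
    -- it suffices to commute with generators
    have hgen : E ≤ centralizer ({a⁻¹ * b} : Set G) := by
      rw [hE, closure_le]
      rintro _ ⟨c, hc, rfl⟩
      rw [SetLike.mem_coe, mem_centralizer_singleton_iff]
      -- write `ua = a u a⁻¹` etc.
      have hx' := (mem_centralizer_iff.1 hx.2) c hc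
      have e1 : ⁅u, a⁆⁻¹ * ⁅u, b⁆ = (a * u * a⁻¹) * (b * u⁻¹ * b⁻¹) := by
        simp only [commutatorElement_def]; group
      rw [e1] at hx'
      -- `c` fixes `ua * ub⁻¹`
      set ua := a * u * a⁻¹ with hua
      set ub := b * u * b⁻¹ with hub
      have hubi : b * u⁻¹ * b⁻¹ = ub⁻¹ := by rw [hub]; group
      rw [hubi] at hx'
      have huaU : ua ∈ U := hcU a ha u hu
      have hubU : ub ∈ U := hcU b hb' u hu
      set cua := c * ua * c⁻¹ with hcua
      set cub := c * ub * c⁻¹ with hcub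
      have hcuaU : cua ∈ U := hcU c hc ua huaU
      have hcubU : cub ∈ U := hcU c hc ub hubU
      have h5 : cua * cub⁻¹ = ua * ub⁻¹ := by
        rw [hcua, hcub]
        calc c * ua * c⁻¹ * (c * ub * c⁻¹)⁻¹ = (c * (ua * ub⁻¹)) * c⁻¹ := by group
          _ = (ua * ub⁻¹ * c) * c⁻¹ := by rw [hx']
          _ = ua * ub⁻¹ := by group
      -- conjugates of `⁅u,c⁆ = u * (cu)⁻¹`
      have e2 : ⁅u, c⁆ = u * (c * u * c⁻¹)⁻¹ := by simp only [commutatorElement_def]; group
      have e3 : a * ⁅u, c⁆ * a⁻¹ = ua * cua⁻¹ := by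
        rw [e2]
        have : a * (c * u * c⁻¹) * a⁻¹ = cua := by rw [hab a ha c hc u hu]
        rw [← this, hua]; group
      have e4 : b * ⁅u, c⁆ * b⁻¹ = ub * cub⁻¹ := by
        rw [e2]
        have : b * (c * u * c⁻¹) * b⁻¹ = cub := by rw [hab b hb' c hc u hu]
        rw [← this, hub]; group
      have h6 : ua * cua⁻¹ = ub * cub⁻¹ := by
        -- from `cua * cub⁻¹ = ua * ub⁻¹`
        have h7 : ua = cua * cub⁻¹ * ub := by rw [h5]; group
        have h8 : cua * cub⁻¹ * ub = cua * (ub * cub⁻¹) := by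
          rw [mul_assoc, Uc _ (U.inv_mem hcubU) _ hubU]
        rw [h7, h8, Uc cua hcuaU _ (U.mul_mem hubU (U.inv_mem hcubU))]
        group
      have h9 : a * ⁅u, c⁆ * a⁻¹ = b * ⁅u, c⁆ * b⁻¹ := by rw [e3, e4, h6]
      calc ⁅u, c⁆ * (a⁻¹ * b) = a⁻¹ * (a * ⁅u, c⁆ * a⁻¹) * b := by group
        _ = a⁻¹ * (b * ⁅u, c⁆ * b⁻¹) * b := by rw [h9]
        _ = a⁻¹ * b * ⁅u, c⁆ := by group
    rw [mem_centralizer_iff]
    intro x hx
    have := hgen hx
    rw [mem_centralizer_singleton_iff] at this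
    exact this
  have hidx : B.relIndex A ≤ CU.relIndex D := by
    change Nat.card (A ⧸ B.subgroupOf A) ≤ Nat.card (D ⧸ CU.subgroupOf D)
    have hmemD : ∀ a : A, ⁅u, (a : G)⁆ ∈ D := fun a => mem_sup_left (subset_closure ⟨a, a.2, rfl⟩)
    refine Nat.card_le_card_of_injective
      (fun q : A ⧸ B.subgroupOf A => (QuotientGroup.mk (⟨⁅u, (q.out : G)⁆, hmemD _⟩ : D) :
        D ⧸ CU.subgroupOf D)) ?_
    intro q q' hqq
    have h3 := QuotientGroup.eq.1 hqq
    have h4 : (⁅u, ((q.out : A) : G)⁆)⁻¹ * ⁅u, ((q'.out : A) : G)⁆ ∈ CU := h3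
    have h5 := hkey _ q.out.2 _ q'.out.2 h4
    rw [← QuotientGroup.out_eq' q, ← QuotientGroup.out_eq' q']
    exact QuotientGroup.eq.2 h5
  have hcardA : Nat.card B * B.relIndex A = Nat.card A := by
    have := Subgroup.relIndex_mul_relIndex (⊥ : Subgroup G) B A bot_le inf_le_left
    rwa [Subgroup.relIndex_bot_left, Subgroup.relIndex_bot_left] at this
  have hcardD : Nat.card CU * CU.relIndex D = Nat.card D := by
    have := Subgroup.relIndex_mul_relIndex (⊥ : Subgroup G) CU D bot_le le_sup_right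
    rwa [Subgroup.relIndex_bot_left, Subgroup.relIndex_bot_left] at this
  have hfin : Nat.card A * Nat.card CU ≤ Nat.card B * Nat.card D := by
    rw [← hcardA, ← hcardD]
    calc Nat.card B * B.relIndex A * Nat.card CU = Nat.card B * (Nat.card CU * B.relIndex A) := by ring
      _ ≤ Nat.card B * (Nat.card CU * CU.relIndex D) :=
          Nat.mul_le_mul_left _ (Nat.mul_le_mul_left _ hidx)
  have hD2 : Nat.card D ≤ Nat.card ↥(U ⊓ centralizer (B : Set G)) :=
    Nat.card_le_card_of_injective _ (Subgroup.inclusion_injective hDB)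
  have hBA : B ≤ A := inf_le_left
  have hBbest : Best U B := by
    refine ⟨hBA.trans h0, ?_, (commutator_mono hBA hBA).trans h1, fun a ha => h2 a (hBA ha)⟩
    intro B' hB'
    refine (hb B' (hB'.trans hBA)).trans ?_
    refine hfin.trans (Nat.mul_le_mul_left _ hD2)
  by_cases hBC : B ≤ centralizer (U : Set G)
  · exfalso
    have h3 := hb B hBA
    rw [inf_eq_left.2 (le_centralizer_comm hBC)] at h3
    have h4 : Nat.card B * Nat.card U ≤ Nat.card B * Nat.card D := h3.trans hfin
    have h5 : Nat.card U ≤ Nat.card D := Nat.le_of_mul_le_mul_left h4 Nat.card_pos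
    have h6 : D = U := Subgroup.eq_of_le_of_card_ge hDU h5
    have h7 : ⁅U, A⁆ ≤ ⁅⁅U, A⁆, A⁆ := by
      rw [Subgroup.commutator_le]
      intro x hx a ha
      have hxD : x ∈ ⁅U, A⁆ ⊔ CU := by
        have : D ≤ ⁅U, A⁆ ⊔ CU := by
          refine sup_le_sup_right ?_ _
          rw [hE, closure_le]
          rintro _ ⟨c, hc, rfl⟩
          exact commutator_mem_commutator hu hc
        rw [h6] at this
        exact this hx
      have hUA : ⁅U, A⁆ ≤ U := by
        rw [Subgroup.commutator_le]; exact fun x hx a ha => hcomU a ha x hx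
      -- decompose
      have hdec : ∃ y ∈ ⁅U, A⁆, ∃ z ∈ CU, x = y * z := by
        rw [Subgroup.sup_eq_closure] at hxD
        clear hx
        induction hxD using Subgroup.closure_induction with
        | mem x hx =>
          rcases hx with hx | hx
          · exact ⟨x, hx, 1, one_mem _, by simp⟩
          · exact ⟨1, one_mem _, x, hx, by simp⟩
        | one => exact ⟨1, one_mem _, 1, one_mem _, by simp⟩
        | mul x z _ _ ihx ihz =>
          obtain ⟨y, hy, c, hc, rfl⟩ := ihx
          obtain ⟨y', hy', c', hc', rfl⟩ := ihz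
          refine ⟨y * y', mul_mem hy hy', c * c', mul_mem hc hc', ?_⟩
          calc y * c * (y' * c') = y * (c * y') * c' := by group
            _ = y * (y' * c) * c' := by rw [Uc c hc.1 y' (hUA hy')]
            _ = y * y' * (c * c') := by group
        | inv x _ ihx =>
          obtain ⟨y, hy, c, hc, rfl⟩ := ihx
          refine ⟨y⁻¹, inv_mem hy, c⁻¹, inv_mem hc, ?_⟩
          rw [mul_inv_rev, Uc _ (U.inv_mem hc.1) _ (U.inv_mem (hUA hy))]
      obtain ⟨y, hy, z, hz, rfl⟩ := hdec
      have hza := (mem_centralizer_iff.1 hz.2) a ha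
      have e : ⁅y * z, a⁆ = ⁅y, a⁆ := by
        simp only [commutatorElement_def]
        calc y * z * a * (y * z)⁻¹ * a⁻¹ = y * (z * a) * z⁻¹ * y⁻¹ * a⁻¹ := by group
          _ = y * (a * z) * z⁻¹ * y⁻¹ * a⁻¹ := by rw [hza]
          _ = y * a * y⁻¹ * a⁻¹ := by group
      rw [e]
      exact commutator_mem_commutator hy ha
    have hUAp : IsPGroup 2 ↥⁅U, A⁆ := hUp.to_le (by
      rw [Subgroup.commutator_le]; exact fun x hx a ha => hcomU a ha x hx)
    have hnUA : A ≤ normalizer ((⁅U, A⁆ : Subgroup G) : Set G) := by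
      have key : ∀ t ∈ A, ∀ x ∈ ⁅U, A⁆, t * x * t⁻¹ ∈ ⁅U, A⁆ := by
        intro t ht
        have : ⁅U, A⁆ ≤ (⁅U, A⁆).comap (MulAut.conj t).toMonoidHom := by
          rw [Subgroup.commutator_le]
          intro x hx a ha
          change t * ⁅x, a⁆ * t⁻¹ ∈ ⁅U, A⁆
          have e : t * ⁅x, a⁆ * t⁻¹ = ⁅t * x * t⁻¹, t * a * t⁻¹⁆ := by
            simp only [commutatorElement_def]; group
          rw [e]
          exact commutator_mem_commutator (hcU t ht x hx) (A.mul_mem (A.mul_mem ht ha) (A.inv_mem ht))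
        exact fun x hx => this hx
      intro t ht
      rw [mem_normalizer_iff]
      intro x
      refine ⟨key t ht x, fun hx => ?_⟩
      have := key t⁻¹ (inv_mem ht) _ hx
      simpa [mul_assoc] using this
    have hne : ⁅U, A⁆ ≠ ⊥ := by
      intro h
      apply hAn
      rw [Subgroup.commutator_eq_bot_iff_le_centralizer] at h
      exact le_centralizer_comm h
    have := H1.Coprime2.commutator_lt_of_isPGroup hAp hUAp hnUA hne
    exact this.not_ge h7
  · have hBeq := hmin B hBA hBbest hBC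
    intro r hr s hs
    rw [← hBeq] at hs
    rw [commutatorElement_eq_one_iff_mul_comm]
    exact (mem_centralizer_iff.1 hs.2) _ (subset_closure ⟨r, hr, rfl⟩)

end Timmesfeld

end H14.SF
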