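import Cfsg.Agent.Lib.H14.SFOff2
import Cfsg.Agent.Lib.H14.SFEnd
import Cfsg.Agent.Lib.H13.SylowN
import Cfsg.Agent.Lib.H51.SylowAmb
import Cfsg.Agent.Lib.H51.Involves

/-!
**Theorem R.** In a finite group not involving the symmetric group of degree 4, the largest subgroup of an elementary
abelian normal 2-subgroup without offenders in a Sylow 2-subgroup is normal.
-/

set_option autoImplicit false

universe u

namespace H14.SF

open Subgroup Cfsg
open scoped commutatorElement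

section Step

variable {G : Type u} [Group G] [Finite G]

/-- hypotheses of the induction step -/
structure Ctx (V : Subgroup G) (S : Sylow 2 G) : Prop where
  Vn : V.Normal
  Vc : ∀ a ∈ V, ∀ b ∈ V, a * b = b * a
  Ve : ∀ a ∈ V, a * a = 1
  ih : ∀ X T : Subgroup G, X ≠ ⊤ → V ≤ X → T ≤ X → IsPGroup 2 T → ¬ 2 ∣ T.relIndex X →
    X ≤ normalizer (WV V T : Set G)
  bad : ¬ (WV V (S : Subgroup G)).Normal

namespace Ctx

variable {V : Subgroup G} {S : Sylow 2 G} (h : Ctx V S)

/-- nontrivial best offenders on `U = WV V Q` -/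
def OO (V R : Subgroup G) : Prop :=
  IsPGroup 2 R ∧ Best (WV V (pCore 2 G)) R ∧ ¬ R ≤ centralizer (WV V (pCore 2 G) : Set G)

include h

theorem Vp : IsPGroup 2 V := by
  rintro ⟨a, ha⟩
  refine ⟨1, ?_⟩
  rw [pow_one, pow_two]
  exact Subtype.ext (h.Ve a ha)

theorem V_le_Q : V ≤ pCore 2 G := by
  exact H13.Cores.le_pCore h.Vn h.Vp

theorem Q_le_S : pCore 2 G ≤ (S : Subgroup G) := H13.Cores.pCore_le_sylow S

theorem M_ne : normalizer (WV V (S : Subgroup G) : Set G) ≠ ⊤ := fun ht =>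
  h.bad (Subgroup.normalizer_eq_top_iff.1 ht)

theorem S_le_M : (S : Subgroup G) ≤ normalizer (WV V (S : Subgroup G) : Set G) :=
  le_normalizer_WV _ _

theorem step1 {X : Subgroup G} (hX : X ≠ ⊤) (hS : (S : Subgroup G) ≤ X) :
    X ≤ normalizer (WV V (S : Subgroup G) : Set G) := by
  refine h.ih X S hX (h.V_le_Q.trans (h.Q_le_S.trans hS)) hS S.2 ?_
  intro hd
  exact S.not_dvd_index (hd.trans (relIndex_dvd_index_of_le hS))

theorem core {N : Subgroup G} (hN : N.Normal) (hNM : N ≤ normalizer (WV V (S : Subgroup G) : Set G)) :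
    (S : Subgroup G) ⊓ N ≤ pCore 2 G := by
  have h1 := H13.SylowN.frattini S N
  by_cases ht : normalizer (((S : Subgroup G) ⊓ N : Subgroup G) : Set G) = ⊤
  · have hSN : ((S : Subgroup G) ⊓ N).Normal := Subgroup.normalizer_eq_top_iff.1 ht
    exact H13.Cores.le_pCore hSN (S.2.to_le inf_le_left)
  · exfalso
    apply h.M_ne
    rw [eq_top_iff, ← h1]
    refine sup_le (h.step1 ht ?_) hNM
    intro s hs
    rw [mem_normalizer_iff]
    intro x
    constructor
    · rintro ⟨h3, h4⟩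
      exact ⟨(S : Subgroup G).mul_mem ((S : Subgroup G).mul_mem hs h3) ((S : Subgroup G).inv_mem hs),
        hN.conj_mem _ h4 s⟩
    · rintro ⟨h3, h4⟩
      have h5 := (S : Subgroup G).mul_mem ((S : Subgroup G).mul_mem ((S : Subgroup G).inv_mem hs) h3) hs
      have h6 := hN.conj_mem _ h4 s⁻¹
      simp only [mul_assoc, inv_mul_cancel, mul_one, inv_mul_cancel_left, inv_inv] at h5 h6
      exact ⟨h5, h6⟩

theorem W_le_U : WV V (S : Subgroup G) ≤ WV V (pCore 2 G) := WV_anti h.Q_le_S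

theorem U_normal : (WV V (pCore 2 G)).Normal := by
  haveI := h.Vn
  constructor
  intro x hx g
  have h1 := conj_mem_cj (k := g) hx
  rw [cj_WV, cj_normal (H := pCore 2 G)] at h1
  exact h1

theorem U_comm : ∀ a ∈ WV V (pCore 2 G), ∀ b ∈ WV V (pCore 2 G), a * b = b * a :=
  fun a ha b hb => h.Vc a (WV_le _ _ ha) b (WV_le _ _ hb)

theorem U_p : IsPGroup 2 (WV V (pCore 2 G)) := h.Vp.to_le (WV_le _ _)

theorem OO_cj {R : Subgroup G} (hR : OO V R) (g : G) : OO V (cj g R) := by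
  haveI := h.U_normal
  obtain ⟨h1, h2, h3⟩ := hR
  refine ⟨h1.map _, h2.cj g, ?_⟩
  intro h4
  apply h3
  have h5 : cj g⁻¹ (cj g R) ≤ centralizer (WV V (pCore 2 G) : Set G) := by
    rw [← cj_normal (k := g⁻¹) (H := centralizer (WV V (pCore 2 G) : Set G))]
    exact cj_mono h4
  rwa [cj_inv_cj] at h5

theorem OO_not_le_Q {R : Subgroup G} (hR : OO V R) : ¬ R ≤ pCore 2 G := by
  intro hle
  exact (WV_mem V (pCore 2 G)).2.2 R hle (hR.2.1.offender hR.2.2)

theorem exists_OO : ∃ R : Subgroup G, OO V R ∧ R ≤ (S : Subgroup G) := by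
  by_contra hc
  push Not at hc
  apply h.bad
  have h1 : WV V (pCore 2 G) ∈ WWset V (S : Subgroup G) := by
    refine ⟨WV_le _ _, ?_, ?_⟩
    · rw [Subgroup.normalizer_eq_top_iff.2 h.U_normal]; exact le_top
    · intro R hR hoff
      obtain ⟨A, hAR, hA, hAn⟩ := exists_best hoff
      exact hc A ⟨S.2.to_le (hAR.trans hR), hA, hAn⟩ (hAR.trans hR)
  have h2 : WV V (S : Subgroup G) = WV V (pCore 2 G) := le_antisymm h.W_le_U (le_WV h1)
  rw [h2]
  exact h.U_normal

/-- a bad pair -/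
def BadP (V : Subgroup G) (S : Sylow 2 G) (X T : Subgroup G) : Prop :=
  pCore 2 G ≤ X ∧ X ≠ ⊤ ∧ ¬ X ≤ normalizer (WV V (S : Subgroup G) : Set G) ∧ T ≤ X ∧
    T ≤ normalizer (WV V (S : Subgroup G) : Set G) ∧ IsPGroup 2 T ∧ ∃ R, OO V R ∧ R ≤ T

theorem key (X₀ T₀ : Subgroup G) : ¬ BadP V S X₀ T₀ := by
  classical
  intro hbad₀
  haveI : Fact (Nat.Prime 2) := ⟨Nat.prime_two⟩
  haveI := h.Vn
  -- maximal bad pair
  have hfin : {p : Subgroup G × Subgroup G | BadP V S p.1 p.2}.Finite := Set.toFinite _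
  obtain ⟨⟨X₁, T₁⟩, hb₁, hmax₁⟩ := Set.exists_max_image _ (fun p : Subgroup G × Subgroup G => Nat.card p.2)
    hfin ⟨(X₀, T₀), hbad₀⟩
  have hmax' : ∀ X T, BadP V S X T → Nat.card T ≤ Nat.card T₁ := fun X T hb => hmax₁ (X, T) hb
  set M := normalizer (WV V (S : Subgroup G) : Set G) with hM
  -- conjugate into `S`
  obtain ⟨X, T, hb, hTS, hTc⟩ : ∃ X T, BadP V S X T ∧ T ≤ (S : Subgroup G) ∧ Nat.card T = Nat.card T₁ := by
    obtain ⟨b1, b2, b3, b4, b5, b6, R, hR, hRT⟩ := hb₁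
    obtain ⟨m, hm, hmS⟩ := H51.SylowAmb.exists_conj_le (K := M) (P := (S : Subgroup G)) (Q := T₁)
      h.S_le_M S.2 (fun hd => S.not_dvd_index (hd.trans (relIndex_dvd_index_of_le h.S_le_M))) b5 b6
    refine ⟨cj m X₁, cj m T₁, ⟨?_, ?_, ?_, cj_mono b4, ?_, b6.map _, cj m R, h.OO_cj hR m, cj_mono hRT⟩,
      hmS, card_cj⟩
    · rw [← cj_normal (k := m) (H := pCore 2 G)]; exact cj_mono b1
    · intro ht; exact b2 (cj_eq_top_iff.1 ht)
    · intro hle
      apply b3
      have h3 : cj m⁻¹ (cj m X₁) ≤ M := cj_le_self_of_mem (inv_mem hm) hle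
      rwa [cj_inv_cj] at h3
    · exact cj_le_self_of_mem hm b5
  have hmax : ∀ X' T', BadP V S X' T' → Nat.card T' ≤ Nat.card T := fun X' T' hb' => hTc ▸ hmax' X' T' hb'
  obtain ⟨b1, b2, b3, b4, b5, b6, R, hR, hRT⟩ := hb
  have hQT : pCore 2 G ≤ T := by
    have h3 : IsPGroup 2 ↥(pCore 2 G ⊔ T) := S.2.to_le (sup_le h.Q_le_S hTS)
    have h4 := hmax X (pCore 2 G ⊔ T) ⟨b1, b2, b3, sup_le b1 b4, (sup_le h.Q_le_S hTS).trans h.S_le_M, h3, R, hR,
      hRT.trans le_sup_right⟩
    have h5 : T = pCore 2 G ⊔ T := Subgroup.eq_of_le_of_card_ge le_sup_right h4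
    rw [h5]; exact le_sup_left
  have hTne : T ≠ (S : Subgroup G) := by
    intro he
    exact b3 (h.step1 b2 (he ▸ b4))
  obtain ⟨x, hxS, hxT, hxn⟩ := H5.PLocal.exists_mem_normalizer_not_mem S.2 (lt_of_le_of_ne hTS hTne)
  set T' : Subgroup G := (S : Subgroup G) ⊓ normalizer (T : Set G) with hT'
  have hTT' : T ≤ T' := le_inf hTS le_normalizer
  have hlt : Nat.card T < Nat.card T' := by
    by_contra hc
    have h3 : T = T' := Subgroup.eq_of_le_of_card_ge hTT' (not_lt.1 hc)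
    apply hxT
    rw [h3]
    exact ⟨hxS, hxn⟩
  have hT'p : IsPGroup 2 T' := S.2.to_le inf_le_left
  have hT'M : T' ≤ M := inf_le_left.trans h.S_le_M
  have hbig : ∀ X' : Subgroup G, T' ≤ X' → X' ≠ ⊤ → X' ≤ M := by
    intro X' hX' hX't
    by_contra hc
    have := hmax X' T' ⟨hQT.trans (hTT'.trans hX'), hX't, hc, hX', hT'M, hT'p, R, hR, hRT.trans hTT'⟩
    omega
  -- the subgroup `J`
  set J : Subgroup G := sSup {A | OO V A ∧ A ≤ T} with hJ
  have hJT : J ≤ T := sSup_le fun A hA => hA.2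
  have hNJ : normalizer (T : Set G) ≤ normalizer (J : Set G) := by
    intro g hg
    apply mem_normalizer_of_cj_le
    rw [cj_le_iff]
    have : J ≤ J.comap (MulAut.conj g).toMonoidHom := by
      refine sSup_le ?_
      rintro A ⟨hA, hAT⟩ a ha
      change g * a * g⁻¹ ∈ J
      have h3 : cj g A ≤ J := by
        refine le_sSup ⟨h.OO_cj hA g, ?_⟩
        rw [cj_le_iff]
        intro y hy
        exact (mem_normalizer_iff.1 hg y).1 (hAT hy)
      exact h3 (conj_mem_cj ha)
    exact fun y hy => this hy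
  have hJne : normalizer (J : Set G) ≠ ⊤ := by
    intro ht
    have hJn : J.Normal := Subgroup.normalizer_eq_top_iff.1 ht
    have h3 : J ≤ pCore 2 G := H13.Cores.le_pCore hJn (b6.to_le hJT)
    exact h.OO_not_le_Q hR ((le_sSup (show R ∈ {A | OO V A ∧ A ≤ T} from ⟨hR, hRT⟩)).trans h3)
  have hJM : normalizer (J : Set G) ≤ M := hbig _ (inf_le_right.trans hNJ) hJne
  have hTX : ¬ 2 ∣ T.relIndex X := by
    refine H51.SylowAmb.not_dvd_of_forall b4 b6 ?_
    intro P hP hTP hPX hPn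
    have h3 := hmax X P ⟨b1, b2, b3, hPX, hPn.trans (hNJ.trans hJM), hP, R, hR, hRT.trans hTP⟩
    exact (Subgroup.eq_of_le_of_card_ge hTP h3).symm
  have hXn := h.ih X T b2 (h.V_le_Q.trans b1) b4 b6 hTX
  have hnT : normalizer (T : Set G) ≤ normalizer (WV V T : Set G) := normalizer_le_normalizer_WV
  have htop : normalizer (WV V T : Set G) = ⊤ := by
    by_contra hc
    exact b3 (hXn.trans (hbig _ (inf_le_right.trans hnT) hc))
  have hn : (WV V T).Normal := Subgroup.normalizer_eq_top_iff.1 htop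
  have hRc : R ≤ centralizer (WV V T : Set G) :=
    cent_of_mem (WV_mem V T) (WV_anti hQT) hR.2.1 hRT
  have hcM : centralizer (WV V T : Set G) ≤ M := by
    refine le_trans (centralizer_anti (WV_anti hTS)) ?_
    exact Subgroup.centralizer_le_normalizer _
  have h9 := h.core (N := centralizer (WV V T : Set G)) inferInstance hcM
  exact h.OO_not_le_Q hR ((le_inf (hRT.trans hTS) hRc).trans h9)

theorem exists_cfg : ∃ R, Cfg G S (WV V (S : Subgroup G)) (Subgroup.normalClosure (WV V (S : Subgroup G) : Set G)) R := by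
  classical
  haveI := h.Vn
  haveI hUn := h.U_normal
  set W := WV V (S : Subgroup G) with hW
  set Y := Subgroup.normalClosure (W : Set G) with hY
  -- a minimal member
  have hfin : {R : Subgroup G | OO V R ∧ R ≤ (S : Subgroup G)}.Finite := Set.toFinite _
  obtain ⟨R₀, hR₀⟩ := h.exists_OO
  obtain ⟨R, ⟨hR, hRS⟩, hmin⟩ := Set.exists_min_image _ (fun R : Subgroup G => Nat.card R) hfin ⟨R₀, hR₀⟩
  have hquad := quad_of_min h.U_comm h.U_p hR.1 hR.2.1 hR.2.2 (by
    intro B hB hB1 hB2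
    exact Subgroup.eq_of_le_of_card_ge hB (hmin B ⟨⟨hR.1.to_le hB, hB1, hB2⟩, hB.trans hRS⟩))
  have hYU : Y ≤ WV V (pCore 2 G) := Subgroup.normalClosure_le_normal h.W_le_U
  have hYV : Y ≤ V := hYU.trans (WV_le _ _)
  have hWY : W ≤ Y := Subgroup.subset_normalClosure
  have hYn : Y.Normal := by rw [hY]; infer_instance
  have hRM : R ≤ normalizer (W : Set G) := hRS.trans h.S_le_M
  have hYbest : Best Y R := hR.2.1.sub hYU (by
    rw [Subgroup.normalizer_eq_top_iff.2 hYn]; exact le_top)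
  have hYW : Y ∈ WWset V (pCore 2 G) := by
    have h1 : Y = sSup {Z | ∃ g : G, Z = cj g W} := by
      apply le_antisymm
      · rw [hY, Subgroup.normalClosure, Subgroup.closure_le]
        intro x hx
        rw [Group.mem_conjugatesOfSet_iff] at hx
        obtain ⟨w, hw, hwx⟩ := hx
        obtain ⟨g, rfl⟩ := isConj_iff.1 hwx
        have h2 : cj g W ≤ sSup {Z | ∃ g : G, Z = cj g W} := le_sSup ⟨g, rfl⟩
        exact h2 (conj_mem_cj hw)
      · refine sSup_le ?_
        rintro _ ⟨g, rfl⟩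
        rw [← cj_normal (k := g) (H := Y)]
        exact cj_mono hWY
    rw [h1]
    refine sSup_mem ?_
    rintro _ ⟨g, rfl⟩
    have h2 : W ∈ WWset V (pCore 2 G) := WWset_anti h.Q_le_S (WV_mem V _)
    have h3 := (WWset_map (f := (MulAut.conj g).toMonoidHom) (MulAut.conj g).injective).2 h2
    change cj g W ∈ WWset (cj g V) (cj g (pCore 2 G)) at h3
    rwa [cj_normal (H := V), cj_normal (H := pCore 2 G)] at h3
  refine ⟨R, ⟨hYn, fun a ha b hb => h.Vc a (hYV ha) b (hYV hb), fun a ha => h.Ve a (hYV ha), hWY,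
    h.S_le_M, fun N hN hWN => Subgroup.normalClosure_le_normal hWN, hRS, ?_, h.M_ne,
    fun y hy => hquad y (hYU hy), hYbest.offender ?_,
    cent_of_mem (WV_mem V _) h.W_le_U hR.2.1 hRS, hYW.2.2, fun N hN hNM => h.core hN hNM⟩⟩
  · intro X hQX hRX hXt
    by_contra hc
    exact h.key X R ⟨hQX, hXt, hc, hRX, hRM, hR.1, R, hR, le_rfl⟩
  · intro hRY
    have h1 : centralizer (Y : Set G) ≤ normalizer (W : Set G) :=
      (centralizer_anti hWY).trans (Subgroup.centralizer_le_normalizer _)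
    have h2 := h.core (N := centralizer (Y : Set G)) inferInstance h1
    exact h.OO_not_le_Q hR ((le_inf hRS hRY).trans h2)

end Ctx

end Step

/-- **Theorem R.** -/
theorem WV_normal (n : ℕ) : ∀ (G : Type u) [Group G] [Finite G], Nat.card G = n →
    ¬ Involves (Equiv.Perm (Fin 4)) G → ∀ V : Subgroup G, V.Normal →
    (∀ a ∈ V, ∀ b ∈ V, a * b = b * a) → (∀ a ∈ V, a * a = 1) → ∀ S : Sylow 2 G,
    (WV V (S : Subgroup G)).Normal := by
  induction n using Nat.strong_induction_on with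
  | _ n ih =>
    intro G _ _ hn h4 V hVn hVc hVe S
    by_contra hbad
    have hctx : Ctx V S := by
      refine ⟨hVn, hVc, hVe, ?_, hbad⟩
      intro X T hX hVX hTX hTp hTi
      haveI : Fact (Nat.Prime 2) := ⟨Nat.prime_two⟩
      obtain ⟨P, hP⟩ := H51.SylowAmb.exists_sylow_of hTX hTp hTi
      have hlt : Nat.card X < n := by
        rw [← hn]
        exact lt_of_le_of_ne (Subgroup.card_le_card_group X) fun he =>
          hX (Subgroup.eq_top_of_card_eq X he)
      have h1 := ih _ hlt X rfl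
        (fun h5 => h4 (H51.Involves.involves_of_injective X.subtype X.subtype_injective h5))
        (V.subgroupOf X) (hVn.comap X.subtype)
        (fun a ha b hb => Subtype.ext (hVc a ha b hb)) (fun a ha => Subtype.ext (hVe a ha)) P
      have h2 := map_WV (f := X.subtype) X.subtype_injective (V := V.subgroupOf X) (T := (P : Subgroup X))
      rw [hP, Subgroup.map_subgroupOf_eq_of_le hVX] at h2
      rw [← h2]
      intro x hx
      apply mem_normalizer_of_cj_le
      rw [cj_le_iff]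
      rintro _ ⟨y, hy, rfl⟩
      exact ⟨⟨x, hx⟩ * y * ⟨x, hx⟩⁻¹, h1.conj_mem y hy ⟨x, hx⟩, rfl⟩
    obtain ⟨R, hR⟩ := hctx.exists_cfg
    exact hR.false h4

end H14.SF
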