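import Cfsg.Agent.Lib.H14.SL2Red

/-! Lemma D of `SL2Red` for automorphisms of a `p`-group. -/

set_option autoImplicit false

namespace H14.SL2Aut

open Cfsg Subgroup H14.SL2Red H51.QdStab

theorem lemmaD_aut {T : Type*} [Group T] [Finite T] {p : ℕ} [Fact p.Prime] (hpo : Odd p) (hT : IsPGroup p T)
    (Q : Subgroup T) (hQn : Q.Normal) {x y : MulAut T}
    (hxQ : ∀ a ∈ Q, x a ∈ Q) (hyQ : ∀ a ∈ Q, y a ∈ Q)
    (hqx : ∀ a, x (x a * a⁻¹) * (x a * a⁻¹)⁻¹ ∈ Q) (hqy : ∀ a, y (y a * a⁻¹) * (y a * a⁻¹)⁻¹ ∈ Q)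
    (hcen : ∀ h ∈ closure {x, y}, ∃ j, ∀ a ∈ Q, (h ^ p ^ j) a = a)
    (hnot : ¬ ∀ h ∈ closure {x, y}, ∃ j, h ^ p ^ j = 1) :
    ∃ E : Subgroup T, ∃ x₁ ∈ closure {x, y}, ∃ y₁ ∈ closure {x, y}, (∀ e ∈ E, x₁ e ∈ E) ∧ (∀ e ∈ E, y₁ e ∈ E) ∧
      (∀ e ∈ E, x₁ (x₁ e * e⁻¹) = x₁ e * e⁻¹) ∧ (∀ e ∈ E, y₁ (y₁ e * e⁻¹) = y₁ e * e⁻¹) ∧
      ¬ ∀ h ∈ closure {x₁, y₁}, ∃ j, ∀ e ∈ E, (h ^ p ^ j) e = e := by
  let G := SemidirectProduct T (MulAut T) (MonoidHom.id (MulAut T))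
  let i : T →* G := SemidirectProduct.inl
  let r : MulAut T →* G := SemidirectProduct.inr
  have hfin : Finite G := Finite.of_equiv _ SemidirectProduct.equivProd.symm
  have hi : Function.Injective i := SemidirectProduct.inl_injective
  have hr : Function.Injective r := SemidirectProduct.inr_injective
  have hconj : ∀ (g : MulAut T) (n : T), r g * i n * (r g)⁻¹ = i (g n) := by
    intro g n
    rw [← map_inv]
    exact (SemidirectProduct.inl_aut (φ := MonoidHom.id (MulAut T)) g n).symm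
  have hcl : ∀ a b : MulAut T, closure {r a, r b} = (closure {a, b}).map r := by
    intro a b
    rw [MonoidHom.map_closure, Set.image_pair]
  have hquad : ∀ (g : MulAut T) (t : T), r g * (r g * i t * (r g)⁻¹ * (i t)⁻¹) * (r g)⁻¹ *
      (r g * i t * (r g)⁻¹ * (i t)⁻¹)⁻¹ = i (g (g t * t⁻¹) * (g t * t⁻¹)⁻¹) := by
    intro g t
    have e1 : r g * i t * (r g)⁻¹ * (i t)⁻¹ = i (g t * t⁻¹) := by rw [hconj, map_mul, map_inv]
    rw [e1, hconj, ← map_inv, ← map_mul]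
  have hnormT : ∀ g : MulAut T, r g ∈ normalizer ((i.range : Subgroup G) : Set G) := by
    intro g
    apply mem_normalizer_of_conj_mem
    rintro _ ⟨t, rfl⟩
    rw [hconj]
    exact ⟨_, rfl⟩
  have hnormQ : ∀ g : MulAut T, (∀ a ∈ Q, g a ∈ Q) → r g ∈ normalizer ((Q.map i : Subgroup G) : Set G) := by
    intro g hg
    apply mem_normalizer_of_conj_mem
    rintro _ ⟨t, ht, rfl⟩
    rw [hconj]
    exact ⟨_, hg t ht, rfl⟩
  have hcent : ∀ (R : Subgroup T) (g : MulAut T), r g ∈ centralizer ((R.map i : Subgroup G) : Set G) ↔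
      ∀ a ∈ R, g a = a := by
    intro R g
    rw [mem_centralizer_iff]
    constructor
    · intro h a ha
      have h1 := h (i a) ⟨a, ha, rfl⟩
      apply hi
      rw [← hconj, ← h1, mul_inv_cancel_right]
    · rintro h _ ⟨a, ha, rfl⟩
      have h1 := hconj g a
      rw [h a ha, mul_inv_eq_iff_eq_mul] at h1
      exact h1.symm
  have hrange : (⊤ : Subgroup T).map i = i.range := (MonoidHom.range_eq_map i).symm
  obtain ⟨E, hE, x₁, hx₁, y₁, hy₁, hnx, hny, hqx₁, hqy₁, hnE⟩ := lemmaD (G := G) hpo (T := i.range) (Q := Q.map i)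
    (x := r x) (y := r y) (hT.of_equiv (MonoidHom.ofInjective hi)) (by
      rintro _ ⟨s, rfl⟩
      apply mem_normalizer_of_conj_mem
      rintro _ ⟨t, ht, rfl⟩
      rw [← map_inv, ← map_mul, ← map_mul]
      exact ⟨_, hQn.conj_mem t ht s, rfl⟩)
    (hnormT x) (hnormT y) (hnormQ x hxQ) (hnormQ y hyQ)
    (by rintro _ ⟨t, rfl⟩; rw [hquad]; exact ⟨_, hqx t, rfl⟩)
    (by rintro _ ⟨t, rfl⟩; rw [hquad]; exact ⟨_, hqy t, rfl⟩)
    (by
      intro h hh
      rw [hcl] at hh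
      obtain ⟨h, hh, rfl⟩ := hh
      obtain ⟨j, hj⟩ := hcen h hh
      refine ⟨j, ?_⟩
      rw [← map_pow, hcent]
      exact hj)
    (by
      intro hall
      apply hnot
      intro h hh
      obtain ⟨j, hj⟩ := hall (r h) (by rw [hcl]; exact ⟨h, hh, rfl⟩)
      refine ⟨j, ?_⟩
      rw [← hrange, ← map_pow, hcent] at hj
      ext a
      exact hj a (mem_top a))
  rw [hcl] at hx₁ hy₁
  obtain ⟨x₁, hx₁, rfl⟩ := hx₁
  obtain ⟨y₁, hy₁, rfl⟩ := hy₁
  have hEi : (E.comap i).map i = E := by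
    rw [map_comap_eq, inf_eq_right.2 hE]
  refine ⟨E.comap i, x₁, hx₁, y₁, hy₁, ?_, ?_, ?_, ?_, ?_⟩
  · intro e he
    rw [mem_comap, ← hconj]
    exact (mem_normalizer_iff.1 hnx _).1 he
  · intro e he
    rw [mem_comap, ← hconj]
    exact (mem_normalizer_iff.1 hny _).1 he
  · intro e he
    have h1 := hqx₁ (i e) he
    rw [hconj, ← map_inv, ← map_mul, hconj] at h1
    exact hi h1
  · intro e he
    have h1 := hqy₁ (i e) he
    rw [hconj, ← map_inv, ← map_mul, hconj] at h1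
    exact hi h1
  · intro hall
    apply hnE
    intro h hh
    rw [hcl] at hh
    obtain ⟨h, hh, rfl⟩ := hh
    obtain ⟨j, hj⟩ := hall h hh
    refine ⟨j, ?_⟩
    rw [← map_pow, ← hEi, hcent]
    exact hj

end H14.SL2Aut
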