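import Cfsg.Agent.Lib.H51.QdStab2
import Cfsg.Agent.Lib.H13.SylowN

/-!
# Lifting the natural action of `SL₂(p)` through a `p`-group centralized by the `p'`-elements

If `x, y` act on a plane `⟨w, v⟩` of `M / T` like the standard transvections, and the `p'`-elements of `⟨x, y⟩`
centralize the `p`-group `T`, then some subgroup `E` of the preimage of the plane admits quadratic elements
of `⟨x, y⟩` generating a group not acting as a `p`-group.
-/

set_option autoImplicit false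

namespace H14.SL2Lift

open Cfsg Subgroup H51.QdStab H51.QdStab2
open scoped commutatorElement

theorem mem_of_two_elt {G : Type*} [Group G] {p : ℕ} (hpo : Odd p) {g : G} {a : ℕ} (hg : g ^ 2 ^ a = 1)
    {C : Subgroup G} {j : ℕ} (h : g ^ p ^ j ∈ C) : g ∈ C := by
  have hc : (p ^ j).Coprime (orderOf g) := by
    apply Nat.Coprime.coprime_dvd_right (orderOf_dvd_of_pow_eq_one hg)
    exact Nat.Coprime.pow _ _ (Nat.coprime_two_right.2 hpo)
  obtain ⟨m, hm⟩ := exists_pow_eq_self_of_coprime hc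
  rw [← hm]
  exact C.pow_mem h m

theorem mem_of_sq {G : Type*} [Group G] {p : ℕ} (hpo : Odd p) {R : Subgroup G}
    (hR : IsPGroup p R) {g : G} (hg : g ∈ R) {C : Subgroup G} (h : g ^ 2 ∈ C) : g ∈ C := by
  obtain ⟨k, hk⟩ := hR ⟨g, hg⟩
  have hk' : g ^ p ^ k = 1 := congrArg Subtype.val hk
  have hc : (2 : ℕ).Coprime (orderOf g) := by
    apply Nat.Coprime.coprime_dvd_right (orderOf_dvd_of_pow_eq_one hk')
    exact (Nat.coprime_two_left.2 hpo).pow_right k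
  obtain ⟨m, hm⟩ := exists_pow_eq_self_of_coprime hc
  rw [← hm]
  exact C.pow_mem h m

section

variable {M B : Type*} [Group M] [Finite M] [Group B] {p : ℕ} [hp : Fact p.Prime]

/-- the situation: `t` inverts `V ≤ B` and centralizes the kernel, `t²` centralizes the preimage of `V` -/
structure Inv (p : ℕ) (f : M →* B) (V : Subgroup B) (t : M) : Prop where
  odd : Odd p
  ker : IsPGroup p f.ker
  range : V ≤ f.range
  comm : ∀ a ∈ V, ∀ b ∈ V, a * b = b * a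
  exp : ∀ a ∈ V, a ^ p = 1
  inv : ∀ a ∈ V, f t * a * (f t)⁻¹ = a⁻¹
  cen : ∀ c ∈ f.ker, t * c * t⁻¹ = c
  sq : ∀ r ∈ V.comap f, t ^ 2 * r * (t ^ 2)⁻¹ = r

variable {f : M →* B} {V : Subgroup B} {t : M}

/-- the inverted elements -/
def II (f : M →* B) (V : Subgroup B) (t : M) : Set M := {r | r ∈ V.comap f ∧ t * r * t⁻¹ = r⁻¹}

theorem isPGroup_comap (h : Inv p f V t) : IsPGroup p (V.comap f) := by
  have hV : IsPGroup p V := fun ⟨a, ha⟩ => ⟨1, Subtype.ext (by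
    show a ^ p ^ 1 = 1
    rw [pow_one]; exact h.exp a ha)⟩
  exact hV.comap_of_ker_isPGroup f h.ker

theorem II_comm_ker (h : Inv p f V t) {i : M} (hi : i ∈ II f V t) {c : M} (hc : c ∈ f.ker) : i * c = c * i := by
  have h1 : i * c * i⁻¹ ∈ f.ker := (inferInstance : f.ker.Normal).conj_mem c hc i
  have h2 := h.cen _ h1
  have h3 : t * (i * c * i⁻¹) * t⁻¹ = i⁻¹ * c * i := by
    calc t * (i * c * i⁻¹) * t⁻¹ = (t * i * t⁻¹) * (t * c * t⁻¹) * (t * i * t⁻¹)⁻¹ := by group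
      _ = i⁻¹ * c * i := by rw [hi.2, h.cen c hc, inv_inv]
  rw [h3] at h2
  have h4 : i ^ 2 ∈ centralizer ({c} : Set M) := by
    rw [mem_centralizer_singleton_iff]
    calc i ^ 2 * c = i * (i * c * i⁻¹) * i := by rw [pow_two]; group
      _ = i * (i⁻¹ * c * i) * i := by rw [h2]
      _ = c * i ^ 2 := by rw [pow_two]; group
  have h5 := mem_of_sq h.odd (isPGroup_comap h) hi.1 h4
  rw [mem_centralizer_singleton_iff] at h5
  exact h5

theorem II_unique (h : Inv p f V t) {i j : M} (hi : i ∈ II f V t) (hj : j ∈ II f V t) (hij : f i = f j) : i = j := by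
  set c := i⁻¹ * j with hc
  have hck : c ∈ f.ker := by rw [MonoidHom.mem_ker, hc, map_mul, map_inv, hij, inv_mul_cancel]
  have hjc : j = i * c := by rw [hc, mul_inv_cancel_left]
  have h1 := hj.2
  rw [hjc] at h1
  have h2 : t * (i * c) * t⁻¹ = i⁻¹ * c := by
    calc t * (i * c) * t⁻¹ = (t * i * t⁻¹) * (t * c * t⁻¹) := by group
      _ = _ := by rw [hi.2, h.cen c hck]
  rw [h2, II_comm_ker h hi hck, mul_inv_rev] at h1
  have h3 : c = c⁻¹ := mul_left_cancel h1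
  have h4 : c ^ 2 ∈ (⊥ : Subgroup M) := by
    rw [mem_bot, pow_two]
    nth_rewrite 1 [h3]
    exact inv_mul_cancel c
  have h5 := mem_of_sq h.odd h.ker hck h4
  rw [mem_bot] at h5
  rw [hjc, h5, mul_one]

theorem II_exists (h : Inv p f V t) {u : B} (hu : u ∈ V) : ∃ i ∈ II f V t, f i = u := by
  obtain ⟨k, hk⟩ := h.odd
  have hu2 : (u ^ (k + 1)) ^ 2 = u := by
    rw [← pow_mul, show (k + 1) * 2 = (2 * k + 1) + 1 by ring, ← hk, pow_succ, h.exp u hu, one_mul]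
  obtain ⟨r, hr⟩ := h.range (V.pow_mem hu (k + 1))
  have hrV : f r ∈ V := by rw [hr]; exact V.pow_mem hu _
  have hfi : f (r * t * r⁻¹ * t⁻¹) = u := by
    have h1 := h.inv _ (V.inv_mem hrV)
    rw [inv_inv] at h1
    calc f (r * t * r⁻¹ * t⁻¹) = f r * (f t * (f r)⁻¹ * (f t)⁻¹) := by
          simp only [map_mul, map_inv]; group
      _ = u := by rw [h1, ← pow_two, hr, hu2]
  refine ⟨r * t * r⁻¹ * t⁻¹, ⟨?_, ?_⟩, hfi⟩
  · rw [mem_comap, hfi]; exact hu
  · have h1 := h.sq r⁻¹ (by rw [mem_comap, map_inv]; exact V.inv_mem hrV)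
    calc t * (r * t * r⁻¹ * t⁻¹) * t⁻¹ = t * r * t⁻¹ * (t ^ 2 * r⁻¹ * (t ^ 2)⁻¹) := by rw [pow_two]; group
      _ = t * r * t⁻¹ * r⁻¹ := by rw [h1]
      _ = _ := by group

theorem E_le (f : M →* B) (V : Subgroup B) (t : M) : closure (II f V t) ≤ V.comap f :=
  (closure_le _).2 fun _ hi => hi.1

theorem E_comm_ker (h : Inv p f V t) {e : M} (he : e ∈ closure (II f V t)) {c : M} (hc : c ∈ f.ker) :
    e * c = c * e := by
  have h1 : closure (II f V t) ≤ centralizer ({c} : Set M) := by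
    rw [closure_le]
    intro i hi
    rw [SetLike.mem_coe, mem_centralizer_singleton_iff]
    exact II_comm_ker h hi hc
  have := h1 he
  rw [mem_centralizer_singleton_iff] at this
  exact this

/-- quadratic action of an element normalizing the set of inverted elements -/
theorem quad_of (h : Inv p f V t) {u : B} (hu : u ∈ V) {x : M} (hx : ∀ i ∈ II f V t, x * i * x⁻¹ ∈ II f V t)
    (hxu : f x * u * (f x)⁻¹ = u) (hxV : ∀ r ∈ V, f x * r * (f x)⁻¹ * r⁻¹ ∈ zpowers u) :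
    Quad x (closure (II f V t)) := by
  obtain ⟨iu, hiu, hfiu⟩ := II_exists h hu
  have hiuE : iu ∈ closure (II f V t) := subset_closure hiu
  have hxiu : x * iu * x⁻¹ = iu := by
    apply II_unique h (hx _ hiu) hiu
    rw [map_mul, map_mul, map_inv, hfiu, hxu]
  have hxE : ∀ e ∈ closure (II f V t), x * e * x⁻¹ ∈ closure (II f V t) := by
    intro e he
    induction he using closure_induction with
    | mem i hi => exact subset_closure (hx i hi)
    | one => rw [mul_one, mul_inv_cancel]; exact one_mem _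
    | mul a b _ _ ha hb =>
      have : x * (a * b) * x⁻¹ = (x * a * x⁻¹) * (x * b * x⁻¹) := by group
      rw [this]; exact mul_mem ha hb
    | inv a _ ha =>
      have : x * a⁻¹ * x⁻¹ = (x * a * x⁻¹)⁻¹ := by group
      rw [this]; exact inv_mem ha
  -- the abelian subgroup
  set D := closure (II f V t) ⊓ (zpowers u).comap f with hD
  have hDform : ∀ d ∈ D, ∃ k : ℤ, ∃ c ∈ f.ker, d = iu ^ k * c := by
    rintro d ⟨hd1, hd2⟩
    obtain ⟨k, hk⟩ := mem_zpowers_iff.1 hd2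
    refine ⟨k, (iu ^ k)⁻¹ * d, ?_, by rw [mul_inv_cancel_left]⟩
    rw [MonoidHom.mem_ker, map_mul, map_inv, map_zpow, hfiu, hk, inv_mul_cancel]
  have hDcomm : ∀ a ∈ D, ∀ b ∈ D, a * b = b * a := by
    intro a ha b hb
    obtain ⟨k, c, hc, rfl⟩ := hDform a ha
    obtain ⟨l, d, hd, rfl⟩ := hDform b hb
    have h1 : c * iu ^ l = iu ^ l * c := (E_comm_ker h (zpow_mem hiuE l) hc).symm
    have h2 : d * iu ^ k = iu ^ k * d := (E_comm_ker h (zpow_mem hiuE k) hd).symm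
    -- `c` commutes with `iu ^ l * d`, an element of `E`
    have h3 : c * (iu ^ l * d) = (iu ^ l * d) * c := (E_comm_ker h hb.1 hc).symm
    have h4 : (iu ^ k) * (iu ^ l * d) = (iu ^ l * d) * iu ^ k := by
      rw [← mul_assoc, ← zpow_add, add_comm, zpow_add, mul_assoc, ← h2, mul_assoc]
    calc iu ^ k * c * (iu ^ l * d) = iu ^ k * (c * (iu ^ l * d)) := by group
      _ = iu ^ k * ((iu ^ l * d) * c) := by rw [h3]
      _ = (iu ^ k * (iu ^ l * d)) * c := by group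
      _ = ((iu ^ l * d) * iu ^ k) * c := by rw [h4]
      _ = _ := by group
  have hDconj : ∀ a ∈ closure (II f V t), ∀ d ∈ D, a * d * a⁻¹ ∈ D := by
    intro a ha d hd
    obtain ⟨hd1, hd2⟩ := Subgroup.mem_inf.1 hd
    refine Subgroup.mem_inf.2 ⟨mul_mem (mul_mem ha hd1) (inv_mem ha), ?_⟩
    rw [mem_comap] at hd2 ⊢
    have h1 : f a * f d = f d * f a := h.comm _ (E_le f V t ha) _ (E_le f V t hd1)
    rw [map_mul, map_mul, map_inv, h1, mul_inv_cancel_right]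
    exact hd2
  have hfδ : ∀ a ∈ closure (II f V t), x * a * x⁻¹ * a⁻¹ ∈ D := by
    intro a ha
    refine Subgroup.mem_inf.2 ⟨mul_mem (hxE a ha) (inv_mem ha), ?_⟩
    rw [mem_comap, map_mul, map_mul, map_mul, map_inv, map_inv]
    exact hxV _ (E_le f V t ha)
  -- the main claim
  intro a ha
  induction ha using closure_induction with
  | mem i hi =>
    -- `δ(i) = j c`
    obtain ⟨k, c, hc, hjc⟩ := hDform _ (hfδ i (subset_closure hi))
    set j := iu ^ k with hj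
    have hjII : t * j * t⁻¹ = j⁻¹ := by
      rw [hj, ← conj_zpow, hiu.2, inv_zpow]
    have hxj : x * j * x⁻¹ = j := by rw [hj, ← conj_zpow, hxiu]
    have hjE : j ∈ closure (II f V t) := zpow_mem hiuE k
    have hiE : i ∈ closure (II f V t) := subset_closure hi
    have hxi : x * i * x⁻¹ = j * c * i := by rw [← hjc]; group
    have h1 := (hx i hi).2
    rw [hxi] at h1
    have h2 : t * (j * c * i) * t⁻¹ = j⁻¹ * c * i⁻¹ := by
      calc t * (j * c * i) * t⁻¹ = (t * j * t⁻¹) * (t * c * t⁻¹) * (t * i * t⁻¹) := by group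
        _ = _ := by rw [hjII, h.cen c hc, hi.2]
    rw [h2] at h1
    have hcj := E_comm_ker h hjE hc
    have hci := E_comm_ker h hiE hc
    have hcj' := E_comm_ker h (inv_mem hjE) hc
    have hci' := E_comm_ker h (inv_mem hiE) hc
    have h3 : c ^ 2 = i⁻¹ * j⁻¹ * i * j := by
      have e1 : j⁻¹ * c * i⁻¹ = c * (j⁻¹ * i⁻¹) := by rw [hcj', mul_assoc]
      have e2 : (j * c * i)⁻¹ = c⁻¹ * (i⁻¹ * j⁻¹) := by
        rw [hcj]; group
        rw [show i ^ (-1 : ℤ) = i⁻¹ from zpow_neg_one i, show j ^ (-1 : ℤ) = j⁻¹ from zpow_neg_one j,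
          show c ^ (-1 : ℤ) = c⁻¹ from zpow_neg_one c]
        have hcinv : c⁻¹ ∈ f.ker := inv_mem hc
        have := E_comm_ker h (mul_mem (inv_mem hiE) (inv_mem hjE)) hcinv
        rw [this, mul_assoc]
      rw [e1, e2] at h1
      have h5 : c * c = (i⁻¹ * j⁻¹) * (j⁻¹ * i⁻¹)⁻¹ := by
        rw [eq_mul_inv_iff_mul_eq, mul_assoc, h1, mul_inv_cancel_left]
      rw [pow_two, h5]; group
    have h4 : x * (c ^ 2) * x⁻¹ = c ^ 2 := by
      rw [h3]
      have e1 : x * (i⁻¹ * j⁻¹ * i * j) * x⁻¹ = (x * i * x⁻¹)⁻¹ * (x * j * x⁻¹)⁻¹ * (x * i * x⁻¹) * (x * j * x⁻¹) := by group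
      rw [e1, hxi, hxj]
      have e2 : j * c = c * j := hcj
      have e3 : c * i = i * c := hci.symm
      calc (j * c * i)⁻¹ * j⁻¹ * (j * c * i) * j = i⁻¹ * c⁻¹ * j⁻¹ * (c * i * j) := by group
        _ = i⁻¹ * c⁻¹ * (j⁻¹ * c) * i * j := by group
        _ = i⁻¹ * c⁻¹ * (c * j⁻¹) * i * j := by rw [hcj']
        _ = _ := by group
    have h5 : c ∈ centralizer ({x} : Set M) := by
      apply mem_of_sq h.odd h.ker hc
      rw [mem_centralizer_singleton_iff]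
      have : x * c ^ 2 = c ^ 2 * x := by
        rw [mul_inv_eq_iff_eq_mul] at h4; exact h4
      exact this.symm
    rw [mem_centralizer_singleton_iff] at h5
    rw [hjc]
    calc x * (j * c) * x⁻¹ = (x * j * x⁻¹) * (x * c) * x⁻¹ := by group
      _ = j * (c * x) * x⁻¹ := by rw [hxj, ← h5]
      _ = _ := by group
  | one => simp
  | mul a b ha hb iha ihb =>
    have e1 : x * (a * b) * x⁻¹ * (a * b)⁻¹ = (x * a * x⁻¹ * a⁻¹) * (a * (x * b * x⁻¹ * b⁻¹) * a⁻¹) := by group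
    rw [e1]
    set da := x * a * x⁻¹ * a⁻¹ with hda
    set db := x * b * x⁻¹ * b⁻¹ with hdb
    have hxa : x * a * x⁻¹ = da * a := by rw [hda]; group
    have hcm := hDcomm da (hfδ a ha) (a * db * a⁻¹) (hDconj a ha db (hfδ b hb))
    calc x * (da * (a * db * a⁻¹)) * x⁻¹
        = (x * da * x⁻¹) * ((x * a * x⁻¹) * (x * db * x⁻¹) * (x * a * x⁻¹)⁻¹) := by group
      _ = da * ((da * a) * db * (da * a)⁻¹) := by rw [iha, ihb, hxa]
      _ = da * (da * (a * db * a⁻¹) * da⁻¹) := by group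
      _ = da * (a * db * a⁻¹) := by
        rw [hcm, mul_inv_cancel_right]
        exact hcm
  | inv a ha iha =>
    set da := x * a * x⁻¹ * a⁻¹ with hda
    have hxa : x * a * x⁻¹ = da * a := by rw [hda]; group
    have e1 : x * a⁻¹ * x⁻¹ * a⁻¹⁻¹ = a⁻¹ * da⁻¹ * a := by rw [hda]; group
    rw [e1]
    calc x * (a⁻¹ * da⁻¹ * a) * x⁻¹ = (x * a * x⁻¹)⁻¹ * (x * da * x⁻¹)⁻¹ * (x * a * x⁻¹) := by group
      _ = (da * a)⁻¹ * da⁻¹ * (da * a) := by rw [hxa, iha]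
      _ = _ := by group

end

/-- `(X Y⁻¹ X)²` inverts the plane -/
theorem neg_gen {B : Type*} [Group B] {X Y w v : B} (hc : w * v = v * w) (h1 : X * w * X⁻¹ = w)
    (h2 : X * v * X⁻¹ = v * w) (h3 : Y * w * Y⁻¹ = w * v) (h4 : Y * v * Y⁻¹ = v) :
    ((X * Y⁻¹ * X) ^ 2) * w * ((X * Y⁻¹ * X) ^ 2)⁻¹ = w⁻¹ ∧
      ((X * Y⁻¹ * X) ^ 2) * v * ((X * Y⁻¹ * X) ^ 2)⁻¹ = v⁻¹ := by
  have k1 : MulAut.conj X w = w := h1
  have k2 : MulAut.conj X v = v * w := h2
  have k3 : (MulAut.conj Y)⁻¹ v = v := by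
    rw [MulAut.inv_apply, MulEquiv.symm_apply_eq]; exact h4.symm
  have k4 : (MulAut.conj Y)⁻¹ w = w * v⁻¹ := by
    rw [MulAut.inv_apply, MulEquiv.symm_apply_eq, map_mul, map_inv]
    have e1 : MulAut.conj Y w = w * v := h3
    have e2 : MulAut.conj Y v = v := h4
    rw [e1, e2, mul_inv_cancel_right]
  have e : ∀ a : B, (X * Y⁻¹ * X) * a * (X * Y⁻¹ * X)⁻¹ = MulAut.conj X ((MulAut.conj Y)⁻¹ (MulAut.conj X a)) := by
    intro a
    have : MulAut.conj (X * Y⁻¹ * X) a = MulAut.conj X ((MulAut.conj Y)⁻¹ (MulAut.conj X a)) := by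
      rw [map_mul, map_mul, map_inv]; rfl
    exact this
  have z1 : (X * Y⁻¹ * X) * w * (X * Y⁻¹ * X)⁻¹ = v⁻¹ := by
    rw [e, k1, k4, map_mul, map_inv, k1, k2, mul_inv_rev, mul_inv_cancel_left]
  have z2 : (X * Y⁻¹ * X) * v * (X * Y⁻¹ * X)⁻¹ = w := by
    rw [e, k2, map_mul, k3, k4, ← mul_assoc, ← hc, mul_inv_cancel_right, k1]
  set Z := X * Y⁻¹ * X with hZ
  constructor
  · calc Z ^ 2 * w * (Z ^ 2)⁻¹ = Z * (Z * w * Z⁻¹) * Z⁻¹ := by rw [pow_two]; group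
      _ = (Z * v * Z⁻¹)⁻¹ := by rw [z1]; group
      _ = w⁻¹ := by rw [z2]
  · calc Z ^ 2 * v * (Z ^ 2)⁻¹ = Z * (Z * v * Z⁻¹) * Z⁻¹ := by rw [pow_two]; group
      _ = v⁻¹ := by rw [z2, z1]

section Lift

variable {M B : Type*} [Group M] [Finite M] [Group B] {p : ℕ} [hp : Fact p.Prime]

def Fix (f : M →* B) (V : Subgroup B) (g : M) : Prop := ∀ a ∈ V, f g * a * (f g)⁻¹ = a
def Neg (f : M →* B) (V : Subgroup B) (g : M) : Prop := ∀ a ∈ V, f g * a * (f g)⁻¹ = a⁻¹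

theorem Fix.mul {f : M →* B} {V : Subgroup B} {g h : M} (hg : Fix f V g) (hh : Fix f V h) : Fix f V (g * h) := by
  intro a ha
  calc f (g * h) * a * (f (g * h))⁻¹ = f g * (f h * a * (f h)⁻¹) * (f g)⁻¹ := by rw [map_mul]; group
    _ = a := by rw [hh a ha, hg a ha]

theorem Fix.mul_neg {f : M →* B} {V : Subgroup B} {g h : M} (hg : Fix f V g) (hh : Neg f V h) : Neg f V (g * h) := by
  intro a ha
  calc f (g * h) * a * (f (g * h))⁻¹ = f g * (f h * a * (f h)⁻¹) * (f g)⁻¹ := by rw [map_mul]; group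
    _ = a⁻¹ := by rw [hh a ha, hg _ (V.inv_mem ha)]

theorem Neg.mul_fix {f : M →* B} {V : Subgroup B} {g h : M} (hg : Neg f V g) (hh : Fix f V h) : Neg f V (g * h) := by
  intro a ha
  calc f (g * h) * a * (f (g * h))⁻¹ = f g * (f h * a * (f h)⁻¹) * (f g)⁻¹ := by rw [map_mul]; group
    _ = a⁻¹ := by rw [hh a ha, hg a ha]

theorem Neg.mul {f : M →* B} {V : Subgroup B} {g h : M} (hg : Neg f V g) (hh : Neg f V h) : Fix f V (g * h) := by
  intro a ha
  calc f (g * h) * a * (f (g * h))⁻¹ = f g * (f h * a * (f h)⁻¹) * (f g)⁻¹ := by rw [map_mul]; group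
    _ = a := by rw [hh a ha, hg _ (V.inv_mem ha), inv_inv]

theorem Fix.inv {f : M →* B} {V : Subgroup B} {g : M} (hg : Fix f V g) : Fix f V g⁻¹ := by
  intro a ha
  calc f g⁻¹ * a * (f g⁻¹)⁻¹ = f g⁻¹ * (f g * a * (f g)⁻¹) * (f g⁻¹)⁻¹ := by rw [hg a ha]
    _ = a := by rw [map_inv]; group

theorem Neg.inv {f : M →* B} {V : Subgroup B} {g : M} (hg : Neg f V g) : Neg f V g⁻¹ := by
  intro a ha
  calc f g⁻¹ * a * (f g⁻¹)⁻¹ = f g⁻¹ * (f g * a⁻¹ * (f g)⁻¹) * (f g⁻¹)⁻¹ := by rw [hg _ (V.inv_mem ha), inv_inv]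
    _ = a⁻¹ := by rw [map_inv]; group

/-- elements of `K` normalizing `V` -/
def P₀ (f : M →* B) (V : Subgroup B) (K : Subgroup M) : Subgroup K where
  carrier := {k | Fix f V k ∨ Neg f V k}
  one_mem' := Or.inl (fun a _ => by simp)
  mul_mem' := by
    rintro a b (ha | ha) (hb | hb)
    · exact Or.inl (ha.mul hb)
    · exact Or.inr (ha.mul_neg hb)
    · exact Or.inr (ha.mul_fix hb)
    · exact Or.inl (ha.mul hb)
  inv_mem' := by
    rintro a (ha | ha)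
    · exact Or.inl ha.inv
    · exact Or.inr ha.inv

theorem P₀_normal (f : M →* B) (V : Subgroup B) (K : Subgroup M) (hK : ∀ k ∈ K, ∀ a ∈ V, f k * a * (f k)⁻¹ ∈ V) :
    (P₀ f V K).Normal := by
  constructor
  rintro n hn g
  have hg' : ∀ a ∈ V, f (g⁻¹ : K) * a * (f (g⁻¹ : K))⁻¹ ∈ V := hK _ (g⁻¹).2
  have key : ∀ a, f ((g * n * g⁻¹ : K) : M) * a * (f ((g * n * g⁻¹ : K) : M))⁻¹ =
      f g * (f n * (f (g⁻¹ : K) * a * (f (g⁻¹ : K))⁻¹) * (f n)⁻¹) * (f g)⁻¹ := by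
    intro a
    simp only [Subgroup.coe_mul, Subgroup.coe_inv, map_mul, map_inv]
    group
  rcases hn with hn | hn
  · left
    intro a ha
    rw [key, hn _ (hg' a ha)]
    simp only [Subgroup.coe_inv, map_inv]; group
  · right
    intro a ha
    rw [key, hn _ (hg' a ha)]
    simp only [Subgroup.coe_inv, map_inv]; group

theorem Neg.pow_odd {f : M →* B} {V : Subgroup B} {g : M} (hg : Neg f V g) (l : ℕ) : Neg f V (g ^ (2 * l + 1)) := by
  induction l with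
  | zero => simpa using hg
  | succ l ih =>
    rw [show 2 * (l + 1) + 1 = 2 * l + 1 + 1 + 1 by ring, pow_succ, pow_succ]
    exact (ih.mul hg).mul_neg hg

theorem Neg.conj {f : M →* B} {V : Subgroup B} {g n : M} (hn : Neg f V n)
    (hg : ∀ a ∈ V, f g⁻¹ * a * (f g⁻¹)⁻¹ ∈ V) : Neg f V (g * n * g⁻¹) := by
  intro a ha
  calc f (g * n * g⁻¹) * a * (f (g * n * g⁻¹))⁻¹
      = f g * (f n * (f g⁻¹ * a * (f g⁻¹)⁻¹) * (f n)⁻¹) * (f g)⁻¹ := by
        simp only [map_mul, map_inv]; group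
    _ = a⁻¹ := by rw [hn _ (hg a ha)]; simp only [map_inv]; group

theorem isPGroup_zpowers {G : Type*} [Group G] {g : G} {q a : ℕ} (hg : g ^ q ^ a = 1) : IsPGroup q (zpowers g) := by
  rintro ⟨_, k, rfl⟩
  refine ⟨a, Subtype.ext ?_⟩
  show (g ^ k) ^ q ^ a = 1
  rw [← zpow_natCast, ← zpow_mul, mul_comm, zpow_mul, zpow_natCast, hg, one_zpow]

/-- `2`-elements acting trivially on `V` and centralizing the kernel up to `p`-powers centralize the preimage -/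
theorem two_cen {f : M →* B} {V : Subgroup B} (hpo : Odd p) (hker : IsPGroup p f.ker) {s : M} {a : ℕ}
    (hs : s ^ 2 ^ a = 1) (hcen : ∃ j, s ^ p ^ j ∈ centralizer (f.ker : Set M)) (hfix : Fix f V s) :
    ∀ r ∈ V.comap f, s * r * s⁻¹ = r := by
  obtain ⟨j, hj⟩ := hcen
  have h1 := mem_of_two_elt hpo hs hj
  obtain ⟨j', hj'⟩ := pow_centralizes (P := V.comap f) (A := f.ker) (k := s) hker (by
    intro r hr
    rw [MonoidHom.mem_ker, map_mul, map_mul, map_mul, map_inv, map_inv, hfix _ hr, mul_inv_cancel]) (by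
    intro c hc
    rw [mem_centralizer_iff] at h1
    rw [← h1 c hc, mul_inv_cancel_right])
  have h2 := mem_of_two_elt hpo hs hj'
  intro r hr
  rw [mem_centralizer_iff] at h2
  rw [← h2 r hr, mul_inv_cancel_right]

theorem exists_good {f : M →* B} {V : Subgroup B} {K : Subgroup M} (hpo : Odd p) (hker : IsPGroup p f.ker)
    (hVr : V ≤ f.range) (hVc : ∀ a ∈ V, ∀ b ∈ V, a * b = b * a) (hVe : ∀ a ∈ V, a ^ p = 1)
    (hKV : ∀ k ∈ K, ∀ a ∈ V, f k * a * (f k)⁻¹ ∈ V)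
    (hcen : ∀ h ∈ K, ∃ j, h ^ p ^ j ∈ centralizer (f.ker : Set M))
    {z₀ : M} (hz₀ : z₀ ∈ K) (hneg : Neg f V z₀) :
    ∃ t ∈ K, Inv p f V t ∧ ∀ g ∈ K, ∃ g₁ ∈ K, (∀ a ∈ V, f g₁ * a * (f g₁)⁻¹ = f g * a * (f g)⁻¹) ∧
      ∀ i ∈ II f V t, g₁ * i * g₁⁻¹ ∈ II f V t := by
  obtain ⟨a, m, hm, hord⟩ := Nat.exists_eq_two_pow_mul_odd (orderOf_pos z₀).ne'
  obtain ⟨l, hl⟩ := hm
  set t := z₀ ^ m with ht
  have htK : t ∈ K := K.pow_mem hz₀ m
  have hta : t ^ 2 ^ a = 1 := by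
    rw [ht, ← pow_mul, mul_comm, ← hord, pow_orderOf_eq_one]
  have htneg : Neg f V t := by rw [ht, hl]; exact hneg.pow_odd l
  have h2K : ∀ s ∈ K, ∀ b : ℕ, s ^ 2 ^ b = 1 → Fix f V s → ∀ r ∈ V.comap f, s * r * s⁻¹ = r :=
    fun s hs b hb hf => two_cen hpo hker hb (hcen s hs) hf
  have hInv : Inv p f V t := {
    odd := hpo
    ker := hker
    range := hVr
    comm := hVc
    exp := hVe
    inv := htneg
    cen := by
      intro c hc
      obtain ⟨j, hj⟩ := hcen t htK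
      have h1 := mem_of_two_elt hpo hta hj
      rw [mem_centralizer_iff] at h1
      rw [← h1 c hc, mul_inv_cancel_right]
    sq := by
      apply h2K _ (K.pow_mem htK 2) a
      · rw [← pow_mul, mul_comm, pow_mul, hta, one_pow]
      · rw [pow_two]; exact htneg.mul htneg }
  refine ⟨t, htK, hInv, ?_⟩
  have hPn := P₀_normal f V K hKV
  have h2g : IsPGroup 2 (zpowers (⟨t, htK⟩ : K)) := isPGroup_zpowers (a := a) (Subtype.ext hta)
  have : Fact (Nat.Prime 2) := ⟨Nat.prime_two⟩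
  obtain ⟨S, hS⟩ := h2g.exists_le_sylow
  have htS : (⟨t, htK⟩ : K) ∈ (S : Subgroup K) := hS (mem_zpowers _)
  have htP : (⟨t, htK⟩ : K) ∈ P₀ f V K := Or.inr htneg
  intro g hg
  obtain ⟨c, hc, n, hn, hgcn⟩ := H13.SylowN.frattini_mem S (P₀ f V K) (⟨g, hg⟩ : K)
  have hgcn' : g = (c : M) * n := congrArg Subtype.val hgcn
  have hnK : ∀ a ∈ V, f (n : M) * a * (f (n : M))⁻¹ ∈ V := hKV _ n.2
  have hnK' : ∀ a ∈ V, f (n : M)⁻¹ * a * (f (n : M)⁻¹)⁻¹ ∈ V := hKV _ (n⁻¹).2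
  -- `n t n⁻¹ = t s`
  have hntS : n * ⟨t, htK⟩ * n⁻¹ ∈ (S : Subgroup K) ⊓ P₀ f V K :=
    (mem_normalizer_iff.1 hn _).1 (Subgroup.mem_inf.2 ⟨htS, htP⟩)
  have hsS : (⟨t, htK⟩ : K)⁻¹ * (n * ⟨t, htK⟩ * n⁻¹) ∈ (S : Subgroup K) :=
    mul_mem (inv_mem htS) (Subgroup.mem_inf.1 hntS).1
  obtain ⟨b, hb⟩ := S.isPGroup' ⟨_, hsS⟩
  have hb' : (t⁻¹ * (n * t * (n : M)⁻¹)) ^ 2 ^ b = 1 := congrArg (fun z : S => ((z : K) : M)) hb
  have hntneg : Neg f V (n * t * (n : M)⁻¹) := htneg.conj hnK'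
  have hsfix : Fix f V (t⁻¹ * (n * t * (n : M)⁻¹)) := htneg.inv.mul hntneg
  have hscen := h2K _ (K.mul_mem (K.inv_mem htK) (K.mul_mem (K.mul_mem n.2 htK) (K.inv_mem n.2))) b hb' hsfix
  -- the key
  have key : ∀ g₁ : M, (∀ a ∈ V, f g₁ * a * (f g₁)⁻¹ ∈ V) → g₁ * t * g₁⁻¹ = n * t * (n : M)⁻¹ →
      ∀ i ∈ II f V t, g₁ * i * g₁⁻¹ ∈ II f V t := by
    intro g₁ hg₁ hconj i hi
    have h1 : g₁ * i * g₁⁻¹ ∈ V.comap f := by
      rw [mem_comap, map_mul, map_mul, map_inv]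
      exact hg₁ _ hi.1
    refine ⟨h1, ?_⟩
    have h2 := hscen _ h1
    rw [← hconj] at h2
    calc t * (g₁ * i * g₁⁻¹) * t⁻¹
        = t * (t⁻¹ * (g₁ * t * g₁⁻¹) * (g₁ * i * g₁⁻¹) * (t⁻¹ * (g₁ * t * g₁⁻¹))⁻¹) * t⁻¹ := by rw [h2]
      _ = g₁ * (t * i * t⁻¹) * g₁⁻¹ := by group
      _ = (g₁ * i * g₁⁻¹)⁻¹ := by rw [hi.2]; group
  rcases hc with hc | hc
  · refine ⟨n, n.2, ?_, key n hnK rfl⟩
    intro a ha
    have h1 := hc _ (hnK a ha)
    rw [← h1, hgcn', map_mul]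
    group
  · refine ⟨n * t, K.mul_mem n.2 htK, ?_, key _ ?_ ?_⟩
    · intro a ha
      have h1 := hc _ (hnK a ha)
      have h2 := htneg a ha
      calc f (n * t) * a * (f (n * t))⁻¹ = f n * (f t * a * (f t)⁻¹) * (f n)⁻¹ := by rw [map_mul]; group
        _ = (f n * a * (f n)⁻¹)⁻¹ := by rw [h2]; group
        _ = f g * a * (f g)⁻¹ := by rw [← h1, hgcn', map_mul]; group
    · exact hKV _ (K.mul_mem n.2 htK)
    · group

/-- Lemma C -/
theorem lift {f : M →* B} (hpo : Odd p) (hker : IsPGroup p f.ker) {x y : M} {w v : B} (hw1 : w ≠ 1)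
    (hwp : w ^ p = 1) (hvp : v ^ p = 1) (hwv : w * v = v * w) (hwr : w ∈ f.range) (hvr : v ∈ f.range)
    (h1 : f x * w * (f x)⁻¹ = w) (h2 : f x * v * (f x)⁻¹ = v * w)
    (h3 : f y * w * (f y)⁻¹ = w * v) (h4 : f y * v * (f y)⁻¹ = v)
    (hcen : ∀ h ∈ closure {x, y}, ∃ j, h ^ p ^ j ∈ centralizer (f.ker : Set M)) :
    ∃ E : Subgroup M, E ≤ (closure {w, v}).comap f ∧ ∃ x₁ ∈ closure {x, y}, ∃ y₁ ∈ closure {x, y},
      x₁ ∈ normalizer (E : Set M) ∧ y₁ ∈ normalizer (E : Set M) ∧ Quad x₁ E ∧ Quad y₁ E ∧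
      ¬ ∀ h ∈ closure {x₁, y₁}, ∃ j, h ^ p ^ j ∈ centralizer (E : Set M) := by
  set V : Subgroup B := closure {w, v} with hV
  set K : Subgroup M := closure {x, y} with hK
  have hwV : w ∈ V := subset_closure (by simp)
  have hvV : v ∈ V := subset_closure (by simp)
  have hxK : x ∈ K := subset_closure (by simp)
  have hyK : y ∈ K := subset_closure (by simp)
  have hVc : ∀ a ∈ V, ∀ b ∈ V, a * b = b * a := by
    have hcomm : ∀ a ∈ ({w, v} : Set B), ∀ b ∈ ({w, v} : Set B), a * b = b * a := by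
      rintro a (rfl | rfl) b (rfl | rfl)
      · rfl
      · exact hwv
      · exact hwv.symm
      · rfl
    have hle : V ≤ centralizer (V : Set B) := by
      rw [hV, centralizer_closure, closure_le]
      intro a ha
      rw [SetLike.mem_coe, mem_centralizer_iff]
      intro b hb
      exact hcomm b hb a ha
    intro a ha b hb
    exact (mem_centralizer_iff.1 (hle hb) a ha)
  have hVe : ∀ a ∈ V, a ^ p = 1 := by
    intro a ha
    induction ha using closure_induction with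
    | mem a ha => rcases ha with rfl | rfl <;> assumption
    | one => exact one_pow p
    | mul a b ha hb iha ihb =>
      have : Commute a b := hVc a ha b hb
      rw [this.mul_pow, iha, ihb, one_mul]
    | inv a ha iha => rw [inv_pow, iha, inv_one]
  have hVr : V ≤ f.range := by
    rw [hV, closure_le]
    rintro a (rfl | rfl) <;> assumption
  have hKV : ∀ k ∈ K, ∀ a ∈ V, f k * a * (f k)⁻¹ ∈ V := by
    have hgen : ∀ g : M, f g * w * (f g)⁻¹ ∈ V → f g * v * (f g)⁻¹ ∈ V → ∀ a ∈ V, f g * a * (f g)⁻¹ ∈ V := by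
      intro g hg1 hg2 a ha
      have : V ≤ V.comap (MulAut.conj (f g)).toMonoidHom := by
        rw [hV, closure_le]
        rintro a (rfl | rfl)
        · exact hg1
        · exact hg2
      exact this ha
    have hx : ∀ a ∈ V, f x * a * (f x)⁻¹ ∈ V := hgen x (by rw [h1]; exact hwV) (by rw [h2]; exact mul_mem hvV hwV)
    have hy : ∀ a ∈ V, f y * a * (f y)⁻¹ ∈ V := hgen y (by rw [h3]; exact mul_mem hwV hvV) (by rw [h4]; exact hvV)
    have g1 : f x⁻¹ * w * (f x⁻¹)⁻¹ = w := by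
      rw [map_inv]; nth_rewrite 1 [← h1]; group
    have g2 : f x⁻¹ * v * (f x⁻¹)⁻¹ = v * w⁻¹ := by
      have e : v = f x * (v * w⁻¹) * (f x)⁻¹ := by
        calc v = (v * w) * w⁻¹ := by group
          _ = (f x * v * (f x)⁻¹) * (f x * w * (f x)⁻¹)⁻¹ := by rw [h1, h2]
          _ = _ := by group
      calc f x⁻¹ * v * (f x⁻¹)⁻¹ = f x⁻¹ * (f x * (v * w⁻¹) * (f x)⁻¹) * (f x⁻¹)⁻¹ := by rw [← e]
        _ = _ := by rw [map_inv]; group
    have g4 : f y⁻¹ * v * (f y⁻¹)⁻¹ = v := by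
      rw [map_inv]; nth_rewrite 1 [← h4]; group
    have g3 : f y⁻¹ * w * (f y⁻¹)⁻¹ = w * v⁻¹ := by
      have e : w = f y * (w * v⁻¹) * (f y)⁻¹ := by
        calc w = (w * v) * v⁻¹ := by group
          _ = (f y * w * (f y)⁻¹) * (f y * v * (f y)⁻¹)⁻¹ := by rw [h3, h4]
          _ = _ := by group
      calc f y⁻¹ * w * (f y⁻¹)⁻¹ = f y⁻¹ * (f y * (w * v⁻¹) * (f y)⁻¹) * (f y⁻¹)⁻¹ := by rw [← e]
        _ = _ := by rw [map_inv]; group
    have hx' : ∀ a ∈ V, f x⁻¹ * a * (f x⁻¹)⁻¹ ∈ V :=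
      hgen x⁻¹ (by rw [g1]; exact hwV) (by rw [g2]; exact mul_mem hvV (inv_mem hwV))
    have hy' : ∀ a ∈ V, f y⁻¹ * a * (f y⁻¹)⁻¹ ∈ V :=
      hgen y⁻¹ (by rw [g3]; exact mul_mem hwV (inv_mem hvV)) (by rw [g4]; exact hvV)
    have hall : ∀ k ∈ K, (∀ a ∈ V, f k * a * (f k)⁻¹ ∈ V) ∧ (∀ a ∈ V, f k⁻¹ * a * (f k⁻¹)⁻¹ ∈ V) := by
      intro k hk
      induction hk using closure_induction with
      | mem k hk =>
        rcases hk with rfl | rfl
        · exact ⟨hx, hx'⟩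
        · exact ⟨hy, hy'⟩
      | one => simp
      | mul k l _ _ hk hl =>
        refine ⟨fun a ha => ?_, fun a ha => ?_⟩
        · have := hk.1 _ (hl.1 a ha)
          have e : f (k * l) * a * (f (k * l))⁻¹ = f k * (f l * a * (f l)⁻¹) * (f k)⁻¹ := by rw [map_mul]; group
          rwa [e]
        · have := hl.2 _ (hk.2 a ha)
          have e : f (k * l)⁻¹ * a * (f (k * l)⁻¹)⁻¹ = f l⁻¹ * (f k⁻¹ * a * (f k⁻¹)⁻¹) * (f l⁻¹)⁻¹ := by
            simp only [map_mul, map_inv]; group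
          rwa [e]
      | inv k _ hk => exact ⟨hk.2, by rw [inv_inv]; exact hk.1⟩
    exact fun k hk => (hall k hk).1
  -- the inverting element
  have hnegof : ∀ z : M, f z * w * (f z)⁻¹ = w⁻¹ → f z * v * (f z)⁻¹ = v⁻¹ → Neg f V z := by
    intro z hz1 hz2 a ha
    induction ha using closure_induction with
    | mem a ha => rcases ha with rfl | rfl <;> assumption
    | one => simp
    | mul a b ha hb iha ihb =>
      calc f z * (a * b) * (f z)⁻¹ = (f z * a * (f z)⁻¹) * (f z * b * (f z)⁻¹) := by group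
        _ = a⁻¹ * b⁻¹ := by rw [iha, ihb]
        _ = (a * b)⁻¹ := by rw [mul_inv_rev]; exact hVc _ (V.inv_mem ha) _ (V.inv_mem hb)
    | inv a ha iha =>
      calc f z * a⁻¹ * (f z)⁻¹ = (f z * a * (f z)⁻¹)⁻¹ := by group
        _ = _ := by rw [iha]
  have hz0 : Neg f V ((x * y⁻¹ * x) ^ 2) := by
    obtain ⟨e1, e2⟩ := neg_gen hwv h1 h2 h3 h4
    apply hnegof
    · simp only [map_pow, map_mul, map_inv]; exact e1
    · simp only [map_pow, map_mul, map_inv]; exact e2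
  obtain ⟨t, htK, hInv, hgood⟩ := exists_good hpo hker hVr hVc hVe hKV hcen
    (K.pow_mem (K.mul_mem (K.mul_mem hxK (K.inv_mem hyK)) hxK) 2) hz0
  obtain ⟨x₁, hx₁K, hx₁V, hx₁I⟩ := hgood x hxK
  obtain ⟨y₁, hy₁K, hy₁V, hy₁I⟩ := hgood y hyK
  have hnorm : ∀ g : M, (∀ i ∈ II f V t, g * i * g⁻¹ ∈ II f V t) →
      g ∈ normalizer ((closure (II f V t) : Subgroup M) : Set M) := by
    intro g hg
    apply mem_normalizer_of_conj_mem
    intro e he
    have : closure (II f V t) ≤ (closure (II f V t)).comap (MulAut.conj g).toMonoidHom := by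
      rw [closure_le]
      intro i hi
      exact subset_closure (hg i hi)
    exact this he
  have hzp : ∀ (g : M) (u : B), (∀ a ∈ V, f g * a * (f g)⁻¹ ∈ V) → u ∈ V → f g * u * (f g)⁻¹ = u →
      f g * w * (f g)⁻¹ * w⁻¹ ∈ zpowers u → f g * v * (f g)⁻¹ * v⁻¹ ∈ zpowers u →
      ∀ r ∈ V, f g * r * (f g)⁻¹ * r⁻¹ ∈ zpowers u := by
    intro g u hgV hu hgu hgw hgv r hr
    have hzu : zpowers u ≤ V := by rw [zpowers_le]; exact hu
    induction hr using closure_induction with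
    | mem a ha => rcases ha with rfl | rfl <;> assumption
    | one => simp
    | mul a b ha hb iha ihb =>
      have e : f g * (a * b) * (f g)⁻¹ * (a * b)⁻¹ =
          (f g * a * (f g)⁻¹) * (f g * b * (f g)⁻¹ * b⁻¹) * a⁻¹ := by group
      rw [e, hVc (f g * a * (f g)⁻¹) (hgV a ha) _ (hzu ihb), mul_assoc]
      exact mul_mem ihb iha
    | inv a ha iha =>
      have e : f g * a⁻¹ * (f g)⁻¹ * a⁻¹⁻¹ = (a⁻¹ * (f g * a * (f g)⁻¹))⁻¹ := by group
      rw [e, hVc _ (V.inv_mem ha) _ (hgV a ha)]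
      exact inv_mem iha
  have hx₁w : f x₁ * w * (f x₁)⁻¹ = w := by rw [hx₁V w hwV, h1]
  have hx₁v : f x₁ * v * (f x₁)⁻¹ = v * w := by rw [hx₁V v hvV, h2]
  have hy₁w : f y₁ * w * (f y₁)⁻¹ = w * v := by rw [hy₁V w hwV, h3]
  have hy₁v : f y₁ * v * (f y₁)⁻¹ = v := by rw [hy₁V v hvV, h4]
  refine ⟨closure (II f V t), E_le f V t, x₁, hx₁K, y₁, hy₁K, hnorm x₁ hx₁I, hnorm y₁ hy₁I, ?_, ?_, ?_⟩
  · refine quad_of hInv hwV hx₁I hx₁w (hzp x₁ w (hKV x₁ hx₁K) hwV hx₁w ?_ ?_)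
    · rw [hx₁w, mul_inv_cancel]; exact one_mem _
    · rw [hx₁v, ← hwv, mul_inv_cancel_right]; exact mem_zpowers w
  · refine quad_of hInv hvV hy₁I hy₁v (hzp y₁ v (hKV y₁ hy₁K) hvV hy₁v ?_ ?_)
    · rw [hy₁w, hwv, mul_inv_cancel_right]; exact mem_zpowers v
    · rw [hy₁v, mul_inv_cancel]; exact one_mem _
  · intro hall
    set h := (x₁ * y₁⁻¹ * x₁) ^ 2 with hh
    have hx₁c : x₁ ∈ closure {x₁, y₁} := subset_closure (by simp)
    have hy₁c : y₁ ∈ closure {x₁, y₁} := subset_closure (by simp)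
    obtain ⟨j, hj⟩ := hall h (pow_mem (mul_mem (mul_mem hx₁c (inv_mem hy₁c)) hx₁c) 2)
    have hhneg : Neg f V h := by
      obtain ⟨e1, e2⟩ := neg_gen hwv hx₁w hx₁v hy₁w hy₁v
      apply hnegof
      · rw [hh]; simp only [map_pow, map_mul, map_inv]; exact e1
      · rw [hh]; simp only [map_pow, map_mul, map_inv]; exact e2
    obtain ⟨l, hl⟩ := hpo.pow (n := j)
    have hjneg : Neg f V (h ^ p ^ j) := by rw [hl]; exact hhneg.pow_odd l
    obtain ⟨i, hi, hfi⟩ := II_exists hInv hwV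
    have h5 := mem_centralizer_iff.1 hj i (subset_closure hi)
    have h6 := hjneg w hwV
    rw [← hfi, ← map_mul, ← map_inv, ← map_mul, ← h5, mul_inv_cancel_right, hfi] at h6
    apply hw1
    have h7 : w ^ 2 = 1 := by
      rw [pow_two]; nth_rewrite 1 [h6]; exact inv_mul_cancel w
    have h8 : orderOf w ∣ Nat.gcd 2 p := Nat.dvd_gcd (orderOf_dvd_of_pow_eq_one h7) (orderOf_dvd_of_pow_eq_one hwp)
    rw [(Nat.coprime_two_left.2 hpo : Nat.gcd 2 p = 1), Nat.dvd_one, orderOf_eq_one_iff] at h8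
    exact h8

end Lift

end H14.SL2Lift
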