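import Cfsg.Agent.Lib.H14.SL2Lift
import Cfsg.Agent.Lib.H3.PBasic
import Cfsg.Agent.Lib.H30.FrobAct

/-!
# From quadratic action modulo a trivially acted subgroup to quadratic action on a section-free subgroup

Lemma D: if `x, y` normalize the `p`-group `T` (`p` odd) and `Q ⊴ T`, act quadratically modulo `Q`, the group
`⟨x, y⟩` acts as a `p`-group on `Q` but not on `T`, then some subgroup `E` of `T` and `x₁, y₁ ∈ ⟨x, y⟩`
normalizing `E` act quadratically on `E` and generate a group not acting as a `p`-group on `E`.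
-/

set_option autoImplicit false

namespace H14.SL2Red

open Cfsg Subgroup H51.QdStab H51.QdStab2 H14.SL2Lift

/-- irreducible elementary abelian case, `H51.QdStab.qd_of_irreducible` with the pair made explicit -/
theorem pair_of_irreducible {p : ℕ} [hp : Fact p.Prime] (hp2 : p ≠ 2) {G : Type*} [Group G] [Finite G]
    (A : Subgroup G) (hcomm : ∀ a ∈ A, ∀ b ∈ A, a * b = b * a) (hexp : ∀ a ∈ A, a ^ p = 1) {x y : G}
    (hx : x ∈ normalizer (A : Set G)) (hy : y ∈ normalizer (A : Set G)) (hqx : Quad x A) (hqy : Quad y A)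
    (hirr : ∀ B : Subgroup G, B ≤ A → x ∈ normalizer (B : Set G) → y ∈ normalizer (B : Set G) → B = ⊥ ∨ B = A)
    (hne : ∃ a ∈ A, x * a * x⁻¹ ≠ a ∨ y * a * y⁻¹ ≠ a) :
    ∃ x' ∈ closure {x, y}, ∃ y' ∈ closure {x, y}, ∃ w ∈ A, ∃ v ∈ A, w ≠ 1 ∧ x' * w * x'⁻¹ = w ∧
      x' * v * x'⁻¹ = v * w ∧ y' * w * y'⁻¹ = w * v ∧ y' * v * y'⁻¹ = v := by
  classical
  let instA : CommGroup A := { (inferInstance : Group A) with mul_comm := fun a b => Subtype.ext (hcomm a a.2 b b.2) }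
  let W := Additive A
  -- the endomorphism induced by a normalizing element
  let act : normalizer (A : Set G) → AddMonoid.End W := fun g =>
    MonoidHom.toAdditive (MonoidHom.mk' (fun a : A => (⟨(g : G) * a * (g : G)⁻¹, (mem_normalizer_iff.1 g.2 a).1 a.2⟩ : A)) (by
      intro a b
      apply Subtype.ext
      show (g : G) * (a * b : G) * (g : G)⁻¹ = (g : G) * a * (g : G)⁻¹ * ((g : G) * b * (g : G)⁻¹)
      generalize (g : G) = z
      group))
  have hact : ∀ (g : normalizer (A : Set G)) (w : W), ((act g w).toMul : G) = g * (w.toMul : G) * (g : G)⁻¹ := fun g w => rfl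
  have hKN : closure {x, y} ≤ normalizer (A : Set G) := by
    rw [closure_le]
    rintro a (rfl | rfl)
    · exact hx
    · exact hy
  let S : Submonoid (AddMonoid.End W) := {
    carrier := {e | ∃ g : normalizer (A : Set G), (g : G) ∈ closure {x, y} ∧ act g = e}
    one_mem' := ⟨1, one_mem _, by
      apply AddMonoidHom.ext
      intro w
      apply Additive.toMul.injective
      apply Subtype.ext
      show (1 : G) * (w.toMul : G) * (1 : G)⁻¹ = (w.toMul : G)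
      rw [one_mul, inv_one, mul_one]⟩
    mul_mem' := by
      rintro _ _ ⟨g, hg, rfl⟩ ⟨h, hh, rfl⟩
      refine ⟨g * h, mul_mem hg hh, ?_⟩
      apply AddMonoidHom.ext
      intro w
      apply Additive.toMul.injective
      apply Subtype.ext
      show ((g : G) * (h : G)) * (w.toMul : G) * ((g : G) * (h : G))⁻¹ = (g : G) * ((h : G) * (w.toMul : G) * (h : G)⁻¹) * (g : G)⁻¹
      generalize (g : G) = z
      generalize (h : G) = z'
      group }
  let X : AddMonoid.End W := act ⟨x, hx⟩ - 1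
  let Y : AddMonoid.End W := act ⟨y, hy⟩ - 1
  have hXe : ∀ w : W, ((X w).toMul : G) = x * (w.toMul : G) * x⁻¹ * (w.toMul : G)⁻¹ := by
    intro w
    have h1 : X w = act ⟨x, hx⟩ w - w := rfl
    rw [h1, toMul_sub, div_eq_mul_inv]
    rfl
  have hYe : ∀ w : W, ((Y w).toMul : G) = y * (w.toMul : G) * y⁻¹ * (w.toMul : G)⁻¹ := by
    intro w
    have h1 : Y w = act ⟨y, hy⟩ w - w := rfl
    rw [h1, toMul_sub, div_eq_mul_inv]
    rfl
  have hXX : ∀ w, X (X w) = 0 := by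
    intro w
    have h1 : ((X (X w)).toMul : G) = 1 := by
      rw [hXe, hXe, hqx _ w.toMul.2, mul_inv_cancel]
    exact Additive.toMul.injective (Subtype.ext h1)
  have hYY : ∀ w, Y (Y w) = 0 := by
    intro w
    have h1 : ((Y (Y w)).toMul : G) = 1 := by
      rw [hYe, hYe, hqy _ w.toMul.2, mul_inv_cancel]
    exact Additive.toMul.injective (Subtype.ext h1)
  have hpW : ∀ w : W, p • w = 0 := by
    intro w
    apply Additive.toMul.injective
    apply Subtype.ext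
    show ((w.toMul : A) ^ p : A).1 = 1
    exact hexp _ w.toMul.2
  have hnorm : ∀ (B : Subgroup G) (z : G), (∀ b ∈ B, z * b * z⁻¹ ∈ B) → z ∈ normalizer (B : Set G) :=
    fun B z h => mem_normalizer_of_conj_mem h
  obtain ⟨x', ⟨gx, hgx, rfl⟩, y', ⟨gy, hgy, rfl⟩, w, v, hw, h1, h2, h3, h4⟩ := H51.QuadPair.exists_pair hp2 hpW X Y hXX hYY (by
    intro U hUX hUY
    let B : Subgroup G := {
      carrier := {b | ∃ w : W, w ∈ U ∧ (w.toMul : G) = b}
      one_mem' := ⟨0, U.zero_mem, rfl⟩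
      mul_mem' := by
        rintro _ _ ⟨a, ha, rfl⟩ ⟨b, hb, rfl⟩
        exact ⟨a + b, U.add_mem ha hb, rfl⟩
      inv_mem' := by
        rintro _ ⟨a, ha, rfl⟩
        exact ⟨-a, U.neg_mem ha, rfl⟩ }
    have hB : ∀ w : W, w ∈ U ↔ (w.toMul : G) ∈ B := by
      intro w
      constructor
      · intro h; exact ⟨w, h, rfl⟩
      · rintro ⟨w', hw', h⟩
        have : w' = w := Additive.toMul.injective (Subtype.ext h)
        rwa [← this]
    have hBA : B ≤ A := by rintro _ ⟨w, _, rfl⟩; exact w.toMul.2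
    rcases hirr B hBA (by
      apply hnorm
      rintro _ ⟨w, hw, rfl⟩
      refine ⟨X w + w, U.add_mem (hUX w hw) hw, ?_⟩
      rw [toMul_add]
      show ((X w).toMul : G) * (w.toMul : G) = _
      rw [hXe]; group) (by
      apply hnorm
      rintro _ ⟨w, hw, rfl⟩
      refine ⟨Y w + w, U.add_mem (hUY w hw) hw, ?_⟩
      rw [toMul_add]
      show ((Y w).toMul : G) * (w.toMul : G) = _
      rw [hYe]; group) with h | h
    · left
      rw [eq_bot_iff]
      intro w hw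
      have := (hB w).1 hw
      rw [h, Subgroup.mem_bot] at this
      exact Additive.toMul.injective (Subtype.ext this)
    · right
      rw [eq_top_iff]
      intro w _
      rw [hB, h]
      exact w.toMul.2) (by
    obtain ⟨a, ha, h⟩ := hne
    refine ⟨Additive.ofMul ⟨a, ha⟩, ?_⟩
    rcases h with h | h
    · left
      intro h0
      apply h
      have := hXe (Additive.ofMul ⟨a, ha⟩)
      rw [h0] at this
      have h5 : x * a * x⁻¹ * a⁻¹ = 1 := this.symm
      rwa [mul_inv_eq_one] at h5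
    · right
      intro h0
      apply h
      have := hYe (Additive.ofMul ⟨a, ha⟩)
      rw [h0] at this
      have h5 : y * a * y⁻¹ * a⁻¹ = 1 := this.symm
      rwa [mul_inv_eq_one] at h5) S (⟨⟨x, hx⟩, subset_closure (by simp), by simp [X]⟩)
        (⟨⟨y, hy⟩, subset_closure (by simp), by simp [Y]⟩)
  have e1 : (gx : G) * (w.toMul : G) * (gx : G)⁻¹ = w.toMul := by rw [← hact, h1]
  have e2 : (gx : G) * (v.toMul : G) * (gx : G)⁻¹ = v.toMul * w.toMul := by rw [← hact, h2]; rfl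
  have e3 : (gy : G) * (w.toMul : G) * (gy : G)⁻¹ = w.toMul * v.toMul := by rw [← hact, h3]; rfl
  have e4 : (gy : G) * (v.toMul : G) * (gy : G)⁻¹ = v.toMul := by rw [← hact, h4]
  exact ⟨gx, hgx, gy, hgy, w.toMul, w.toMul.2, v.toMul, v.toMul.2,
    fun h => hw (Additive.toMul.injective (Subtype.ext h)), e1, e2, e3, e4⟩

/-- `K = ⟨x, y⟩` acts as a `p`-group on `R` -/
def PAct {G : Type*} [Group G] (p : ℕ) (x y : G) (R : Subgroup G) : Prop :=
  ∀ h ∈ closure {x, y}, ∃ j, h ^ p ^ j ∈ centralizer (R : Set G)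

theorem mem_closure_coe {G : Type*} [Group G] {M : Subgroup G} {a b h : M} (hh : h ∈ closure {a, b}) :
    (h : G) ∈ closure {(a : G), (b : G)} := by
  have h1 : (closure {a, b}).map M.subtype = closure {(a : G), (b : G)} := by
    rw [MonoidHom.map_closure, Set.image_pair]; rfl
  rw [← h1]
  exact ⟨h, hh, rfl⟩

theorem closure_pair_le {G : Type*} [Group G] {a b : G} {H : Subgroup G} (ha : a ∈ H) (hb : b ∈ H) :
    closure {a, b} ≤ H := by
  rw [closure_le]
  rintro _ (rfl | rfl) <;> assumption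

theorem PAct.mono {G : Type*} [Group G] {p : ℕ} {x y : G} {R S : Subgroup G} (h : PAct p x y S) (hRS : R ≤ S) :
    PAct p x y R := by
  intro g hg
  obtain ⟨j, hj⟩ := h g hg
  exact ⟨j, centralizer_le hRS hj⟩

/-- the irreducible quotient step -/
theorem core {M B : Type*} [Group M] [Finite M] [Group B] {p : ℕ} [hp : Fact p.Prime] (hpo : Odd p) {f : M →* B}
    (hfs : Function.Surjective f) (T : Subgroup M) (hTn : T.Normal) (hTp : IsPGroup p T) {x y : M} (hker : f.ker < T)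
    (hmax : ∀ R : Subgroup M, f.ker ≤ R → R < T → T ≤ normalizer (R : Set M) → x ∈ normalizer (R : Set M) →
      y ∈ normalizer (R : Set M) → R ≤ f.ker)
    (hqx : ∀ a ∈ T, x * (x * a * x⁻¹ * a⁻¹) * x⁻¹ * (x * a * x⁻¹ * a⁻¹)⁻¹ ∈ f.ker)
    (hqy : ∀ a ∈ T, y * (y * a * y⁻¹ * a⁻¹) * y⁻¹ * (y * a * y⁻¹ * a⁻¹)⁻¹ ∈ f.ker)
    (hact₀ : PAct p x y f.ker) (hnot : ¬ PAct p x y T) :
    ∃ E ≤ T, ∃ x₁ ∈ closure {x, y}, ∃ y₁ ∈ closure {x, y}, x₁ ∈ normalizer (E : Set M) ∧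
      y₁ ∈ normalizer (E : Set M) ∧ Quad x₁ E ∧ Quad y₁ E ∧ ¬ PAct p x₁ y₁ E := by
  have hBfin : Finite B := Finite.of_surjective f hfs
  set A : Subgroup B := T.map f with hA
  have hAn : A.Normal := hTn.map f hfs
  have hmemA : ∀ m : M, f m ∈ A ↔ m ∈ T := by
    intro m
    constructor
    · rintro ⟨n, hn, hnm⟩
      have h1 : n⁻¹ * m ∈ f.ker := by rw [MonoidHom.mem_ker, map_mul, map_inv, hnm, inv_mul_cancel]
      have h2 : m = n * (n⁻¹ * m) := by group
      rw [h2]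
      exact mul_mem hn (hker.le h1)
    · intro h
      exact ⟨m, h, rfl⟩
  have hAp : IsPGroup p A := hTp.map f
  -- the correspondence
  have hcorr : ∀ N : Subgroup B, N ≤ A → (∀ m ∈ T, f m ∈ normalizer (N : Set B)) →
      f x ∈ normalizer (N : Set B) → f y ∈ normalizer (N : Set B) → N = ⊥ ∨ N = A := by
    intro N hNA hNT hNx hNy
    have hnormR : ∀ m : M, f m ∈ normalizer (N : Set B) → m ∈ normalizer ((N.comap f : Subgroup M) : Set M) := by
      intro m hm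
      apply mem_normalizer_of_conj_mem
      intro n hn
      rw [mem_comap, map_mul, map_mul, map_inv]
      exact (mem_normalizer_iff.1 hm _).1 hn
    have hRT : N.comap f ≤ T := fun n hn => (hmemA n).1 (hNA hn)
    have hkR : f.ker ≤ N.comap f := by
      intro a ha
      rw [mem_comap, MonoidHom.mem_ker.1 ha]
      exact one_mem _
    rcases hRT.eq_or_lt with h | h
    · right
      apply le_antisymm hNA
      rintro _ ⟨m, hm, rfl⟩
      rw [SetLike.mem_coe, ← h] at hm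
      exact hm
    · left
      have hle := hmax _ hkR h (fun a ha => hnormR a (hNT a ha)) (hnormR x hNx) (hnormR y hNy)
      rw [eq_bot_iff]
      intro n hn
      obtain ⟨m, rfl⟩ := hfs n
      rw [mem_bot]
      exact MonoidHom.mem_ker.1 (hle (mem_comap.2 hn))
  have hAne : A ≠ ⊥ := by
    intro h
    apply not_le_of_gt hker
    intro a ha
    have h1 : f a ∈ A := (hmemA _).2 ha
    rw [h, mem_bot] at h1
    exact h1
  have hAsolv : Group.IsSolvable A := by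
    have := hAp.isNilpotent
    infer_instance
  obtain ⟨q, hq, hAcomm, hAexp⟩ := H30.FrobAct.min_elem A hAsolv hAne (by
    intro N hN hNA
    have hNtop : normalizer (N : Set B) = ⊤ := normalizer_eq_top_iff.2 hN
    exact hcorr N hNA (fun m _ => by rw [hNtop]; trivial) (by rw [hNtop]; trivial) (by rw [hNtop]; trivial))
  have hqp : q = p := by
    obtain ⟨a, ha1⟩ := Subgroup.ne_bot_iff_exists_ne_one.1 hAne
    have h1 : a ^ q = 1 := Subtype.ext (hAexp a a.2)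
    obtain ⟨k, hk⟩ := hAp a
    have h2 : orderOf a = q := (orderOf_eq_prime h1 ha1 (hp := ⟨hq⟩))
    have h3 : q ∣ p ^ k := by rw [← h2]; exact orderOf_dvd_of_pow_eq_one hk
    exact (Nat.prime_dvd_prime_iff_eq hq hp.out).1 (hq.dvd_of_dvd_pow h3)
  rw [hqp] at hAexp
  have hAc : ∀ a ∈ A, ∀ b ∈ A, a * b = b * a := by
    intro a ha b hb
    exact congrArg Subtype.val (hAcomm.is_comm.comm (⟨a, ha⟩ : A) ⟨b, hb⟩)
  -- quadratic action
  have hquad : ∀ z : M, (∀ a ∈ T, z * (z * a * z⁻¹ * a⁻¹) * z⁻¹ * (z * a * z⁻¹ * a⁻¹)⁻¹ ∈ f.ker) → Quad (f z) A := by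
    rintro z hq _ ⟨m, hm, rfl⟩
    have h5 := hq m hm
    rw [MonoidHom.mem_ker] at h5
    simp only [map_mul, map_inv] at h5
    exact mul_inv_eq_one.1 h5
  -- nontrivial action
  have hclos : closure {f x, f y} = (closure {x, y}).map f := by
    rw [MonoidHom.map_closure, Set.image_pair]
  have hne : ∃ a ∈ A, f x * a * (f x)⁻¹ ≠ a ∨ f y * a * (f y)⁻¹ ≠ a := by
    by_contra hcon
    push Not at hcon
    apply hnot
    intro m hm
    have hcl : closure {f x, f y} ≤ centralizer (A : Set _) := by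
      apply closure_pair_le
      · rw [mem_centralizer_iff]
        intro a ha
        have := (hcon a ha).1
        rw [mul_inv_eq_iff_eq_mul] at this
        exact this.symm
      · rw [mem_centralizer_iff]
        intro a ha
        have := (hcon a ha).2
        rw [mul_inv_eq_iff_eq_mul] at this
        exact this.symm
    have hmc : f m ∈ centralizer (A : Set _) := by
      apply hcl
      rw [hclos]
      exact ⟨m, hm, rfl⟩
    have hact : ∀ n : ℕ, ∀ a ∈ T, m ^ n * a * (m ^ n)⁻¹ * a⁻¹ ∈ f.ker := by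
      intro n a ha
      have h1 : f a ∈ A := (hmemA _).2 ha
      have h2 := mem_centralizer_iff.1 (pow_mem hmc n) _ h1
      rw [MonoidHom.mem_ker]
      simp only [map_mul, map_inv, map_pow]
      rw [← h2, mul_inv_cancel_right, mul_inv_cancel]
    obtain ⟨j, hj⟩ := hact₀ _ hm
    obtain ⟨i, hi⟩ := pow_centralizes (P := T) (A := f.ker) (hTp.to_le hker.le) (k := m ^ p ^ j)
      (hact (p ^ j)) (by
        intro a ha
        rw [← mem_centralizer_iff.1 hj a ha, mul_inv_cancel_right])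
    refine ⟨j + i, ?_⟩
    rw [pow_add, pow_mul]
    exact hi
  have hp2 : p ≠ 2 := by rintro rfl; exact absurd hpo (by decide)
  have hxA : f x ∈ normalizer (A : Set _) := by
    rw [normalizer_eq_top_iff.2 hAn]; trivial
  have hyA : f y ∈ normalizer (A : Set _) := by
    rw [normalizer_eq_top_iff.2 hAn]; trivial
  obtain ⟨x', hx', y', hy', w, hw, v, hv, hw1, r1, r2, r3, r4⟩ := pair_of_irreducible hp2 A hAc hAexp hxA hyA
    (hquad x hqx) (hquad y hqy) (by
      intro N hNA hNx hNy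
      refine hcorr N hNA (fun m hm => ?_) hNx hNy
      apply mem_normalizer_of_conj_mem
      intro n hn
      rw [hAc _ ((hmemA m).2 hm) n (hNA hn), mul_inv_cancel_right]
      exact hn) hne
  rw [hclos] at hx' hy'
  obtain ⟨x'', hx'', rfl⟩ := hx'
  obtain ⟨y'', hy'', rfl⟩ := hy'
  have hcl'' : closure {x'', y''} ≤ closure {x, y} := closure_pair_le hx'' hy''
  obtain ⟨E, hE, x₁, hx₁, y₁, hy₁, hnx, hny, hqx₁, hqy₁, hnE⟩ := lift (f := f) hpo (hTp.to_le hker.le)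
    hw1 (hAexp w hw) (hAexp v hv) (hAc w hw v hv) (hfs w) (hfs v) r1 r2 r3 r4
    (fun h hh => hact₀ h (hcl'' hh))
  refine ⟨E, ?_, x₁, hcl'' hx₁, y₁, hcl'' hy₁, hnx, hny, hqx₁, hqy₁, hnE⟩
  intro e he
  exact (hmemA e).1 ((closure_pair_le hw hv) (hE he))

/-- Lemma D -/
theorem lemmaD {G : Type*} [Group G] [Finite G] {p : ℕ} [hp : Fact p.Prime] (hpo : Odd p) {T Q : Subgroup G}
    {x y : G} (hT : IsPGroup p T) (hTQ : T ≤ normalizer (Q : Set G))
    (hxT : x ∈ normalizer (T : Set G)) (hyT : y ∈ normalizer (T : Set G))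
    (hxQ : x ∈ normalizer (Q : Set G)) (hyQ : y ∈ normalizer (Q : Set G))
    (hqx : ∀ a ∈ T, x * (x * a * x⁻¹ * a⁻¹) * x⁻¹ * (x * a * x⁻¹ * a⁻¹)⁻¹ ∈ Q)
    (hqy : ∀ a ∈ T, y * (y * a * y⁻¹ * a⁻¹) * y⁻¹ * (y * a * y⁻¹ * a⁻¹)⁻¹ ∈ Q)
    (hcen : PAct p x y Q) (hnot : ¬ PAct p x y T) :
    ∃ E ≤ T, ∃ x₁ ∈ closure {x, y}, ∃ y₁ ∈ closure {x, y}, x₁ ∈ normalizer (E : Set G) ∧
      y₁ ∈ normalizer (E : Set G) ∧ Quad x₁ E ∧ Quad y₁ E ∧ ¬ PAct p x₁ y₁ E := by
  -- the minimal `T₂`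
  obtain ⟨T₂, ⟨hT₂T, hxT₂, hyT₂, hT₂not⟩, hT₂min⟩ := exists_minimal_of_wellFoundedLT
    (fun R : Subgroup G => R ≤ T ∧ x ∈ normalizer (R : Set G) ∧ y ∈ normalizer (R : Set G) ∧ ¬ PAct p x y R)
    ⟨T, le_rfl, hxT, hyT, hnot⟩
  -- the maximal `T₀`
  have hQ₂ : Q ⊓ T₂ ≤ Q ⊓ T₂ ∧ Q ⊓ T₂ < T₂ ∧ T₂ ≤ normalizer ((Q ⊓ T₂ : Subgroup G) : Set G) ∧
      x ∈ normalizer ((Q ⊓ T₂ : Subgroup G) : Set G) ∧ y ∈ normalizer ((Q ⊓ T₂ : Subgroup G) : Set G) := by
    refine ⟨le_rfl, lt_of_le_of_ne inf_le_right ?_, ?_, ?_, ?_⟩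
    · intro h
      apply hT₂not
      rw [← h]
      exact hcen.mono inf_le_left
    · refine le_trans ?_ (inf_normalizer_le_normalizer_inf (H := Q) (K := T₂))
      exact le_inf (hT₂T.trans hTQ) le_normalizer
    · exact inf_normalizer_le_normalizer_inf (Subgroup.mem_inf.2 ⟨hxQ, hxT₂⟩)
    · exact inf_normalizer_le_normalizer_inf (Subgroup.mem_inf.2 ⟨hyQ, hyT₂⟩)
  obtain ⟨T₀, ⟨hQT₀, hT₀lt, hT₂T₀, hxT₀, hyT₀⟩, hT₀max⟩ := exists_maximal_of_wellFoundedGT
    (fun R : Subgroup G => Q ⊓ T₂ ≤ R ∧ R < T₂ ∧ T₂ ≤ normalizer (R : Set G) ∧ x ∈ normalizer (R : Set G) ∧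
      y ∈ normalizer (R : Set G)) ⟨Q ⊓ T₂, hQ₂⟩
  have hT₀act : PAct p x y T₀ := by
    by_contra hcon
    have := hT₂min ⟨hT₀lt.le.trans hT₂T, hxT₀, hyT₀, hcon⟩ hT₀lt.le
    exact absurd this (not_le_of_gt hT₀lt)
  have hT₂p : IsPGroup p T₂ := hT.to_le hT₂T
  -- the group `M`
  set M : Subgroup G := normalizer (T₂ : Set G) ⊓ normalizer (T₀ : Set G) with hM
  have hxM : x ∈ M := Subgroup.mem_inf.2 ⟨hxT₂, hxT₀⟩
  have hyM : y ∈ M := Subgroup.mem_inf.2 ⟨hyT₂, hyT₀⟩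
  have hT₂M : T₂ ≤ M := le_inf le_normalizer hT₂T₀
  have hT₀M : T₀ ≤ M := hT₀lt.le.trans hT₂M
  have hn₂ : (T₂.subgroupOf M).Normal := by
    rw [normal_subgroupOf_iff_le_normalizer hT₂M]; exact inf_le_left
  have hn₀ : (T₀.subgroupOf M).Normal := by
    rw [normal_subgroupOf_iff_le_normalizer hT₀M]; exact inf_le_right
  have hk : (QuotientGroup.mk' (T₀.subgroupOf M)).ker = T₀.subgroupOf M := QuotientGroup.ker_mk' _
  have hactM : ∀ R : Subgroup G, R ≤ M → (PAct p (⟨x, hxM⟩ : M) ⟨y, hyM⟩ (R.subgroupOf M) ↔ PAct p x y R) := by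
    intro R hRM
    constructor
    · intro h g hg
      have hg' : g ∈ (closure {(⟨x, hxM⟩ : M), ⟨y, hyM⟩}).map M.subtype := by
        rw [MonoidHom.map_closure, Set.image_pair]; exact hg
      obtain ⟨m, hm, rfl⟩ := hg'
      obtain ⟨j, hj⟩ := h m hm
      refine ⟨j, mem_centralizer_iff.2 fun a ha => ?_⟩
      have h1 := congrArg (Subtype.val : M → G) (mem_centralizer_iff.1 hj ⟨a, hRM ha⟩ (mem_subgroupOf.2 ha))
      rw [Subgroup.coe_mul, Subgroup.coe_mul, Subgroup.coe_pow] at h1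
      exact h1
    · intro h g hg
      have hg' : (g : G) ∈ closure {x, y} := mem_closure_coe (a := ⟨x, hxM⟩) (b := ⟨y, hyM⟩) hg
      obtain ⟨j, hj⟩ := h g hg'
      refine ⟨j, mem_centralizer_iff.2 fun a ha => ?_⟩
      have h1 := mem_centralizer_iff.1 hj a (mem_subgroupOf.1 ha)
      apply Subtype.ext
      rw [Subgroup.coe_mul, Subgroup.coe_mul, Subgroup.coe_pow]
      exact h1
  have hquadM : ∀ z (hz : z ∈ M), z ∈ normalizer (T₂ : Set G) →
      (∀ a ∈ T, z * (z * a * z⁻¹ * a⁻¹) * z⁻¹ * (z * a * z⁻¹ * a⁻¹)⁻¹ ∈ Q) →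
      ∀ a ∈ T₂.subgroupOf M, (⟨z, hz⟩ : M) * (⟨z, hz⟩ * a * (⟨z, hz⟩ : M)⁻¹ * a⁻¹) * (⟨z, hz⟩ : M)⁻¹ *
        (⟨z, hz⟩ * a * (⟨z, hz⟩ : M)⁻¹ * a⁻¹)⁻¹ ∈ T₀.subgroupOf M := by
    intro z hz hzT₂ hq a ha
    have hmT : (a : G) ∈ T₂ := mem_subgroupOf.1 ha
    have h1 := hq a (hT₂T hmT)
    have h2 : z * a * z⁻¹ * (a : G)⁻¹ ∈ T₂ := mul_mem ((mem_normalizer_iff.1 hzT₂ _).1 hmT) (inv_mem hmT)
    have h3 : z * (z * a * z⁻¹ * (a : G)⁻¹) * z⁻¹ * (z * a * z⁻¹ * (a : G)⁻¹)⁻¹ ∈ T₂ :=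
      mul_mem ((mem_normalizer_iff.1 hzT₂ _).1 h2) (inv_mem h2)
    have h4 := hQT₀ (Subgroup.mem_inf.2 ⟨h1, h3⟩)
    exact mem_subgroupOf.2 h4
  have hmapR : ∀ (z : M) (R : Subgroup M), z ∈ normalizer (R : Set M) →
      (z : G) ∈ normalizer ((R.map M.subtype : Subgroup G) : Set G) := by
    intro z R hz
    apply mem_normalizer_of_conj_mem
    rintro _ ⟨e, he, rfl⟩
    exact ⟨z * e * z⁻¹, (mem_normalizer_iff.1 hz _).1 he, by simp⟩
  obtain ⟨E, hE, x₁, hx₁, y₁, hy₁, hnx, hny, hqx₁, hqy₁, hnE⟩ := core (x := (⟨x, hxM⟩ : M)) (y := ⟨y, hyM⟩) hpo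
    (QuotientGroup.mk'_surjective (T₀.subgroupOf M)) (T₂.subgroupOf M) hn₂
    (hT₂p.comap_of_injective M.subtype M.subtype_injective) (by
      rw [hk]
      refine lt_of_le_of_ne (fun a ha => mem_subgroupOf.2 (hT₀lt.le (mem_subgroupOf.1 ha))) ?_
      intro h
      have h1 : (T₀.subgroupOf M).map M.subtype = (T₂.subgroupOf M).map M.subtype := by rw [h]
      rw [subgroupOf_map_subtype, subgroupOf_map_subtype, inf_eq_left.2 hT₀M, inf_eq_left.2 hT₂M] at h1
      exact hT₀lt.ne h1) (by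
      intro R hkR hRT hTR hxR hyR
      rw [hk] at hkR ⊢
      have h1 : T₀ ≤ R.map M.subtype := by
        intro a ha
        exact ⟨⟨a, hT₀M ha⟩, hkR (mem_subgroupOf.2 ha), rfl⟩
      have h2 : R.map M.subtype < T₂ := by
        have := map_subtype_lt_map_subtype.2 hRT
        rwa [subgroupOf_map_subtype, inf_eq_left.2 hT₂M] at this
      have h3 := hT₀max ⟨hQT₀.trans h1, h2, fun a ha => hmapR ⟨a, hT₂M ha⟩ R (hTR (mem_subgroupOf.2 ha)),
        hmapR ⟨x, hxM⟩ R hxR, hmapR ⟨y, hyM⟩ R hyR⟩ h1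
      intro a ha
      exact mem_subgroupOf.2 (h3 ⟨a, ha, rfl⟩)) (by
      rw [hk]; exact hquadM x hxM hxT₂ hqx) (by
      rw [hk]; exact hquadM y hyM hyT₂ hqy) (by
      rw [hk]; exact (hactM T₀ hT₀M).2 hT₀act) (fun h => hT₂not ((hactM T₂ hT₂M).1 h))
  have hcl₁ : ∀ z ∈ closure {(⟨x, hxM⟩ : M), ⟨y, hyM⟩}, (z : G) ∈ closure {x, y} :=
    fun z hz => mem_closure_coe (a := ⟨x, hxM⟩) (b := ⟨y, hyM⟩) hz
  refine ⟨E.map M.subtype, ?_, x₁, hcl₁ _ hx₁, y₁, hcl₁ _ hy₁, hmapR _ _ hnx, hmapR _ _ hny, ?_, ?_, ?_⟩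
  · rintro _ ⟨e, he, rfl⟩
    exact hT₂T (mem_subgroupOf.1 (hE he))
  · exact Quad.map M.subtype hqx₁
  · exact Quad.map M.subtype hqy₁
  · intro hall
    apply hnE
    intro h hh
    have hh' : (h : G) ∈ closure {(x₁ : G), (y₁ : G)} := mem_closure_coe (a := x₁) (b := y₁) hh
    obtain ⟨j, hj⟩ := hall (h : G) hh'
    refine ⟨j, ?_⟩
    rw [mem_centralizer_iff]
    intro a ha
    have h1 := mem_centralizer_iff.1 hj (a : G) ⟨a, ha, rfl⟩
    apply Subtype.ext
    rw [Subgroup.coe_mul, Subgroup.coe_mul, Subgroup.coe_pow]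
    exact h1

end H14.SL2Red
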